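import Mathlib
import Cfsg.Agent.H19.Cores
import Cfsg.Agent.H22.Frobenius
import Cfsg.Agent.H24.Critical
import Cfsg.Agent.H84.PGroupFix

/-!
Normal `p`-complements from `p`-power class sizes of the elements of order `p` (and `4`).
-/

set_option autoImplicit false

open scoped commutatorElement

namespace Cfsg.Agent.H87

variable {G : Type*} [Group G] [Finite G] {p : ℕ} [hp : Fact p.Prime]

/-- A subgroup of `p`-power index is supplemented by every Sylow `p`-subgroup. -/
theorem exists_mem_mul_mem_of_index_pow (P : Sylow p G) (C : Subgroup G) {a : ℕ}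
    (h : C.index = p ^ a) (g : G) : ∃ u ∈ (P : Subgroup G), ∃ c ∈ C, g = u * c := by
  have h1 : p ^ a ∣ C.relIndex (P : Subgroup G) * (P : Subgroup G).index := by
    rw [← h, ← Subgroup.inf_relIndex_right, Subgroup.relIndex_mul_index inf_le_right]
    exact Subgroup.index_dvd_of_le inf_le_left
  have h2 : p ^ a ∣ C.relIndex (P : Subgroup G) :=
    (((Nat.Prime.coprime_iff_not_dvd hp.out).2 P.not_dvd_index).pow_left a).dvd_of_dvd_mul_right h1
  let f : (P : Subgroup G) ⧸ C.subgroupOf (P : Subgroup G) → G ⧸ C :=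
    Quotient.map' (fun u => (u : G)) fun u v huv => by
      rw [QuotientGroup.leftRel_apply] at huv ⊢
      exact huv
  have hf : Function.Injective f := by
    intro u v
    induction u using Quotient.inductionOn' with | h u =>
    induction v using Quotient.inductionOn' with | h v =>
    intro huv
    have huv : (QuotientGroup.mk (u : G) : G ⧸ C) = QuotientGroup.mk (v : G) := huv
    exact QuotientGroup.eq.2 (Subgroup.mem_subgroupOf.2 (by simpa using QuotientGroup.eq.1 huv))
  have hcard : Nat.card ((P : Subgroup G) ⧸ C.subgroupOf (P : Subgroup G)) = Nat.card (G ⧸ C) := by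
    refine le_antisymm (Nat.card_le_card_of_injective f hf) ?_
    show C.index ≤ C.relIndex (P : Subgroup G)
    rw [h]
    exact Nat.le_of_dvd (Nat.pos_of_ne_zero Subgroup.FiniteIndex.index_ne_zero) h2
  obtain ⟨w, hw⟩ := ((Nat.bijective_iff_injective_and_card f).2 ⟨hf, hcard⟩).2 (g : G ⧸ C)
  induction w using Quotient.inductionOn' with | h u =>
  have hw : (QuotientGroup.mk (u : G) : G ⧸ C) = QuotientGroup.mk g := hw
  exact ⟨u, u.2, (u : G)⁻¹ * g, QuotientGroup.eq.1 hw, (mul_inv_cancel_left _ _).symm⟩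

/-- A `p`-element with `p`-power class size lies in `O_p`. -/
theorem mem_pCore_of_index_pow {x : G} (hx : ∃ k, orderOf x = p ^ k) {a : ℕ}
    (h : (Subgroup.centralizer ({x} : Set G)).index = p ^ a) : x ∈ Cfsg.pCore p G := by
  obtain ⟨k, hk⟩ := hx
  obtain ⟨P, hP⟩ := (show IsPGroup p (Subgroup.zpowers x) from
    IsPGroup.of_card (n := k) (by rw [Nat.card_zpowers, hk])).exists_le_sylow
  have hxP : x ∈ (P : Subgroup G) := hP (Subgroup.mem_zpowers x)
  have hle : Subgroup.normalClosure ({x} : Set G) ≤ (P : Subgroup G) := by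
    rw [Subgroup.normalClosure, Subgroup.closure_le]
    intro y hy
    rw [Group.mem_conjugatesOfSet_iff] at hy
    obtain ⟨x', hx', hy⟩ := hy
    rw [Set.mem_singleton_iff] at hx'
    subst x' 
    obtain ⟨g, rfl⟩ := isConj_iff.1 hy
    obtain ⟨u, hu, c, hc, rfl⟩ := exists_mem_mul_mem_of_index_pow P _ h g
    have hc' := Subgroup.mem_centralizer_singleton_iff.1 hc
    have e : c * x * c⁻¹ = x := mul_inv_eq_iff_eq_mul.2 hc'
    rw [show u * c * x * (u * c)⁻¹ = u * (c * x * c⁻¹) * u⁻¹ by group, e]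
    exact mul_mem (mul_mem hu hxP) (inv_mem hu)
  exact Cfsg.Agent.H19.le_pCore Subgroup.normalClosure_normal (P.isPGroup'.to_le hle)
    (Subgroup.subset_normalClosure rfl)

omit [Finite G] in
/-- An element whose displacement is a fixed `p`-element, under an element of order prime to `p`. -/
theorem displacement_eq_one {g u y : G} (hg : (orderOf g).Coprime p) (hy : ∃ k, y ^ p ^ k = 1)
    (hgu : g * u * g⁻¹ = u * y) (hgy : g * y = y * g) : y = 1 := by
  have hpow : ∀ m : ℕ, g ^ m * u * (g ^ m)⁻¹ = u * y ^ m := by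
    intro m
    induction m with
    | zero => simp
    | succ m ihm =>
      calc g ^ (m + 1) * u * (g ^ (m + 1))⁻¹ = g * (g ^ m * u * (g ^ m)⁻¹) * g⁻¹ := by
            rw [pow_succ']; group
        _ = (g * u * g⁻¹) * (g * y ^ m * g⁻¹) := by rw [ihm]; group
        _ = u * y * y ^ m := by
            rw [hgu, ((show Commute g y from hgy).pow_right m).eq, mul_inv_cancel_right]
        _ = u * y ^ (m + 1) := by rw [pow_succ', mul_assoc]
  have h1 := hpow (orderOf g)
  rw [pow_orderOf_eq_one, one_mul, inv_one, mul_one, left_eq_mul] at h1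
  obtain ⟨k, hk⟩ := hy
  exact orderOf_eq_one_iff.1 (Nat.eq_one_of_dvd_coprimes (hg.pow_right k)
    (orderOf_dvd_of_pow_eq_one h1) (orderOf_dvd_of_pow_eq_one hk))

/-- `p'`-elements centralise a normal `p`-subgroup all of whose elements have `p`-power class
sizes. -/
theorem commute_of_index_pow (D : Subgroup G) [D.Normal] (hD : IsPGroup p D)
    (h : ∀ d ∈ D, ∃ a : ℕ, (Subgroup.centralizer ({d} : Set G)).index = p ^ a)
    {g : G} (hg : (orderOf g).Coprime p) {d : G} (hd : d ∈ D) : g * d = d * g := by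
  obtain ⟨P, hP⟩ := hD.exists_le_sylow
  haveI := P.isPGroup'.isNilpotent
  have key : ∀ i : ℕ, ∀ d ∈ D,
      d ∈ (Subgroup.upperCentralSeries (P : Subgroup G) i).map (P : Subgroup G).subtype →
      (∀ g : G, g * d * g⁻¹ ∈
        (Subgroup.upperCentralSeries (P : Subgroup G) i).map (P : Subgroup G).subtype) ∧
      (∀ g : G, (orderOf g).Coprime p → g * d = d * g) := by
    intro i
    induction i with
    | zero =>
      intro d _ hd
      simp only [Subgroup.upperCentralSeries_zero, Subgroup.map_bot, Subgroup.mem_bot] at hd ⊢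
      subst hd
      simp
    | succ i ih =>
      intro d hdD hd
      set Zi := (Subgroup.upperCentralSeries (P : Subgroup G) i).map (P : Subgroup G).subtype
      obtain ⟨d', hd', rfl⟩ := hd
      rw [SetLike.mem_coe, Subgroup.mem_upperCentralSeries_succ_iff] at hd'
      simp only [Subgroup.coe_subtype] at hdD ⊢
      obtain ⟨a, ha⟩ := h _ hdD
      have main : ∀ g : G, ∃ z ∈ D, z ∈ Zi ∧ g * (d' : G) * g⁻¹ = z * d' := by
        intro g
        obtain ⟨u, hu, c, hc, hg⟩ := exists_mem_mul_mem_of_index_pow P _ ha g⁻¹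
        have hgcu : g = c⁻¹ * u⁻¹ := by rw [← mul_inv_rev, ← hg, inv_inv]
        have hu' : u⁻¹ ∈ (P : Subgroup G) := inv_mem hu
        set z := u⁻¹ * (d' : G) * u * (d' : G)⁻¹ with hz
        have hzZ : z ∈ Zi := by
          have := Subgroup.inv_mem _ (hd' ⟨u⁻¹, hu'⟩)
          refine ⟨_, this, ?_⟩
          simp [hz, commutatorElement_def, mul_assoc]
        have hzD : z ∈ D := by
          have := (inferInstance : D.Normal).conj_mem _ hdD u⁻¹
          rw [inv_inv] at this
          exact D.mul_mem this (D.inv_mem hdD)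
        refine ⟨c⁻¹ * z * c, ?_, ?_, ?_⟩
        · simpa using (inferInstance : D.Normal).conj_mem _ hzD c⁻¹
        · simpa using (ih z hzD hzZ).1 c⁻¹
        · have hc' := Subgroup.mem_centralizer_singleton_iff.1 hc
          have e : c⁻¹ * (d' : G) * c = d' := by rw [mul_assoc, ← hc', inv_mul_cancel_left]
          calc g * (d' : G) * g⁻¹ = c⁻¹ * (u⁻¹ * (d' : G) * u) * c := by rw [hgcu]; group
            _ = (c⁻¹ * z * c) * (c⁻¹ * (d' : G) * c) := by rw [hz]; group
            _ = _ := by rw [e]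
      constructor
      · intro g
        obtain ⟨z, -, hzZ, e⟩ := main g
        obtain ⟨z', hz', rfl⟩ := hzZ
        rw [e]
        exact ⟨z' * d', Subgroup.mul_mem _ (Subgroup.upperCentralSeries_mono _ i.le_succ hz')
          (Subgroup.mem_upperCentralSeries_succ_iff.2 hd'), rfl⟩
      · intro g hg
        obtain ⟨z, hzD, hzZ, e⟩ := main g
        have hgz := (ih z hzD hzZ).2 g hg
        have e' : g * (d' : G)⁻¹ * g⁻¹ = (d' : G)⁻¹ * z⁻¹ := by
          rw [← mul_inv_rev, ← e]; group
        have hz1 : z⁻¹ = 1 := by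
          refine displacement_eq_one hg ?_ e' ((show Commute g z from hgz).inv_right).eq
          obtain ⟨k, hk⟩ := hD ⟨z⁻¹, D.inv_mem hzD⟩
          exact ⟨k, congrArg Subtype.val hk⟩
        rw [inv_eq_one.1 hz1, one_mul] at e
        exact mul_inv_eq_iff_eq_mul.1 e
  obtain ⟨n, hn⟩ := Group.IsNilpotent.nilpotent (P : Subgroup G)
  exact (key n d hd ⟨⟨d, hP hd⟩, by rw [hn]; trivial, rfl⟩).2 g hg

/-- The class-size criterion for a normal `p`-complement. -/
theorem hasNormalPComplement_of_index_pow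
    (h : ∀ x : G, (orderOf x = p ∨ (p = 2 ∧ orderOf x = 4)) →
      ∃ a : ℕ, (Subgroup.centralizer ({x} : Set G)).index = p ^ a) :
    Cfsg.HasNormalPComplement p G := by
  classical
  set q : ℕ := if p = 2 then 4 else p with hq
  have hsmall : ∀ x : G, x ^ q = 1 → ∃ a : ℕ, (Subgroup.centralizer ({x} : Set G)).index = p ^ a := by
    intro x hx
    by_cases hx1 : x = 1
    · refine ⟨0, ?_⟩
      rw [pow_zero, Subgroup.index_eq_one, eq_top_iff]
      intro u _
      rw [Subgroup.mem_centralizer_singleton_iff, hx1, mul_one, one_mul]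
    have hd := orderOf_dvd_of_pow_eq_one hx
    have h1 : orderOf x ≠ 1 := fun e => hx1 (orderOf_eq_one_iff.1 e)
    refine h x ?_
    by_cases h2 : p = 2
    · rw [hq, if_pos h2] at hd
      obtain ⟨j, hj, e⟩ := (Nat.dvd_prime_pow Nat.prime_two).1 (show orderOf x ∣ 2 ^ 2 from hd)
      interval_cases j
      · exact absurd (by simpa using e) h1
      · exact Or.inl (by rw [h2]; simpa using e)
      · exact Or.inr ⟨h2, by simpa using e⟩
    · rw [hq, if_neg h2] at hd
      exact Or.inl ((hp.out.eq_one_or_self_of_dvd _ hd).resolve_left h1)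
  haveI hOn := Cfsg.Agent.H19.pCore_normal p G
  set O := Cfsg.pCore p G with hO
  have hOp : IsPGroup p O := Cfsg.Agent.H19.pCore_isPGroup p
  obtain ⟨K, hKc, hKcomm, hKpow, -, hKC⟩ := Cfsg.Agent.H24.exists_critical hOp
  set K' := K.map O.subtype with hK'
  haveI : K'.Normal := by
    haveI := hKc
    exact ConjAct.normal_of_characteristic_of_normal
  have hK'O : K' ≤ O := Subgroup.map_subtype_le K
  have hcen : ∀ {z : O}, z ∈ Subgroup.centralizer (K : Set O) → ∀ v ∈ K', (z : G) * v = v * z := by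
    rintro z hz _ ⟨v, hv, rfl⟩
    exact (congrArg Subtype.val (Subgroup.mem_centralizer_iff.1 hz v hv)).symm
  have hcomm : ∀ u ∈ K', ∀ v ∈ K', ∀ w ∈ K', Commute ((u * v)⁻¹ * (v * u)) w := by
    rintro _ ⟨u, hu, rfl⟩ _ ⟨v, hv, rfl⟩ w hw
    have h1 := hKcomm v⁻¹ (inv_mem hv) u⁻¹ (inv_mem hu)
    have e : (((u : G) * v)⁻¹ * ((v : G) * u)) = ((⁅v⁻¹, u⁻¹⁆ : O) : G) := by
      simp [commutatorElement_def, mul_assoc]
    show _ * _ = _ * _
    simp only [Subgroup.coe_subtype]
    rw [e]
    exact hcen h1 w hw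
  have hpw : ∀ u ∈ K', ∀ w ∈ K', Commute (u ^ p) w := by
    rintro _ ⟨u, hu, rfl⟩ w hw
    exact hcen (hKpow u hu) w hw
  let Ω : Subgroup G :=
    { carrier := {k | k ∈ K' ∧ k ^ q = 1}
      one_mem' := ⟨one_mem _, one_pow _⟩
      mul_mem' := by
        rintro u v ⟨hu, huq⟩ ⟨hv, hvq⟩
        refine ⟨mul_mem hu hv, ?_⟩
        set c := (u * v)⁻¹ * (v * u) with hc
        have hvu : v * u = u * v * c := by rw [hc]; group
        have hcu := hcomm u hu v hv u hu
        have hcv := hcomm u hu v hv v hv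
        have hcp : c ^ p = 1 := by
          have h1 : v * u * v⁻¹ = u * c := by
            rw [hvu, mul_assoc u v c, ← hcv.eq, ← mul_assoc, mul_inv_cancel_right]
          have h2 : (u * c) ^ p = u ^ p := by
            rw [← h1, conj_pow, ← (hpw u hu v hv).eq, mul_inv_cancel_right]
          rw [Commute.mul_pow hcu.symm p] at h2
          exact mul_left_cancel (h2.trans (mul_one _).symm)
        rw [Cfsg.Agent.H84.mul_pow_of_central_comm hvu hcu hcv, huq, hvq, one_mul, one_mul]
        obtain ⟨j, hj⟩ : p ∣ q.choose 2 := by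
          by_cases h2 : p = 2
          · rw [hq, if_pos h2, h2]; decide
          · rw [hq, if_neg h2]
            exact hp.out.dvd_choose_self (by norm_num) (lt_of_le_of_ne hp.out.two_le (Ne.symm h2))
        rw [hj, pow_mul, hcp, one_pow]
      inv_mem' := fun {u} hu => ⟨inv_mem hu.1, by rw [inv_pow, hu.2, inv_one]⟩ }
  haveI : Ω.Normal := ⟨fun x hx g => ⟨(inferInstance : K'.Normal).conj_mem x hx.1 g, by
    rw [conj_pow, hx.2, mul_one, mul_inv_cancel]⟩⟩
  have hΩO : IsPGroup p Ω := hOp.to_le fun x hx => hK'O hx.1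
  refine Cfsg.Agent.H22.hasNormalPComplement_of_frobenius ?_
  intro D hD g hgN hg
  have hK'c : g ∈ Subgroup.centralizer (K' : Set G) := by
    refine Cfsg.Agent.H84.mem_centralizer_of_fixes (hOp.to_le hK'O) ?_ hg fun v hv hvp => ?_
    · rw [Subgroup.normalizer_eq_top]; trivial
    · refine commute_of_index_pow Ω hΩO (fun d hd => hsmall d hd.2) hg ⟨hv, ?_⟩
      rcases hvp with e | ⟨h2, e⟩
      · by_cases h2 : p = 2
        · rw [hq, if_pos h2, show (4 : ℕ) = 2 * 2 from rfl, pow_mul]
          rw [h2] at e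
          rw [e, one_pow]
        · rw [hq, if_neg h2]; exact e
      · rw [hq, if_pos h2]; exact e
  have hgO : ∀ u ∈ O, g * u = u * g := by
    intro u hu
    set y := u⁻¹ * (g * u * g⁻¹) with hy
    have hyO : y ∈ O := O.mul_mem (O.inv_mem hu) (hOn.conj_mem u hu g)
    have hgc := Subgroup.mem_centralizer_iff.1 hK'c
    have hyC : (⟨y, hyO⟩ : O) ∈ Subgroup.centralizer (K : Set O) := by
      rw [Subgroup.mem_centralizer_iff]
      intro k hk
      refine Subtype.ext ?_
      show (k : G) * y = y * k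
      have hk' : (k : G) ∈ K' := ⟨k, hk, rfl⟩
      have hk'' : u * (k : G) * u⁻¹ ∈ K' := (inferInstance : K'.Normal).conj_mem _ hk' u
      have e1 : g⁻¹ * (k : G) * g = k := by rw [mul_assoc, hgc _ hk', inv_mul_cancel_left]
      have e2 : g * (u * (k : G) * u⁻¹) * g⁻¹ = u * (k : G) * u⁻¹ := by
        rw [← hgc _ hk'', mul_inv_cancel_right]
      calc (k : G) * y = u⁻¹ * (u * (k : G) * u⁻¹) * (g * u * g⁻¹) := by rw [hy]; group
        _ = u⁻¹ * (g * (u * (k : G) * u⁻¹) * g⁻¹) * (g * u * g⁻¹) := by rw [e2]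
        _ = u⁻¹ * (g * u * g⁻¹) * (g * (k : G) * g⁻¹) := by group
        _ = y * k := by rw [hy, ← hgc _ hk', mul_inv_cancel_right]
    have hgy : g * y = y * g := (hgc y ⟨_, hKC hyC, rfl⟩).symm
    have hy1 : y = 1 := by
      refine displacement_eq_one (u := u) hg ?_ (by rw [hy, mul_inv_cancel_left]) hgy
      obtain ⟨k, hk⟩ := hOp ⟨y, hyO⟩
      exact ⟨k, congrArg Subtype.val hk⟩
    rw [hy, inv_mul_eq_one] at hy1
    exact (mul_inv_eq_iff_eq_mul.1 hy1.symm)
  refine Cfsg.Agent.H84.mem_centralizer_of_fixes hD hgN hg fun v hv hvp => ?_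
  by_cases hv1 : v = 1
  · rw [hv1, mul_one, one_mul]
  refine hgO v ?_
  have hvq : v ^ q = 1 := by
    rcases hvp with e | ⟨h2, e⟩
    · by_cases h2 : p = 2
      · rw [hq, if_pos h2, show (4 : ℕ) = 2 * 2 from rfl, pow_mul]
        rw [h2] at e
        rw [e, one_pow]
      · rw [hq, if_neg h2]; exact e
    · rw [hq, if_pos h2]; exact e
  obtain ⟨a, ha⟩ := hsmall v hvq
  obtain ⟨k, hk⟩ := IsPGroup.iff_orderOf.1 hD ⟨v, hv⟩
  exact mem_pCore_of_index_pow ⟨k, by rw [← hk, Subgroup.orderOf_mk]⟩ ha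

end Cfsg.Agent.H87
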