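import Mathlib
import Cfsg.Agent.H34.SymEight.Data

/-!
Facts on the alternating group of degree five used for the index four branch of the
three-local recognition of the symmetric group of degree eight.
-/

set_option autoImplicit false

namespace Cfsg.Agent.H87.SymEight

open Equiv Cfsg.Agent.H34.SymEight

local notation "A5" => alternatingGroup (Fin 5)

/-- The double transposition fixing `2`. -/
def d5 : A5 := ⟨swap 0 1 * swap 3 4, Perm.mem_alternatingGroup.2 (by decide)⟩

/-- A five-cycle. -/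
def f5 : A5 := ⟨swap 0 1 * swap 1 2 * swap 2 3 * swap 3 4, Perm.mem_alternatingGroup.2 (by decide)⟩

theorem f5_order : orderOf f5 = 5 := by
  have : Fact (Nat.Prime 5) := ⟨by norm_num⟩
  exact orderOf_eq_prime (by decide +kernel) (by decide +kernel)

theorem d5_sq : d5 * d5 = 1 := by decide +kernel

theorem d5_ne_one : d5 ≠ 1 := by decide +kernel

theorem card_comm_d5 : Nat.card {a : A5 // a * d5 = d5 * a} = 4 := by
  rw [Nat.card_eq_fintype_card]
  decide +kernel

theorem card_A5 : Nat.card A5 = 60 := by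
  rw [Nat.card_eq_fintype_card]
  decide +kernel

theorem perm_twist : ∀ a : A5, ((a : Perm (Fin 5)) * c5) * ((a : Perm (Fin 5)) * c5) = 1 →
    ∃ e : A5, (a : Perm (Fin 5)) * c5 = (e : Perm (Fin 5)) * c5 * (e : Perm (Fin 5))⁻¹ := by
  decide +kernel

theorem perm_twist_comm : ∀ a : A5, ((a : Perm (Fin 5)) * c5) * ((a : Perm (Fin 5)) * c5) = 1 →
    a * d5 = d5 * a →
    ∃ e : A5, e * d5 = d5 * e ∧
      (a : Perm (Fin 5)) * c5 = (e : Perm (Fin 5)) * c5 * (e : Perm (Fin 5))⁻¹ := by
  decide +kernel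

theorem involution_conj : ∀ a : A5, a * a = 1 → a ≠ 1 → ∃ e : A5, e * d5 * e⁻¹ = a := by
  decide +kernel

theorem three_conj : ∀ θ a : A5, (θ : Perm (Fin 5)) = t5 → a * a * a = 1 → a ≠ 1 →
    ∃ e : A5, e * θ * e⁻¹ = a := by
  intro θ a hθ
  have key : ∀ a : A5, a * a * a = 1 → a ≠ 1 →
      ∃ e : A5, (e : Perm (Fin 5)) * t5 * (e : Perm (Fin 5))⁻¹ = a := by
    decide +kernel
  intro h1 h2
  obtain ⟨e, he⟩ := key a h1 h2
  exact ⟨e, Subtype.ext (by simpa [hθ] using he)⟩

theorem theta_comm_d5 : ∀ θ : A5, (θ : Perm (Fin 5)) = t5 → ∀ i : ℕ,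
    θ ^ i * d5 = d5 * θ ^ i → θ ^ i = 1 := by
  intro θ hθ i h
  have h3 : θ ^ 3 = 1 := Subtype.ext (by simpa [hθ] using t5_pow_three)
  rw [pow_eq_pow_mod i h3] at h ⊢
  have hi : i % 3 = 0 ∨ i % 3 = 1 ∨ i % 3 = 2 := by omega
  rcases hi with hi | hi | hi <;> rw [hi] at h ⊢
  · exact pow_zero θ
  · have := congrArg (fun x : A5 => (x : Perm (Fin 5))) h
    simp only [pow_one, Subgroup.coe_mul, hθ] at this
    exact absurd this (by decide)
  · have := congrArg (fun x : A5 => (x : Perm (Fin 5))) h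
    simp only [pow_two, Subgroup.coe_mul, hθ] at this
    exact absurd this (by decide)

end Cfsg.Agent.H87.SymEight
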