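import Mathlib
import Cfsg.Agent.H34.SymEight.Data
import Cfsg.Agent.H87.SymEightPerm
import Cfsg.Agent.H89.HallWielandt

/-!
The index four branch of the three-local recognition of the symmetric group of degree eight:
a group with an embedded `A5 × A5` extended by `c` and `q`, having the stated centralisers,
has that subgroup normal of index four (given the endgame for the odd index case).
-/

set_option autoImplicit false

namespace Cfsg.Agent.H87.SymEight

open Equiv Cfsg.Agent.H34.SymEight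

local notation "A5" => alternatingGroup (Fin 5)

universe u

/-- The centraliser orders of conjugate elements agree. -/
theorem card_centralizer_conj {G : Type u} [Group G] (g x : G) :
    Nat.card (Subgroup.centralizer ({g * x * g⁻¹} : Set G)) =
      Nat.card (Subgroup.centralizer ({x} : Set G)) := by
  refine Nat.card_congr (Equiv.subtypeEquiv (MulAut.conj g⁻¹).toEquiv fun y => ?_)
  change y ∈ _ ↔ g⁻¹ * y * g⁻¹⁻¹ ∈ _
  simp only [inv_inv, Subgroup.mem_centralizer_singleton_iff]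
  constructor
  · intro h
    calc g⁻¹ * y * g * x = g⁻¹ * (y * (g * x * g⁻¹)) * g := by group
      _ = g⁻¹ * ((g * x * g⁻¹) * y) * g := by rw [h]
      _ = x * (g⁻¹ * y * g) := by group
  · intro h
    calc y * (g * x * g⁻¹) = g * (g⁻¹ * y * g * x) * g⁻¹ := by group
      _ = g * (x * (g⁻¹ * y * g)) * g⁻¹ := by rw [h]
      _ = (g * x * g⁻¹) * y := by group

/-- The hypotheses of the index four branch. -/
structure Setup (G : Type u) [Group G] where
  Φ : A5 × A5 →* G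
  inj : Function.Injective Φ
  κ : MulAut A5
  hκ : ∀ a, ((κ a : A5) : Perm (Fin 5)) = c5 * a * c5
  θ : A5
  hθ : (θ : Perm (Fin 5)) = t5
  c : G
  q : G
  hc : c * c = 1
  hc1 : c ≠ 1
  hq : q * q = 1
  hcq : Commute c q
  hΦc : ∀ a b, c * Φ (a, b) * c = Φ (κ a, κ b)
  hΦq : ∀ a b, q * Φ (a, b) * q = Φ (b, a)
  hcM : c ∉ Φ.range
  hCc : Nat.card (Subgroup.centralizer ({c} : Set G)) = 144
  hCcH : Subgroup.centralizer ({c} : Set G) ≤ Subgroup.closure ((Φ.range : Set G) ∪ {c, q})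
  hCc3 : ∀ g ∈ Subgroup.centralizer ({c} : Set G), g ^ 3 = 1 →
      ∃ i j : ℕ, g = Φ (θ ^ i, θ ^ j)
  hC1 : Subgroup.centralizer ({Φ (θ, 1)} : Set G) ≤
      Subgroup.closure ((Φ.range : Set G) ∪ {c, q})
  hC2 : Subgroup.centralizer ({Φ (1, θ)} : Set G) ≤
      Subgroup.closure ((Φ.range : Set G) ∪ {c, q})
  hC12 : Subgroup.centralizer ({Φ (θ, θ)} : Set G) ≤
      Subgroup.closure ((Φ.range : Set G) ∪ {c, q})
  h360 : Nat.card (Subgroup.centralizer ({Φ (θ, 1)} : Set G)) = 360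
  h36 : Nat.card (Subgroup.centralizer ({Φ (θ, θ)} : Set G)) = 36
  h27 : ¬ 27 ∣ Nat.card G
  hCD : ∀ g : G, Commute g (Φ (θ, 1)) → Commute g (Φ (1, θ)) → g * g = 1 → g = 1 ∨ g = c

namespace Setup

variable {G : Type u} [Group G] (S : Setup G)

theorem κ_κ (a : A5) : S.κ (S.κ a) = a := by
  apply Subtype.ext
  rw [S.hκ, S.hκ, show c5 * (c5 * (a : Perm (Fin 5)) * c5) * c5 =
    (c5 * c5) * (a : Perm (Fin 5)) * (c5 * c5) by group, c5_sq, one_mul, mul_one]

theorem κ_d5 : S.κ d5 = d5 := by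
  apply Subtype.ext
  rw [S.hκ]
  decide

theorem θ_order : orderOf S.θ = 3 := by
  have : Fact (Nat.Prime 3) := ⟨Nat.prime_three⟩
  refine orderOf_eq_prime (Subtype.ext (by simpa [S.hθ] using t5_pow_three)) fun h => ?_
  exact t5_ne_one (by rw [← S.hθ, h]; rfl)

/-- The group generated by `A5 × A5`, `c` and `q`. -/
def H : Subgroup G := Subgroup.closure ((S.Φ.range : Set G) ∪ {S.c, S.q})

/-- The four coset representatives. -/
def X (i j : Bool) : G := (if i then S.c else 1) * (if j then S.q else 1)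

/-- The action of the representatives. -/
def act (i j : Bool) (p : A5 × A5) : A5 × A5 :=
  let p' := if j then (p.2, p.1) else p
  if i then (S.κ p'.1, S.κ p'.2) else p'

theorem c_Φ (p : A5 × A5) : S.c * S.Φ p = S.Φ (S.κ p.1, S.κ p.2) * S.c := by
  rw [← S.hΦc, mul_assoc _ S.c S.c, S.hc, mul_one]

theorem q_Φ (p : A5 × A5) : S.q * S.Φ p = S.Φ (p.2, p.1) * S.q := by
  rw [← S.hΦq p.1 p.2, mul_assoc _ S.q S.q, S.hq, mul_one]

theorem X_Φ (i j : Bool) (p : A5 × A5) : S.X i j * S.Φ p = S.Φ (S.act i j p) * S.X i j := by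
  cases i <;> cases j <;> simp only [X, act, if_true, Bool.false_eq_true, if_false, one_mul,
    mul_one]
  · exact S.q_Φ p
  · exact S.c_Φ p
  · rw [mul_assoc, S.q_Φ, ← mul_assoc, S.c_Φ, mul_assoc]

theorem X_mul (i j k l : Bool) : S.X i j * S.X k l = S.X (xor i k) (xor j l) := by
  have h1 : S.q * S.c = S.c * S.q := S.hcq.eq.symm
  have h2 : ∀ x : G, S.q * (S.c * x) = S.c * (S.q * x) := fun x => by
    rw [← mul_assoc, h1, mul_assoc]
  have h3 : ∀ x : G, S.c * (S.c * x) = x := fun x => by rw [← mul_assoc, S.hc, one_mul]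
  cases i <;> cases j <;> cases k <;> cases l <;>
    simp [X, mul_assoc, h1, h2, h3, S.hc, S.hq]

theorem X_self (i j : Bool) : S.X i j * S.X i j = 1 := by
  rw [S.X_mul]; simp [X]

theorem X_inv (i j : Bool) : (S.X i j)⁻¹ = S.X i j :=
  inv_eq_of_mul_eq_one_right (S.X_self i j)

theorem range_le : S.Φ.range ≤ S.H := fun _ hx => Subgroup.subset_closure (Or.inl hx)

theorem c_mem : S.c ∈ S.H := Subgroup.subset_closure (Or.inr (Or.inl rfl))

theorem q_mem : S.q ∈ S.H := Subgroup.subset_closure (Or.inr (Or.inr rfl))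

theorem X_mem (i j : Bool) : S.X i j ∈ S.H := by
  cases i <;> cases j <;> simp [X, S.c_mem, S.q_mem, mul_mem S.c_mem S.q_mem]

theorem mem_H {g : G} : g ∈ S.H ↔ ∃ p i j, g = S.Φ p * S.X i j := by
  constructor
  · intro h
    induction h using Subgroup.closure_induction with
    | mem x hx =>
      rcases hx with ⟨p, rfl⟩ | rfl | rfl
      · exact ⟨p, false, false, by simp [X]⟩
      · exact ⟨1, true, false, by simp [X]⟩
      · exact ⟨1, false, true, by simp [X]⟩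
    | one => exact ⟨1, false, false, by simp [X]⟩
    | mul x y _ _ hx hy =>
      obtain ⟨p, i, j, rfl⟩ := hx
      obtain ⟨p', k, l, rfl⟩ := hy
      refine ⟨p * S.act i j p', xor i k, xor j l, ?_⟩
      rw [map_mul, ← S.X_mul]
      simp only [mul_assoc]
      rw [← mul_assoc (S.X i j), S.X_Φ, mul_assoc]
    | inv x _ hx =>
      obtain ⟨p, i, j, rfl⟩ := hx
      refine ⟨S.act i j p⁻¹, i, j, ?_⟩
      rw [mul_inv_rev, X_inv, ← map_inv, S.X_Φ]
  · rintro ⟨p, i, j, rfl⟩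
    exact mul_mem (S.range_le ⟨p, rfl⟩) (S.X_mem i j)

theorem X_not_mem {i j : Bool} (h : S.X i j ∈ S.Φ.range) : i = false ∧ j = false := by
  obtain ⟨⟨a, b⟩, hab⟩ := h
  cases i <;> cases j
  · exact ⟨rfl, rfl⟩
  · exfalso
    simp only [X, Bool.false_eq_true, if_false, if_true, one_mul] at hab
    have h1 := S.hΦq S.θ 1
    rw [← hab, ← map_mul, ← map_mul] at h1
    have h2 := congrArg Prod.snd (S.inj h1)
    simp only [Prod.snd_mul, mul_one] at h2
    have hb : b * b = 1 := by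
      have := S.hq
      rw [← hab, ← map_mul] at this
      exact congrArg Prod.snd (S.inj (this.trans (map_one S.Φ).symm))
    rw [hb] at h2
    exact t5_ne_one (by rw [← S.hθ, ← h2]; rfl)
  · exfalso
    simp only [X, Bool.false_eq_true, if_false, if_true, mul_one] at hab
    exact S.hcM ⟨(a, b), hab⟩
  · exfalso
    simp only [X, if_true] at hab
    have h1 : S.Φ (a, b) * S.Φ (S.θ, 1) = S.Φ (1, S.κ S.θ) * S.Φ (a, b) := by
      rw [hab, mul_assoc, S.q_Φ, ← mul_assoc, S.c_Φ]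
      simp [mul_assoc]
    rw [← map_mul, ← map_mul] at h1
    have h2 := congrArg Prod.fst (S.inj h1)
    simp only [Prod.fst_mul, one_mul] at h2
    exact t5_ne_one (by rw [← S.hθ, mul_eq_left.1 h2]; rfl)

theorem coord_unique {p p' : A5 × A5} {i j k l : Bool}
    (h : S.Φ p * S.X i j = S.Φ p' * S.X k l) : p = p' ∧ i = k ∧ j = l := by
  have h' : S.X (xor i k) (xor j l) ∈ S.Φ.range := by
    refine ⟨p⁻¹ * p', ?_⟩
    rw [map_mul, map_inv, ← S.X_mul]
    calc (S.Φ p)⁻¹ * S.Φ p' = (S.Φ p)⁻¹ * (S.Φ p' * S.X k l) * S.X k l := by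
          rw [mul_assoc, mul_assoc, S.X_self, mul_one]
      _ = S.X i j * S.X k l := by rw [← h, ← mul_assoc, inv_mul_cancel, one_mul]
  obtain ⟨h1, h2⟩ := S.X_not_mem h'
  have hik : i = k := by cases i <;> cases k <;> simp_all
  have hjl : j = l := by cases j <;> cases l <;> simp_all
  subst hik hjl
  exact ⟨S.inj (mul_right_cancel h), rfl, rfl⟩

/-- Elements of `H` as coordinates. -/
noncomputable def coord : (A5 × A5) × Bool × Bool ≃ S.H :=
  Equiv.ofBijective (fun x => ⟨S.Φ x.1 * S.X x.2.1 x.2.2, S.mem_H.2 ⟨_, _, _, rfl⟩⟩)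
    ⟨fun x y h => by
      obtain ⟨h1, h2, h3⟩ := S.coord_unique (Subtype.ext_iff.1 h)
      exact Prod.ext h1 (Prod.ext h2 h3),
    fun ⟨g, hg⟩ => by
      obtain ⟨p, i, j, rfl⟩ := S.mem_H.1 hg
      exact ⟨(p, i, j), rfl⟩⟩

theorem card_H : Nat.card S.H = 14400 := by
  rw [← Nat.card_congr S.coord, Nat.card_prod, Nat.card_prod, Nat.card_prod, card_A5]
  simp

theorem card_M : Nat.card S.Φ.range = 3600 := by
  rw [← Nat.card_congr (MonoidHom.ofInjective S.inj).toEquiv]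
  simp only [Nat.card_prod, card_A5]

/-- The quotient map of `H` modulo `A5 × A5`, in coordinates. -/
noncomputable def ψ : S.H →* ℤˣ × ℤˣ where
  toFun h := (if (S.coord.symm h).2.1 then -1 else 1, if (S.coord.symm h).2.2 then -1 else 1)
  map_one' := by
    have h1 : S.coord.symm 1 = (1, false, false) := by
      rw [Equiv.symm_apply_eq]
      exact Subtype.ext (by simp [coord, X])
    simp [h1]
  map_mul' a b := by
    obtain ⟨⟨p, i, j⟩, rfl⟩ := S.coord.surjective a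
    obtain ⟨⟨p', k, l⟩, rfl⟩ := S.coord.surjective b
    have h1 : S.coord.symm (S.coord (p, i, j) * S.coord (p', k, l)) =
        (p * S.act i j p', xor i k, xor j l) := by
      rw [Equiv.symm_apply_eq]
      apply Subtype.ext
      show S.Φ p * S.X i j * (S.Φ p' * S.X k l) =
        S.Φ (p * S.act i j p') * S.X (xor i k) (xor j l)
      rw [map_mul, ← S.X_mul]
      simp only [mul_assoc]
      rw [← mul_assoc (S.X i j), S.X_Φ, mul_assoc]
    simp only [h1, Equiv.symm_apply_apply]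
    cases i <;> cases j <;> cases k <;> cases l <;> rfl

theorem ψ_apply {g : G} (hg : g ∈ S.H) {p : A5 × A5} {i j : Bool} (h : g = S.Φ p * S.X i j) :
    S.ψ ⟨g, hg⟩ = (if i then -1 else 1, if j then -1 else 1) := by
  have h1 : S.coord.symm ⟨g, hg⟩ = (p, i, j) := by
    rw [Equiv.symm_apply_eq]
    exact Subtype.ext h
  show (if (S.coord.symm ⟨g, hg⟩).2.1 then (-1 : ℤˣ) else 1,
    if (S.coord.symm ⟨g, hg⟩).2.2 then (-1 : ℤˣ) else 1) = _
  rw [h1]

/-- The representative of a double transposition in one factor. -/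
def r : G := S.Φ (d5, 1)

/-- The product of two such. -/
def rs : G := S.Φ (d5, d5)

theorem r_mem : S.r ∈ S.H := S.range_le ⟨_, rfl⟩

theorem rs_mem : S.rs ∈ S.H := S.range_le ⟨_, rfl⟩

theorem twist {a : A5} (h : a * S.κ a = 1) : ∃ e : A5, a = e * (S.κ e)⁻¹ := by
  have h' := congrArg (fun x : A5 => (x : Perm (Fin 5))) h
  simp only [Subgroup.coe_mul, S.hκ, Subgroup.coe_one] at h'
  obtain ⟨e, he⟩ := perm_twist a (by simpa [mul_assoc] using h')
  refine ⟨e, Subtype.ext ?_⟩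
  rw [Subgroup.coe_mul, Subgroup.coe_inv, S.hκ]
  calc (a : Perm (Fin 5)) = (a : Perm (Fin 5)) * c5 * c5 := by rw [mul_assoc, c5_sq, mul_one]
    _ = (e : Perm (Fin 5)) * (c5 * (e : Perm (Fin 5)) * c5)⁻¹ := by
      rw [he]
      have : c5⁻¹ = c5 := inv_eq_of_mul_eq_one_right c5_sq
      simp [this, mul_assoc]

theorem twist_comm {a : A5} (h : a * S.κ a = 1) (hd : a * d5 = d5 * a) :
    ∃ e : A5, e * d5 = d5 * e ∧ a = e * (S.κ e)⁻¹ := by
  have h' := congrArg (fun x : A5 => (x : Perm (Fin 5))) h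
  simp only [Subgroup.coe_mul, S.hκ, Subgroup.coe_one] at h'
  obtain ⟨e, hed, he⟩ := perm_twist_comm a (by simpa [mul_assoc] using h') hd
  refine ⟨e, hed, Subtype.ext ?_⟩
  rw [Subgroup.coe_mul, Subgroup.coe_inv, S.hκ]
  calc (a : Perm (Fin 5)) = (a : Perm (Fin 5)) * c5 * c5 := by rw [mul_assoc, c5_sq, mul_one]
    _ = (e : Perm (Fin 5)) * (c5 * (e : Perm (Fin 5)) * c5)⁻¹ := by
      rw [he]
      have : c5⁻¹ = c5 := inv_eq_of_mul_eq_one_right c5_sq
      simp [this, mul_assoc]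

theorem conj_c (e e' : A5) :
    S.Φ (e * (S.κ e)⁻¹, e' * (S.κ e')⁻¹) * S.c = S.Φ (e, e') * S.c * (S.Φ (e, e'))⁻¹ := by
  rw [← map_inv S.Φ, mul_assoc, S.c_Φ, ← mul_assoc, ← map_mul]
  simp

/-- The involutions of `H` up to conjugation in `H`. -/
theorem invol_cases {g : G} (hg : g ∈ S.H) (h2 : g * g = 1) (h1 : g ≠ 1) :
    ∃ m ∈ S.H, g = m * S.r * m⁻¹ ∨ g = m * S.rs * m⁻¹ ∨ g = m * S.c * m⁻¹ ∨
      g = m * S.q * m⁻¹ ∨ g = m * (S.c * S.q) * m⁻¹ := by
  obtain ⟨⟨a, b⟩, i, j, rfl⟩ := S.mem_H.1 hg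
  have key : (a, b) * S.act i j (a, b) = 1 := by
    have h3 : S.Φ (a, b) * S.X i j * (S.Φ (a, b) * S.X i j) =
        S.Φ ((a, b) * S.act i j (a, b)) := by
      rw [mul_assoc, ← mul_assoc (S.X i j), S.X_Φ, mul_assoc, S.X_self, mul_one, map_mul]
    exact S.inj ((h3.symm.trans h2).trans (map_one S.Φ).symm)
  simp only [Prod.ext_iff, Prod.fst_mul, Prod.snd_mul, Prod.fst_one, Prod.snd_one, act] at key
  cases i <;> cases j <;> simp only [if_true, Bool.false_eq_true, if_false] at key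
  · have hg' : S.Φ (a, b) * S.X false false = S.Φ (a, b) := by simp [X]
    rw [hg'] at h1 ⊢
    by_cases ha : a = 1
    · subst ha
      have hb : b ≠ 1 := fun h => h1 (by rw [h]; exact map_one S.Φ)
      obtain ⟨e, he⟩ := involution_conj b key.2 hb
      refine ⟨S.Φ (1, e) * S.q, mul_mem (S.range_le ⟨_, rfl⟩) S.q_mem, Or.inl ?_⟩
      rw [r, mul_assoc (S.Φ (1, e)) S.q, S.q_Φ, ← mul_assoc, mul_inv_rev, mul_assoc (_ * _) S.q,
        ← mul_assoc S.q, mul_inv_cancel, one_mul, ← map_inv, ← map_mul, ← map_mul]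
      simp [he]
    · obtain ⟨e, he⟩ := involution_conj a key.1 ha
      by_cases hb : b = 1
      · subst hb
        exact ⟨S.Φ (e, 1), S.range_le ⟨_, rfl⟩, Or.inl (by
          rw [r, ← map_inv, ← map_mul, ← map_mul]; simp [he])⟩
      · obtain ⟨e', he'⟩ := involution_conj b key.2 hb
        exact ⟨S.Φ (e, e'), S.range_le ⟨_, rfl⟩, Or.inr (Or.inl (by
          rw [rs, ← map_inv, ← map_mul, ← map_mul]; simp [he, he']))⟩
  · refine ⟨S.Φ (a, 1), S.range_le ⟨_, rfl⟩, Or.inr (Or.inr (Or.inr (Or.inl ?_)))⟩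
    have hb : b = a⁻¹ := eq_inv_of_mul_eq_one_right key.1
    rw [← map_inv S.Φ, mul_assoc, S.q_Φ, ← mul_assoc, ← map_mul]
    simp [X, hb]
  · obtain ⟨e, he⟩ := S.twist key.1
    obtain ⟨e', he'⟩ := S.twist key.2
    refine ⟨S.Φ (e, e'), S.range_le ⟨_, rfl⟩, Or.inr (Or.inr (Or.inl ?_))⟩
    rw [← S.conj_c, ← he, ← he']
    simp [X]
  · refine ⟨S.Φ (a, 1), S.range_le ⟨_, rfl⟩, Or.inr (Or.inr (Or.inr (Or.inr ?_)))⟩
    have hb : b = S.κ a⁻¹ := by
      have : S.κ b = a⁻¹ := eq_inv_of_mul_eq_one_right key.1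
      rw [← this, S.κ_κ]
    rw [← map_inv S.Φ, mul_assoc, mul_assoc S.c, S.q_Φ, ← mul_assoc S.c, S.c_Φ,
      mul_assoc _ S.c S.q, ← mul_assoc, ← map_mul]
    simp [X, hb]

theorem commute_X_rs (i j : Bool) : Commute (S.X i j) S.rs := by
  rw [Commute, SemiconjBy, rs, S.X_Φ]
  cases i <;> cases j <;> simp [act, S.κ_d5]

/-- The centraliser of `rs` in `H`, in coordinates. -/
noncomputable def coordT :
    ({a : A5 // a * d5 = d5 * a} × {a : A5 // a * d5 = d5 * a}) × Bool × Bool ≃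
      (S.H ⊓ Subgroup.centralizer {S.rs} : Subgroup G) :=
  Equiv.ofBijective (fun x => ⟨S.Φ (x.1.1, x.1.2) * S.X x.2.1 x.2.2,
    S.mem_H.2 ⟨_, _, _, rfl⟩, Subgroup.mem_centralizer_singleton_iff.2 (by
      have h := S.commute_X_rs x.2.1 x.2.2
      have h' : Commute (S.Φ (x.1.1.1, x.1.2.1)) S.rs := by
        rw [rs]
        exact (show Commute ((x.1.1.1, x.1.2.1) : A5 × A5) (d5, d5) from
          Prod.ext x.1.1.2 x.1.2.2).map S.Φ
      exact (h'.mul_left h).eq)⟩)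
    ⟨fun x y h => by
      obtain ⟨h1, h2, h3⟩ := S.coord_unique (Subtype.ext_iff.1 h)
      obtain ⟨h4, h5⟩ := Prod.ext_iff.1 h1
      exact Prod.ext (Prod.ext (Subtype.ext h4) (Subtype.ext h5)) (Prod.ext h2 h3),
    fun ⟨g, hg⟩ => by
      obtain ⟨⟨a, b⟩, i, j, rfl⟩ := S.mem_H.1 hg.1
      have h1 : Commute (S.Φ (a, b) * S.X i j) S.rs :=
        Subgroup.mem_centralizer_singleton_iff.1 hg.2
      have h2 := h1.mul_left (S.commute_X_rs i j)
      rw [mul_assoc, S.X_self, mul_one] at h2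
      have h3 : S.Φ ((a, b) * (d5, d5)) = S.Φ ((d5, d5) * (a, b)) := by
        rw [map_mul, map_mul]; exact h2.eq
      obtain ⟨h4, h5⟩ := Prod.ext_iff.1 (S.inj h3)
      exact ⟨((⟨a, h4⟩, ⟨b, h5⟩), i, j), rfl⟩⟩

theorem card_T : Nat.card (S.H ⊓ Subgroup.centralizer {S.rs} : Subgroup G) = 64 := by
  rw [← Nat.card_congr S.coordT, Nat.card_prod, Nat.card_prod, Nat.card_prod, card_comm_d5]
  simp

section Fin

variable [Finite G]

theorem five_dvd {x : G} (v : A5 × A5) (hv : orderOf v = 5)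
    (h : Commute (S.Φ v) x) : 5 ∣ Nat.card (Subgroup.centralizer ({x} : Set G)) := by
  have h1 := orderOf_dvd_natCard
    (⟨S.Φ v, Subgroup.mem_centralizer_singleton_iff.2 h.eq⟩ : Subgroup.centralizer ({x} : Set G))
  rwa [Subgroup.orderOf_mk, orderOf_injective _ S.inj, hv] at h1

theorem five_r : 5 ∣ Nat.card (Subgroup.centralizer ({S.r} : Set G)) := by
  refine S.five_dvd (1, f5) ?_ ?_
  · simp [Prod.orderOf, f5_order]
  · exact (show Commute ((1, f5) : A5 × A5) (d5, 1) from Prod.ext (by simp) (by simp)).map S.Φ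

theorem five_q : 5 ∣ Nat.card (Subgroup.centralizer ({S.q} : Set G)) := by
  refine S.five_dvd (f5, f5) ?_ ?_
  · simp [Prod.orderOf, f5_order]
  · exact (S.q_Φ (f5, f5)).symm

theorem five_cq : 5 ∣ Nat.card (Subgroup.centralizer ({S.c * S.q} : Set G)) := by
  refine S.five_dvd (S.κ f5, f5) ?_ ?_
  · rw [Prod.orderOf, MulEquiv.orderOf_eq, f5_order]; rfl
  · show S.Φ _ * (S.c * S.q) = S.c * S.q * S.Φ _
    rw [mul_assoc S.c, S.q_Φ, ← mul_assoc S.c (S.Φ _), S.c_Φ]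
    simp [S.κ_κ, mul_assoc]

theorem sixtyfour_rs : 64 ∣ Nat.card (Subgroup.centralizer ({S.rs} : Set G)) := by
  rw [← S.card_T]
  exact Subgroup.card_dvd_of_le inf_le_right

/-- An element of `H` conjugate to `c` in `G` is conjugate to it in `H`. -/
theorem c_class {g : G} (hg : g * S.c * g⁻¹ ∈ S.H) :
    ∃ m ∈ S.H, g * S.c * g⁻¹ = m * S.c * m⁻¹ := by
  have h2 : g * S.c * g⁻¹ * (g * S.c * g⁻¹) = 1 := by
    rw [show g * S.c * g⁻¹ * (g * S.c * g⁻¹) = g * (S.c * S.c) * g⁻¹ by group, S.hc]; group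
  have h1 : g * S.c * g⁻¹ ≠ 1 := by simpa [conj_eq_one_iff] using S.hc1
  have hcard : ∀ m x : G, g * S.c * g⁻¹ = m * x * m⁻¹ →
      Nat.card (Subgroup.centralizer ({x} : Set G)) = 144 := fun m x h => by
    rw [← card_centralizer_conj m x, ← h, card_centralizer_conj, S.hCc]
  obtain ⟨m, hm, h | h | h | h | h⟩ := S.invol_cases hg h2 h1
  · exact absurd (hcard m _ h ▸ S.five_r) (by norm_num)
  · exact absurd (hcard m _ h ▸ S.sixtyfour_rs) (by norm_num)
  · exact ⟨m, hm, h⟩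
  · exact absurd (hcard m _ h ▸ S.five_q) (by norm_num)
  · exact absurd (hcard m _ h ▸ S.five_cq) (by norm_num)

theorem c_fixed {s : G ⧸ S.H} (hs : S.c • s = s) : s = ((1 : G) : G ⧸ S.H) := by
  obtain ⟨g, rfl⟩ := QuotientGroup.mk_surjective s
  have h : g⁻¹ * S.c * g ∈ S.H := by
    have := QuotientGroup.eq.1 (hs.symm.trans rfl : ((g : G) : G ⧸ S.H) = ((S.c * g : G) : G ⧸ S.H))
    rwa [mul_assoc]
  obtain ⟨m, hm, hm'⟩ := S.c_class (g := g⁻¹) (by simpa using h)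
  rw [inv_inv] at hm'
  have hgm : g * m ∈ Subgroup.centralizer ({S.c} : Set G) := by
    rw [Subgroup.mem_centralizer_singleton_iff]
    calc g * m * S.c = g * (m * S.c * m⁻¹) * m := by group
      _ = g * (g⁻¹ * S.c * g) * m := by rw [hm']
      _ = S.c * (g * m) := by group
  have hg : g ∈ S.H := by
    have := mul_mem (show g * m ∈ S.H from S.hCcH hgm) (inv_mem hm)
    rwa [mul_inv_cancel_right] at this
  rw [QuotientGroup.eq, mul_one]
  exact inv_mem hg

theorem one_fixed {w : G} (hw : w ∈ S.H) :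
    w • ((1 : G) : G ⧸ S.H) = ((1 : G) : G ⧸ S.H) := by
  show ((w * 1 : G) : G ⧸ S.H) = _
  rw [QuotientGroup.eq]
  simpa using hw

theorem card_fixed_mod {w : G} (hw : w * w = 1) :
    Nat.card (G ⧸ S.H) % 2 = Nat.card {s : G ⧸ S.H // w • s = s} % 2 := by
  have : Fact (Nat.Prime 2) := ⟨Nat.prime_two⟩
  have hp : IsPGroup 2 (Subgroup.zpowers w) := by
    rintro ⟨x, k, rfl⟩
    refine ⟨1, Subtype.ext ?_⟩
    show (w ^ k) ^ (2 ^ 1) = 1
    rw [← zpow_natCast, ← zpow_mul, mul_comm, zpow_mul]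
    simp [zpow_ofNat, pow_two, hw]
  rw [hp.card_modEq_card_fixedPoints (G ⧸ S.H)]
  congr 1
  refine Nat.card_congr (Equiv.subtypeEquivRight fun s => ⟨fun h => ?_, fun h => ?_⟩)
  · exact h ⟨w, Subgroup.mem_zpowers w⟩
  · rintro ⟨x, hx⟩
    exact (Subgroup.zpowers_le.2 (show w ∈ MulAction.stabilizer G s from h)) hx

theorem index_odd : Odd S.H.index := by
  have hu : Nat.card {s : G ⧸ S.H // S.c • s = s} = 1 := by
    rw [Nat.card_eq_one_iff_unique]
    exact ⟨⟨fun a b => Subtype.ext ((S.c_fixed a.2).trans (S.c_fixed b.2).symm)⟩,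
      ⟨⟨_, S.one_fixed S.c_mem⟩⟩⟩
  rw [Nat.odd_iff, Subgroup.index, S.card_fixed_mod S.hc, hu]

theorem card_G : Nat.card G = 14400 * S.H.index := by
  rw [← S.card_H, Subgroup.card_mul_index]

include S in
theorem not_128 : ¬ 128 ∣ Nat.card G := by
  rw [S.card_G, show 14400 = 64 * 225 by norm_num, show 128 = 64 * 2 by norm_num, mul_assoc,
    Nat.mul_dvd_mul_iff_left (by norm_num : 0 < 64)]
  obtain ⟨k, hk⟩ := S.index_odd
  rw [hk]
  omega

theorem card_y2 : Nat.card (Subgroup.centralizer ({S.Φ (1, S.θ)} : Set G)) = 360 := by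
  rw [← S.hΦq S.θ 1]
  have hqi : S.q⁻¹ = S.q := inv_eq_of_mul_eq_one_right S.hq
  nth_rw 2 [← hqi]
  rw [card_centralizer_conj, S.h360]

theorem q_not_r (g : G) : g * S.q * g⁻¹ ≠ S.r := by
  intro h
  have : Fact (Nat.Prime 3) := ⟨Nat.prime_three⟩
  set y : G := g * S.Φ (S.θ, S.θ) * g⁻¹ with hy
  have hyr : y ∈ Subgroup.centralizer ({S.r} : Set G) := by
    rw [Subgroup.mem_centralizer_singleton_iff, ← h, hy]
    calc g * S.Φ (S.θ, S.θ) * g⁻¹ * (g * S.q * g⁻¹)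
        = g * (S.Φ (S.θ, S.θ) * S.q) * g⁻¹ := by group
      _ = g * (S.q * S.Φ (S.θ, S.θ)) * g⁻¹ := by rw [S.q_Φ]
      _ = _ := by group
  have hy1 : S.Φ (1, S.θ) ∈ Subgroup.centralizer ({S.r} : Set G) := by
    rw [Subgroup.mem_centralizer_singleton_iff, r, ← map_mul, ← map_mul]
    simp
  have ho1 : orderOf (S.Φ (1, S.θ)) = 3 := by
    rw [orderOf_injective _ S.inj, Prod.orderOf, orderOf_one, S.θ_order]; rfl
  have hoy : orderOf y = 3 := by
    rw [hy, ← MulAut.conj_apply, MulEquiv.orderOf_eq, orderOf_injective _ S.inj, Prod.orderOf,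
      S.θ_order]; rfl
  set C := Subgroup.centralizer ({S.r} : Set G) with hC
  by_cases h9 : 3 ^ 2 ∣ Nat.card C
  · obtain ⟨Q, hQ⟩ := Sylow.exists_subgroup_card_pow_prime 3 h9
    set Q' := Q.map C.subtype with hQ'
    have hQ'c : Nat.card Q' = 9 := by
      rw [hQ', Subgroup.card_map_of_injective C.subtype_injective, hQ]; norm_num
    set D := ((Subgroup.zpowers S.θ).prod (Subgroup.zpowers S.θ)).map S.Φ with hD
    have hDc : Nat.card D = 9 := by
      rw [hD, Subgroup.card_map_of_injective S.inj,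
        Nat.card_congr (Subgroup.prodEquiv _ _).toEquiv, Nat.card_prod, Nat.card_zpowers,
        S.θ_order]
    have syl : ∀ K : Subgroup G, Nat.card K = 9 → ∃ P : Sylow 3 G, (P : Subgroup G) = K := by
      intro K hK
      have hp : IsPGroup 3 K := IsPGroup.of_card (n := 2) (by rw [hK]; norm_num)
      obtain ⟨P, hP⟩ := hp.exists_le_sylow
      refine ⟨P, (Subgroup.eq_of_le_of_card_ge hP ?_).symm⟩
      obtain ⟨n, hn⟩ := P.2.exists_card_eq
      have hn2 : n ≤ 2 := by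
        by_contra hlt
        exact S.h27 ((show 27 ∣ 3 ^ n from pow_dvd_pow 3 (by omega : 3 ≤ n)).trans
          (hn ▸ Subgroup.card_subgroup_dvd_card (P : Subgroup G)))
      rw [hK, hn]
      calc 3 ^ n ≤ 3 ^ 2 := Nat.pow_le_pow_right (by norm_num) hn2
        _ = 9 := by norm_num
    obtain ⟨P, hP⟩ := syl D hDc
    obtain ⟨R, hR⟩ := syl Q' hQ'c
    obtain ⟨k, hk⟩ := MulAction.exists_smul_eq G P R
    have hk' : ∀ x ∈ D, k * x * k⁻¹ ∈ C := by
      intro x hx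
      have : k * x * k⁻¹ ∈ (R : Subgroup G) := by
        rw [← hk, Sylow.coe_subgroup_smul, hP]
        exact ⟨x, hx, by simp⟩
      rw [hR, hQ'] at this
      obtain ⟨z, -, hz⟩ := this
      exact hz ▸ z.2
    have hcomm : ∀ x ∈ D, Commute (k⁻¹ * S.r * k) x := by
      intro x hx
      have := Subgroup.mem_centralizer_singleton_iff.1 (hk' x hx)
      show k⁻¹ * S.r * k * x = x * (k⁻¹ * S.r * k)
      calc k⁻¹ * S.r * k * x = k⁻¹ * (S.r * (k * x * k⁻¹)) * k := by group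
        _ = k⁻¹ * ((k * x * k⁻¹) * S.r) * k := by rw [this]
        _ = _ := by group
    have hm1 : S.Φ (S.θ, 1) ∈ D :=
      Subgroup.mem_map_of_mem _ ⟨Subgroup.mem_zpowers _, one_mem _⟩
    have hm2 : S.Φ (1, S.θ) ∈ D :=
      Subgroup.mem_map_of_mem _ ⟨one_mem _, Subgroup.mem_zpowers _⟩
    have hsq : k⁻¹ * S.r * k * (k⁻¹ * S.r * k) = 1 := by
      rw [show k⁻¹ * S.r * k * (k⁻¹ * S.r * k) = k⁻¹ * (S.r * S.r) * k by group, r, ← map_mul]
      simp [Prod.mk_mul_mk, d5_sq, Prod.mk_one_one]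
    have hr1 : S.r ≠ 1 := fun h => d5_ne_one (congrArg Prod.fst (S.inj (h.trans (map_one S.Φ).symm)))
    rcases S.hCD _ (hcomm _ hm1) (hcomm _ hm2) hsq with h' | h'
    · apply hr1
      calc S.r = k * (k⁻¹ * S.r * k) * k⁻¹ := by group
        _ = 1 := by rw [h']; group
    · have h5 := S.five_r
      have : S.r = k * S.c * k⁻¹ := by rw [← h']; group
      rw [this, card_centralizer_conj, S.hCc] at h5
      norm_num at h5
  · have hpow : ∀ x : C, orderOf x = 3 → ∃ P : Sylow 3 C,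
        (P : Subgroup C) = Subgroup.zpowers x := by
      intro x hx
      have hc3 : Nat.card (Subgroup.zpowers x) = 3 := by rw [Nat.card_zpowers, hx]
      have hp : IsPGroup 3 (Subgroup.zpowers x) := IsPGroup.of_card (n := 1) (by rw [hc3]; norm_num)
      obtain ⟨P, hP⟩ := hp.exists_le_sylow
      refine ⟨P, (Subgroup.eq_of_le_of_card_ge hP ?_).symm⟩
      obtain ⟨n, hn⟩ := P.2.exists_card_eq
      have hn2 : n ≤ 1 := by
        by_contra hlt
        exact h9 ((pow_dvd_pow 3 (by omega : 2 ≤ n)).trans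
          (hn ▸ Subgroup.card_subgroup_dvd_card (P : Subgroup C)))
      rw [hc3, hn]
      calc 3 ^ n ≤ 3 ^ 1 := Nat.pow_le_pow_right (by norm_num) hn2
        _ = 3 := by norm_num
    obtain ⟨P, hP⟩ := hpow ⟨_, hy1⟩ (by rw [Subgroup.orderOf_mk, ho1])
    obtain ⟨R, hR⟩ := hpow ⟨y, hyr⟩ (by rw [Subgroup.orderOf_mk, hoy])
    obtain ⟨k, hk⟩ := MulAction.exists_smul_eq C P R
    have hmem : k * (⟨_, hy1⟩ : C) * k⁻¹ ∈ Subgroup.zpowers (⟨y, hyr⟩ : C) := by
      rw [← hR, ← hk, Sylow.coe_subgroup_smul, hP]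
      exact ⟨_, Subgroup.mem_zpowers _, by simp⟩
    obtain ⟨n, hn⟩ := hmem
    have hn' : y ^ n = (k : G) * S.Φ (1, S.θ) * (k : G)⁻¹ := by
      simpa using congrArg Subtype.val hn
    set w := (k : G) * S.Φ (1, S.θ) * (k : G)⁻¹ with hw
    have hwc : Nat.card (Subgroup.centralizer ({w} : Set G)) = 360 := by
      rw [hw, card_centralizer_conj, S.card_y2]
    have hyc : Nat.card (Subgroup.centralizer ({y} : Set G)) = 36 := by
      rw [hy, card_centralizer_conj, S.h36]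
    have hle : Subgroup.centralizer ({y} : Set G) ≤ Subgroup.centralizer ({w} : Set G) := by
      intro x hx
      rw [Subgroup.mem_centralizer_singleton_iff] at hx ⊢
      rw [← hn']
      exact (Commute.zpow_right hx n : Commute x (y ^ n)).eq
    have how : orderOf w = 3 := by rw [hw, ← MulAut.conj_apply, MulEquiv.orderOf_eq, ho1]
    have hzeq : Subgroup.zpowers w = Subgroup.zpowers y :=
      Subgroup.eq_of_le_of_card_ge (Subgroup.zpowers_le.2 ⟨n, hn'⟩)
        (by rw [Nat.card_zpowers, Nat.card_zpowers, how, hoy])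
    have hge : Subgroup.centralizer ({w} : Set G) ≤ Subgroup.centralizer ({y} : Set G) := by
      intro x hx
      rw [Subgroup.mem_centralizer_singleton_iff] at hx ⊢
      obtain ⟨i, hi⟩ : y ∈ Subgroup.zpowers w := hzeq ▸ Subgroup.mem_zpowers y
      rw [← hi]
      exact (Commute.zpow_right hx i : Commute x (w ^ i)).eq
    rw [le_antisymm hle hge] at hyc
    omega

theorem q_not_rs (g : G) : g * S.q * g⁻¹ ≠ S.rs := by
  intro h
  have : Fact (Nat.Prime 2) := ⟨Nat.prime_two⟩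
  set C := Subgroup.centralizer ({S.rs} : Set G) with hC
  have hCmem : ∀ x : G, Commute x S.q → g * x * g⁻¹ ∈ C := by
    intro x hx
    rw [hC, Subgroup.mem_centralizer_singleton_iff, ← h]
    calc g * x * g⁻¹ * (g * S.q * g⁻¹) = g * (x * S.q) * g⁻¹ := by group
      _ = g * (S.q * x) * g⁻¹ := by rw [hx.eq]
      _ = _ := by group
  set T := (S.H ⊓ C).subgroupOf C with hT
  have hTc : Nat.card T = 64 := by
    rw [hT, Nat.card_congr (Subgroup.subgroupOfEquivOfLe inf_le_right).toEquiv, hC, S.card_T]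
  obtain ⟨P, hP⟩ := (IsPGroup.of_card (n := 6) (by rw [hTc]; norm_num) : IsPGroup 2 T).exists_le_sylow
  have hPT : (P : Subgroup C) = T := by
    refine (Subgroup.eq_of_le_of_card_ge hP ?_).symm
    obtain ⟨n, hn⟩ := P.2.exists_card_eq
    have hn2 : n ≤ 6 := by
      by_contra hlt
      exact S.not_128 (((show 128 ∣ 2 ^ n from pow_dvd_pow 2 (by omega : 7 ≤ n)).trans
        (hn ▸ Subgroup.card_subgroup_dvd_card (P : Subgroup C))).trans
        (Subgroup.card_subgroup_dvd_card C))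
    rw [hTc, hn]
    calc 2 ^ n ≤ 2 ^ 6 := Nat.pow_le_pow_right (by norm_num) hn2
      _ = 64 := by norm_num
  set c' : C := ⟨g * S.c * g⁻¹, hCmem _ S.hcq⟩ with hc'
  have hc2 : IsPGroup 2 (Subgroup.zpowers c') := by
    rintro ⟨x, i, rfl⟩
    refine ⟨1, Subtype.ext (Subtype.ext ?_)⟩
    show ((g * S.c * g⁻¹) ^ i) ^ (2 ^ 1) = 1
    rw [conj_zpow, ← zpow_natCast, conj_zpow, ← zpow_mul, mul_comm, zpow_mul]
    simp [zpow_ofNat, pow_two, S.hc]
  obtain ⟨R, hR⟩ := hc2.exists_le_sylow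
  obtain ⟨k, hk⟩ := MulAction.exists_smul_eq C R P
  have hkT : k * c' * k⁻¹ ∈ T := by
    rw [← hPT, ← hk, Sylow.coe_subgroup_smul]
    exact ⟨c', hR (Subgroup.mem_zpowers c'), by simp⟩
  have hkH : (k : G) * (g * S.c * g⁻¹) * (k : G)⁻¹ ∈ S.H := by
    have := (Subgroup.mem_subgroupOf.1 hkT).1
    simpa [hc'] using this
  set kg := (k : G) * g with hkg
  have hH' : kg * S.c * kg⁻¹ ∈ S.H := by simpa [hkg, mul_assoc] using hkH
  obtain ⟨m, hm, hm'⟩ := S.c_class hH'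
  obtain ⟨⟨a, b⟩, i, j, rfl⟩ := S.mem_H.1 hm
  have hXc : S.X i j * S.c * (S.X i j)⁻¹ = S.c := by
    have : S.c = S.X true false := by simp [X]
    rw [this, X_inv, S.X_mul, S.X_mul]
    cases i <;> cases j <;> rfl
  have hform : kg * S.c * kg⁻¹ = S.Φ (a * (S.κ a)⁻¹, b * (S.κ b)⁻¹) * S.c := by
    rw [hm', S.conj_c]
    calc S.Φ (a, b) * S.X i j * S.c * (S.Φ (a, b) * S.X i j)⁻¹
        = S.Φ (a, b) * (S.X i j * S.c * (S.X i j)⁻¹) * (S.Φ (a, b))⁻¹ := by group
      _ = _ := by rw [hXc]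
  have hkrs : Commute (k : G) S.rs := Subgroup.mem_centralizer_singleton_iff.1 k.2
  have hcrs : Commute (kg * S.c * kg⁻¹) S.rs := by
    have h1 : Commute (g * S.c * g⁻¹) S.rs :=
      Subgroup.mem_centralizer_singleton_iff.1 (hCmem _ S.hcq)
    have := (hkrs.mul_left h1).mul_left hkrs.inv_left
    simpa [hkg, mul_assoc] using this
  rw [hform] at hcrs
  have hcX : Commute S.c S.rs := by simpa [X] using S.commute_X_rs true false
  have h2 := hcrs.mul_left hcX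
  rw [mul_assoc, S.hc, mul_one] at h2
  have h3 : S.Φ ((a * (S.κ a)⁻¹, b * (S.κ b)⁻¹) * (d5, d5)) =
      S.Φ ((d5, d5) * (a * (S.κ a)⁻¹, b * (S.κ b)⁻¹)) := by
    rw [map_mul, map_mul]; exact h2.eq
  obtain ⟨h4, h5⟩ := Prod.ext_iff.1 (S.inj h3)
  have htw : ∀ a : A5, a * (S.κ a)⁻¹ * S.κ (a * (S.κ a)⁻¹) = 1 := fun a => by
    simp [map_mul, map_inv, S.κ_κ]
  obtain ⟨e, hed, he⟩ := S.twist_comm (htw a) h4
  obtain ⟨e', hed', he'⟩ := S.twist_comm (htw b) h5
  rw [he, he', S.conj_c] at hform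
  set e₀ := (S.Φ (e, e'))⁻¹ * kg with he0
  have he0c : e₀ * S.c * e₀⁻¹ = S.c := by
    calc e₀ * S.c * e₀⁻¹ = (S.Φ (e, e'))⁻¹ * (kg * S.c * kg⁻¹) * S.Φ (e, e') := by
          rw [he0]; group
      _ = _ := by rw [hform]; group
  have hers : Commute (S.Φ (e, e')) S.rs :=
    (show Commute ((e, e') : A5 × A5) (d5, d5) from Prod.ext hed hed').map S.Φ
  have hq' : e₀ * S.q * e₀⁻¹ = S.rs := by
    calc e₀ * S.q * e₀⁻¹
        = (S.Φ (e, e'))⁻¹ * ((k : G) * (g * S.q * g⁻¹) * (k : G)⁻¹) * S.Φ (e, e') := by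
          rw [he0, hkg]; group
      _ = (S.Φ (e, e'))⁻¹ * S.rs * S.Φ (e, e') := by rw [h, hkrs.eq, mul_inv_cancel_right]
      _ = S.rs := by rw [mul_assoc, ← hers.eq, inv_mul_cancel_left]
  set y := e₀ * S.Φ (S.θ, S.θ) * e₀⁻¹ with hy
  have hcy : Commute (S.Φ (S.θ, S.θ)) S.c := by
    have hk : S.κ S.θ = S.θ := Subtype.ext (by
      rw [S.hκ, S.hθ, c5_comm, mul_assoc, c5_sq, mul_one])
    show S.Φ (S.θ, S.θ) * S.c = S.c * S.Φ (S.θ, S.θ)
    rw [S.c_Φ, hk]
  have hqy : Commute (S.Φ (S.θ, S.θ)) S.q := (S.q_Φ (S.θ, S.θ)).symm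
  have hyc : y ∈ Subgroup.centralizer ({S.c} : Set G) := by
    rw [Subgroup.mem_centralizer_singleton_iff, ← he0c, hy]
    calc e₀ * S.Φ (S.θ, S.θ) * e₀⁻¹ * (e₀ * S.c * e₀⁻¹)
        = e₀ * (S.Φ (S.θ, S.θ) * S.c) * e₀⁻¹ := by group
      _ = e₀ * (S.c * S.Φ (S.θ, S.θ)) * e₀⁻¹ := by rw [hcy.eq]
      _ = _ := by group
  have hyrs : Commute y S.rs := by
    rw [← hq', hy]
    show e₀ * S.Φ (S.θ, S.θ) * e₀⁻¹ * (e₀ * S.q * e₀⁻¹) =
      e₀ * S.q * e₀⁻¹ * (e₀ * S.Φ (S.θ, S.θ) * e₀⁻¹)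
    calc e₀ * S.Φ (S.θ, S.θ) * e₀⁻¹ * (e₀ * S.q * e₀⁻¹)
        = e₀ * (S.Φ (S.θ, S.θ) * S.q) * e₀⁻¹ := by group
      _ = e₀ * (S.q * S.Φ (S.θ, S.θ)) * e₀⁻¹ := by rw [hqy.eq]
      _ = _ := by group
  have hoy : orderOf y = 3 := by
    rw [hy, ← MulAut.conj_apply, MulEquiv.orderOf_eq, orderOf_injective _ S.inj, Prod.orderOf,
      S.θ_order]; rfl
  obtain ⟨i', j', hij⟩ := S.hCc3 y hyc (by rw [← hoy]; exact pow_orderOf_eq_one y)
  rw [hij] at hyrs
  have h6 : S.Φ ((S.θ ^ i', S.θ ^ j') * (d5, d5)) = S.Φ ((d5, d5) * (S.θ ^ i', S.θ ^ j')) := by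
    rw [map_mul, map_mul]; exact hyrs.eq
  obtain ⟨h7, h8⟩ := Prod.ext_iff.1 (S.inj h6)
  rw [theta_comm_d5 _ S.hθ _ h7, theta_comm_d5 _ S.hθ _ h8, Prod.mk_one_one, map_one] at hij
  rw [hij, orderOf_one] at hoy
  norm_num at hoy

theorem hlong {w : G} (hw : w * w = 1) (g : G) (k : ℕ) (hk : 2 ∣ k) :
    H89.extOne S.ψ (g⁻¹ * w ^ k * g) = 1 := by
  obtain ⟨n, rfl⟩ := hk
  rw [pow_mul, pow_two, hw, one_pow, mul_one, inv_mul_cancel, H89.extOne_of_mem _ (one_mem _)]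
  exact map_one S.ψ

/-- The transfer to the four group. -/
noncomputable def τ : G →* ℤˣ × ℤˣ := MonoidHom.transfer S.ψ

theorem τ_invol {w : G} (hw : w * w = 1) [Fintype (G ⧸ S.H)] [DecidableEq (G ⧸ S.H)] :
    S.τ w = ∏ s ∈ Finset.univ.filter (fun s : G ⧸ S.H => w • s = s),
      H89.extOne S.ψ (s.out⁻¹ * w * s.out) := by
  obtain ⟨n, -, hn⟩ : ∃ n ≤ 1, orderOf w = 2 ^ n :=
    (Nat.dvd_prime_pow Nat.prime_two).1 (orderOf_dvd_of_pow_eq_one (by rw [pow_one, pow_two, hw]))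
  rw [τ, H89.transfer_eq_prod_fixed Nat.prime_two S.ψ w ⟨n, hn⟩ (S.hlong hw)]
  congr 1
  ext s
  simp

theorem ψ_c : H89.extOne S.ψ S.c = (-1, 1) := by
  rw [H89.extOne_of_mem _ S.c_mem, S.ψ_apply S.c_mem (p := 1) (i := true) (j := false) (by simp [X])]
  rfl

theorem ψ_q : H89.extOne S.ψ S.q = (1, -1) := by
  rw [H89.extOne_of_mem _ S.q_mem, S.ψ_apply S.q_mem (p := 1) (i := false) (j := true) (by simp [X])]
  rfl

theorem ψ_cq : H89.extOne S.ψ (S.c * S.q) = (-1, -1) := by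
  rw [H89.extOne_of_mem _ (mul_mem S.c_mem S.q_mem), S.ψ_apply (mul_mem S.c_mem S.q_mem) (p := 1)
    (i := true) (j := true) (by simp [X])]
  rfl

theorem τ_c : S.τ S.c = (-1, 1) := by
  classical
  have : Fintype (G ⧸ S.H) := Fintype.ofFinite _
  rw [S.τ_invol S.hc, Finset.prod_eq_single ((1 : G) : G ⧸ S.H)]
  · rw [H89.extOne_out]
    simpa using S.ψ_c
  · intro s hs hne
    exact absurd (S.c_fixed (Finset.mem_filter.1 hs).2) hne
  · intro h
    exact (h (Finset.mem_filter.2 ⟨Finset.mem_univ _, S.one_fixed S.c_mem⟩)).elim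

theorem q_fixed {s : G ⧸ S.H} (hs : S.q • s = s) :
    (H89.extOne S.ψ (s.out⁻¹ * S.q * s.out)).2 = -1 := by
  set g := s.out with hg
  have hgH : g⁻¹ * S.q * g ∈ S.H := by
    have h1 : ((g : G) : G ⧸ S.H) = ((S.q * g : G) : G ⧸ S.H) := by
      rw [← QuotientGroup.out_eq' s] at hs
      exact hs.symm
    rw [mul_assoc]
    exact QuotientGroup.eq.1 h1
  have h2 : g⁻¹ * S.q * g * (g⁻¹ * S.q * g) = 1 := by
    rw [show g⁻¹ * S.q * g * (g⁻¹ * S.q * g) = g⁻¹ * (S.q * S.q) * g by group, S.hq]; group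
  have hq1 : S.q ≠ 1 := fun h => by
    have := (S.X_not_mem (i := false) (j := true) ⟨1, by simp [X, h]⟩).2
    simp at this
  have h1 : g⁻¹ * S.q * g ≠ 1 := fun h => hq1 (by
    calc S.q = g * (g⁻¹ * S.q * g) * g⁻¹ := by group
      _ = 1 := by rw [h]; group)
  obtain ⟨m, hm, hx⟩ := S.invol_cases hgH h2 h1
  have hback : ∀ x, g⁻¹ * S.q * g = m * x * m⁻¹ → (g * m)⁻¹ * S.q * ((g * m)⁻¹)⁻¹ = x := by
    intro x h
    calc (g * m)⁻¹ * S.q * ((g * m)⁻¹)⁻¹ = m⁻¹ * (g⁻¹ * S.q * g) * m := by group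
      _ = x := by rw [h]; group
  have hval : ∀ x, g⁻¹ * S.q * g = m * x * m⁻¹ →
      H89.extOne S.ψ (g⁻¹ * S.q * g) = H89.extOne S.ψ x := fun x h => by
    have := H89.extOne_conj S.ψ (inv_mem hm) x
    rwa [inv_inv, ← h] at this
  rcases hx with h | h | h | h | h
  · exact absurd (hback _ h) (S.q_not_r _)
  · exact absurd (hback _ h) (S.q_not_rs _)
  · have h5 := S.five_q
    rw [← card_centralizer_conj (g * m)⁻¹ S.q, hback _ h, S.hCc] at h5
    norm_num at h5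
  · rw [hval _ h, S.ψ_q]
  · rw [hval _ h, S.ψ_cq]

theorem τ_q : (S.τ S.q).2 = -1 := by
  classical
  have : Fintype (G ⧸ S.H) := Fintype.ofFinite _
  rw [S.τ_invol S.hq, Prod.snd_prod, Finset.prod_eq_pow_card (b := (-1 : ℤˣ))
    (fun s hs => S.q_fixed (Finset.mem_filter.1 hs).2)]
  apply Odd.neg_one_pow
  rw [← Fintype.card_subtype, ← Nat.card_eq_fintype_card, Nat.odd_iff, ← S.card_fixed_mod S.hq]
  exact Nat.odd_iff.1 S.index_odd

theorem τ_surjective : Function.Surjective S.τ := by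
  intro x
  obtain ⟨a, b⟩ := x
  have hq : S.τ S.q = ((S.τ S.q).1, -1) := Prod.ext rfl S.τ_q
  rcases Int.units_eq_one_or a with rfl | rfl <;> rcases Int.units_eq_one_or b with rfl | rfl
  · exact ⟨1, map_one _⟩
  · rcases Int.units_eq_one_or (S.τ S.q).1 with h | h
    · exact ⟨S.q, by rw [hq, h]⟩
    · exact ⟨S.c * S.q, by rw [map_mul, S.τ_c, hq, h]; rfl⟩
  · exact ⟨S.c, S.τ_c⟩
  · rcases Int.units_eq_one_or (S.τ S.q).1 with h | h
    · exact ⟨S.c * S.q, by rw [map_mul, S.τ_c, hq, h]; rfl⟩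
    · exact ⟨S.q, by rw [hq, h]⟩

omit [Finite G] in
theorem hom_trivial (f : A5 →* ℤˣ × ℤˣ) (a : A5) : f a = 1 := by
  rcases Subgroup.Normal.eq_bot_or_eq_top (inferInstance : f.ker.Normal) with h | h
  · have := Nat.card_le_card_of_injective f ((MonoidHom.ker_eq_bot_iff f).1 h)
    rw [card_A5, Nat.card_prod, Nat.card_eq_fintype_card, Fintype.card_units_int] at this
    omega
  · exact MonoidHom.mem_ker.1 (h ▸ Subgroup.mem_top a)

theorem τ_Φ (p : A5 × A5) : S.τ (S.Φ p) = 1 := by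
  have h : p = (p.1, 1) * (1, p.2) := by simp
  rw [h, map_mul, map_mul]
  have h1 : S.τ (S.Φ (p.1, 1)) = 1 :=
    hom_trivial (S.τ.comp (S.Φ.comp (MonoidHom.inl A5 A5))) p.1
  have h2 : S.τ (S.Φ (1, p.2)) = 1 :=
    hom_trivial (S.τ.comp (S.Φ.comp (MonoidHom.inr A5 A5))) p.2
  rw [h1, h2, one_mul]

theorem ker_inf {g : G} (hg : g ∈ S.H) (h1 : S.τ g = 1) : g ∈ S.Φ.range := by
  obtain ⟨p, i, j, rfl⟩ := S.mem_H.1 hg
  rw [map_mul, S.τ_Φ, one_mul] at h1
  cases i <;> cases j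
  · exact ⟨p, by simp [X]⟩
  · have := congrArg Prod.snd h1
    simp [X, S.τ_q] at this
  · simp [X, S.τ_c] at h1
  · have := congrArg Prod.snd h1
    simp [X, S.τ_q, S.τ_c] at this

theorem mem_of_commute {w m g : G} (hm : m ∈ S.H)
    (hw : Subgroup.centralizer ({w} : Set G) ≤ S.H) (h : Commute g (m * w * m⁻¹)) : g ∈ S.H := by
  have h1 : m⁻¹ * g * m ∈ Subgroup.centralizer ({w} : Set G) := by
    rw [Subgroup.mem_centralizer_singleton_iff]
    calc m⁻¹ * g * m * w = m⁻¹ * (g * (m * w * m⁻¹)) * m := by group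
      _ = m⁻¹ * ((m * w * m⁻¹) * g) * m := by rw [h.eq]
      _ = w * (m⁻¹ * g * m) := by group
  have := mul_mem (mul_mem hm (hw h1)) (inv_mem hm)
  rwa [show m * (m⁻¹ * g * m) * m⁻¹ = g by group] at this

theorem three_local {x : A5 × A5} (hx : x ^ 3 = 1) (hx1 : x ≠ 1) {g : G}
    (hg : Commute g (S.Φ x)) : g ∈ S.H := by
  obtain ⟨a, b⟩ := x
  simp only [pow_three, Prod.ext_iff, Prod.fst_mul, Prod.snd_mul, Prod.fst_one, Prod.snd_one,
    ← mul_assoc] at hx
  have hconj : ∀ e e' u v : A5, S.Φ (e * u * e⁻¹, e' * v * e'⁻¹) =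
      S.Φ (e, e') * S.Φ (u, v) * (S.Φ (e, e'))⁻¹ := fun e e' u v => by
    rw [← map_inv, ← map_mul, ← map_mul]; rfl
  by_cases ha : a = 1
  · subst ha
    have hb : b ≠ 1 := fun h => hx1 (by rw [h]; rfl)
    obtain ⟨e', he'⟩ := three_conj S.θ b S.hθ hx.2 hb
    have hp : ((1 : A5), b) = (1 * 1 * 1⁻¹, e' * S.θ * e'⁻¹) := by simp [he']
    rw [hp, hconj] at hg
    exact S.mem_of_commute (S.range_le ⟨_, rfl⟩) S.hC2 hg
  · obtain ⟨e, he⟩ := three_conj S.θ a S.hθ hx.1 ha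
    by_cases hb : b = 1
    · subst hb
      have hp : (a, (1 : A5)) = (e * S.θ * e⁻¹, 1 * 1 * 1⁻¹) := by simp [he]
      rw [hp, hconj] at hg
      exact S.mem_of_commute (S.range_le ⟨_, rfl⟩) S.hC1 hg
    · obtain ⟨e', he'⟩ := three_conj S.θ b S.hθ hx.2 hb
      have hp : (a, b) = (e * S.θ * e⁻¹, e' * S.θ * e'⁻¹) := by rw [he, he']
      rw [hp, hconj] at hg
      exact S.mem_of_commute (S.range_le ⟨_, rfl⟩) S.hC12 hg

theorem result_index (endgame : ∀ (K : Type u) [Group K] [Finite K] (Φ : A5 × A5 →* K),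
      Function.Injective Φ → Odd Φ.range.index →
      (∀ x : A5 × A5, x ^ 3 = 1 → x ≠ 1 →
        Subgroup.centralizer ({Φ x} : Set K) ≤ Φ.range) → Φ.range = ⊤) :
    S.Φ.range.Normal ∧ S.Φ.range.index = 4 ∧ ∀ g : G, g * g ∈ S.Φ.range := by
  set Φ₀ : A5 × A5 →* S.τ.ker := S.Φ.codRestrict S.τ.ker (fun p => S.τ_Φ p) with hΦ₀
  have hinj : Function.Injective Φ₀ := fun x y h => S.inj (congrArg Subtype.val h)
  have hidx : S.τ.ker.index = 4 := by
    rw [Subgroup.index_ker, MonoidHom.range_eq_top.2 S.τ_surjective, Subgroup.card_top,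
      Nat.card_prod, Nat.card_eq_fintype_card, Fintype.card_units_int]
  have h0 : Φ₀.range.index = S.H.index := by
    have h1 := Φ₀.range.card_mul_index
    have h2 := S.τ.ker.card_mul_index
    rw [← Nat.card_congr (MonoidHom.ofInjective hinj).toEquiv, Nat.card_prod, card_A5] at h1
    rw [hidx, S.card_G] at h2
    omega
  have htop := endgame S.τ.ker Φ₀ hinj (h0 ▸ S.index_odd) (by
    intro x hx hx1 k hk
    have hk' : Commute (k : G) (S.Φ x) :=
      congrArg Subtype.val (Subgroup.mem_centralizer_singleton_iff.1 hk)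
    obtain ⟨p, hp⟩ := S.ker_inf (S.three_local hx hx1 hk') k.2
    exact ⟨p, Subtype.ext hp⟩)
  have heq : S.Φ.range = S.τ.ker := by
    refine le_antisymm (fun _ ⟨p, hp⟩ => hp ▸ S.τ_Φ p) fun g hg => ?_
    obtain ⟨p, hp⟩ : (⟨g, hg⟩ : S.τ.ker) ∈ Φ₀.range := htop ▸ Subgroup.mem_top _
    exact ⟨p, congrArg Subtype.val hp⟩
  rw [heq]
  refine ⟨inferInstance, hidx, fun g => MonoidHom.mem_ker.2 ?_⟩
  rw [map_mul]
  exact Prod.ext (Int.units_mul_self _) (Int.units_mul_self _)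

end Fin

end Setup

/-- The index four branch: the subgroup isomorphic to `A5 × A5` is normal of index four and
contains every square, given the odd index endgame. -/
theorem index_four {G : Type u} [Group G] [Finite G]
    (Φ : alternatingGroup (Fin 5) × alternatingGroup (Fin 5) →* G) (hinj : Function.Injective Φ)
    (κ : MulAut (alternatingGroup (Fin 5)))
    (hκ : ∀ a, ((κ a : alternatingGroup (Fin 5)) : Perm (Fin 5)) = c5 * a * c5)
    (θ : alternatingGroup (Fin 5)) (hθ : (θ : Perm (Fin 5)) = t5)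
    (c q : G) (hc : c * c = 1) (hc1 : c ≠ 1) (hq : q * q = 1) (hcq : Commute c q)
    (hΦc : ∀ a b, c * Φ (a, b) * c = Φ (κ a, κ b))
    (hΦq : ∀ a b, q * Φ (a, b) * q = Φ (b, a))
    (hcM : c ∉ Φ.range)
    (hCc : Nat.card (Subgroup.centralizer ({c} : Set G)) = 144)
    (hCcH : Subgroup.centralizer ({c} : Set G) ≤ Subgroup.closure ((Φ.range : Set G) ∪ {c, q}))
    (hCc3 : ∀ g ∈ Subgroup.centralizer ({c} : Set G), g ^ 3 = 1 →
      ∃ i j : ℕ, g = Φ (θ ^ i, θ ^ j))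
    (hC1 : Subgroup.centralizer ({Φ (θ, 1)} : Set G) ≤ Subgroup.closure ((Φ.range : Set G) ∪ {c, q}))
    (hC2 : Subgroup.centralizer ({Φ (1, θ)} : Set G) ≤ Subgroup.closure ((Φ.range : Set G) ∪ {c, q}))
    (hC12 : Subgroup.centralizer ({Φ (θ, θ)} : Set G) ≤ Subgroup.closure ((Φ.range : Set G) ∪ {c, q}))
    (h360 : Nat.card (Subgroup.centralizer ({Φ (θ, 1)} : Set G)) = 360)
    (h36 : Nat.card (Subgroup.centralizer ({Φ (θ, θ)} : Set G)) = 36)
    (h27 : ¬ 27 ∣ Nat.card G)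
    (hCD : ∀ g : G, Commute g (Φ (θ, 1)) → Commute g (Φ (1, θ)) → g * g = 1 → g = 1 ∨ g = c)
    (endgame : ∀ (K : Type u) [Group K] [Finite K]
      (Ψ : alternatingGroup (Fin 5) × alternatingGroup (Fin 5) →* K),
      Function.Injective Ψ → Odd Ψ.range.index →
      (∀ x : alternatingGroup (Fin 5) × alternatingGroup (Fin 5), x ^ 3 = 1 → x ≠ 1 →
        Subgroup.centralizer ({Ψ x} : Set K) ≤ Ψ.range) → Ψ.range = ⊤) :
    Φ.range.Normal ∧ Φ.range.index = 4 ∧ ∀ g : G, g * g ∈ Φ.range :=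
  Setup.result_index (⟨Φ, hinj, κ, hκ, θ, hθ, c, q, hc, hc1, hq, hcq, hΦc, hΦq, hcM, hCc, hCcH,
    hCc3, hC1, hC2, hC12, h360, h36, h27, hCD⟩ : Setup G) endgame

end Cfsg.Agent.H87.SymEight
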