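import Mathlib
import Cfsg.Prelude.Def_OddOrderLocal

set_option autoImplicit false
open Pointwise

namespace Cfsg.Agent.H87

/-- If all element centralizers are TI then the Sylow subgroups are TI. -/
theorem sylow_ti_of_centralizer_ti {G : Type*} [Group G] [Finite G]
    (hTI : ∀ x : G, Cfsg.IsTISubset (Subgroup.centralizer ({x} : Set G) : Set G))
    {p : ℕ} [Fact p.Prime] (P Q : Sylow p G) (hPQ : P ≠ Q) :
    (P : Subgroup G) ⊓ (Q : Subgroup G) = ⊥ := by
  by_contra hD
  obtain ⟨d, hd, hd1⟩ := (Subgroup.bot_or_exists_ne_one _).resolve_left hD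
  obtain ⟨hdP, hdQ⟩ := hd
  haveI : Nontrivial (P : Subgroup G) := ⟨⟨⟨d, hdP⟩, 1, fun e => hd1 (congrArg Subtype.val e)⟩⟩
  haveI : Nontrivial (Subgroup.center (P : Subgroup G)) := P.isPGroup'.center_nontrivial
  obtain ⟨⟨⟨z, hzP⟩, hzZ⟩, hz1⟩ := exists_ne (1 : Subgroup.center (P : Subgroup G))
  have hz1' : z ≠ 1 := fun e => hz1 (Subtype.ext (Subtype.ext e))
  set M := Subgroup.centralizer ({z} : Set G)
  have hPM : (P : Subgroup G) ≤ M := fun u hu => Subgroup.mem_centralizer_singleton_iff.2
    (congrArg Subtype.val (Subgroup.mem_center_iff.1 hzZ ⟨u, hu⟩))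
  obtain ⟨g, hg⟩ := MulAction.exists_smul_eq G P Q
  have hQmem : ∀ x ∈ (Q : Subgroup G), g⁻¹ * x * g ∈ (P : Subgroup G) := by
    intro x hx
    have h : x ∈ MulAut.conj g • (P : Subgroup G) := by
      rw [← hg] at hx; exact hx
    rw [Subgroup.mem_pointwise_smul_iff_inv_smul_mem] at h
    simpa [MulAut.smul_def] using h
  have hgN : g⁻¹ ∈ Subgroup.normalizer (M : Set G) := by
    by_contra hgN
    exact hd1 (hTI z g⁻¹ hgN d (hPM hdP) (hPM (by simpa using hQmem d hdQ)))
  have hQM : (Q : Subgroup G) ≤ M := fun x hx => by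
    have := (Subgroup.mem_normalizer_iff.1 hgN x).2 (by simpa using hPM (hQmem x hx))
    exact this
  apply hPQ
  have hle : (Q : Subgroup G) ≤ (P : Subgroup G) := by
    intro x hx
    let S : Set G := {y | ∃ m ∈ M, y = m * x * m⁻¹}
    -- the conjugates of `x` under `M` commute pairwise
    have hnormal : ∀ m ∈ M, m ∈ Subgroup.normalizer (Subgroup.centralizer ({x} : Set G) : Set G) := by
      intro m hm
      by_contra hmN
      have hzx : z ∈ Subgroup.centralizer ({x} : Set G) := Subgroup.mem_centralizer_singleton_iff.2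
        (Subgroup.mem_centralizer_singleton_iff.1 (hQM hx)).symm
      refine hz1' (hTI x m hmN z hzx ?_)
      have hmz : m * z = z * m := Subgroup.mem_centralizer_singleton_iff.1 hm
      rw [hmz, mul_inv_cancel_right]; exact hzx
    have hcomm : ∀ m ∈ M, Commute (m * x * m⁻¹) x := by
      intro m hm
      have hxx : x ∈ Subgroup.centralizer ({x} : Set G) :=
        Subgroup.mem_centralizer_singleton_iff.2 rfl
      exact Subgroup.mem_centralizer_singleton_iff.1
        ((Subgroup.mem_normalizer_iff.1 (hnormal m hm) x).1 hxx)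
    have hSS : ∀ a ∈ S, ∀ b ∈ S, a * b = b * a := by
      rintro a ⟨m, hm, rfl⟩ b ⟨m', hm', rfl⟩
      have h := (Commute.conj_iff m').2 (hcomm (m'⁻¹ * m) (mul_mem (inv_mem hm') hm))
      simpa [mul_assoc] using h.eq
    let C2 := Subgroup.centralizer ((Subgroup.centralizer S : Subgroup G) : Set G)
    let W : Subgroup G :=
      { carrier := {w | w ∈ C2 ∧ ∃ k : ℕ, w ^ p ^ k = 1}
        one_mem' := ⟨one_mem _, 0, by simp⟩
        inv_mem' := fun {a} ⟨ha, k, hk⟩ => ⟨inv_mem ha, k, by rw [inv_pow, hk, inv_one]⟩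
        mul_mem' := fun {a b} ⟨ha, k, hk⟩ ⟨hb, l, hl⟩ => ⟨mul_mem ha hb, k + l, by
          have haS : a ∈ Subgroup.centralizer S := Subgroup.mem_centralizer_iff.2 fun s hs =>
            Subgroup.mem_centralizer_iff.1 ha s (Subgroup.mem_centralizer_iff.2 fun t ht => hSS t ht s hs)
          have hab : Commute a b := Subgroup.mem_centralizer_iff.1 hb a haS
          rw [hab.mul_pow, pow_add, pow_mul, hk, one_pow, one_mul, ← pow_add, add_comm, pow_add,
            pow_mul, hl, one_pow]⟩ }
    have hSW : S ⊆ W := by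
      rintro a ⟨m, hm, rfl⟩
      refine ⟨Subgroup.mem_centralizer_iff.2 fun t ht =>
        (Subgroup.mem_centralizer_iff.1 ht _ ⟨m, hm, rfl⟩).symm, ?_⟩
      obtain ⟨k, hk⟩ := Q.isPGroup' ⟨x, hx⟩
      exact ⟨k, by rw [conj_pow, show x ^ p ^ k = 1 from congrArg Subtype.val hk]; group⟩
    let R := Subgroup.closure S
    have hR : IsPGroup p R := fun ⟨r, hr⟩ => by
      obtain ⟨-, k, hk⟩ := ((Subgroup.closure_le W).2 hSW hr : r ∈ W)
      exact ⟨k, Subtype.ext hk⟩
    have hPR : (P : Subgroup G) ≤ Subgroup.normalizer (R : Set G) := by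
      intro u hu
      have key : ∀ u ∈ (P : Subgroup G), ∀ r ∈ R, u * r * u⁻¹ ∈ R := by
        intro u hu r hr
        have : R ≤ R.comap (MulAut.conj u).toMonoidHom := by
          rw [Subgroup.closure_le]
          rintro a ⟨m, hm, rfl⟩
          apply Subgroup.subset_closure
          exact ⟨u * m, mul_mem (hPM hu) hm, by simp [mul_assoc]⟩
        exact this hr
      rw [Subgroup.mem_normalizer_iff]
      intro r
      refine ⟨key u hu r, fun h => ?_⟩
      simpa [mul_assoc] using key u⁻¹ (inv_mem hu) _ h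
    have hsup := IsPGroup.to_sup_of_normal_right' P.isPGroup' hR hPR
    have := P.is_maximal' hsup le_sup_left
    rw [← this]
    exact le_sup_right (a := (P : Subgroup G)) (Subgroup.subset_closure ⟨1, one_mem _, by simp⟩)
  exact Sylow.ext (Q.is_maximal' P.isPGroup' hle)

end Cfsg.Agent.H87
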