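import Mathlib
import Cfsg.Agent.H86.Basic

/-!
A finite group has at most `|G|_π` classes of `π`-elements.
-/

set_option autoImplicit false
open scoped Pointwise

namespace Cfsg.Agent.H87

/-- Number of classes of elements whose order only involves primes of `s` is at most the
`s`-part of the group order. -/
theorem card_supported_classes_le (s : Finset ℕ) (hs : ∀ r ∈ s, r.Prime) :
    ∀ (G : Type*) [Group G] [Finite G],
      Nat.card {C : ConjClasses G //
        ∀ g : G, ConjClasses.mk g = C → ∀ q : ℕ, q.Prime → q ∣ orderOf g → q ∈ s} ≤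
      ∏ r ∈ s, r ^ (Nat.card G).factorization r := by
  classical
  induction s using Finset.induction with
  | empty =>
    intro G _ _
    rw [Finset.prod_empty]
    have : ∀ C : {C : ConjClasses G //
        ∀ g : G, ConjClasses.mk g = C → ∀ q : ℕ, q.Prime → q ∣ orderOf g → q ∈ (∅ : Finset ℕ)},
        C.1 = ConjClasses.mk 1 := by
      rintro ⟨C, hC⟩
      obtain ⟨g, rfl⟩ := ConjClasses.exists_rep C
      have h1 : orderOf g = 1 := by
        by_contra h
        obtain ⟨q, hq, hd⟩ := Nat.exists_prime_and_dvd h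
        simpa using hC g rfl q hq hd
      show ConjClasses.mk g = _
      rw [orderOf_eq_one_iff.1 h1]
    haveI : Subsingleton {C : ConjClasses G //
        ∀ g : G, ConjClasses.mk g = C → ∀ q : ℕ, q.Prime → q ∣ orderOf g → q ∈ (∅ : Finset ℕ)} :=
      ⟨fun a b => Subtype.ext ((this a).trans (this b).symm)⟩
    exact Finite.card_le_one_iff_subsingleton.2 inferInstance
  | insert p s hp ih =>
    intro G _ _
    have hpp : p.Prime := hs p (Finset.mem_insert_self p s)
    haveI := Fact.mk hpp
    specialize ih (fun r hr => hs r (Finset.mem_insert_of_mem hr))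
    obtain ⟨P⟩ : Nonempty (Sylow p G) := inferInstance
    -- each class has a representative with `p`-part in `P`
    have hrep : ∀ C : {C : ConjClasses G //
        ∀ g : G, ConjClasses.mk g = C → ∀ q : ℕ, q.Prime → q ∣ orderOf g → q ∈ insert p s},
        ∃ (y z : G), y ∈ (P : Subgroup G) ∧ z ∈ Subgroup.centralizer ({y} : Set G) ∧
          ConjClasses.mk (y * z) = C.1 ∧ ∀ q : ℕ, q.Prime → q ∣ orderOf z → q ∈ s := by
      rintro ⟨C, hC⟩
      obtain ⟨g, rfl⟩ := ConjClasses.exists_rep C
      obtain ⟨y, z, hy, hz, hyz, ⟨k, hk⟩, hzp⟩ :=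
        Cfsg.Agent.H86.exists_pPart_mul_pPrimePart g (isOfFinOrder_of_finite g) hpp
      have hY : IsPGroup p (Subgroup.zpowers y) := IsPGroup.of_card (by rw [Nat.card_zpowers, hk])
      obtain ⟨Q, hQ⟩ := hY.exists_le_sylow
      obtain ⟨c, hc⟩ := MulAction.exists_smul_eq G P Q
      have hyP : c⁻¹ * y * c ∈ (P : Subgroup G) := by
        have h : y ∈ MulAut.conj c • (P : Subgroup G) := by
          rw [← hc] at hQ; exact hQ (Subgroup.mem_zpowers y)
        rw [Subgroup.mem_pointwise_smul_iff_inv_smul_mem] at h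
        simpa [MulAut.smul_def] using h
      have hcomm : Commute y z := by
        obtain ⟨i, rfl⟩ := hy
        obtain ⟨j, rfl⟩ := hz
        exact (Commute.refl g).zpow_zpow i j
      refine ⟨c⁻¹ * y * c, c⁻¹ * z * c, hyP, ?_, ?_, ?_⟩
      · rw [Subgroup.mem_centralizer_singleton_iff]
        calc c⁻¹ * z * c * (c⁻¹ * y * c) = c⁻¹ * (z * y) * c := by group
          _ = _ := by rw [← hcomm.eq]; group
      · rw [ConjClasses.mk_eq_mk_iff_isConj, isConj_iff]
        exact ⟨c, by rw [← hyz]; group⟩
      · intro q hq hd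
        have hd' : q ∣ orderOf z := by
          rwa [show c⁻¹ * z * c = MulAut.conj c⁻¹ z by simp, MulEquiv.orderOf_eq] at hd
        have hqg : q ∣ orderOf g := hd'.trans (orderOf_dvd_of_mem_zpowers hz)
        rcases Finset.mem_insert.1 (hC g rfl q hq hqg) with rfl | h
        · exact absurd (Nat.eq_one_of_dvd_coprimes hzp hd' dvd_rfl) hq.ne_one
        · exact h
    choose Y Z hY hZ hYZ hZs using hrep
    let f : {C : ConjClasses G //
        ∀ g : G, ConjClasses.mk g = C → ∀ q : ℕ, q.Prime → q ∣ orderOf g → q ∈ insert p s} →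
        Σ y : (P : Subgroup G), {C : ConjClasses (Subgroup.centralizer ({(y : G)} : Set G)) //
          ∀ g, ConjClasses.mk g = C → ∀ q : ℕ, q.Prime → q ∣ orderOf g → q ∈ s} := fun C =>
      ⟨⟨Y C, hY C⟩, ConjClasses.mk ⟨Z C, hZ C⟩, fun g hg q hq hd => by
        obtain ⟨c, rfl⟩ := isConj_iff.1 (ConjClasses.mk_eq_mk_iff_isConj.1 hg.symm)
        apply hZs C q hq
        rw [← MulAut.conj_apply, MulEquiv.orderOf_eq, ← Subgroup.orderOf_coe] at hd
        exact hd⟩
    have hf : Function.Injective f := by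
      intro C C' h
      have h1 : Y C = Y C' := congrArg (fun z => ((z.1 : (P : Subgroup G)) : G)) h
      have h2 : ∃ c : G, c ∈ Subgroup.centralizer ({Y C'} : Set G) ∧ c * Z C * c⁻¹ = Z C' := by
        have key : ∀ (a b : (P : Subgroup G))
            (u : Subgroup.centralizer ({(a : G)} : Set G)) (v : Subgroup.centralizer ({(b : G)} : Set G))
            (hu : ∀ g, ConjClasses.mk g = ConjClasses.mk u → ∀ q : ℕ, q.Prime → q ∣ orderOf g → q ∈ s)
            (hv : ∀ g, ConjClasses.mk g = ConjClasses.mk v → ∀ q : ℕ, q.Prime → q ∣ orderOf g → q ∈ s),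
            (⟨a, ConjClasses.mk u, hu⟩ : Σ y : (P : Subgroup G),
              {C : ConjClasses (Subgroup.centralizer ({(y : G)} : Set G)) //
              ∀ g, ConjClasses.mk g = C → ∀ q : ℕ, q.Prime → q ∣ orderOf g → q ∈ s}) =
              ⟨b, ConjClasses.mk v, hv⟩ →
            ∃ c : G, c ∈ Subgroup.centralizer ({(b : G)} : Set G) ∧ c * u * c⁻¹ = v := by
          intro a b u v hu hv hh
          obtain ⟨rfl, h'⟩ := Sigma.mk.inj hh
          obtain ⟨c, hc⟩ := isConj_iff.1 (ConjClasses.mk_eq_mk_iff_isConj.1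
            (congrArg Subtype.val (eq_of_heq h')))
          exact ⟨c, c.2, congrArg Subtype.val hc⟩
        exact key _ _ _ _ _ _ h
      obtain ⟨c, hc, hc'⟩ := h2
      apply Subtype.ext
      rw [← hYZ C, ← hYZ C', ConjClasses.mk_eq_mk_iff_isConj, isConj_iff]
      refine ⟨c, ?_⟩
      have hcy : c * Y C' = Y C' * c := Subgroup.mem_centralizer_singleton_iff.1 hc
      calc c * (Y C * Z C) * c⁻¹ = (c * Y C') * (Z C) * c⁻¹ := by rw [h1]; group
        _ = Y C' * (c * Z C * c⁻¹) := by rw [hcy]; group
        _ = _ := by rw [hc']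
    letI := Fintype.ofFinite G
    letI := Fintype.ofFinite (P : Subgroup G)
    refine (Nat.card_le_card_of_injective f hf).trans ?_
    rw [Nat.card_sigma, Finset.prod_insert hp, ← P.card_eq_multiplicity]
    calc ∑ y : (P : Subgroup G), Nat.card {C : ConjClasses (Subgroup.centralizer ({(y : G)} : Set G)) //
          ∀ g, ConjClasses.mk g = C → ∀ q : ℕ, q.Prime → q ∣ orderOf g → q ∈ s}
        ≤ ∑ _y : (P : Subgroup G), ∏ r ∈ s, r ^ (Nat.card G).factorization r := by
          refine Finset.sum_le_sum fun y _ => (ih _).trans (Finset.prod_le_prod' fun r hr => ?_)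
          exact Nat.pow_le_pow_right (hs r (Finset.mem_insert_of_mem hr)).pos
            ((Nat.factorization_le_iff_dvd Nat.card_pos.ne' Nat.card_pos.ne').2
              (Subgroup.card_subgroup_dvd_card _) r)
      _ = _ := by rw [Finset.sum_const, Finset.card_univ, smul_eq_mul, ← Nat.card_eq_fintype_card]

end Cfsg.Agent.H87
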