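import Mathlib
import Cfsg.Agent.H25.CharIntegral
import Cfsg.Agent.H26.CharLinear

/-!
# A bound on the number of automorphism orbits of a non-abelian group

If `|G'| > p` (`p` the least prime divisor of `|G|`) then already the class number is at most
`|G| / p`. If `|G'| = p` then `G'` is central and there is an automorphism moving at least half
of the cosets of `G'`.
-/

set_option autoImplicit false

open scoped commutatorElement

namespace Cfsg.Agent.H87

variable {G : Type*} [Group G] [Finite G]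

theorem classNumber_sq_mul_le :
    (Nat.card G).minFac ^ 2 * Nat.card (ConjClasses G) ≤
      Nat.card G + ((Nat.card G).minFac ^ 2 - 1) * (commutator G).index := by
  classical
  haveI := Fintype.ofFinite G
  set p := (Nat.card G).minFac with hp
  choose deg hdeg using fun φ : Cfsg.IrrCharacter G =>
    H26.exists_nat_char_one (H26.irr_isCharacter φ)
  have hsq : (∑ φ : Cfsg.IrrCharacter G, φ.1 1 ^ 2) = (Nat.card G : ℂ) := H26.sum_sq_degrees
  simp only [hdeg] at hsq
  have hsq' : ∑ φ : Cfsg.IrrCharacter G, deg φ ^ 2 = Nat.card G := by exact_mod_cast hsq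
  have hdvd : ∀ φ, deg φ ∣ Nat.card G := fun φ => by
    obtain ⟨n, ρ, hρ, e⟩ := φ.2
    haveI := hρ
    have h2 := H25.finrank_dvd_card ρ
    have h3 := hdeg φ
    rw [← e, ρ.char_one] at h3
    rwa [← (Nat.cast_injective h3 : _ = deg φ)]
  have hpt : ∀ φ : Cfsg.IrrCharacter G,
      p ^ 2 ≤ deg φ ^ 2 + (p ^ 2 - 1) * (if deg φ = 1 then 1 else 0) := by
    intro φ
    have hp0 : 1 ≤ p ^ 2 := Nat.one_le_pow _ _ (Nat.minFac_pos _)
    by_cases h : deg φ = 1
    · rw [h, if_pos rfl]; omega
    · rw [if_neg h, mul_zero, add_zero]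
      refine Nat.pow_le_pow_left (Nat.minFac_le_of_dvd ?_ (hdvd φ)) 2
      have : deg φ ≠ 0 := fun h0 => Nat.card_pos.ne' (Nat.eq_zero_of_zero_dvd (h0 ▸ hdvd φ))
      omega
  have hlin : (Finset.univ.filter fun φ => deg φ = 1).card = (commutator G).index := by
    rw [← H26.card_linear_irr, Nat.card_eq_fintype_card, Fintype.card_subtype]
    congr 1
    ext φ
    simp [hdeg φ]
  have := Finset.sum_le_sum fun φ (_ : φ ∈ Finset.univ) => hpt φ
  rw [Finset.sum_add_distrib, hsq', ← Finset.mul_sum, Finset.sum_boole, Finset.sum_const,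
    smul_eq_mul, Finset.card_univ, ← Nat.card_eq_fintype_card,
    H26.card_irr_eq_card_conjClasses] at this
  simp only [Nat.cast_id, hlin] at this
  rwa [mul_comm] at this

omit [Finite G] in
theorem orbit_mk_eq_of_isConj {a b : G} (h : IsConj a b) :
    (Quotient.mk _ a : MulAction.orbitRel.Quotient (MulAut G) G) = Quotient.mk _ b := by
  obtain ⟨c, hc⟩ := isConj_iff.1 h
  refine Quotient.sound (s := MulAction.orbitRel (MulAut G) G) ⟨(MulAut.conj c)⁻¹, ?_⟩
  show (MulAut.conj c)⁻¹ b = a
  rw [← hc]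
  exact (MulAut.conj c).symm_apply_apply a

theorem card_orbits_le_classNumber :
    Nat.card (MulAction.orbitRel.Quotient (MulAut G) G) ≤ Nat.card (ConjClasses G) := by
  haveI : Finite (ConjClasses G) := Finite.of_surjective _ ConjClasses.mk_surjective
  refine Nat.card_le_card_of_surjective
    (Quotient.lift (fun g : G => (Quotient.mk _ g : MulAction.orbitRel.Quotient (MulAut G) G))
      fun a b h => orbit_mk_eq_of_isConj h) ?_
  intro q
  obtain ⟨g, rfl⟩ := Quotient.mk_surjective q
  exact ⟨ConjClasses.mk g, rfl⟩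

/-- The conjugacy class of a non-central element has at least `minFac |G|` elements. -/
theorem minFac_le_class {g : G} (hg : g ∉ Subgroup.center G) :
    (Nat.card G).minFac ≤ Nat.card {h : G // IsConj g h} := by
  have e : Nat.card {h : G // IsConj g h} = Nat.card (MulAction.orbit (ConjAct G) g) := by
    refine Nat.card_congr (Equiv.subtypeEquivRight fun h => ?_)
    rw [ConjAct.mem_orbit_conjAct, isConj_comm]
  rw [e]
  refine Nat.minFac_le_of_dvd ?_ ?_
  · by_contra hlt
    refine hg (Subgroup.mem_center_iff.2 fun c => ?_)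
    have hs : Subsingleton (MulAction.orbit (ConjAct G) g) := by
      rw [← Finite.card_le_one_iff_subsingleton]; omega
    have := congrArg Subtype.val (hs.elim ⟨ConjAct.toConjAct c • g, MulAction.mem_orbit _ _⟩
      ⟨g, MulAction.mem_orbit_self _⟩)
    simp only [ConjAct.toConjAct_smul] at this
    exact mul_inv_eq_iff_eq_mul.1 this
  · rw [Nat.card_congr (MulAction.orbitEquivQuotientStabilizer (ConjAct G) g),
      ← Subgroup.index_eq_card]
    exact (Subgroup.index_dvd_card _).trans (dvd_of_eq (Nat.card_congr ConjAct.ofConjAct.toEquiv))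

/-- Twisting by a function on the cosets of `C_G(t)`. -/
theorem exists_twist {p : ℕ} (hp : p.Prime) (hG' : Nat.card (commutator G) = p)
    (hcen : commutator G ≤ Subgroup.center G) {z t : G} (hz : z ≠ 1) (hzG : z ∈ commutator G)
    (ht : t ∉ Subgroup.center G) (E : ℤ → G) (hEt : ∀ i, E i * t = t * E i)
    (hEp : E p = 1)
    (hE : ∀ i j h, h * t * h⁻¹ = z ^ j * t → E i * h * E j = h * E (i + j))
    (hE' : ∀ i : ℤ, ¬ (p : ℤ) ∣ i → E i ∉ commutator G) :
    ∃ α : MulAut G, ∃ g, g⁻¹ * α g ∉ commutator G := by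
  haveI := Fact.mk hp
  have hord : orderOf z = p := by
    have h : (⟨z, hzG⟩ : commutator G) ≠ 1 := fun h => hz (congrArg Subtype.val h)
    have := orderOf_dvd_natCard (⟨z, hzG⟩ : commutator G)
    rw [hG'] at this
    rw [← Subgroup.orderOf_mk z hzG]
    exact ((hp.eq_one_or_self_of_dvd _ this).resolve_left fun h' => h (orderOf_eq_one_iff.1 h'))
  have hex : ∀ g : G, ∃ i : ℤ, g * t * g⁻¹ = z ^ i * t := by
    intro g
    obtain ⟨i, hi⟩ := mem_zpowers_of_prime_card hG' (g := (⟨z, hzG⟩ : commutator G))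
      (fun h => hz (congrArg Subtype.val h))
      (g' := ⟨⁅g, t⁆, Subgroup.commutator_mem_commutator (Subgroup.mem_top g)
        (Subgroup.mem_top t)⟩)
    refine ⟨i, ?_⟩
    have hi' : z ^ i = ⁅g, t⁆ := congrArg Subtype.val hi
    rw [hi', commutatorElement_def]; group
  choose ι hι using hex
  have hzp : z ^ (p : ℤ) = 1 := by rw [zpow_natCast, ← hord, pow_orderOf_eq_one]
  have hper : ∀ i, E (i + p) = E i := fun i => by
    have := hE i p 1 (by rw [hzp]; group)
    rw [hEp, mul_one, mul_one, one_mul] at this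
    exact this.symm
  have hmod : ∀ i j : ℤ, (p : ℤ) ∣ i - j → E i = E j := by
    intro i j h
    obtain ⟨k, hk⟩ := h
    have hP : Function.Periodic E (p : ℤ) := hper
    have := hP.int_mul k j
    rw [Int.cast_id] at this
    rw [show i = j + k * (p : ℤ) by linarith]
    exact this
  have hzeq : ∀ i j : ℤ, z ^ i = z ^ j → (p : ℤ) ∣ i - j := fun i j h => by
    rw [← hord, orderOf_dvd_iff_zpow_eq_one, zpow_sub, h, mul_inv_cancel]
  have hzc : ∀ (i : ℤ) (g : G), g * z ^ i = z ^ i * g := fun i g =>
    Subgroup.mem_center_iff.1 (zpow_mem (hcen hzG) i) g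
  have hmulι : ∀ g h, (p : ℤ) ∣ ι g + ι h - ι (g * h) := fun g h => by
    refine hzeq _ _ ?_
    have h1 : g * h * t * (g * h)⁻¹ = z ^ (ι g + ι h) * t := by
      calc g * h * t * (g * h)⁻¹ = g * (h * t * h⁻¹) * g⁻¹ := by group
        _ = (g * z ^ ι h) * t * g⁻¹ := by rw [hι]; group
        _ = z ^ ι h * (g * t * g⁻¹) := by rw [hzc]; group
        _ = _ := by rw [hι, ← mul_assoc, ← zpow_add, add_comm]
    rw [hι] at h1
    exact (mul_right_cancel h1).symm
  let f : G →* G := MonoidHom.mk' (fun g => g * E (ι g)) fun g h => by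
    show g * h * E (ι (g * h)) = g * E (ι g) * (h * E (ι h))
    rw [← hmod _ _ (hmulι g h)]
    have := hE (ι g) (ι h) h (hι h)
    calc g * h * E (ι g + ι h) = g * (h * E (ι g + ι h)) := by group
      _ = g * (E (ι g) * h * E (ι h)) := by rw [this]
      _ = _ := by group
  have hE0 : E 0 = 1 := by rw [← hEp]; exact hmod _ _ ⟨-1, by ring⟩
  have hinj : Function.Injective f := by
    refine (injective_iff_map_eq_one f).2 fun g hg => ?_
    change g * E (ι g) = 1 at hg
    have hgE : g = (E (ι g))⁻¹ := eq_inv_of_mul_eq_one_left hg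
    have hc : g * t * g⁻¹ = t := by
      have h1 : E (ι g) * t = t * E (ι g) := hEt _
      rw [hgE, inv_inv, mul_assoc, ← h1, inv_mul_cancel_left]
    rw [hι] at hc
    have : z ^ ι g = z ^ (0 : ℤ) := by rw [zpow_zero]; exact mul_eq_right.1 hc
    rw [hgE, hmod _ 0 (hzeq _ _ this), hE0, inv_one]
  obtain ⟨g, hg⟩ : ∃ g, g * t ≠ t * g := by
    by_contra h
    push_neg at h
    exact ht (Subgroup.mem_center_iff.2 h)
  refine ⟨MulEquiv.ofBijective f ⟨hinj, Finite.surjective_of_injective hinj⟩, g, ?_⟩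
  show g⁻¹ * (g * E (ι g)) ∉ _
  rw [inv_mul_cancel_left]
  refine hE' _ fun h => hg ?_
  rw [← hord, orderOf_dvd_iff_zpow_eq_one] at h
  have := hι g
  rw [h, one_mul] at this
  exact mul_inv_eq_iff_eq_mul.1 this

/-- Some automorphism moves a coset of `G'`, if `|G'| = p` is the least prime dividing `|G|`. -/
theorem exists_aut_moving {p : ℕ} (hp : p.Prime) (hG' : Nat.card (commutator G) = p)
    (hcen : commutator G ≤ Subgroup.center G) :
    ∃ α : MulAut G, ∃ g, g⁻¹ * α g ∉ commutator G := by
  classical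
  haveI := Fact.mk hp
  have : Nontrivial (commutator G) := by
    rw [← Finite.one_lt_card_iff_nontrivial, hG']; exact hp.one_lt
  obtain ⟨⟨z, hzG⟩, hz⟩ := exists_ne (1 : commutator G)
  have hz : z ≠ 1 := fun h => hz (Subtype.ext h)
  obtain ⟨t₀, g₀, hnc⟩ : ∃ a b : G, a * b ≠ b * a := by
    by_contra h
    push_neg at h
    have : commutator G = ⊥ := by
      rw [commutator_def, Subgroup.commutator_eq_bot_iff_le_centralizer]
      exact fun a _ b _ => h b a
    rw [this, Subgroup.card_bot] at hG'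
    exact hp.one_lt.ne hG'
  by_cases hA : ∃ a ∈ Subgroup.center G, a ^ p = 1 ∧ a ∉ commutator G
  · obtain ⟨a, hac, hap, haG⟩ := hA
    have hca : ∀ (i : ℤ) (g : G), g * a ^ i = a ^ i * g := fun i g =>
      Subgroup.mem_center_iff.1 (zpow_mem hac i) g
    refine exists_twist hp hG' hcen hz hzG (t := t₀)
      (fun h => hnc (Subgroup.mem_center_iff.1 h g₀).symm) (fun i => a ^ i)
      (fun i => (hca i t₀).symm) (by simpa using hap)
      (fun i j h _ => by show a ^ i * h * a ^ j = h * a ^ (i + j); rw [← hca i h, mul_assoc, zpow_add])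
      fun i hi h => haG ?_
    obtain ⟨u, v, huv⟩ : ∃ u v : ℤ, u * i + v * p = 1 := by
      have : IsCoprime i (p : ℤ) := ((Nat.prime_iff_prime_int.1 hp).coprime_iff_not_dvd.2 hi).symm
      exact this
    rw [← zpow_one a, ← huv, zpow_add, mul_comm v, zpow_mul a (p : ℤ), zpow_natCast, hap, one_zpow,
      mul_one, mul_comm, zpow_mul]
    exact zpow_mem h _
  push_neg at hA
  -- every commutator is central, so `g ^ p` is central
  have hgh : ∀ g h : G, ∃ c ∈ commutator G, g * h = c * (h * g) :=
    fun g h => ⟨⁅g, h⁆, Subgroup.commutator_mem_commutator (Subgroup.mem_top g)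
      (Subgroup.mem_top h), by rw [commutatorElement_def]; group⟩
  have hcp : ∀ c ∈ commutator G, c ^ p = 1 := fun c hc => by
    have := pow_card_eq_one' (x := (⟨c, hc⟩ : commutator G))
    rw [hG'] at this
    exact congrArg Subtype.val this
  have hpc : ∀ g : G, g ^ p ∈ Subgroup.center G := fun g => Subgroup.mem_center_iff.2 fun h => by
    obtain ⟨c, hc, e⟩ := hgh h g
    have hcc : Commute c g := (Subgroup.mem_center_iff.1 (hcen hc) g).symm
    have : h * g * h⁻¹ = c * g := by rw [e]; group
    have h2 : h * g ^ p * h⁻¹ = g ^ p := by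
      rw [← conj_pow, this, hcc.mul_pow, hcp c hc, one_mul]
    exact mul_inv_eq_iff_eq_mul.1 h2
  let Z := Subgroup.center G
  letI : CommGroup Z :=
    { (inferInstance : Group Z) with
      mul_comm := fun a b => Subtype.ext (Subgroup.mem_center_iff.1 b.2 (a : G)) }
  let μ : Z →* Z := powMonoidHom p
  set R : Subgroup G := μ.range.map Z.subtype with hR
  have hker : μ.ker = (commutator G).subgroupOf Z := by
    ext a
    rw [MonoidHom.mem_ker, Subgroup.mem_subgroupOf, powMonoidHom_apply]
    exact ⟨fun h => hA a a.2 (congrArg Subtype.val h), fun h => Subtype.ext (hcp _ h)⟩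
  have hind : μ.range.index = p := by
    rw [Subgroup.index_range, hker, Nat.card_congr (Subgroup.subgroupOfEquivOfLe hcen).toEquiv, hG']
  have hRmem : ∀ a : G, a ∈ R ↔ ∃ b ∈ Z, b ^ p = a := fun a => by
    simp only [hR, Subgroup.mem_map, MonoidHom.mem_range]
    constructor
    · rintro ⟨_, ⟨b, rfl⟩, rfl⟩; exact ⟨b, b.2, rfl⟩
    · rintro ⟨b, hb, rfl⟩; exact ⟨_, ⟨⟨b, hb⟩, rfl⟩, rfl⟩
  have hRle : ∀ a : Z, (a : G) ∈ R ↔ a ∈ μ.range := fun a => by
    simp [hR]
  -- an element `x₀ ∉ Z` whose `p`-th power is `(z ^ C(p, 2))` up to `R`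
  obtain ⟨x, hx, hxp⟩ : ∃ x : G, x ∉ Z ∧ x ^ p = z ^ p.choose 2 := by
    suffices ∃ y : G, y ∉ Z ∧ y ^ p * (z ^ p.choose 2)⁻¹ ∈ R by
      obtain ⟨y, hy, hyR⟩ := this
      obtain ⟨b, hb, e⟩ := (hRmem _).1 hyR
      refine ⟨y * b⁻¹, fun h => hy ?_, ?_⟩
      · simpa using mul_mem h hb
      · have hcy : Commute y b⁻¹ := (Subgroup.mem_center_iff.1 (inv_mem hb) y)
        rw [hcy.mul_pow, inv_pow, e, mul_inv_rev, inv_inv,
          Subgroup.mem_center_iff.1 (inv_mem (hpc y)) (z ^ p.choose 2), mul_inv_cancel_left]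
    rcases hp.eq_two_or_odd' with rfl | hodd
    · rw [show Nat.choose 2 2 = 1 from rfl, pow_one]
      by_contra hno
      push_neg at hno
      -- every square of a non-central element lies in the other coset
      have hidx : ∀ a b : Z, (a * b ∈ μ.range ↔ (a ∈ μ.range ↔ b ∈ μ.range)) :=
        fun a b => Subgroup.mul_mem_iff_of_index_two hind
      have h1 := fun (y : G) (hy : y ∉ Z) => hno y hy
      set Zz : Z := ⟨z, hcen hzG⟩
      have h2 : ∀ y, y ∉ Z → ((⟨y ^ 2, hpc y⟩ : Z) * Zz⁻¹ ∉ μ.range) := fun y hy h =>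
        h1 y hy ((hRle _).2 h)
      have hg : g₀ ∉ Z := fun h => hnc (Subgroup.mem_center_iff.1 h t₀)
      have ht : t₀ ∉ Z := fun h => hnc (Subgroup.mem_center_iff.1 h g₀).symm
      have hgt : g₀ * t₀ ∉ Z := fun h => hnc (by
        have := Subgroup.mem_center_iff.1 h g₀
        rw [mul_assoc] at this
        exact (mul_left_cancel this).symm)
      obtain ⟨c, hc, e⟩ := hgh t₀ g₀
      have hcz : c = z := by
        have h' : c ≠ 1 := fun h => hnc (by rw [e, h, one_mul])
        obtain ⟨i, hi⟩ := mem_zpowers_of_prime_card hG' (g := (⟨z, hzG⟩ : commutator G))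
          (fun h => hz (congrArg Subtype.val h)) (g' := ⟨c, hc⟩)
        have hi : z ^ i = c := congrArg Subtype.val hi
        rcases Int.even_or_odd i with ⟨k, rfl⟩ | ⟨k, rfl⟩
        · refine absurd ?_ h'
          rw [← hi, ← two_mul, zpow_mul, zpow_two, ← pow_two, hcp z hzG, one_zpow]
        · rw [← hi, zpow_add, zpow_mul, zpow_two, ← pow_two, hcp z hzG, one_zpow, one_mul, zpow_one]
      have hmul : (g₀ * t₀) ^ 2 = z * (g₀ ^ 2 * t₀ ^ 2) := by
        have hzc := fun u => Subgroup.mem_center_iff.1 (hcen hzG) u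
        calc (g₀ * t₀) ^ 2 = g₀ * (t₀ * g₀) * t₀ := by rw [pow_two]; group
          _ = (g₀ * z) * (g₀ * t₀) * t₀ := by rw [e, hcz]; group
          _ = _ := by rw [hzc g₀, pow_two, pow_two]; group
      have e3 : (⟨(g₀ * t₀) ^ 2, hpc _⟩ : Z) * Zz⁻¹ =
          ((⟨g₀ ^ 2, hpc _⟩ : Z) * Zz⁻¹) * (((⟨t₀ ^ 2, hpc _⟩ : Z) * Zz⁻¹) * (Zz * Zz)) := by
        rw [show (⟨(g₀ * t₀) ^ 2, hpc _⟩ : Z) = Zz * (⟨g₀ ^ 2, hpc _⟩ * ⟨t₀ ^ 2, hpc _⟩) from
          Subtype.ext hmul]
        have : Zz * Zz = 1 := Subtype.ext (show z * z = 1 by rw [← pow_two]; exact hcp z hzG)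
        rw [this, mul_one]
        have h' : Zz⁻¹ = Zz := inv_eq_of_mul_eq_one_right this
        rw [h']
        ac_rfl
      have hzz : Zz * Zz ∈ μ.range := ⟨Zz, (pow_two Zz)⟩
      refine h2 _ hgt ?_
      rw [e3, hidx (_ * Zz⁻¹), hidx (_ * Zz⁻¹)]
      have a1 := h2 g₀ hg
      have a2 := h2 t₀ ht
      tauto
    · have hC : z ^ p.choose 2 = 1 := by
        obtain ⟨k, hk⟩ := hp.dvd_choose_self two_ne_zero (lt_of_le_of_ne hp.two_le fun h => by
          subst h; simp [Nat.odd_iff] at hodd)
        rw [hk, pow_mul, hcp z hzG, one_pow]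
      simp only [hC, inv_one, mul_one]
      have hg : g₀ ∉ Z := fun h => hnc (Subgroup.mem_center_iff.1 h t₀)
      by_cases hh : g₀ ^ p ∈ R
      · exact ⟨g₀, hg, hh⟩
      haveI := μ.range.normal_of_comm
      have hq : Nat.card (Z ⧸ μ.range) = p := by rw [← Subgroup.index_eq_card, hind]
      have hne : ((⟨g₀ ^ p, hpc g₀⟩ : Z) : Z ⧸ μ.range) ≠ 1 := fun h =>
        hh ((hRle _).2 ((QuotientGroup.eq_one_iff _).1 h))
      obtain ⟨k, hk⟩ : ∃ k : ℕ, ((⟨g₀ ^ p, hpc g₀⟩ : Z) : Z ⧸ μ.range) ^ k =
          ((⟨t₀ ^ p, hpc t₀⟩ : Z) : Z ⧸ μ.range) := mem_powers_of_prime_card hq hne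
      refine ⟨t₀ * (g₀ ^ k)⁻¹, fun h => hnc ?_, ?_⟩
      · have h1 := Subgroup.mem_center_iff.1 h g₀
        have hcg : Commute g₀ (g₀ ^ k)⁻¹ := ((Commute.refl g₀).pow_right k).inv_right
        rw [mul_assoc, ← hcg.eq, ← mul_assoc, ← mul_assoc] at h1
        exact (mul_right_cancel h1).symm
      · -- `y ↦ y ^ p` is multiplicative
        have hmul : ∀ a b : G, (a * b) ^ p = a ^ p * b ^ p := by
          intro a b
          obtain ⟨c, hc, e⟩ := hgh b a
          have hc' : ∀ u, u * c = c * u := fun u => Subgroup.mem_center_iff.1 (hcen hc) u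
          have key : ∀ n : ℕ, (a * b) ^ n = c ^ n.choose 2 * (a ^ n * b ^ n) ∧
              b ^ n * a = c ^ n * (a * b ^ n) := by
            intro n
            induction n with
            | zero => simp
            | succ n ih =>
              have hcn : ∀ (m : ℕ) u, u * c ^ m = c ^ m * u := fun m u =>
                ((show Commute u c from hc' u).pow_right m).eq
              refine ⟨?_, ?_⟩
              · rw [pow_succ, ih.1]
                calc c ^ n.choose 2 * (a ^ n * b ^ n) * (a * b)
                    = c ^ n.choose 2 * a ^ n * (b ^ n * a) * b := by group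
                  _ = c ^ n.choose 2 * (a ^ n * c ^ n) * (a * b ^ n) * b := by rw [ih.2]; group
                  _ = c ^ n.choose 2 * c ^ n * (a ^ n * a) * (b ^ n * b) := by rw [hcn]; group
                  _ = _ := by
                    rw [← pow_succ, ← pow_succ, ← pow_add, Nat.choose_succ_succ, Nat.choose_one_right,
                      add_comm, mul_assoc]
              · calc b ^ (n + 1) * a = b ^ n * (b * a) := by rw [pow_succ]; group
                  _ = (b ^ n * c) * (a * b) := by rw [e]; group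
                  _ = c * (b ^ n * a) * b := by rw [hc']; group
                  _ = c * c ^ n * (a * (b ^ n * b)) := by rw [ih.2]; group
                  _ = _ := by rw [← pow_succ', ← pow_succ]
          rw [(key p).1]
          obtain ⟨k, hk⟩ := hp.dvd_choose_self two_ne_zero (lt_of_le_of_ne hp.two_le fun h => by
            subst h; simp [Nat.odd_iff] at hodd)
          rw [hk, pow_mul, hcp c hc, one_pow, one_mul]
        have e : (t₀ * (g₀ ^ k)⁻¹) ^ p = t₀ ^ p * ((g₀ ^ p) ^ k)⁻¹ := by
          rw [hmul, inv_pow, ← pow_mul, mul_comm k, pow_mul]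
        rw [e]
        have := (hRle ((⟨t₀ ^ p, hpc t₀⟩ : Z) * ((⟨g₀ ^ p, hpc g₀⟩ : Z) ^ k)⁻¹)).2
          ((QuotientGroup.eq_one_iff _).1 (by
            rw [QuotientGroup.mk_mul, QuotientGroup.mk_inv, QuotientGroup.mk_pow, hk, mul_inv_cancel]))
        simpa using this
  -- twist by `i ↦ x ^ i z ^ -C(i, 2)`
  have hzc : ∀ (i : ℤ) (g : G), g * z ^ i = z ^ i * g := fun i g =>
    Subgroup.mem_center_iff.1 (zpow_mem (hcen hzG) i) g
  let T : ℤ → ℤ := fun i => i * (i - 1) / 2
  have hT : ∀ i j, T (i + j) = T i + T j + i * j := by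
    intro i j
    obtain ⟨a, ha⟩ := even_iff_two_dvd.1 (Int.even_mul_pred_self i)
    obtain ⟨b, hb⟩ := even_iff_two_dvd.1 (Int.even_mul_pred_self j)
    show (i + j) * (i + j - 1) / 2 = i * (i - 1) / 2 + j * (j - 1) / 2 + i * j
    rw [ha, hb, show (i + j) * (i + j - 1) = 2 * (a + b + i * j) by linarith]
    simp
  refine exists_twist hp hG' hcen hz hzG (t := x) hx (fun i => x ^ i * z ^ (-T i)) ?_ ?_ ?_ ?_
  · intro i
    have : Commute x (x ^ i * z ^ (-T i)) :=
      ((Commute.refl x).zpow_right i).mul_right (hzc _ x)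
    exact this.eq.symm
  · show x ^ (p : ℤ) * z ^ (-((p : ℤ) * ((p : ℤ) - 1) / 2)) = 1
    rw [zpow_natCast, hxp, ← zpow_natCast z (p.choose 2), ← zpow_add, Nat.choose_two_right]
    push_cast [Nat.cast_sub hp.one_le]
    simp
  · intro i j h hh
    show x ^ i * z ^ (-T i) * h * (x ^ j * z ^ (-T j)) = h * (x ^ (i + j) * z ^ (-T (i + j)))
    have h1 : h⁻¹ * x * h = z ^ (-j) * x := by
      calc h⁻¹ * x * h = h⁻¹ * (z ^ (-j) * (h * x * h⁻¹)) * h := by rw [hh]; group
        _ = (h⁻¹ * z ^ (-j)) * h * x := by group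
        _ = _ := by rw [hzc]; group
    have h2 : x ^ i * h = h * z ^ (-(i * j)) * x ^ i := by
      calc x ^ i * h = h * (h⁻¹ * x ^ i * h) := by group
        _ = h * (h⁻¹ * x * h⁻¹⁻¹) ^ i := by rw [conj_zpow, inv_inv]
        _ = h * (z ^ (-j) * x) ^ i := by rw [inv_inv, h1]
        _ = h * (z ^ (-(i * j)) * x ^ i) := by
          rw [(show Commute (z ^ (-j)) x from (hzc (-j) x).symm).mul_zpow, ← zpow_mul]; ring_nf
        _ = _ := by group
    calc x ^ i * z ^ (-T i) * h * (x ^ j * z ^ (-T j))
        = (x ^ i * h) * z ^ (-T i) * (x ^ j * z ^ (-T j)) := by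
          rw [mul_assoc (x ^ i), ← hzc]
          simp only [mul_assoc]
      _ = h * ((z ^ (-(i * j)) * x ^ i) * z ^ (-T i)) * (x ^ j * z ^ (-T j)) := by rw [h2]; group
      _ = h * (x ^ i * (z ^ (-(i * j)) * z ^ (-T i))) * (x ^ j * z ^ (-T j)) := by
          rw [← hzc _ (x ^ i), mul_assoc (x ^ i)]
      _ = h * x ^ i * ((z ^ (-(i * j)) * z ^ (-T i)) * x ^ j) * z ^ (-T j) := by group
      _ = h * x ^ i * (x ^ j * (z ^ (-(i * j)) * z ^ (-T i))) * z ^ (-T j) := by
          rw [← zpow_add, ← hzc]
      _ = h * (x ^ (i + j) * (z ^ (-(i * j)) * z ^ (-T i) * z ^ (-T j))) := by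
          rw [zpow_add]; group
      _ = _ := by rw [← zpow_add, ← zpow_add, hT]; ring_nf
  · intro i hi h
    have hxi : x ^ i ∈ Z := by
      have h' := mul_mem (hcen h) (zpow_mem (hcen hzG) (T i))
      simpa [mul_assoc] using h'
    obtain ⟨u, v, huv⟩ : ∃ u v : ℤ, u * i + v * p = 1 :=
      ((Nat.prime_iff_prime_int.1 hp).coprime_iff_not_dvd.2 hi).symm
    refine hx ?_
    rw [← zpow_one x, ← huv, zpow_add, mul_comm u, zpow_mul, mul_comm v, zpow_mul]
    exact mul_mem (zpow_mem hxi _) (zpow_mem (by rw [zpow_natCast]; exact hpc x) _)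

/-- The number of automorphism orbits of a non-abelian group is at most `|G| / minFac |G|`. -/
theorem card_autOrbits_mul_minFac_le (hna : ¬ IsMulCommutative G) :
    Nat.card (MulAction.orbitRel.Quotient (MulAut G) G) * (Nat.card G).minFac ≤ Nat.card G := by
  classical
  haveI := Fintype.ofFinite G
  set p := (Nat.card G).minFac with hpdef
  have hGne : Nat.card G ≠ 1 := by
    intro h
    have : Subsingleton G := (Nat.card_eq_one_iff_unique.1 h).1
    exact hna ⟨⟨fun a b => Subsingleton.elim _ _⟩⟩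
  have hp : p.Prime := Nat.minFac_prime hGne
  set d := Nat.card (commutator G) with hd
  have hdi : d * (commutator G).index = Nat.card G := (commutator G).card_mul_index
  have hd1 : d ≠ 1 := fun h => by
    have hb : commutator G = ⊥ := Subgroup.eq_bot_of_card_eq _ h
    refine hna ⟨⟨fun a b => ?_⟩⟩
    have := Subgroup.mem_bot.1 (hb ▸ Subgroup.commutator_mem_commutator (Subgroup.mem_top a)
      (Subgroup.mem_top b) : ⁅a, b⁆ ∈ (⊥ : Subgroup G))
    exact commutatorElement_eq_one_iff_mul_comm.1 this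
  have hpd : p ≤ d :=
    Nat.minFac_le_of_dvd (by have : 0 < d := Nat.card_pos; omega) (Subgroup.card_subgroup_dvd_card _)
  rcases hpd.lt_or_eq with hlt | heq
  · have h1 := classNumber_sq_mul_le (G := G)
    rw [← hpdef, ← hdi] at h1
    have h2 : (p ^ 2 - 1) ≤ (p - 1) * d := by
      calc p ^ 2 - 1 = (p - 1) * (p + 1) := by
            rw [mul_comm, ← Nat.sq_sub_sq, one_pow]
        _ ≤ _ := Nat.mul_le_mul_left _ hlt
    have h3 : p ^ 2 * Nat.card (ConjClasses G) ≤ p * (d * (commutator G).index) := by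
      calc _ ≤ d * (commutator G).index + (p ^ 2 - 1) * (commutator G).index := h1
        _ ≤ d * (commutator G).index + (p - 1) * d * (commutator G).index := by gcongr
        _ = (1 + (p - 1)) * (d * (commutator G).index) := by ring
        _ = _ := by rw [Nat.add_sub_cancel' hp.one_le]
    rw [pow_two, mul_assoc] at h3
    have h4 := Nat.le_of_mul_le_mul_left h3 hp.pos
    rw [hdi] at h4
    exact le_trans (Nat.mul_le_mul_right _ card_orbits_le_classNumber) (by rw [mul_comm]; exact h4)
  -- `|G'| = p`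
  have hG' : Nat.card (commutator G) = p := heq.symm
  have hcen : commutator G ≤ Subgroup.center G := fun c hc => by
    by_contra hcc
    have h1 := minFac_le_class hcc
    rw [← hpdef] at h1
    have h2 : Nat.card {h : G // IsConj c h} < Nat.card (commutator G) := by
      rw [Nat.card_eq_fintype_card, Nat.card_eq_fintype_card]
      refine Fintype.card_lt_of_injective_not_surjective (α := {h : G // IsConj c h})
        (fun h => (⟨h.1, ?_⟩ : commutator G)) ?_ ?_
      · obtain ⟨u, hu⟩ := isConj_iff.1 h.2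
        rw [← hu]; exact (inferInstance : (commutator G).Normal).conj_mem c hc u
      · intro a b h
        exact Subtype.ext (congrArg (fun x : commutator G => x.1) h)
      · intro hsur
        obtain ⟨⟨a, ha⟩, e⟩ := hsur 1
        have : a = 1 := congrArg (fun x : commutator G => x.1) e
        subst this
        exact hcc ((isConj_one_left.1 ha) ▸ one_mem _)
    omega
  obtain ⟨α, g₁, hg₁⟩ := exists_aut_moving hp hG' hcen
  set C := Subgroup.center G with hC
  let F : Subgroup G :=
    { carrier := {g | g⁻¹ * α g ∈ commutator G}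
      one_mem' := by simp
      mul_mem' := by
        intro a b ha hb
        show (a * b)⁻¹ * α (a * b) ∈ commutator G
        rw [map_mul, show (a * b)⁻¹ * (α a * α b) = b⁻¹ * (a⁻¹ * α a) * b * (b⁻¹ * α b) by group]
        refine mul_mem ?_ hb
        simpa using (inferInstance : (commutator G).Normal).conj_mem _ ha b⁻¹
      inv_mem' := by
        intro a ha
        show a⁻¹⁻¹ * α a⁻¹ ∈ commutator G
        rw [map_inv, inv_inv, show a * (α a)⁻¹ = a * (a⁻¹ * α a)⁻¹ * a⁻¹ by group]
        exact (inferInstance : (commutator G).Normal).conj_mem _ (inv_mem ha) a }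
  have hF : F ≠ ⊤ := fun h => hg₁ (h ▸ Subgroup.mem_top g₁ : g₁ ∈ F)
  have hFcard : p * Nat.card F ≤ Nat.card G := by
    rw [← F.card_mul_index, mul_comm]
    exact Nat.mul_le_mul_left _ (Nat.minFac_le_of_dvd
      (by have := F.index_ne_zero_of_finite; have := mt Subgroup.index_eq_one.1 hF; omega)
      (Subgroup.index_dvd_card _))
  have hCcard : p * p * Nat.card C ≤ Nat.card G := by
    rw [← C.card_mul_index, mul_comm]
    refine Nat.mul_le_mul_left _ ?_
    have hnp : ¬ C.index.Prime := fun h => by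
      haveI := Fact.mk h
      haveI : IsCyclic (G ⧸ C) := isCyclic_of_prime_card (by rw [← Subgroup.index_eq_card])
      exact hna (MonoidHom.isMulCommutative_of_isCyclic_of_ker_le_center (QuotientGroup.mk' C)
        (by rw [QuotientGroup.ker_mk']))
    have hne : C.index ≠ 1 := fun h => by
      have := Subgroup.index_eq_one.1 h
      exact hna ⟨⟨fun a b => (Subgroup.mem_center_iff.1 (this ▸ Subgroup.mem_top b : b ∈ C) a)⟩⟩
    have h0 := C.index_ne_zero_of_finite
    have hm := Nat.minFac_sq_le_self (by omega) hnp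
    have hle : p ≤ C.index.minFac := Nat.minFac_le_of_dvd (Nat.minFac_prime hne).two_le
      ((Nat.minFac_dvd _).trans (Subgroup.index_dvd_card _))
    calc p * p ≤ C.index.minFac * C.index.minFac := Nat.mul_le_mul hle hle
      _ ≤ _ := by rw [← pow_two]; exact hm
  let π : G → MulAction.orbitRel.Quotient (MulAut G) G := fun g => Quotient.mk _ g
  haveI : Fintype (MulAction.orbitRel.Quotient (MulAut G) G) :=
    @Fintype.ofFinite _ (Finite.of_surjective π Quotient.mk_surjective)
  let w : G → ℕ := fun g =>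
    if g ∈ C then (if g ∈ F then 2 * p else p) else (if g ∈ F then 2 else 1)
  have hfib : ∀ q, 2 * p ≤ ∑ g ∈ Finset.univ.filter (fun g => π g = q), w g := by
    intro q
    obtain ⟨g, rfl⟩ := Quotient.mk_surjective q
    set S := Finset.univ.filter (fun h => π h = π g) with hS
    show 2 * p ≤ ∑ h ∈ S, w h
    have hgS : g ∈ S := by simp [hS]
    have hαS : ∀ h ∈ S, α h ∈ S := fun h hh => by
      simp only [hS, Finset.mem_filter, Finset.mem_univ, true_and] at hh ⊢
      rw [← hh]
      exact Quotient.sound (s := MulAction.orbitRel (MulAut G) G) ⟨α, rfl⟩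
    have hcS : ∀ h ∈ S, ∀ k, IsConj h k → k ∈ S := fun h hh k hk => by
      simp only [hS, Finset.mem_filter, Finset.mem_univ, true_and] at hh ⊢
      rw [← hh]
      exact (orbit_mk_eq_of_isConj hk).symm
    have hcen : ∀ h ∈ S, (h ∈ C ↔ g ∈ C) := fun h hh => by
      simp only [hS, Finset.mem_filter, Finset.mem_univ, true_and] at hh
      obtain ⟨β, hβ⟩ := Quotient.exact hh
      have hβ : β g = h := hβ
      have hch := (inferInstance : C.Characteristic).fixed β
      rw [← hβ]
      exact (Subgroup.mem_comap (f := β.toMonoidHom) (K := C) (x := g)).symm.trans (by rw [hch])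
    have hle : ∀ (T : Finset G) (m : ℕ), T ⊆ S → (∀ h ∈ T, m ≤ w h) → T.card * m ≤ ∑ h ∈ S, w h :=
      fun T m hT hm => le_trans (by rw [← smul_eq_mul, ← Finset.sum_const]; exact Finset.sum_le_sum hm)
        (Finset.sum_le_sum_of_subset hT)
    by_cases hgC : g ∈ C
    · by_cases hgF : g ∈ F
      · simpa [w, hgC, hgF] using hle {g} (2 * p) (by simpa using hgS) (by simp [w, hgC, hgF])
      · have hne : α g ≠ g := fun h => hgF (show g⁻¹ * α g ∈ commutator G by simp [h])
        have := hle {g, α g} p (by simp [Finset.insert_subset_iff, hgS, hαS g hgS]) (by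
          intro h hh
          have : h ∈ C := (hcen h (by rcases Finset.mem_insert.1 hh with rfl | hh
                                      · exact hgS
                                      · rw [Finset.mem_singleton.1 hh]; exact hαS g hgS)).2 hgC
          simp only [w, if_pos this]; split <;> omega)
        rwa [Finset.card_pair hne.symm] at this
    have hnc : ∀ h ∈ S, h ∉ C := fun h hh h' => hgC ((hcen h hh).1 h')
    let K : G → Finset G := fun h => Finset.univ.filter (fun k => IsConj h k)
    have hK : ∀ h ∈ S, p ≤ (K h).card ∧ K h ⊆ S := fun h hh => by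
      refine ⟨?_, fun k hk => hcS h hh k (Finset.mem_filter.1 hk).2⟩
      have := minFac_le_class (hnc h hh)
      rwa [← hpdef, Nat.card_eq_fintype_card (α := {k : G // IsConj h k}), Fintype.card_subtype] at this
    by_cases hall : ∀ h ∈ S, h ∈ F
    · have := hle (K g) 2 (hK g hgS).2 (fun h hh => by
        have h' := (hK g hgS).2 hh
        simp [w, hnc h h', hall h h'])
      have := (hK g hgS).1
      nlinarith
    push_neg at hall
    obtain ⟨h, hh, hhF⟩ := hall
    have hdis : Disjoint (K h) (K (α h)) := by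
      rw [Finset.disjoint_left]
      intro k h1 h2
      have hc := (Finset.mem_filter.1 h1).2.trans (Finset.mem_filter.1 h2).2.symm
      obtain ⟨u, hu⟩ := isConj_iff.1 hc
      refine hhF (show h⁻¹ * α h ∈ commutator G from ?_)
      rw [← hu, show h⁻¹ * (u * h * u⁻¹) = ⁅h⁻¹, u⁆ by rw [commutatorElement_def]; group]
      exact Subgroup.commutator_mem_commutator (Subgroup.mem_top _) (Subgroup.mem_top _)
    have := hle (K h ∪ K (α h)) 1
      (Finset.union_subset (hK h hh).2 (hK _ (hαS h hh)).2) (fun k _ => by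
        have := hp.two_le
        simp only [w]; split_ifs <;> omega)
    rw [Finset.card_union_of_disjoint hdis] at this
    have := (hK h hh).1
    have := (hK _ (hαS h hh)).1
    omega
  have hpt : ∀ g, w g + (if g ∈ F then 0 else 1) ≤ 2 + (2 * p - 2) * (if g ∈ C then 1 else 0) := by
    intro g
    have := hp.two_le
    simp only [w]; split_ifs <;> omega
  have hsum := Finset.sum_le_sum fun g (_ : g ∈ (Finset.univ : Finset G)) => hpt g
  have hcardSub : ∀ H : Subgroup G, (Finset.univ.filter fun g => g ∈ H).card = Nat.card H := by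
    intro H
    rw [Nat.card_eq_fintype_card, Fintype.card_subtype]
  have hnotF : (∑ g : G, if g ∈ F then 0 else 1) + Nat.card F = Nat.card G := by
    rw [← hcardSub F, Finset.card_filter, ← Finset.sum_add_distrib, Nat.card_eq_fintype_card,
      ← Finset.card_univ, Finset.card_eq_sum_ones]
    exact Finset.sum_congr rfl fun g _ => by split <;> rfl
  rw [Finset.sum_add_distrib, Finset.sum_add_distrib, ← Finset.mul_sum, Finset.sum_boole,
    Finset.sum_const, smul_eq_mul, Finset.card_univ, ← Nat.card_eq_fintype_card] at hsum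
  have hc2 : (Finset.univ.filter fun g => g ∈ C).card = Nat.card C := by
    rw [Nat.card_eq_fintype_card, Fintype.card_subtype]
  simp only [Nat.cast_id] at hsum
  rw [hc2] at hsum
  have hlow : Fintype.card (MulAction.orbitRel.Quotient (MulAut G) G) * (2 * p) ≤ ∑ g : G, w g := by
    rw [← Finset.sum_fiberwise Finset.univ π w, ← smul_eq_mul, ← Finset.card_univ,
      ← Finset.sum_const]
    exact Finset.sum_le_sum fun q _ => hfib q
  rw [← Nat.card_eq_fintype_card] at hlow
  obtain ⟨m, hm⟩ : ∃ m, p = m + 2 := ⟨p - 2, by have := hp.two_le; omega⟩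
  rw [hm, show 2 * (m + 2) - 2 = 2 * (m + 1) by omega] at hsum
  rw [hm] at hlow hFcard hCcard ⊢
  have key : 2 * (m + 1) * Nat.card C + Nat.card F ≤ Nat.card G := by
    refine Nat.le_of_mul_le_mul_left (?_ : (m + 2) * _ ≤ (m + 2) * _) (Nat.succ_pos _)
    nlinarith [Nat.mul_le_mul_left (m + 1) hCcard, Nat.zero_le (m * (m + 1) * (m + 2) * Nat.card C)]
  nlinarith [key, hnotF]

end Cfsg.Agent.H87
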