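import Mathlib

/-! The conjugation action on a normal elementary abelian subgroup as a linear representation. -/

set_option autoImplicit false

namespace Cfsg.Agent.H87

open Subgroup

universe u v

/-- Conjugation by `g` on a normal subgroup, additively. -/
def conjAddHom {G : Type u} [Group G] (E : Subgroup G) [E.Normal] (g : G) :
    Additive E →+ Additive E :=
  MonoidHom.toAdditive ((MulAut.conjNormal g : MulAut E) : E ≃* E).toMonoidHom

theorem conjAddHom_apply {G : Type u} [Group G] (E : Subgroup G) [E.Normal] (g : G)
    (x : Additive E) : ((Additive.toMul (conjAddHom E g x) : E) : G) =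
      g * ((Additive.toMul x : E) : G) * g⁻¹ :=
  MulAut.conjNormal_apply g (Additive.toMul x : E)

/-- An additive action on a group of exponent `p` is a representation over the prime field. -/
theorem exists_rep_of_additive_action {G : Type u} [Monoid G] {p : ℕ} [Fact p.Prime] {V : Type v}
    [AddCommGroup V] [Finite V] (hV : ∀ x : V, p • x = 0) {n : ℕ} (hn : Nat.card V = p ^ n)
    (c : G → (V →+ V)) (h1 : ∀ x, c 1 x = x) (hmul : ∀ g h x, c (g * h) x = c g (c h x)) :
    ∃ (_ : Module (ZMod p) V) (_ : FiniteDimensional (ZMod p) V)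
      (ρ : G →* Module.End (ZMod p) V),
      Module.finrank (ZMod p) V = n ∧ ∀ g, ρ g = 1 ↔ ∀ x, c g x = x := by
  have iM : Module (ZMod p) V := AddCommGroup.zmodModule hV
  have hfd : FiniteDimensional (ZMod p) V := Module.Finite.of_finite
  refine ⟨iM, hfd,
    { toFun := fun g =>
        { toFun := c g
          map_add' := map_add (c g)
          map_smul' := fun a x => ZMod.map_smul (c g) a x }
      map_one' := LinearMap.ext h1
      map_mul' := fun g h => LinearMap.ext (hmul g h) }, ?_, fun g => ?_⟩
  · have h1 := Module.natCard_eq_pow_finrank (K := ZMod p) (V := V)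
    rw [Nat.card_zmod, hn] at h1
    exact (Nat.pow_right_injective (Fact.out (p := p.Prime)).two_le h1).symm
  · exact LinearMap.ext_iff

/-- A normal elementary abelian subgroup of order `p ^ n` gives an `n`-dimensional representation
with kernel the centralizer. -/
theorem exists_conj_rep {G : Type u} [Group G] [Finite G] {p : ℕ} [Fact p.Prime] {E : Subgroup G}
    [E.Normal] (hE : IsMulCommutative E) (he : ∀ a ∈ E, a ^ p = 1) {n : ℕ}
    (hn : Nat.card E = p ^ n) :
    ∃ (V : Type u) (_ : AddCommGroup V) (_ : Module (ZMod p) V) (_ : FiniteDimensional (ZMod p) V)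
      (ρ : G →* Module.End (ZMod p) V),
      Module.finrank (ZMod p) V = n ∧ ∀ g, ρ g = 1 ↔ g ∈ centralizer (E : Set G) := by
  let iA : AddCommGroup (Additive E) :=
    { (inferInstance : AddGroup (Additive E)) with
      add_comm := fun a b => Additive.toMul.injective (hE.is_comm.comm _ _) }
  have hext : ∀ a b : Additive E,
      ((Additive.toMul a : E) : G) = ((Additive.toMul b : E) : G) → a = b :=
    fun a b h => Additive.toMul.injective (Subtype.ext h)
  have hnsmul : ∀ x : Additive E, p • x = 0 := fun x => hext _ _ (by
    show ((Additive.toMul x : E) ^ p : E).1 = 1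
    rw [SubmonoidClass.coe_pow]
    exact he _ (Additive.toMul x : E).2)
  obtain ⟨iM, hfd, ρ, hdim, hker⟩ := exists_rep_of_additive_action hnsmul (n := n)
    (show Nat.card (Additive E) = p ^ n from hn) (conjAddHom E)
    (fun x => hext _ _ (by rw [conjAddHom_apply]; group))
    (fun g h x => hext _ _ (by simp only [conjAddHom_apply]; group))
  refine ⟨Additive E, iA, iM, hfd, ρ, hdim, fun g => (hker g).trans ⟨fun h x hx => ?_, fun h x => ?_⟩⟩
  · have h2 := congrArg (fun z : Additive E => ((Additive.toMul z : E) : G))
      (h (Additive.ofMul (⟨x, hx⟩ : E)))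
    simp only [conjAddHom_apply] at h2
    exact (mul_inv_eq_iff_eq_mul.1 h2).symm
  · refine hext _ _ ?_
    rw [conjAddHom_apply]
    exact mul_inv_eq_iff_eq_mul.2 (h _ (Additive.toMul x : E).2).symm

end Cfsg.Agent.H87
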