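import Mathlib
import Cfsg.Agent.H89.ClassSizeTools

/-!
# Two elements with coprime class sizes

If the class sizes of `a` and `b` are coprime then `a^G b^G` is the class of `a b`.  If moreover
`a b` has the same class size as `b`, the subgroup generated by the `a⁻¹ a^g` stabilises `b^G`, so
its order divides the class size of `b`.
-/

set_option autoImplicit false

namespace Cfsg.Agent.H87.CCL

open Subgroup Cfsg.Agent.H89

variable {G : Type*} [Group G]

/-- The conjugacy class of `b`. -/
def clSet (b : G) : Set G := Set.range fun g : G => g * b * g⁻¹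

theorem conj_mem_clSet {b s : G} (hs : s ∈ clSet b) (g : G) : g * s * g⁻¹ ∈ clSet b := by
  obtain ⟨h, rfl⟩ := hs
  exact ⟨g * h, by group⟩

theorem self_mem_clSet (b : G) : b ∈ clSet b := ⟨1, by group⟩

theorem ncard_clSet [Finite G] (b : G) : (clSet b).ncard = (cz b).index := by
  rw [← Nat.card_coe_set_eq, index_eq_card]
  refine (Nat.card_eq_of_bijective
    (fun q : G ⧸ cz b => (⟨q.out * b * q.out⁻¹, q.out, rfl⟩ : clSet b)) ⟨?_, ?_⟩).symm
  · intro p q hpq
    have h : p.out * b * p.out⁻¹ = q.out * b * q.out⁻¹ := congrArg Subtype.val hpq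
    rw [← p.out_eq', ← q.out_eq']
    refine QuotientGroup.eq.mpr (mem_cz.mpr ?_)
    calc p.out⁻¹ * q.out * b = p.out⁻¹ * (q.out * b * q.out⁻¹) * q.out := by group
      _ = p.out⁻¹ * (p.out * b * p.out⁻¹) * q.out := by rw [h]
      _ = b * (p.out⁻¹ * q.out) := by group
  · rintro ⟨_, g, rfl⟩
    obtain ⟨c, hc⟩ := QuotientGroup.mk_out_eq_mul (cz b) g
    refine ⟨(g : G ⧸ cz b), Subtype.ext ?_⟩
    change (g : G ⧸ cz b).out * b * (g : G ⧸ cz b).out⁻¹ = g * b * g⁻¹
    have h : (c : G) * b = b * c := mem_cz.mp c.2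
    rw [hc]
    calc g * c * b * (g * c)⁻¹ = g * ((c : G) * b) * (g * c)⁻¹ := by group
      _ = g * (b * c) * (g * c)⁻¹ := by rw [h]
      _ = g * b * g⁻¹ := by group

/-- If the indices multiply, the group is the product of the two subgroups. -/
theorem exists_mul_of_index [Finite G] {A B : Subgroup G}
    (h : (A ⊓ B).index = A.index * B.index) (g : G) : ∃ a ∈ A, ∃ b ∈ B, g = a * b := by
  have hBne : 0 < B.index := Nat.pos_of_ne_zero index_ne_zero_of_finite
  have h2 : A.relIndex B * B.index = A.index * B.index := by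
    rw [← h, ← relIndex_mul_index (inf_le_right : A ⊓ B ≤ B), inf_relIndex_right]
  have h3 : A.relIndex B = A.index := Nat.eq_of_mul_eq_mul_right hBne h2
  haveI : Finite (G ⧸ A) := inferInstance
  let f : B ⧸ A.subgroupOf B → G ⧸ A := Quotient.lift (fun b : B => ((b : G) : G ⧸ A))
    (fun a b hab => by
      have := QuotientGroup.leftRel_apply.mp hab
      exact QuotientGroup.eq.mpr (by simpa [mem_subgroupOf] using this))
  have hf : Function.Injective f := by
    intro p q
    induction p using QuotientGroup.induction_on with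
    | _ a =>
      induction q using QuotientGroup.induction_on with
      | _ b =>
        intro hab
        have h4 : ((a : G) : G ⧸ A) = ((b : G) : G ⧸ A) := hab
        exact QuotientGroup.eq.mpr (by simpa [mem_subgroupOf] using QuotientGroup.eq.mp h4)
  have hbij := (Nat.bijective_iff_injective_and_card f).mpr ⟨hf, h3⟩
  obtain ⟨q, hq⟩ := hbij.2 ((g⁻¹ : G) : G ⧸ A)
  induction q using QuotientGroup.induction_on with
  | _ b =>
    have h5 : (b : G)⁻¹ * g⁻¹ ∈ A := QuotientGroup.eq.mp hq
    exact ⟨g * b, by simpa using inv_mem h5, (b : G)⁻¹, inv_mem b.2, by group⟩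

theorem index_inf_eq_mul [Finite G] {A B : Subgroup G} (h : A.index.Coprime B.index) :
    (A ⊓ B).index = A.index * B.index :=
  le_antisymm (index_inf_le (H := A) (K := B)) (Nat.le_of_dvd
    (Nat.pos_of_ne_zero index_ne_zero_of_finite)
    (h.mul_dvd_of_dvd_of_dvd (index_dvd_of_le inf_le_left) (index_dvd_of_le inf_le_right)))

variable [Finite G]

theorem mul_conj_mem {a b : G} (hco : (cz a).index.Coprime (cz b).index) {s : G}
    (hs : s ∈ clSet b) : a * s ∈ clSet (a * b) := by
  obtain ⟨g, rfl⟩ := hs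
  obtain ⟨c, hc, d, hd, rfl⟩ := exists_mul_of_index (index_inf_eq_mul hco) g
  refine ⟨c, ?_⟩
  have hc' : c * a = a * c := mem_cz.mp hc
  have hd' : d * b = b * d := mem_cz.mp hd
  calc c * (a * b) * c⁻¹ = c * a * b * c⁻¹ := by group
    _ = a * c * b * c⁻¹ := by rw [hc']
    _ = a * (c * (b * d) * d⁻¹ * c⁻¹) := by group
    _ = a * (c * (d * b) * d⁻¹ * c⁻¹) := by rw [hd']
    _ = a * (c * d * b * (c * d)⁻¹) := by group

theorem index_le_right {a b : G} (hco : (cz a).index.Coprime (cz b).index) :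
    (cz b).index ≤ (cz (a * b)).index := by
  rw [← ncard_clSet, ← ncard_clSet]
  exact Set.ncard_le_ncard_of_injOn (fun s => a * s) (fun s hs => mul_conj_mem hco hs)
    (fun s _ t _ h => mul_left_cancel h) (Set.toFinite _)

theorem index_le_left {a b : G} (hco : (cz a).index.Coprime (cz b).index) :
    (cz a).index ≤ (cz (a * b)).index := by
  rw [← ncard_clSet, ← ncard_clSet]
  refine Set.ncard_le_ncard_of_injOn (fun s => s * b) ?_
    (fun s _ t _ h => mul_right_cancel h) (Set.toFinite _)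
  rintro _ ⟨g, rfl⟩
  obtain ⟨c, hc, d, hd, rfl⟩ := exists_mul_of_index (index_inf_eq_mul hco.symm) g
  refine ⟨c, ?_⟩
  have hc' : c * b = b * c := mem_cz.mp hc
  have hd' : d * a = a * d := mem_cz.mp hd
  change c * (a * b) * c⁻¹ = c * d * a * (c * d)⁻¹ * b
  calc c * (a * b) * c⁻¹ = c * a * c⁻¹ * (c * b) * c⁻¹ := by group
    _ = c * a * c⁻¹ * (b * c) * c⁻¹ := by rw [hc']
    _ = c * (a * d) * d⁻¹ * c⁻¹ * b := by group
    _ = c * (d * a) * d⁻¹ * c⁻¹ * b := by rw [hd']
    _ = c * d * a * (c * d)⁻¹ * b := by group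

/-- The subgroup `[a, G]`, generated by the `a⁻¹ a^g`. -/
def L (a : G) : Subgroup G := closure (Set.range fun g : G => a⁻¹ * (g * a * g⁻¹))

theorem gen_mem_L (a g : G) : a⁻¹ * (g * a * g⁻¹) ∈ L a := subset_closure ⟨g, rfl⟩

instance L_normal (a : G) : (L a).Normal := by
  refine ⟨fun x hx h => ?_⟩
  suffices h1 : L a ≤ (L a).comap (MulAut.conj h).toMonoidHom from h1 hx
  refine (closure_le _).mpr ?_
  rintro _ ⟨g, rfl⟩
  change h * (a⁻¹ * (g * a * g⁻¹)) * h⁻¹ ∈ L a
  have h2 : h * (a⁻¹ * (g * a * g⁻¹)) * h⁻¹ =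
      (a⁻¹ * (h * a * h⁻¹))⁻¹ * (a⁻¹ * (h * g * a * (h * g)⁻¹)) := by group
  rw [h2]
  exact mul_mem (inv_mem (gen_mem_L a h)) (gen_mem_L a (h * g))

/-- If `a b` has the class size of `b`, then `[a, G]` stabilises the class of `b`. -/
theorem L_stab {a b : G} (hco : (cz a).index.Coprime (cz b).index)
    (heq : (cz (a * b)).index = (cz b).index) :
    ∀ l ∈ L a, ∀ s ∈ clSet b, l * s ∈ clSet b := by
  have himg : (fun s => a * s) '' clSet b = clSet (a * b) := by
    refine Set.eq_of_subset_of_ncard_le ?_ ?_ (Set.toFinite _)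
    · rintro _ ⟨s, hs, rfl⟩
      exact mul_conj_mem hco hs
    · rw [Set.ncard_image_of_injective _ (mul_right_injective a), ncard_clSet, ncard_clSet, heq]
  intro l hl
  induction hl using closure_induction with
  | mem x hx =>
    obtain ⟨g, rfl⟩ := hx
    intro s hs
    have h1 : a * (g⁻¹ * s * g) ∈ clSet (a * b) := by
      refine mul_conj_mem hco ?_
      simpa using conj_mem_clSet hs g⁻¹
    have h2 : g * a * g⁻¹ * s ∈ clSet (a * b) := by
      have := conj_mem_clSet h1 g
      convert this using 1; group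
    rw [← himg] at h2
    obtain ⟨t, ht, hts⟩ := h2
    have h3 : a⁻¹ * (g * a * g⁻¹) * s = t := by
      calc a⁻¹ * (g * a * g⁻¹) * s = a⁻¹ * (g * a * g⁻¹ * s) := by group
        _ = a⁻¹ * (a * t) := by rw [← hts]
        _ = t := by group
    rwa [h3]
  | one => simp
  | mul x y _ _ hx hy =>
    intro s hs
    rw [mul_assoc]
    exact hx _ (hy s hs)
  | inv x _ hx =>
    intro s hs
    obtain ⟨t, ht, hts⟩ : s ∈ (fun t => x * t) '' clSet b := by
      have h4 : (fun t => x * t) '' clSet b = clSet b := by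
        refine Set.eq_of_subset_of_ncard_le ?_ ?_ (Set.toFinite _)
        · rintro _ ⟨t, ht, rfl⟩
          exact hx t ht
        · rw [Set.ncard_image_of_injective _ (mul_right_injective x)]
      rw [h4]
      exact hs
    rw [← hts]
    simpa using ht

/-- If `a b` has the class size of `b`, the order of `[a, G]` divides that class size. -/
theorem card_L_dvd {a b : G} (hco : (cz a).index.Coprime (cz b).index)
    (heq : (cz (a * b)).index = (cz b).index) : Nat.card (L a) ∣ (cz b).index := by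
  have hS : (QuotientGroup.mk : G → G ⧸ L a) ⁻¹' ((QuotientGroup.mk : G → G ⧸ L a) '' clSet b)
      = clSet b := by
    refine Set.Subset.antisymm ?_ (Set.subset_preimage_image _ _)
    rintro u ⟨s, hs, hsu⟩
    have h2 : s * (s⁻¹ * u) * s⁻¹ ∈ L a :=
      (L_normal a).conj_mem _ (QuotientGroup.eq.mp hsu) s
    have h3 := L_stab hco heq _ h2 s hs
    have h4 : s * (s⁻¹ * u) * s⁻¹ * s = u := by group
    rwa [h4] at h3
  rw [← ncard_clSet, ← hS, H88.ncard_preimage_mk]
  exact dvd_mul_right _ _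

/-- If `|[a, G]|` is coprime to the class size of `a` then `[a, G]` centralises `a`, is abelian,
and contains an element with the same centralizer as `a`. -/
theorem exists_translate {a : G} (hco : (Nat.card (L a)).Coprime (cz a).index) :
    L a ≤ cz a ∧ IsMulCommutative (L a) ∧ ∃ c ∈ L a, cz c = cz a := by
  classical
  have hle : L a ≤ cz a := by
    rw [← relIndex_eq_one]
    refine Nat.eq_one_of_dvd_coprimes hco (relIndex_dvd_card _ _) ?_
    obtain ⟨t, ht⟩ := relIndex_dvd_index_of_normal (L a) (cz a)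
    have h1 : (cz a).relIndex (L a) * (L a).index = (cz a ⊓ L a).index := by
      rw [← inf_relIndex_right]
      exact relIndex_mul_index inf_le_right
    have h2 : (L a).relIndex (cz a) * (cz a).index = (cz a ⊓ L a).index := by
      rw [← inf_relIndex_left]
      exact relIndex_mul_index inf_le_left
    refine ⟨t, Nat.eq_of_mul_eq_mul_left
      (Nat.pos_of_ne_zero (index_ne_zero_of_finite (H := (L a).subgroupOf (cz a)))) ?_⟩
    calc (L a).relIndex (cz a) * (cz a).index = (cz a).relIndex (L a) * (L a).index := by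
          rw [h1, h2]
      _ = (L a).relIndex (cz a) * ((cz a).relIndex (L a) * t) := by rw [ht]; ring
  have hconj : ∀ h : G, ∀ l ∈ L a, l ∈ cz (h * a * h⁻¹) := fun h l hl => by
    have h1 : h⁻¹ * l * h ∈ L a := by
      have := (L_normal a).conj_mem l hl h⁻¹
      rwa [inv_inv] at this
    have h2 := (conj_mem_cz_iff (c := h)).mpr (hle h1)
    have h3 : h * (h⁻¹ * l * h) * h⁻¹ = l := by group
    rwa [h3] at h2
  have hcomm : IsMulCommutative (L a) := by
    refine isMulCommutative_closure ?_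
    rintro _ ⟨g, rfl⟩ _ ⟨h, rfl⟩
    have h1 : a⁻¹ * (h * a * h⁻¹) ∈ cz a := hle (gen_mem_L a h)
    have h2 : a⁻¹ * (h * a * h⁻¹) ∈ cz (g * a * g⁻¹) := hconj g _ (gen_mem_L a h)
    have h4 : Commute (a⁻¹ * (h * a * h⁻¹)) (a⁻¹ * (g * a * g⁻¹)) :=
      Commute.mul_right (Commute.inv_right (mem_cz.mp h1)) (mem_cz.mp h2)
    exact h4.eq.symm
  refine ⟨hle, hcomm, ?_⟩
  letI : CommGroup (L a) :=
    { (inferInstance : Group (L a)) with
      mul_comm := fun x y => hcomm.is_comm.comm x y }
  haveI : Fintype (G ⧸ cz a) := Fintype.ofFinite _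
  let f : G → L a := fun g => ⟨a⁻¹ * (g * a * g⁻¹), gen_mem_L a g⟩
  let φ : G → L a → L a := fun h l => ⟨h * (l : G) * h⁻¹, (L_normal a).conj_mem _ l.2 h⟩
  let F : G ⧸ cz a → L a := fun q => f q.out
  have hf : ∀ g : G, F (g : G ⧸ cz a) = f g := by
    intro g
    obtain ⟨c, hc⟩ := QuotientGroup.mk_out_eq_mul (cz a) g
    refine Subtype.ext ?_
    change a⁻¹ * ((g : G ⧸ cz a).out * a * (g : G ⧸ cz a).out⁻¹) = a⁻¹ * (g * a * g⁻¹)
    have h : (c : G) * a = a * c := mem_cz.mp c.2
    rw [hc]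
    calc a⁻¹ * (g * c * a * (g * c)⁻¹) = a⁻¹ * g * ((c : G) * a) * (g * c)⁻¹ := by group
      _ = a⁻¹ * g * (a * c) * (g * c)⁻¹ := by rw [h]
      _ = a⁻¹ * (g * a * g⁻¹) := by group
  have hφm : ∀ h : G, ∀ x y : L a, φ h (x * y) = φ h x * φ h y := fun h x y => by
    refine Subtype.ext ?_
    change h * ((x : G) * y) * h⁻¹ = h * x * h⁻¹ * (h * y * h⁻¹)
    group
  have hcyc : ∀ (h : G) (q : G ⧸ cz a), F (h • q) = f h * φ h (F q) := by
    intro h q
    induction q using QuotientGroup.induction_on with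
    | _ g =>
      rw [show h • (g : G ⧸ cz a) = ((h * g : G) : G ⧸ cz a) from rfl, hf, hf]
      refine Subtype.ext ?_
      change a⁻¹ * (h * g * a * (h * g)⁻¹) =
        a⁻¹ * (h * a * h⁻¹) * (h * (a⁻¹ * (g * a * g⁻¹)) * h⁻¹)
      group
  have hk : (Nat.card (L a)).Coprime (Fintype.card (G ⧸ cz a)) := by
    rwa [← Nat.card_eq_fintype_card, ← index_eq_card]
  let l : L a := ∏ q : G ⧸ cz a, F q
  have hl : ∀ h : G, l = f h ^ Fintype.card (G ⧸ cz a) * φ h l := by
    intro h
    calc l = ∏ q : G ⧸ cz a, F (h • q) :=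
          (Equiv.prod_comp (MulAction.toPerm h) F).symm
      _ = ∏ q : G ⧸ cz a, f h * φ h (F q) := Finset.prod_congr rfl fun q _ => hcyc h q
      _ = f h ^ Fintype.card (G ⧸ cz a) * φ h l := by
        rw [Finset.prod_mul_distrib, Finset.prod_const, Finset.card_univ]
        exact congrArg _ (map_prod (MonoidHom.mk' (φ h) (hφm h)) F _).symm
  let c : L a := (powCoprime hk).symm l
  have hc : c ^ Fintype.card (G ⧸ cz a) = l := (powCoprime hk).apply_symm_apply l
  have hfix : ∀ h : G, c = f h * φ h c := by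
    intro h
    refine (powCoprime hk).injective ?_
    change c ^ Fintype.card (G ⧸ cz a) = (f h * φ h c) ^ Fintype.card (G ⧸ cz a)
    rw [mul_pow, hc]
    refine (hl h).trans (congrArg _ ?_)
    rw [← hc]
    exact map_pow (MonoidHom.mk' (φ h) (hφm h)) c _
  refine ⟨(c : G), c.2, ?_⟩
  have hz : a * (c : G) ∈ center G := mem_center_iff.mpr fun h => by
    have h1 : (c : G) = a⁻¹ * (h * a * h⁻¹) * (h * c * h⁻¹) := congrArg Subtype.val (hfix h)
    calc h * (a * (c : G)) = a * (a⁻¹ * (h * a * h⁻¹) * (h * c * h⁻¹)) * h := by group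
      _ = a * (c : G) * h := by rw [← h1]
  have h2 : cz ((c : G)) = cz a⁻¹ := by
    rw [← cz_mul_central (u := a⁻¹) hz]
    congr 1
    group
  rw [h2]
  ext g
  rw [mem_cz, mem_cz]
  exact Commute.inv_right_iff

end Cfsg.Agent.H87.CCL
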