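import Mathlib
import Cfsg.Agent.H87.CoprimeClassLemmas

/-!
# The two largest class sizes coprime

`m > n > 1` are the two largest class sizes and they are coprime, `x` has class size `n` and lies
in a normal abelian subgroup `M` of order dividing `m`, and `y` is an `r`-element, `r ∣ n`, of
class size `m`.  We show that `C(x) ⊓ C(y) = Z(G)` and that `C(v) = C(y)` for every noncentral
`v ∈ C(y)`.
-/

set_option autoImplicit false

namespace Cfsg.Agent.H87.CCL

open Subgroup Cfsg.Agent.H89

variable {G : Type*} [Group G]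

theorem eq_of_le_index [Finite G] {A B : Subgroup G} (h : A ≤ B) (hi : A.index = B.index) :
    A = B := by
  refine Subgroup.eq_of_le_of_card_ge h (le_of_eq ?_)
  have h1 := A.card_mul_index
  rw [← B.card_mul_index, hi] at h1
  exact (Nat.eq_of_mul_eq_mul_right (Nat.pos_of_ne_zero index_ne_zero_of_finite) h1).symm

theorem IsPEl.pow {p : ℕ} (hp : p.Prime) {x : G} (h : IsPEl p x) (i : ℕ) : IsPEl p (x ^ i) := by
  obtain ⟨k, hk⟩ := h
  obtain ⟨j, -, hj⟩ := (Nat.dvd_prime_pow hp).mp (hk ▸ orderOf_pow_dvd (x := x) i)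
  exact ⟨j, hj⟩

theorem IsPEl.mul {p : ℕ} (hp : p.Prime) {x y : G} (hx : IsPEl p x) (hy : IsPEl p y)
    (hc : Commute x y) : IsPEl p (x * y) := by
  obtain ⟨a, ha⟩ := hx
  obtain ⟨b, hb⟩ := hy
  have h : (x * y) ^ p ^ (a + b) = 1 := by
    have h1 : x ^ p ^ a = 1 := ha ▸ pow_orderOf_eq_one x
    have h2 : y ^ p ^ b = 1 := hb ▸ pow_orderOf_eq_one y
    have e1 : x ^ p ^ (a + b) = 1 := by rw [pow_add, pow_mul, h1, one_pow]
    have e2 : y ^ p ^ (a + b) = 1 := by rw [pow_add, mul_comm, pow_mul, h2, one_pow]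
    rw [hc.mul_pow, e1, e2, one_mul]
  obtain ⟨j, -, hj⟩ := (Nat.dvd_prime_pow hp).mp (orderOf_dvd_of_pow_eq_one h)
  exact ⟨j, hj⟩

theorem IsPEl.coprime_of_dvd {p : ℕ} (hp : p.Prime) {x : G} (h : IsPEl p x) {k : ℕ}
    (hk : ¬ p ∣ k) {l : ℕ} (hl : l ∣ k) : (orderOf x).Coprime l :=
  (h.coprime hp hk).coprime_dvd_right hl

/-- A noncentral `p`-element has a noncentral power whose `p`-th power is central. -/
theorem exists_pow_prime_central {p : ℕ} (hp : p.Prime) {u : G} (hu : IsPEl p u)
    (hnc : u ∉ center G) :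
    ∃ i : ℕ, u ^ i ∉ center G ∧ (u ^ i) ^ p ∈ center G := by
  classical
  obtain ⟨k, hk⟩ := hu
  have hex : ∃ e, u ^ p ^ e ∈ center G := ⟨k, by rw [← hk, pow_orderOf_eq_one]; exact one_mem _⟩
  have hpos : Nat.find hex ≠ 0 := fun h0 => hnc (by simpa [h0] using Nat.find_spec hex)
  refine ⟨p ^ (Nat.find hex - 1), Nat.find_min hex (by omega), ?_⟩
  rw [← pow_mul, ← pow_succ, show Nat.find hex - 1 + 1 = Nat.find hex by omega]
  exact Nat.find_spec hex

/-- `m > n > 1` are the two largest class sizes, and they are coprime. -/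
structure TopTwo (G : Type*) [Group G] (m n : ℕ) : Prop where
  lt : n < m
  one_lt : 1 < n
  coprime : m.Coprime n
  top : ∀ z : G, (cz z).index ≤ m
  second : ∀ z : G, (cz z).index < m → (cz z).index ≤ n

namespace TopTwo

variable [Finite G] {m n : ℕ}

theorem eq_n_of_dvd (h : TopTwo G m n) {w : G} (hd : n ∣ (cz w).index) : (cz w).index = n := by
  have hpos : 0 < (cz w).index := Nat.pos_of_ne_zero index_ne_zero_of_finite
  have hne : (cz w).index ≠ m := fun e => h.one_lt.ne'
    (Nat.Coprime.eq_one_of_dvd h.coprime.symm (e ▸ hd))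
  exact le_antisymm (h.second w (lt_of_le_of_ne (h.top w) hne)) (Nat.le_of_dvd hpos hd)

theorem eq_m_of_dvd (h : TopTwo G m n) {w : G} (hd : m ∣ (cz w).index) : (cz w).index = m :=
  le_antisymm (h.top w) (Nat.le_of_dvd (Nat.pos_of_ne_zero index_ne_zero_of_finite) hd)

theorem index_mul_m (h : TopTwo G m n) {a b : G} (hb : (cz b).index = m)
    (hco : (cz a).index.Coprime (cz b).index) : (cz (a * b)).index = m :=
  le_antisymm (h.top _) (hb ▸ index_le_right hco)

/-- If `[x₀, G] = M` centralises `x` and a small class size is coprime to `n`, it is `1`. -/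
theorem small_central (h : TopTwo G m n) {M : Subgroup G} [M.Normal] (hM : Nat.card M ∣ m)
    {x : G} (hxM : x ∈ M) (hx : (cz x).index = n) {w : G} (hco : (cz w).index.Coprime n)
    (hlt : (cz w).index < m) : w ∈ center G := by
  set k := (cz w).index with hk
  have hcowx : (cz w).index.Coprime (cz x).index := by rw [hx]; exact hco
  have hdvd : (cz (w * x)).index ∣ k * n := by
    rw [← hx, ← index_inf_eq_mul hcowx]
    refine index_dvd_of_le fun g hg => mem_cz.mpr ?_
    exact Commute.mul_right (mem_cz.mp hg.1) (mem_cz.mp hg.2)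
  have hne : (cz (w * x)).index ≠ m := fun e => by
    rw [e] at hdvd
    have h1 : m ∣ k := h.coprime.dvd_of_dvd_mul_right hdvd
    have h2 := Nat.le_of_dvd (Nat.pos_of_ne_zero index_ne_zero_of_finite) h1
    omega
  have hwx : (cz (w * x)).index = n := le_antisymm (h.second _ (lt_of_le_of_ne (h.top _) hne))
    (hx ▸ index_le_right hcowx)
  have hL : Nat.card (L w) ∣ n := hx ▸ card_L_dvd hcowx (hwx.trans hx.symm)
  obtain ⟨-, -, c, hc, hcw⟩ := exists_translate (hco.symm.coprime_dvd_left hL)
  have hdis : ∀ g : G, g ∈ L w → g ∈ M → g = 1 := fun g h1 h2 => by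
    have e1 : orderOf g ∣ n := (Subgroup.orderOf_dvd_natCard _ h1).trans hL
    have e2 : orderOf g ∣ m := (Subgroup.orderOf_dvd_natCard _ h2).trans hM
    exact orderOf_eq_one_iff.mp (Nat.eq_one_of_dvd_coprimes h.coprime e2 e1)
  have hcx : x ∈ cz c := by
    refine mem_cz.mpr ?_
    have h1 : x * c * x⁻¹ * c⁻¹ ∈ L w := mul_mem ((L_normal w).conj_mem c hc x) (inv_mem hc)
    have h2 : x * c * x⁻¹ * c⁻¹ ∈ M := by
      have := mul_mem hxM ((inferInstance : M.Normal).conj_mem _ (inv_mem hxM) c)
      convert this using 1; group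
    calc x * c = x * c * x⁻¹ * c⁻¹ * (c * x) := by group
      _ = c * x := by rw [hdis _ h1 h2, one_mul]
  have hord : (orderOf c).Coprime (orderOf x) := by
    have e1 : orderOf c ∣ n := (Subgroup.orderOf_dvd_natCard _ hc).trans hL
    have e2 : orderOf x ∣ m := (Subgroup.orderOf_dvd_natCard _ hxM).trans hM
    exact (h.coprime.coprime_dvd_left e2).coprime_dvd_right e1 |>.symm
  have hidx : (cz (c * x)).index = k * n := by
    rw [cz_mul hcx hord, hcw, index_inf_eq_mul hcowx, hx]
  have h3 := h.eq_n_of_dvd (hidx ▸ dvd_mul_left n k)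
  rw [hidx] at h3
  refine index_cz_eq_one_iff.mp (Nat.eq_of_mul_eq_mul_right (zero_lt_one.trans h.one_lt) ?_)
  rw [← hk, h3, one_mul]

/-- An element whose class size divides `m` is central or has class size `m`. -/
theorem dvd_m_cases (h : TopTwo G m n) {M : Subgroup G} [M.Normal] (hM : Nat.card M ∣ m)
    {x : G} (hxM : x ∈ M) (hx : (cz x).index = n) {w : G} (hd : (cz w).index ∣ m) :
    w ∈ center G ∨ (cz w).index = m := by
  by_cases e : (cz w).index = m
  · exact Or.inr e
  · exact Or.inl (h.small_central hM hxM hx (h.coprime.coprime_dvd_left hd)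
      (lt_of_le_of_ne (h.top w) e))

end TopTwo

/-- The data of the proof. -/
structure Data (G : Type*) [Group G] (m n r : ℕ) (x y : G) (M : Subgroup G) : Prop where
  hyp : TopTwo G m n
  normal : M.Normal
  comm : IsMulCommutative M
  card_dvd : Nat.card M ∣ m
  mem : x ∈ M
  index_x : (cz x).index = n
  stab : ∀ v : G, (cz v).index = m → ∀ l ∈ M, l * v ∈ clSet v
  prime : r.Prime
  r_dvd : r ∣ n
  pel : IsPEl r y
  index_y : (cz y).index = m

/-- Existence of the data, with unchanged centralizers. -/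
theorem exists_data [Finite G] {m n : ℕ} (h : TopTwo G m n) {x₀ y₀ : G}
    (hx : (cz x₀).index = n) (hy : (cz y₀).index = m) :
    ∃ (r : ℕ) (x y : G) (M : Subgroup G), Data G m n r x y M ∧ cz x = cz x₀ ∧ cz y = cz y₀ := by
  have hco : (cz x₀).index.Coprime (cz y₀).index := by rw [hx, hy]; exact h.coprime.symm
  have hxy := h.index_mul_m hy hco
  have hM : Nat.card (L x₀) ∣ m := hy ▸ card_L_dvd hco (hxy.trans hy.symm)
  obtain ⟨-, hcomm, x, hxM, hxx⟩ :=
    exists_translate (a := x₀) (by rw [hx]; exact h.coprime.coprime_dvd_left hM)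
  have hxn : (cz x).index = n := hxx.symm ▸ hx
  have hstab : ∀ v : G, (cz v).index = m → ∀ l ∈ L x₀, l * v ∈ clSet v := by
    intro v hv l hl
    have hco' : (cz x₀).index.Coprime (cz v).index := by rw [hx, hv]; exact h.coprime.symm
    exact L_stab hco' ((h.index_mul_m hv hco').trans hv.symm) l hl v (self_mem_clSet v)
  have hy0 : y₀ ∉ center G := fun hc => by
    rw [index_cz_eq_one_iff.mpr hc] at hy
    have := h.lt; have := h.one_lt
    omega
  obtain ⟨r₀, u₀, hr₀, hu₀, hu₀Z, -, hle⟩ := exists_primary_noncentral hy0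
  have hu₀m : (cz u₀).index = m :=
    (h.dvd_m_cases hM hxM hxn (hy ▸ index_dvd_of_le hle)).resolve_left hu₀Z
  have hu₀e : cz y₀ = cz u₀ := eq_of_le_index hle (hy.trans hu₀m.symm)
  obtain ⟨r, hr, hrn⟩ := Nat.exists_prime_and_dvd h.one_lt.ne'
  haveI : Fact r.Prime := ⟨hr⟩
  by_cases hrr : r = r₀
  · exact ⟨r, x, u₀, L x₀, ⟨h, L_normal x₀, hcomm, hM, hxM, hxn, hstab, hr, hrn, hrr ▸ hu₀,
      hu₀m⟩, hxx, hu₀e.symm⟩
  -- a Sylow `r`-subgroup of `C(u₀)` is not contained in `C(x)`
  have hrm : ¬ r ∣ m := fun hd => hr.ne_one (Nat.eq_one_of_dvd_coprimes h.coprime hd hrn)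
  obtain ⟨R, hR, -⟩ := exists_isSylowIn (p := r) (H := cz u₀) (IsPGroup.of_bot) bot_le
  have hRX : ¬ R ≤ cz x := by
    intro hle'
    have h1 := card_dvd_ordProj hR.isPGroup hle'
    rw [hR.2] at h1
    have h2 := (Nat.pow_dvd_pow_iff_le_right hr.one_lt).mp h1
    have e1 := congrArg (fun t => t.factorization r)
      ((card_mul_index (cz u₀)).trans (card_mul_index (cz x)).symm)
    simp only [Nat.factorization_mul Nat.card_pos.ne' index_ne_zero_of_finite,
      Finsupp.add_apply] at e1
    rw [hu₀m, hxn] at e1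
    rw [Nat.factorization_eq_zero_of_not_dvd hrm] at e1
    have h3 := hr.factorization_pos_of_dvd (by have := h.one_lt; omega) hrn
    omega
  obtain ⟨u, huR, huX⟩ := SetLike.not_le_iff_exists.mp hRX
  have hur : IsPEl r u := IsPEl.of_mem hR.isPGroup huR
  have huc : u ∈ cz u₀ := hR.1 huR
  have hcop : (orderOf u₀).Coprime (orderOf u) := IsPEl.coprime_pel hr₀ hr (Ne.symm hrr) hu₀ hur
  have hidx : m ∣ (cz (u₀ * u)).index := by
    rw [cz_mul huc hcop, ← hu₀m]
    exact index_dvd_of_le inf_le_left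
  have he : cz (u₀ * u) = cz u₀ :=
    eq_of_le_index (by rw [cz_mul huc hcop]; exact inf_le_left)
      ((h.eq_m_of_dvd hidx).trans hu₀m.symm)
  have hle2 : cz u₀ ≤ cz u := by
    rw [← he, cz_mul huc hcop]
    exact inf_le_right
  have huZ : u ∉ center G := fun hc => huX (center_le_cz x hc)
  have hum : (cz u).index = m :=
    (h.dvd_m_cases hM hxM hxn (hu₀m ▸ index_dvd_of_le hle2)).resolve_left huZ
  exact ⟨r, x, u, L x₀, ⟨h, L_normal x₀, hcomm, hM, hxM, hxn, hstab, hr, hrn, hur, hum⟩, hxx,
    (hu₀e.trans (eq_of_le_index hle2 (hu₀m.trans hum.symm))).symm⟩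

namespace Data

variable [Finite G] {m n r : ℕ} {x y : G} {M : Subgroup G} (d : Data G m n r x y M)
include d

theorem orderOf_dvd_m {c : G} (hc : c ∈ M) : orderOf c ∣ m :=
  (Subgroup.orderOf_dvd_natCard _ hc).trans d.card_dvd

theorem not_dvd_m {q : ℕ} (hq : q.Prime) (hqn : q ∣ n) : ¬ q ∣ m := fun hd =>
  hq.ne_one (Nat.eq_one_of_dvd_coprimes d.hyp.coprime hd hqn)

theorem y_notMem : y ∉ center G := fun hc => by
  have h := d.index_y
  rw [index_cz_eq_one_iff.mpr hc] at h
  have := d.hyp.lt; have := d.hyp.one_lt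
  omega

theorem x_notMem : x ∉ center G := fun hc => by
  have h := d.index_x
  rw [index_cz_eq_one_iff.mpr hc] at h
  have := d.hyp.one_lt
  omega

theorem fix_one {v c : G} (hv : (cz v).index = m) (hc : c ∈ M) (hcomm : Commute c v)
    (hco : (orderOf c).Coprime (orderOf v)) : c = 1 := by
  obtain ⟨g, hg⟩ := d.stab v hv c hc
  have h1 : orderOf (c * v) = orderOf v := by
    rw [← show g * v * g⁻¹ = c * v from hg]
    exact orderOf_injective (MulAut.conj g).toMonoidHom (MulAut.conj g).injective v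
  rw [hcomm.orderOf_mul_eq_mul_orderOf_of_coprime hco] at h1
  exact orderOf_eq_one_iff.mp
    (Nat.eq_of_mul_eq_mul_right (orderOf_pos v) (h1.trans (one_mul _).symm))

theorem coprime_y {c : G} (hc : c ∈ M) : (orderOf c).Coprime (orderOf y) :=
  (IsPEl.coprime_of_dvd d.prime d.pel (d.not_dvd_m d.prime d.r_dvd) (d.orderOf_dvd_m hc)).symm

theorem M_inf_Y {c : G} (hc : c ∈ M) (hcY : c ∈ cz y) : c = 1 :=
  d.fix_one d.index_y hc (mem_cz.mp hcY) (d.coprime_y hc)

theorem x_notMem_Y : x ∉ cz y := fun h => d.x_notMem (d.M_inf_Y d.mem h ▸ one_mem _)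

theorem central_or_Y {v : G} (h : cz y ≤ cz v) : v ∈ center G ∨ cz v = cz y := by
  haveI := d.normal
  rcases d.hyp.dvd_m_cases d.card_dvd d.mem d.index_x (d.index_y ▸ index_dvd_of_le h) with e | e
  · exact Or.inl e
  · exact Or.inr (eq_of_le_index h (d.index_y.trans e.symm)).symm

theorem le_of_coprime {v : G} (hv : v ∈ cz y) (hco : (orderOf y).Coprime (orderOf v)) :
    cz y ≤ cz v := by
  have he : cz (y * v) = cz y := eq_of_le_index (by rw [cz_mul hv hco]; exact inf_le_left)
    ((d.hyp.eq_m_of_dvd (d.index_y ▸ index_dvd_of_le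
      (by rw [cz_mul hv hco]; exact inf_le_left))).trans d.index_y.symm)
  rw [← he, cz_mul hv hco]
  exact inf_le_right

/-- `C(x) ⊓ C(y) = Z(G)`. -/
theorem inter_center : cz x ⊓ cz y = center G := by
  refine le_antisymm (fun t ht => ?_) (le_inf (center_le_cz x) (center_le_cz y))
  refine mem_of_primaryParts (center G) t fun q hq _ => ?_
  set w := t ^ primaryExp q t with hw
  have hwX : w ∈ cz x := pow_mem ht.1 _
  have hwY : w ∈ cz y := pow_mem ht.2 _
  have hwq : IsPEl q w := by
    obtain ⟨a, -, ha⟩ := (Nat.dvd_prime_pow hq).mp (orderOf_primaryPart_dvd q t)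
    exact ⟨a, ha⟩
  by_cases hqr : q = r
  · subst hqr
    have hco : (orderOf x).Coprime (orderOf w) :=
      (IsPEl.coprime_of_dvd hq hwq (d.not_dvd_m hq d.r_dvd) (d.orderOf_dvd_m d.mem)).symm
    have hn := d.hyp.eq_n_of_dvd (w := x * w)
      (d.index_x ▸ index_dvd_of_le (by rw [cz_mul hwX hco]; exact inf_le_left))
    have he : cz (x * w) = cz x := eq_of_le_index (by rw [cz_mul hwX hco]; exact inf_le_left)
      (hn.trans d.index_x.symm)
    have hle : cz x ≤ cz w := by
      rw [← he, cz_mul hwX hco]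
      exact inf_le_right
    have hk : (cz w).index ∣ n := d.index_x ▸ index_dvd_of_le hle
    have hcoy : (cz w).index.Coprime (cz y).index := by
      rw [d.index_y]; exact (d.hyp.coprime.coprime_dvd_right hk).symm
    have hL : Nat.card (L w) ∣ m := d.index_y ▸ card_L_dvd hcoy
      ((d.hyp.index_mul_m d.index_y hcoy).trans d.index_y.symm)
    obtain ⟨-, -, c, hc, hcw⟩ := exists_translate (a := w)
      ((d.hyp.coprime.coprime_dvd_left hL).coprime_dvd_right hk)
    have hcY : c ∈ cz y := mem_cz_comm.mp (hcw.symm ▸ mem_cz_comm.mp hwY)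
    have hle2 : cz y ≤ cz w := hcw ▸ d.le_of_coprime hcY
      (IsPEl.coprime_of_dvd hq d.pel (d.not_dvd_m hq d.r_dvd)
        ((Subgroup.orderOf_dvd_natCard _ hc).trans hL))
    have hk' : (cz w).index ∣ m := d.index_y ▸ index_dvd_of_le hle2
    exact index_cz_eq_one_iff.mp (Nat.eq_one_of_dvd_coprimes d.hyp.coprime hk' hk)
  · rcases d.central_or_Y (d.le_of_coprime hwY (IsPEl.coprime_pel d.prime hq (Ne.symm hqr) d.pel hwq))
      with e | e
    · exact e
    · exact absurd (e ▸ mem_cz_comm.mp hwX) d.x_notMem_Y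

theorem index_center : (center G).index = n * m := by
  rw [← d.inter_center, index_inf_eq_mul (by
    rw [d.index_x, d.index_y]; exact d.hyp.coprime.symm), d.index_x, d.index_y]

theorem card_Y : Nat.card (cz y) = Nat.card (center G) * n := by
  have h1 := card_mul_index (cz y)
  rw [← card_mul_index (center G), d.index_center, d.index_y, ← mul_assoc] at h1
  exact Nat.eq_of_mul_eq_mul_right (by have := d.hyp.lt; omega) h1

theorem prime_dvd_n {q : ℕ} (hq : q.Prime) {v : G} (hvY : v ∈ cz y) (hv : IsPEl q v)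
    (hvZ : v ∉ center G) : q ∣ n := by
  by_contra hd
  refine hvZ ?_
  have hrel : (center G).relIndex (cz y) = n := by
    have h1 := relIndex_mul_index (center_le_cz y : center G ≤ cz y)
    rw [d.index_center, d.index_y] at h1
    exact Nat.eq_of_mul_eq_mul_right (by have := d.hyp.lt; omega) h1
  have h2 : v ^ n ∈ center G := by
    have := pow_index_mem ((center G).subgroupOf (cz y)) ⟨v, hvY⟩
    rw [show ((center G).subgroupOf (cz y)).index = n from hrel] at this
    simpa [mem_subgroupOf] using this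
  obtain ⟨i, hi⟩ := exists_pow_eq_self_of_coprime (x := v) (hv.coprime hq hd).symm
  rw [← hi]
  exact pow_mem h2 i

/-- A noncentral primary element of `C(y)` has class size `m`. -/
theorem key_m {q : ℕ} (hq : q.Prime) {v : G} (hv : IsPEl q v) (hvY : v ∈ cz y)
    (hvZ : v ∉ center G) : (cz v).index = m := by
  classical
  haveI := d.normal
  by_contra hne
  have hqm : ¬ q ∣ m := d.not_dvd_m hq (d.prime_dvd_n hq hvY hv hvZ)
  have hnco : ¬ (cz v).index.Coprime n := fun hco => hvZ
    (d.hyp.small_central d.card_dvd d.mem d.index_x hco (lt_of_le_of_ne (d.hyp.top v) hne))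
  letI : CommGroup M :=
    { (inferInstance : Group M) with mul_comm := fun a b => d.comm.is_comm.comm a b }
  -- the product of the conjugates of `x` under `v`
  set o := orderOf v with ho
  let F : ℕ → M := fun i => MulAut.conjNormal (v ^ i) ⟨x, d.mem⟩
  let a : M := ∏ i ∈ Finset.range o, F i
  have hav : MulAut.conjNormal v a = a := by
    have h1 : MulAut.conjNormal v a = ∏ i ∈ Finset.range o, F (i + 1) := by
      rw [map_prod]
      refine Finset.prod_congr rfl fun i _ => ?_
      change MulAut.conjNormal v (MulAut.conjNormal (v ^ i) ⟨x, d.mem⟩) =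
        MulAut.conjNormal (v ^ (i + 1)) ⟨x, d.mem⟩
      rw [pow_succ', map_mul, MulAut.mul_apply]
    have hFo : F o = F 0 := by
      change MulAut.conjNormal (v ^ o) _ = MulAut.conjNormal (v ^ 0) _
      rw [pow_orderOf_eq_one, pow_zero]
    have h2 := (Finset.prod_range_succ' F o).symm.trans (Finset.prod_range_succ F o)
    rw [hFo] at h2
    rw [h1]
    exact mul_right_cancel h2
  have hacv : (a : G) ∈ cz v := by
    have h1 := congrArg Subtype.val hav
    rw [MulAut.conjNormal_apply] at h1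
    refine mem_cz.mpr ?_
    calc (a : G) * v = v * (a : G) * v⁻¹ * v := by rw [h1]
      _ = v * a := by group
  have hcoM : ∀ c : G, c ∈ M → (orderOf c).Coprime (orderOf v) := fun c hc =>
    (IsPEl.coprime_of_dvd hq hv hqm (d.orderOf_dvd_m hc)).symm
  -- the stabiliser
  set S : Subgroup G := cz y ⊓ cz v ⊓ cz (a : G) with hS
  set CM : Subgroup G := M ⊓ cz v with hCM
  have hvx : x ∉ cz v := fun h => hvZ (d.inter_center ▸ ⟨mem_cz_comm.mp h, hvY⟩)
  have hsep : ∀ u ∈ S, x⁻¹ * (u * x * u⁻¹) ∈ cz v → u ∈ center G := by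
    intro u hu ht
    obtain ⟨⟨huY, huv⟩, hua⟩ := hu
    let t : M := (⟨x, d.mem⟩ : M)⁻¹ * MulAut.conjNormal u ⟨x, d.mem⟩
    have htc : (t : G) = x⁻¹ * (u * x * u⁻¹) := by simp [t]
    have hua' : MulAut.conjNormal u a = a := by
      refine Subtype.ext ?_
      rw [MulAut.conjNormal_apply]
      calc u * (a : G) * u⁻¹ = (a : G) * u * u⁻¹ := by rw [mem_cz.mp hua]
        _ = a := by group
    have h1 : MulAut.conjNormal u a = a * t ^ o := by
      rw [map_prod, ← Finset.card_range o, ← Finset.prod_const t, Finset.card_range,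
        ← Finset.prod_mul_distrib]
      refine Finset.prod_congr rfl fun i _ => ?_
      have hc1 : Commute u (v ^ i) := Commute.pow_right (mem_cz.mp huv) i
      have hc2 : Commute (t : G) (v ^ i) := Commute.pow_right (mem_cz.mp (htc ▸ ht)) i
      refine Subtype.ext ?_
      simp only [F, Subgroup.coe_mul, MulAut.conjNormal_apply]
      calc u * (v ^ i * x * (v ^ i)⁻¹) * u⁻¹ = (u * v ^ i) * x * (u * v ^ i)⁻¹ := by group
        _ = v ^ i * (u * x * u⁻¹) * (v ^ i)⁻¹ := by rw [hc1.eq]; group
        _ = v ^ i * x * (t : G) * (v ^ i)⁻¹ := by rw [htc]; group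
        _ = v ^ i * x * ((t : G) * (v ^ i)⁻¹) := by group
        _ = v ^ i * x * ((v ^ i)⁻¹ * (t : G)) := by rw [hc2.inv_right.eq]
        _ = v ^ i * x * (v ^ i)⁻¹ * (t : G) := by group
    rw [hua'] at h1
    have h2 : (t : G) ^ o = 1 := by
      have := congrArg Subtype.val (left_eq_mul.mp h1)
      simpa using this
    have h3 : (t : G) = 1 := orderOf_eq_one_iff.mp (Nat.eq_one_of_dvd_coprimes
      (hcoM _ t.2) dvd_rfl (orderOf_dvd_of_pow_eq_one h2))
    rw [htc, inv_mul_eq_one] at h3
    rw [← d.inter_center]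
    refine ⟨mem_cz.mpr ?_, huY⟩
    calc u * x = u * x * u⁻¹ * u := by group
      _ = x * u := by rw [← h3]
  -- `[S : Z(G)] < [M : C_M(v)]`
  have hlt : (center G).relIndex S < CM.relIndex M := by
    haveI : Finite (M ⧸ CM.subgroupOf M) := inferInstance
    let f : S ⧸ (center G).subgroupOf S → M ⧸ CM.subgroupOf M :=
      Quotient.lift (fun u : S => ((MulAut.conjNormal (u : G) ⟨x, d.mem⟩ : M) : M ⧸ CM.subgroupOf M))
        (fun u w huw => by
          have h := mem_center_iff.mp (mem_subgroupOf.mp (QuotientGroup.leftRel_apply.mp huw))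
          refine congrArg _ (Subtype.ext ?_)
          simp only [MulAut.conjNormal_apply]
          push_cast at h
          calc (u : G) * x * (u : G)⁻¹
              = (u : G) * (x * ((u : G)⁻¹ * (w : G))) * (w : G)⁻¹ := by group
            _ = (u : G) * ((u : G)⁻¹ * (w : G) * x) * (w : G)⁻¹ := by rw [h x]
            _ = (w : G) * x * (w : G)⁻¹ := by group)
    have hinj : Function.Injective f := by
      intro p p'
      induction p using QuotientGroup.induction_on with
      | _ u =>
        induction p' using QuotientGroup.induction_on with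
        | _ w =>
          intro h
          have h1 := mem_subgroupOf.mp (QuotientGroup.eq.mp h)
          simp only [Subgroup.coe_mul, Subgroup.coe_inv, MulAut.conjNormal_apply] at h1
          refine QuotientGroup.eq.mpr (mem_subgroupOf.mpr ?_)
          push_cast
          refine hsep _ (mul_mem (inv_mem u.2) w.2) ?_
          have huv : (u : G) ∈ cz v := u.2.1.2
          have h2 := mul_mem (mul_mem (inv_mem huv) h1.2) huv
          convert h2 using 1; group
    refine lt_of_le_of_ne (Nat.card_le_card_of_injective f hinj) fun he => ?_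
    obtain ⟨p, hp⟩ := ((Nat.bijective_iff_injective_and_card f).mpr ⟨hinj, he⟩).2 ((1 : M) : _)
    induction p using QuotientGroup.induction_on with
    | _ u =>
      have h1 := mem_subgroupOf.mp (QuotientGroup.eq.mp hp)
      simp only [Subgroup.coe_mul, Subgroup.coe_inv, Subgroup.coe_one, mul_one,
        MulAut.conjNormal_apply] at h1
      refine hvx ?_
      have huv : (u : G) ∈ cz v := u.2.1.2
      have hh : ((u : G) * x * (u : G)⁻¹)⁻¹ ∈ cz v := h1.2
      have h2 := mul_mem (mul_mem (inv_mem huv) (inv_mem hh)) huv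
      convert h2 using 1; group
  have hcardS : Nat.card S = Nat.card (center G) * (center G).relIndex S := by
    rw [mul_comm]
    exact (card_eq_card_quotient_mul_card_subgroup ((center G).subgroupOf S)).trans
      (by rw [Nat.card_congr (subgroupOfEquivOfLe (le_inf (le_inf (center_le_cz _)
        (center_le_cz _)) (center_le_cz _))).toEquiv]; rfl)
  have hcardM : Nat.card M = Nat.card CM * CM.relIndex M := by
    rw [mul_comm]
    exact (card_eq_card_quotient_mul_card_subgroup (CM.subgroupOf M)).trans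
      (by rw [Nat.card_congr (subgroupOfEquivOfLe (inf_le_left : CM ≤ M)).toEquiv]; rfl)
  -- the class of `a v`
  set W := cz ((a : G) * v) with hW
  have hWeq : W = cz (a : G) ⊓ cz v := cz_mul (mem_cz_comm.mp hacv) (hcoM _ a.2)
  have hWn : W.index ≤ n := by
    refine d.hyp.second _ (lt_of_le_of_ne (d.hyp.top _) fun e => hnco ?_)
    have h1 : (cz v).index ∣ m := by
      rw [← e]
      exact index_dvd_of_le (H := W) (K := cz v) (by rw [hWeq]; exact inf_le_right)
    exact d.hyp.coprime.coprime_dvd_left h1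
  have hbound : Nat.card M * Nat.card (cz y) ≤ W.index * (Nat.card CM * Nat.card S) := by
    let ψ : M × cz y → G ⧸ W := fun p => (((p.1 : G) * (p.2 : G) : G) : G ⧸ W)
    let σ : G ⧸ W → M × cz y := Function.invFun ψ
    have hσ : ∀ p, ψ (σ (ψ p)) = ψ p := fun p => Function.invFun_eq ⟨p, rfl⟩
    have hmem : ∀ p : M × cz y,
        ((σ (ψ p)).2 : G)⁻¹ * ((σ (ψ p)).1 : G)⁻¹ * (p.1 : G) * ((σ (ψ p)).2 : G) ∈ CM ∧
        ((σ (ψ p)).2 : G)⁻¹ * (p.2 : G) ∈ S := by
      intro p
      have h1 := QuotientGroup.eq.mp (hσ p)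
      generalize σ (ψ p) = p₀ at h1
      set c := (p₀.2 : G)⁻¹ * (p₀.1 : G)⁻¹ * (p.1 : G) * (p₀.2 : G) with hc
      set u := (p₀.2 : G)⁻¹ * (p.2 : G) with hu
      have hcM : c ∈ M := by
        have := (inferInstance : M.Normal).conj_mem _ (mul_mem (inv_mem p₀.1.2) p.1.2) (p₀.2 : G)⁻¹
        rw [inv_inv] at this
        convert this using 1
        rw [hc]; group
      have huY : u ∈ cz y := mul_mem (inv_mem p₀.2.2) p.2.2
      have hcu : c * u ∈ W := by
        convert h1 using 1
        rw [hc, hu]; group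
      rw [hWeq] at hcu
      obtain ⟨hcua, hcuv⟩ := hcu
      have hcuv' : c * u * v = v * (c * u) := mem_cz.mp hcuv
      have hcomm : u * v * u⁻¹ * v⁻¹ = c⁻¹ * (v * c * v⁻¹) := by
        calc u * v * u⁻¹ * v⁻¹ = c⁻¹ * (c * u * v) * u⁻¹ * v⁻¹ := by group
          _ = c⁻¹ * (v * (c * u)) * u⁻¹ * v⁻¹ := by rw [hcuv']
          _ = c⁻¹ * (v * c * v⁻¹) := by group
      have h2 : u * v * u⁻¹ * v⁻¹ = 1 := by
        refine d.M_inf_Y ?_ (mul_mem (mul_mem (mul_mem huY hvY) (inv_mem huY)) (inv_mem hvY))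
        rw [hcomm]
        exact mul_mem (inv_mem hcM) ((inferInstance : M.Normal).conj_mem _ hcM v)
      have huv : u * v = v * u := by
        calc u * v = u * v * u⁻¹ * v⁻¹ * (v * u) := by group
          _ = v * u := by rw [h2, one_mul]
      have hcv : c * v = v * c := by
        calc c * v = c * u * v * u⁻¹ * (u * v⁻¹ * u⁻¹ * v) := by
              rw [show u * v⁻¹ * u⁻¹ * v = (u * v * u⁻¹)⁻¹ * v by group,
                show u * v * u⁻¹ = v by rw [huv]; group]
              rw [show c * u * v * u⁻¹ * (v⁻¹ * v) = c * (u * v) * u⁻¹ by group, huv]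
              group
          _ = v * (c * u) * u⁻¹ * (u * v⁻¹ * u⁻¹ * v) := by rw [hcuv']
          _ = v * c := by
              rw [show u * v⁻¹ * u⁻¹ * v = (u * v * u⁻¹)⁻¹ * v by group,
                show u * v * u⁻¹ = v by rw [huv]; group]
              group
      have hca : c ∈ cz (a : G) := mem_cz.mpr
        (congrArg Subtype.val (mul_comm (⟨c, hcM⟩ : M) a))
      refine ⟨⟨hcM, mem_cz.mpr hcv⟩, ⟨huY, mem_cz.mpr huv⟩, ?_⟩
      have := mul_mem (inv_mem hca) hcua
      rwa [inv_mul_cancel_left] at this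
    let Φ : M × cz y → (G ⧸ W) × (CM × S) := fun p =>
      (ψ p, (⟨_, (hmem p).1⟩, ⟨_, (hmem p).2⟩))
    have hΦ : Function.Injective Φ := by
      intro p p' h
      simp only [Φ, Prod.mk.injEq, Subtype.mk.injEq] at h
      obtain ⟨h1, h2, h3⟩ := h
      rw [h1] at h2 h3
      exact Prod.ext (Subtype.ext (mul_left_cancel (mul_right_cancel h2)))
        (Subtype.ext (mul_left_cancel h3))
    have := Nat.card_le_card_of_injective Φ hΦ
    rwa [Nat.card_prod, Nat.card_prod, Nat.card_prod, ← index_eq_card] at this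
  rw [hcardM, hcardS, d.card_Y] at hbound
  have h1 : Nat.card CM * Nat.card (center G) * n * CM.relIndex M ≤
      Nat.card CM * Nat.card (center G) * n * (center G).relIndex S := by
    calc _ = Nat.card CM * CM.relIndex M * (Nat.card (center G) * n) := by ring
      _ ≤ W.index * (Nat.card CM * (Nat.card (center G) * (center G).relIndex S)) := hbound
      _ ≤ n * (Nat.card CM * (Nat.card (center G) * (center G).relIndex S)) :=
          Nat.mul_le_mul_right _ hWn
      _ = _ := by ring
  have h2 := Nat.le_of_mul_le_mul_left h1 (Nat.mul_pos (Nat.mul_pos Nat.card_pos Nat.card_pos)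
    (by have := d.hyp.one_lt; omega))
  omega

/-- A noncentral primary element of `C(y)` has centralizer `C(y)`. -/
theorem primary_cz {q : ℕ} (hq : q.Prime) {v : G} (hv : IsPEl q v) (hvY : v ∈ cz y)
    (hvZ : v ∉ center G) : cz v = cz y := by
  classical
  haveI := d.normal
  by_cases hqr : q = r
  swap
  · exact (d.central_or_Y (d.le_of_coprime hvY
      (IsPEl.coprime_pel d.prime hq (Ne.symm hqr) d.pel hv))).resolve_left hvZ
  subst hqr
  obtain ⟨i, hy1, hy1r⟩ := exists_pow_prime_central hq d.pel d.y_notMem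
  obtain ⟨j, hv1, hv1r⟩ := exists_pow_prime_central hq hv hvZ
  set y1 := y ^ i with hy1d
  set v1 := v ^ j with hv1d
  have hY1 : cz y1 = cz y := (d.central_or_Y (cz_le_cz_pow y i)).resolve_left hy1
  have hv1Y : v1 ∈ cz y := pow_mem hvY j
  suffices hV : cz v1 = cz y by
    refine eq_of_le_index (hV ▸ cz_le_cz_pow v j) ?_
    rw [d.key_m hq hv hvY hvZ, d.index_y]
  have hcomm : Commute v1 y1 := mem_cz.mp (hY1.symm ▸ hv1Y)
  by_cases hcase : ∃ l, v1 * y1 ^ l ∈ center G
  · obtain ⟨l, hl⟩ := hcase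
    have h1 : cz y ≤ cz v1 := by
      intro g hg
      have hg1 : Commute g (y1 ^ l) := Commute.pow_right (mem_cz.mp (hY1.symm ▸ hg)) l
      have hg2 : Commute g (v1 * y1 ^ l) := mem_center_iff.mp hl g
      have := hg2.mul_right hg1.inv_right
      rw [mul_inv_cancel_right] at this
      exact mem_cz.mpr this
    exact (d.central_or_Y h1).resolve_left hv1
  -- otherwise `⟨v1, y1⟩` is fixed point free on `M`, which is impossible
  exfalso
  push Not at hcase
  letI : CommGroup M :=
    { (inferInstance : Group M) with mul_comm := fun a b => d.comm.is_comm.comm a b }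
  let N : G → M → M := fun g c => ∏ t ∈ Finset.range q, MulAut.conjNormal (g ^ t) c
  have hN : ∀ g : G, IsPEl q g → g ∈ cz y → g ∉ center G → g ^ q ∈ center G →
      ∀ c : M, N g c = 1 := by
    intro g hg hgY hgZ hgr c
    have hfix : MulAut.conjNormal g (N g c) = N g c := by
      have h1 : MulAut.conjNormal g (N g c) =
          ∏ t ∈ Finset.range q, MulAut.conjNormal (g ^ (t + 1)) c := by
        rw [map_prod]
        refine Finset.prod_congr rfl fun t _ => ?_
        rw [pow_succ', map_mul, MulAut.mul_apply]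
      have hFo : MulAut.conjNormal (g ^ q) c = MulAut.conjNormal (g ^ 0) c := by
        refine Subtype.ext ?_
        simp only [MulAut.conjNormal_apply, pow_zero, one_mul, inv_one, mul_one]
        rw [← mem_center_iff.mp hgr (c : G)]
        group
      have h2 := (Finset.prod_range_succ' (fun t => MulAut.conjNormal (g ^ t) c) q).symm.trans
        (Finset.prod_range_succ (fun t => MulAut.conjNormal (g ^ t) c) q)
      rw [hFo] at h2
      rw [h1]
      exact mul_right_cancel h2
    refine Subtype.ext (d.fix_one (d.key_m hq hg hgY hgZ) (N g c).2 ?_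
      (IsPEl.coprime_of_dvd hq hg (d.not_dvd_m hq d.r_dvd) (d.orderOf_dvd_m (N g c).2)).symm)
    have h3 := congrArg Subtype.val hfix
    rw [MulAut.conjNormal_apply] at h3
    calc ((N g c : M) : G) * g = g * (N g c : G) * g⁻¹ * g := by rw [h3]
      _ = g * (N g c : G) := by group
  have hy1Y : y1 ∈ cz y := pow_mem (self_mem_cz y) i
  have hy1q : IsPEl q y1 := IsPEl.pow hq d.pel i
  have hv1q : IsPEl q v1 := IsPEl.pow hq hv j
  let e : M := ⟨x, d.mem⟩
  have hA : ∀ l : ℕ, N (v1 * y1 ^ l) e = 1 := fun l => by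
    refine hN _ (IsPEl.mul hq hv1q (IsPEl.pow hq hy1q l) (hcomm.pow_right l))
      (mul_mem hv1Y (pow_mem hy1Y l)) (hcase l) ?_ e
    rw [(hcomm.pow_right l).mul_pow, ← pow_mul y1, mul_comm l, pow_mul y1]
    exact mul_mem hv1r (pow_mem hy1r l)
  have hB : ∀ s : ℕ, 0 < s → s < q → N (y1 ^ s) e = 1 := fun s hs hsq => by
    refine hN _ (IsPEl.pow hq hy1q s) (pow_mem hy1Y s) (fun hc => hy1 ?_) ?_ e
    · have hg : (q : ℤ).gcd (s : ℤ) = 1 := by
        rw [Int.gcd_natCast_natCast]
        exact hq.coprime_iff_not_dvd.mpr fun hd => absurd (Nat.le_of_dvd hs hd) (by omega)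
      obtain ⟨α, β, hαβ⟩ := Int.isCoprime_iff_gcd_eq_one.mpr hg
      have h5 : y1 = (y1 ^ q) ^ α * (y1 ^ s) ^ β := by
        rw [← zpow_natCast y1 q, ← zpow_natCast y1 s, ← zpow_mul, ← zpow_mul, ← zpow_add,
          mul_comm (q : ℤ) α, mul_comm (s : ℤ) β, hαβ, zpow_one]
      rw [h5]
      exact mul_mem (zpow_mem hy1r α) (zpow_mem hc β)
    · rw [← pow_mul, mul_comm, pow_mul]
      exact pow_mem hy1r s
  have hsum : ∏ l ∈ Finset.range q, N (v1 * y1 ^ l) e = 1 := Finset.prod_eq_one fun l _ => hA l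
  rw [Finset.prod_comm] at hsum
  have hterm : ∀ s ∈ Finset.range q, s ≠ 0 →
      ∏ l ∈ Finset.range q, MulAut.conjNormal ((v1 * y1 ^ l) ^ s) e = 1 := by
    intro s hs hs0
    have h1 : ∀ l : ℕ, MulAut.conjNormal ((v1 * y1 ^ l) ^ s) e =
        MulAut.conjNormal (v1 ^ s) (MulAut.conjNormal ((y1 ^ s) ^ l) e) := fun l => by
      rw [(hcomm.pow_right l).mul_pow, ← pow_mul y1, mul_comm l, pow_mul y1, map_mul, MulAut.mul_apply]
    rw [Finset.prod_congr rfl fun l _ => h1 l, ← map_prod]
    change MulAut.conjNormal (v1 ^ s) (N (y1 ^ s) e) = 1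
    rw [hB s (Nat.pos_of_ne_zero hs0) (Finset.mem_range.mp hs), map_one]
  rw [Finset.prod_eq_single_of_mem 0 (Finset.mem_range.mpr hq.pos) hterm] at hsum
  simp only [pow_zero, map_one, MulAut.one_apply, Finset.prod_const, Finset.card_range] at hsum
  have h6 : x ^ q = 1 := by simpa [e] using congrArg Subtype.val hsum
  have h7 : x = 1 := orderOf_eq_one_iff.mp (Nat.eq_one_of_dvd_coprimes
    (hq.coprime_iff_not_dvd.mpr (d.not_dvd_m hq d.r_dvd)) (orderOf_dvd_of_pow_eq_one h6)
    (d.orderOf_dvd_m d.mem))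
  exact d.x_notMem (h7 ▸ one_mem _)

/-- `C(v) = C(y)` for every noncentral `v ∈ C(y)`. -/
theorem cz_eq {v : G} (hvY : v ∈ cz y) (hvZ : v ∉ center G) : cz v = cz y := by
  have hpel : ∀ (q : ℕ) (t : G), q.Prime → IsPEl q (t ^ primaryExp q t) := fun q t hq => by
    obtain ⟨a, -, ha⟩ := (Nat.dvd_prime_pow hq).mp (orderOf_primaryPart_dvd q t)
    exact ⟨a, ha⟩
  refine le_antisymm ?_ fun t ht => ?_
  · obtain ⟨q, hq, hqm⟩ := exists_primaryPart_notMem (center G) hvZ
    exact (cz_le_cz_pow v _).trans (d.primary_cz hq (hpel q v hq) (pow_mem hvY _) hqm).le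
  · refine mem_of_primaryParts (cz v) t fun q hq _ => ?_
    by_cases hc : t ^ primaryExp q t ∈ center G
    · exact center_le_cz v hc
    · exact mem_cz_comm.mp
        ((d.primary_cz hq (hpel q t hq) (pow_mem ht _) hc).symm ▸ hvY)

end Data

end Cfsg.Agent.H87.CCL
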