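import Mathlib
import Cfsg.Agent.H87.CoprimeClassCore
import Cfsg.Agent.H21.FrobeniusBasic

/-!
# The two largest class sizes coprime: the Frobenius structure of `G / Z(G)`
-/

set_option autoImplicit false

namespace Cfsg.Agent.H87.CCL

open Subgroup Cfsg.Agent.H89
open scoped Pointwise

variable {G : Type*} [Group G] [Finite G]

namespace Data

variable {m n r : ℕ} {x y : G} {M : Subgroup G} (d : Data G m n r x y M)
include d

/-- `w` is noncentral and has no conjugate in `C(y)`. -/
def Outside (_d : Data G m n r x y M) (w : G) : Prop :=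
  w ∉ center G ∧ ∀ g : G, g * w * g⁻¹ ∉ cz y

/-- An element outside the conjugates of `C(y)` has class size `n` and centralises only such
elements. -/
theorem outside_cz {w : G} (hw : d.Outside w) :
    (cz w).index = n ∧ (∀ g : G, ∃ a ∈ cz w, ∃ b ∈ cz y, g = a * b) ∧
      ∀ u ∈ cz w, u ∈ center G ∨ d.Outside u := by
  have hcz : ∀ u ∈ cz w, ∀ g : G, g * u * g⁻¹ ∈ cz y → u ∈ center G := by
    intro u hu g hg
    by_contra hnc
    refine hw.2 g ?_
    rw [← d.cz_eq hg (conj_notMem_center hnc)]
    exact conj_mem_cz_iff.mpr (mem_cz_comm.mp hu)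
  have hinf : cz w ⊓ cz y = center G := by
    refine le_antisymm (fun u hu => hcz u hu.1 1 ?_) (le_inf (center_le_cz w) (center_le_cz y))
    simpa using hu.2
  haveI : Fact r.Prime := ⟨d.prime⟩
  have hne : (cz w).index ≠ m := by
    intro e
    obtain ⟨R, hR, -⟩ := exists_isSylowIn (p := r) (H := cz w) IsPGroup.of_bot bot_le
    have hRtop : IsSylowIn r R ⊤ := by
      refine ⟨le_top, ?_⟩
      rw [hR.2, Subgroup.card_top, ← card_mul_index (cz w), e,
        Nat.factorization_mul Nat.card_pos.ne' (by have := d.hyp.lt; omega), Finsupp.add_apply,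
        Nat.factorization_eq_zero_of_not_dvd (d.not_dvd_m d.prime d.r_dvd), add_zero]
    obtain ⟨c, -, hc⟩ := hRtop.exists_conj_mem d.pel (mem_top y)
    refine conj_notMem_center d.y_notMem (hcz _ (hR.1 hc) c⁻¹ ?_)
    have h : c⁻¹ * (c * y * c⁻¹) * c⁻¹⁻¹ = y := by group
    rw [h]
    exact self_mem_cz y
  have hle : n ≤ (cz w).index := by
    have h1 := index_inf_le (H := cz w) (K := cz y)
    rw [hinf, d.index_center, d.index_y] at h1
    exact Nat.le_of_mul_le_mul_right h1 (by have := d.hyp.lt; omega)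
  have hn : (cz w).index = n :=
    le_antisymm (d.hyp.second _ (lt_of_le_of_ne (d.hyp.top w) hne)) hle
  refine ⟨hn, exists_mul_of_index ?_, fun u hu => ?_⟩
  · rw [hinf, d.index_center, hn, d.index_y]
  · by_cases hc : u ∈ center G
    · exact Or.inl hc
    · exact Or.inr ⟨hc, fun g hg => hc (hcz u hu g hg)⟩

/-- Noncentral elements of `C(x)` lie outside the conjugates of `C(y)`. -/
theorem outside_of_mem_X {w : G} (hw : w ∈ cz x) (hnc : w ∉ center G) : d.Outside w := by
  refine ⟨hnc, fun g hg => ?_⟩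
  obtain ⟨a, ha, b, hb, rfl⟩ := exists_mul_of_index (A := cz y) (B := cz x) (index_inf_eq_mul (by
    rw [d.index_x, d.index_y]; exact d.hyp.coprime)) g
  refine conj_notMem_center (c := b) hnc (d.inter_center ▸ mem_inf.mpr ⟨?_, ?_⟩)
  · exact mul_mem (mul_mem hb hw) (inv_mem hb)
  · have := mul_mem (mul_mem (inv_mem ha) hg) ha
    convert this using 1; group

/-- `C(y)` is self-normalizing. -/
theorem mem_of_normalizes {u : G} (hu : ∀ t ∈ cz y, u * t * u⁻¹ ∈ cz y) : u ∈ cz y := by
  classical
  haveI := d.normal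
  refine mem_of_primaryParts (cz y) u fun q hq _ => ?_
  haveI : Fact q.Prime := ⟨hq⟩
  set v := u ^ primaryExp q u with hv
  have hvq : IsPEl q v := by
    obtain ⟨a, -, ha⟩ := (Nat.dvd_prime_pow hq).mp (orderOf_primaryPart_dvd q u)
    exact ⟨a, ha⟩
  have hpow : ∀ i : ℕ, ∀ t ∈ cz y, u ^ i * t * (u ^ i)⁻¹ ∈ cz y := by
    intro i
    induction i with
    | zero => intro t ht; simpa using ht
    | succ i ih =>
      intro t ht
      have := hu _ (ih t ht)
      convert this using 1
      rw [pow_succ']; group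
  have hvN : ∀ t ∈ cz y, v * t * v⁻¹ ∈ cz y := hpow _
  by_contra hvY
  have hvnc : v ∉ center G := fun hc => hvY (center_le_cz y hc)
  -- `q` does not divide `n`
  have hqn : ¬ q ∣ n := by
    intro hd
    obtain ⟨S, hS, -⟩ := exists_isSylowIn (p := q) (H := cz y) IsPGroup.of_bot bot_le
    have hStop : IsSylowIn q S ⊤ := by
      refine ⟨le_top, ?_⟩
      rw [hS.2, Subgroup.card_top, ← card_mul_index (cz y), d.index_y,
        Nat.factorization_mul Nat.card_pos.ne' (by have := d.hyp.lt; omega), Finsupp.add_apply,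
        Nat.factorization_eq_zero_of_not_dvd (d.not_dvd_m hq hd), add_zero]
    have habel : ∀ s ∈ cz y, cz y ≤ cz s := fun s hs => by
      by_cases hc : s ∈ center G
      · exact (cz_eq_top_iff.mpr hc).symm ▸ le_top
      · exact (d.cz_eq hs hc).ge
    have hnorm : zpowers v ≤ normalizer (S : Set G) := by
      rw [zpowers_le]
      have h1 : MulAut.conj v • S ≤ S := by
        intro s hs
        rw [mem_pointwise_smul_iff_inv_smul_mem, MulAut.smul_def, MulAut.conj_inv_apply] at hs
        have h2 := hvN _ (hS.1 hs)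
        rw [show v * (v⁻¹ * s * v) * v⁻¹ = s by group] at h2
        have h3 : IsPEl q s := by
          have h4 := (IsPEl.of_mem hS.isPGroup hs).conj v
          rwa [show v * (v⁻¹ * s * v) * v⁻¹ = s by group] at h4
        exact hS.mem_of_commute h3 h2 (habel s h2)
      have h5 : MulAut.conj v • S = S :=
        Subgroup.eq_of_le_of_card_ge h1 (by rw [H20.card_conj_smul])
      refine mem_normalizer_iff.mpr fun t => ⟨fun ht => ?_, fun ht => ?_⟩
      · rw [← h5]
        exact smul_mem_pointwise_smul t (MulAut.conj v) S ht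
      · rw [← h5, mem_pointwise_smul_iff_inv_smul_mem, MulAut.smul_def,
          MulAut.conj_inv_apply] at ht
        convert ht using 1; group
    have hpg := IsPGroup.to_sup_of_normal_right' hvq.isPGroup_zpowers hStop.isPGroup hnorm
    have hSA := hStop.eq_of_le hpg le_sup_right le_top
    exact hvY (hS.1 (hSA.symm ▸ mem_sup_left (mem_zpowers v)))
  have hout : d.Outside v := ⟨hvnc, fun g hg =>
    hqn (d.prime_dvd_n hq hg (hvq.conj g) (conj_notMem_center hvnc))⟩
  obtain ⟨-, hprod, -⟩ := d.outside_cz hout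
  -- every conjugate of `v` normalises `C(y)`
  have hall : ∀ g : G, ∀ t ∈ cz y, g⁻¹ * v * g * t * (g⁻¹ * v * g)⁻¹ ∈ cz y := by
    intro g t ht
    obtain ⟨a, ha, b, hb, rfl⟩ := hprod g
    have ha' : a * v = v * a := mem_cz.mp ha
    have h1 : (a * b)⁻¹ * v * (a * b) = b⁻¹ * v * b := by
      calc (a * b)⁻¹ * v * (a * b) = b⁻¹ * (a⁻¹ * (v * a)) * b := by group
        _ = b⁻¹ * (a⁻¹ * (a * v)) * b := by rw [ha']
        _ = b⁻¹ * v * b := by group
    rw [h1]
    have h2 := mul_mem (mul_mem (inv_mem hb) (hvN _ (mul_mem (mul_mem hb ht) (inv_mem hb)))) hb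
    convert h2 using 1; group
  -- so `v` centralises `M`
  have hM : ∀ c ∈ M, Commute v c := by
    intro c hc
    set e := v⁻¹ * (c⁻¹ * v * c) with he
    have heM : e ∈ M := by
      have := mul_mem ((inferInstance : M.Normal).conj_mem _ (inv_mem hc) v⁻¹) hc
      rw [inv_inv] at this
      convert this using 1
      rw [he]; group
    have hinv : ∀ t ∈ cz y, v⁻¹ * t * v ∈ cz y := by
      intro t ht
      have h1 : v⁻¹ = v ^ (orderOf v - 1) := by
        refine inv_eq_of_mul_eq_one_right ?_
        rw [← pow_succ', Nat.sub_add_cancel (orderOf_pos v), pow_orderOf_eq_one]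
      have h2 := hpow (primaryExp q u * (orderOf v - 1)) t ht
      rwa [pow_mul, ← hv, ← h1, inv_inv] at h2
    have hey : e * y * e⁻¹ * y⁻¹ = 1 := by
      refine d.M_inf_Y ?_ (mul_mem ?_ (inv_mem (self_mem_cz y)))
      · have := mul_mem heM ((inferInstance : M.Normal).conj_mem _ (inv_mem heM) y)
        convert this using 1; group
      · have := hinv _ (hall c y (self_mem_cz y))
        convert this using 1
        rw [he]; group
    have hey' : e * y = y * e := by
      calc e * y = e * y * e⁻¹ * y⁻¹ * (y * e) := by group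
        _ = y * e := by rw [hey, one_mul]
    have he1 : e = 1 := d.M_inf_Y heM (mem_cz.mpr hey')
    change v * c = c * v
    calc v * c = c * (v * e) := by rw [he]; group
      _ = c * v := by rw [he1, mul_one]
  set z := v * y * v⁻¹ * y⁻¹ with hz
  have hzX : z ∈ cz x := by
    have h1 : v ∈ cz x := mem_cz.mpr (hM x d.mem).eq
    have h2 : y * v⁻¹ * y⁻¹ ∈ cz x := by
      refine mem_cz.mpr ?_
      have hx' : y⁻¹ * x * y ∈ M := by
        have := (inferInstance : M.Normal).conj_mem x d.mem y⁻¹
        rwa [inv_inv] at this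
      have h3 : v⁻¹ * (y⁻¹ * x * y) = y⁻¹ * x * y * v⁻¹ := (hM _ hx').inv_left.eq
      calc y * v⁻¹ * y⁻¹ * x = y * (v⁻¹ * (y⁻¹ * x * y)) * y⁻¹ := by group
        _ = y * (y⁻¹ * x * y * v⁻¹) * y⁻¹ := by rw [h3]
        _ = x * (y * v⁻¹ * y⁻¹) := by group
    have := mul_mem h1 h2
    convert this using 1
    rw [hz]; group
  have hzY : z ∈ cz y := mul_mem (hvN y (self_mem_cz y)) (inv_mem (self_mem_cz y))
  have hzc : z ∈ center G := d.inter_center ▸ ⟨hzX, hzY⟩
  have hcomm : ∀ g : G, Commute z g := fun g => (mem_center_iff.mp hzc g).symm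
  have hconj : ∀ i : ℕ, v ^ i * y * (v ^ i)⁻¹ = z ^ i * y := by
    intro i
    induction i with
    | zero => simp
    | succ i ih =>
      calc v ^ (i + 1) * y * (v ^ (i + 1))⁻¹ = v * (v ^ i * y * (v ^ i)⁻¹) * v⁻¹ := by
            rw [pow_succ']; group
        _ = v * z ^ i * (y * v⁻¹) := by rw [ih]; group
        _ = z ^ i * v * (y * v⁻¹) := by rw [((hcomm v).pow_left i).eq]
        _ = z ^ i * (z * y) := by rw [hz]; group
        _ = z ^ (i + 1) * y := by rw [pow_succ z, mul_assoc (z ^ i)]
  have e1 : z ^ orderOf v = 1 := by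
    have := hconj (orderOf v)
    simpa [pow_orderOf_eq_one] using this.symm
  have e2 : z ^ orderOf y = 1 := by
    have h1 : (v * y * v⁻¹) ^ orderOf y = 1 := by rw [conj_pow, pow_orderOf_eq_one]; group
    have h2 : v * y * v⁻¹ = z * y := by rw [hz]; group
    rwa [h2, (hcomm y).mul_pow, pow_orderOf_eq_one, mul_one] at h1
  have hqr : q ≠ r := fun e => hqn (e ▸ d.r_dvd)
  have hz1 : z = 1 := orderOf_eq_one_iff.mp (Nat.eq_one_of_dvd_coprimes
    (IsPEl.coprime_pel hq d.prime hqr hvq d.pel) (orderOf_dvd_of_pow_eq_one e1)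
    (orderOf_dvd_of_pow_eq_one e2))
  refine hvY (mem_cz.mpr ?_)
  calc v * y = z * (y * v) := by rw [hz]; group
    _ = y * v := by rw [hz1, one_mul]

/-- `C(x)` and `C(y)` are abelian and `G / Z(G)` is a Frobenius group. -/
theorem frobenius :
    IsMulCommutative (cz x) ∧ IsMulCommutative (cz y) ∧
      Cfsg.IsFrobeniusComplement ((cz y).map (QuotientGroup.mk' (center G))) ∧
      Cfsg.frobeniusKernel ((cz y).map (QuotientGroup.mk' (center G))) =
        ((cz x).map (QuotientGroup.mk' (center G)) : Set (G ⧸ center G)) := by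
  classical
  set π := QuotientGroup.mk' (center G) with hπ
  have hker : π.ker = center G := QuotientGroup.ker_mk' _
  have hmem : ∀ (H : Subgroup G) (g : G), center G ≤ H → (π g ∈ H.map π ↔ g ∈ H) := by
    intro H g hH
    rw [← mem_comap, comap_map_eq_self (hker.symm ▸ hH)]
  set H₀ := (cz y).map π with hH₀
  have hfc : Cfsg.IsFrobeniusComplement H₀ := by
    refine ⟨fun h => d.y_notMem ?_, fun h => d.x_notMem_Y ?_, fun g hg => ?_⟩
    · rw [← hker, MonoidHom.mem_ker, ← mem_bot, ← h]
      exact (hmem _ y (center_le_cz y)).mpr (self_mem_cz y)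
    · exact (hmem _ x (center_le_cz y)).mp ((SetLike.ext_iff.mp h (π x)).mpr (mem_top _))
    · obtain ⟨g, rfl⟩ := QuotientGroup.mk'_surjective (center G) g
      refine (eq_bot_iff_forall _).mpr fun t ht => ?_
      obtain ⟨t, rfl⟩ := QuotientGroup.mk'_surjective (center G) t
      obtain ⟨ht, ht'⟩ := ht
      have htY := (hmem _ t (center_le_cz y)).mp ht
      have htY' : g⁻¹ * t * g ∈ cz y := by
        have h1 := H21.mem_conj_smul.mp ht'
        rw [← map_inv, ← map_mul, ← map_mul] at h1
        exact (hmem _ _ (center_le_cz y)).mp h1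
      rw [← MonoidHom.mem_ker, hker]
      by_contra hnc
      refine hg ((hmem _ g (center_le_cz y)).mpr (d.mem_of_normalizes fun s hs => ?_))
      have hnc' : g⁻¹ * t * g ∉ center G := fun hc => hnc (by
        have := (inferInstance : (center G).Normal).conj_mem _ hc g
        simpa [mul_assoc] using this)
      rw [← d.cz_eq htY' hnc'] at hs
      have h2 := (conj_mem_cz_iff (c := g)).mpr hs
      rw [show g * (g⁻¹ * t * g) * g⁻¹ = t by group, d.cz_eq htY hnc] at h2
      exact h2
  have hidx : ∀ H : Subgroup G, center G ≤ H → (H.map π).index = H.index := fun H hH =>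
    Subgroup.index_map_eq _ (QuotientGroup.mk'_surjective _) (hker.symm ▸ hH)
  have hkc : Nat.card (Cfsg.frobeniusKernel H₀) = m := by
    rw [H21.kernel_card hfc, hidx _ (center_le_cz y), d.index_y]
  have hcardimg : ∀ H : Subgroup G, center G ≤ H → H.index = n → Nat.card (H.map π) = m := by
    intro H hH hi
    have h1 := card_mul_index (H.map π)
    rw [hidx H hH, hi, ← index_eq_card, d.index_center, mul_comm n m] at h1
    exact Nat.eq_of_mul_eq_mul_right (by have := d.hyp.one_lt; omega) h1
  -- the kernel is the image of the centralizer of any element outside the conjugates of `C(y)`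
  have hkey : ∀ w : G, d.Outside w →
      ((cz w).map π : Set (G ⧸ center G)) = Cfsg.frobeniusKernel H₀ := by
    intro w hw
    obtain ⟨hn, -, hclosed⟩ := d.outside_cz hw
    refine Set.eq_of_subset_of_ncard_le ?_ ?_ (Set.toFinite _)
    · rintro _ ⟨u, hu, rfl⟩
      rw [H21.mem_frobeniusKernel]
      rcases hclosed u hu with hc | hc
      · exact Or.inl (MonoidHom.mem_ker.mp (hker.symm ▸ hc))
      · refine Or.inr fun g => ?_
        obtain ⟨g, rfl⟩ := QuotientGroup.mk'_surjective (center G) g
        rw [← map_inv, ← map_mul, ← map_mul, hmem _ _ (center_le_cz y)]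
        simpa using hc.2 g⁻¹
    · rw [← Nat.card_coe_set_eq, ← Nat.card_coe_set_eq, hkc]
      exact (hcardimg _ (center_le_cz w) hn).ge
  have hxout : d.Outside x := d.outside_of_mem_X (self_mem_cz x) d.x_notMem
  have hX : ∀ w ∈ cz x, w ∉ center G → cz w = cz x := by
    intro w hw hnc
    have h1 : (cz w).map π = (cz x).map π :=
      SetLike.coe_injective ((hkey w (d.outside_of_mem_X hw hnc)).trans (hkey x hxout).symm)
    ext u
    rw [← hmem _ u (center_le_cz w), h1, hmem _ u (center_le_cz x)]
  refine ⟨⟨⟨fun a b => Subtype.ext ?_⟩⟩, ⟨⟨fun a b => Subtype.ext ?_⟩⟩, hfc, (hkey x hxout).symm⟩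
  · by_cases hc : (b : G) ∈ center G
    · exact mem_center_iff.mp hc a
    · exact mem_cz.mp ((hX b b.2 hc).symm ▸ a.2)
  · by_cases hc : (b : G) ∈ center G
    · exact mem_center_iff.mp hc a
    · exact mem_cz.mp ((d.cz_eq b.2 hc).symm ▸ a.2)

end Data

/-- The two largest class sizes coprime: the main result. -/
theorem main {m n : ℕ} (h : TopTwo G m n) {x₀ y₀ : G} (hx : (cz x₀).index = n)
    (hy : (cz y₀).index = m) :
    IsMulCommutative (cz x₀) ∧ IsMulCommutative (cz y₀) ∧
      Cfsg.IsFrobeniusComplement ((cz y₀).map (QuotientGroup.mk' (center G))) ∧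
      Cfsg.frobeniusKernel ((cz y₀).map (QuotientGroup.mk' (center G))) =
        ((cz x₀).map (QuotientGroup.mk' (center G)) : Set (G ⧸ center G)) := by
  obtain ⟨r, x, y, M, d, hxe, hye⟩ := exists_data h hx hy
  rw [← hxe, ← hye]
  exact d.frobenius

end Cfsg.Agent.H87.CCL
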