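import Mathlib
import Cfsg.Agent.H20.External
import Cfsg.Agent.H71.TwoSetAction

/-!
# An inequality for orders of fixed point subgroups of a `p`-group acting coprimely

If the `p`-group `P` acts on the `p'`-group `W` then
`(∏ x : P, |C_W(x)|) ^ p ≤ |W| ^ |P| * |C_W(P)| ^ ((p - 1) * |P|)`.
-/

set_option autoImplicit false

open scoped Pointwise commutatorElement

namespace Cfsg.Agent.H87

section Fix

variable {P W : Type*} [Group P] [Group W]

/-- The fixed points of the elements of `B`. -/
def fixSub (φ : P →* MulAut W) (B : Subgroup P) : Subgroup W where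
  carrier := {w | ∀ b ∈ B, φ b w = w}
  one_mem' := fun b _ => map_one _
  mul_mem' := fun {a c} ha hc b hb => by rw [map_mul, ha b hb, hc b hb]
  inv_mem' := fun {a} ha b hb => by rw [map_inv, ha b hb]

theorem mem_fixSub {φ : P →* MulAut W} {B : Subgroup P} {w : W} :
    w ∈ fixSub φ B ↔ ∀ b ∈ B, φ b w = w := Iff.rfl

theorem fixSub_antitone {φ : P →* MulAut W} {B C : Subgroup P} (h : B ≤ C) :
    fixSub φ C ≤ fixSub φ B := fun _ hw b hb => hw b (h hb)

theorem fixSub_bot (φ : P →* MulAut W) : fixSub φ ⊥ = ⊤ :=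
  eq_top_iff.2 fun w _ b hb => by rw [Subgroup.mem_bot.1 hb, map_one]; rfl

theorem mem_fixSub_zpowers {φ : P →* MulAut W} {x : P} {w : W} :
    w ∈ fixSub φ (Subgroup.zpowers x) ↔ φ x w = w := by
  refine ⟨fun h => h x (Subgroup.mem_zpowers x), fun h b hb => ?_⟩
  let S : Subgroup P :=
    { carrier := {b | φ b w = w}
      one_mem' := by simp
      mul_mem' := fun {a c} ha hc => by
        show φ (a * c) w = w
        rw [map_mul, MulAut.mul_apply, show φ c w = w from hc]
        exact ha
      inv_mem' := fun {a} ha => by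
        show φ a⁻¹ w = w
        rw [map_inv]
        exact (φ a).symm_apply_eq.2 (show φ a w = w from ha).symm }
  exact (Subgroup.zpowers_le.2 (show x ∈ S from h)) hb

theorem mem_fixSub_sup {φ : P →* MulAut W} {B C : Subgroup P} {w : W} :
    w ∈ fixSub φ (B ⊔ C) ↔ w ∈ fixSub φ B ∧ w ∈ fixSub φ C := by
  refine ⟨fun h => ⟨fixSub_antitone le_sup_left h, fixSub_antitone le_sup_right h⟩,
    fun ⟨h1, h2⟩ b hb => ?_⟩
  let S : Subgroup P :=
    { carrier := {b | φ b w = w}
      one_mem' := by simp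
      mul_mem' := fun {a c} ha hc => by
        show φ (a * c) w = w
        rw [map_mul, MulAut.mul_apply, show φ c w = w from hc]
        exact ha
      inv_mem' := fun {a} ha => by
        show φ a⁻¹ w = w
        rw [map_inv]
        exact (φ a).symm_apply_eq.2 (show φ a w = w from ha).symm }
  have hS : B ⊔ C ≤ S := sup_le (fun b hb => h1 b hb) (fun b hb => h2 b hb)
  exact hS hb

end Fix

variable {P : Type*} [Group P] [Finite P] {p : ℕ} [Fact p.Prime]

/-- The quantity bounded: `∏ x, |C_W(⟨x⟩ ⊔ Z)|`. -/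
noncomputable def fixProd {W : Type*} [Group W] (φ : P →* MulAut W) (Z : Subgroup P) : ℕ :=
  letI := Fintype.ofFinite P
  ∏ x : P, Nat.card (fixSub φ (Subgroup.zpowers x ⊔ Z))

section Abelian

variable {W : Type*} [CommGroup W] [Finite W] (φ : P →* MulAut W)

/-- One coset. -/
theorem prod_coset_le (hcop : (Nat.card W).Coprime p) {Z Z' : Subgroup P} {z : P}
    (hZ' : Z' = Z ⊔ Subgroup.zpowers z) (hzp : z ^ p ∈ Z) [hn : Z.Normal] (x : P)
    (hxz : ⁅x, z⁆ ∈ Z) :
    (∏ i : Fin p, Nat.card (fixSub φ (Subgroup.zpowers (x * z ^ (i : ℕ)) ⊔ Z))) *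
        Nat.card (fixSub φ Z') ≤
      Nat.card (fixSub φ Z) * Nat.card (fixSub φ (Subgroup.zpowers x ⊔ Z')) ^ p := by
  classical
  set U := fixSub φ Z with hU
  set C := fixSub φ Z' with hC
  set X := fixSub φ (Subgroup.zpowers x ⊔ Z') with hX
  set D : Fin p → Subgroup W := fun i => fixSub φ (Subgroup.zpowers (x * z ^ (i : ℕ)) ⊔ Z) with hD
  have hDU : ∀ i, D i ≤ U := fun i => fixSub_antitone le_sup_right
  -- the actions of `x` and `z` on `U` commute
  have hUinv : ∀ (g : P) (w : W), w ∈ U → φ g w ∈ U := by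
    intro g w hw b hb
    have h := hw (g⁻¹ * b * g) (by simpa using hn.conj_mem b hb g⁻¹)
    calc φ b (φ g w) = φ (g * (g⁻¹ * b * g)) w := by
          rw [show g * (g⁻¹ * b * g) = b * g by group, map_mul, MulAut.mul_apply]
      _ = φ g w := by rw [map_mul, MulAut.mul_apply, h]
  have hcomm : ∀ w ∈ U, φ x (φ z w) = φ z (φ x w) := by
    intro w hw
    rw [← MulAut.mul_apply, ← MulAut.mul_apply, ← map_mul, ← map_mul,
      show x * z = ⁅x, z⁆ * (z * x) by rw [commutatorElement_def]; group, map_mul, MulAut.mul_apply]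
    exact (hUinv (z * x) w hw) _ hxz
  have hzU : ∀ w ∈ U, φ (z ^ p) w = w := fun w hw => hw _ hzp
  have hzpow : ∀ (a b : ℕ) (w : W), φ (z ^ a) (φ (z ^ b) w) = φ (z ^ (a + b)) w := fun a b w => by
    rw [← MulAut.mul_apply, ← map_mul, ← pow_add]
  have hzmod : ∀ (a : ℕ) (w : W), w ∈ U → φ (z ^ a) w = φ (z ^ (a % p)) w := by
    intro a w hw
    conv_lhs => rw [← Nat.mod_add_div a p]
    rw [← hzpow]
    congr 1
    rw [pow_mul]
    exact hw _ (pow_mem hzp _)
  have hxzk : ∀ (k : ℕ) (w : W), w ∈ U → φ x (φ (z ^ k) w) = φ (z ^ k) (φ x w) := by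
    intro k
    induction k with
    | zero => simp
    | succ k ih =>
      intro w hw
      rw [add_comm k 1, ← hzpow, ← hzpow, pow_one, hcomm _ (hUinv _ _ hw), ih w hw]
  -- the multiplication map
  let μ : (∀ i, D i) →* W :=
    MonoidHom.mk' (fun d => ∏ i, ((d i : D i) : W)) fun d e => by
      simp [Finset.prod_mul_distrib]
  have hker : ∀ d : ∀ i, D i, μ d ∈ C → ∀ k, ((d k : D k) : W) ∈ X := by
    intro d hd k
    set s := μ d with hs
    have hsz : φ z s = s := hd z (hZ' ▸ Subgroup.mem_sup_right (Subgroup.mem_zpowers z))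
    have hsU : s ∈ U := fixSub_antitone (hZ' ▸ le_sup_left) hd
    have hdU : ∀ i, ((d i : D i) : W) ∈ U := fun i => hDU i (d i).2
    have hdi : ∀ i : Fin p, φ (x * z ^ (i : ℕ)) ((d i : D i) : W) = d i := fun i =>
      (d i).2 _ (Subgroup.mem_sup_left (Subgroup.mem_zpowers _))
    -- `x ^ j` acts on `D i` as `z ^ (-i j)`
    have hxi : ∀ i : Fin p, φ x ((d i : D i) : W) = φ (z ^ (p - (i : ℕ))) ((d i : D i) : W) := by
      intro i
      have h1 := hdi i
      rw [map_mul, MulAut.mul_apply, hxzk _ _ (hdU i)] at h1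
      calc φ x ((d i : D i) : W) = φ (z ^ ((p - (i : ℕ)) + i)) (φ x ((d i : D i) : W)) := by
            rw [Nat.sub_add_cancel i.2.le]
            exact (hUinv _ _ (hdU i) _ hzp).symm
        _ = φ (z ^ (p - (i : ℕ))) (φ (z ^ (i : ℕ)) (φ x ((d i : D i) : W))) := by rw [hzpow]
        _ = _ := by rw [h1]
    have hxj : ∀ (j : ℕ) (i : Fin p),
        φ (x ^ j) ((d i : D i) : W) = φ (z ^ (j * (p - (i : ℕ)))) ((d i : D i) : W) := by
      intro j i
      induction j with
      | zero => simp
      | succ j ih =>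
        rw [pow_succ', map_mul, MulAut.mul_apply, ih, hxzk _ _ (hdU i), hxi, hzpow]
        congr 2
        ring
    -- the norm
    let Nm : W → W := fun w => ∏ j : Fin p, φ (z ^ (j : ℕ)) w
    have hNm : ∀ w ∈ U, φ z (Nm w) = Nm w := by
      intro w hw
      simp only [Nm, map_prod]
      have hp1 := (Fact.out : p.Prime).one_lt
      haveI : NeZero p := ⟨by omega⟩
      refine Fintype.prod_equiv (Equiv.addRight (1 : Fin p)) _ _ fun j => ?_
      have h1 : (((j + 1 : Fin p)) : ℕ) = ((j : ℕ) + 1) % p := by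
        rw [Fin.val_add, Fin.val_one']
        simp [Nat.add_mod_mod]
      show φ z (φ (z ^ (j : ℕ)) w) = φ (z ^ (((j + 1 : Fin p)) : ℕ)) w
      rw [h1, ← hzmod _ _ hw, add_comm, ← hzpow, pow_one]
    have hNfix : ∀ w ∈ U, Nm w ∈ U := fun w hw => prod_mem fun j _ => hUinv _ _ hw
    -- sum over `j` of `z ^ (j k) x ^ j`
    have hLfix : φ z (∏ j : Fin p, φ (z ^ ((j : ℕ) * (k : ℕ))) (φ (x ^ (j : ℕ)) s)) =
        ∏ j : Fin p, φ (z ^ ((j : ℕ) * (k : ℕ))) (φ (x ^ (j : ℕ)) s) := by
      rw [map_prod]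
      refine Finset.prod_congr rfl fun j _ => ?_
      have hxs : φ z (φ (x ^ (j : ℕ)) s) = φ (x ^ (j : ℕ)) s := by
        generalize (j : ℕ) = m
        induction m with
        | zero => simpa using hsz
        | succ m ih =>
          rw [pow_succ', map_mul, MulAut.mul_apply, ← hcomm _ (hUinv _ _ hsU), ih]
      calc φ z (φ (z ^ ((j : ℕ) * (k : ℕ))) (φ (x ^ (j : ℕ)) s))
          = φ (z ^ ((j : ℕ) * (k : ℕ))) (φ z (φ (x ^ (j : ℕ)) s)) := by
            have := hzpow 1 ((j : ℕ) * (k : ℕ)) (φ (x ^ (j : ℕ)) s)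
            rw [pow_one] at this
            rw [this, add_comm, ← hzpow, pow_one]
        _ = _ := by rw [hxs]
    have hexp : ∏ j : Fin p, φ (z ^ ((j : ℕ) * (k : ℕ))) (φ (x ^ (j : ℕ)) s) =
        ((d k : D k) : W) ^ p *
          ∏ i ∈ Finset.univ.erase k, Nm ((d i : D i) : W) := by
      simp only [hs, μ, MonoidHom.mk'_apply, map_prod]
      rw [Finset.prod_comm, ← Finset.mul_prod_erase _ _ (Finset.mem_univ k)]
      congr 1
      · rw [show ((d k : D k) : W) ^ p = ∏ _j : Fin p, ((d k : D k) : W) by simp]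
        refine Finset.prod_congr rfl fun j _ => ?_
        rw [hxj, hzpow, ← mul_add, Nat.add_sub_cancel' k.2.le, mul_comm, pow_mul]
        exact (hdU k) _ (pow_mem hzp _)
      · refine Finset.prod_congr rfl fun i hi => ?_
        have hik : i ≠ k := Finset.ne_of_mem_erase hi
        -- reindex by `j ↦ j (k - i)`
        haveI : NeZero p := ⟨(Fact.out : p.Prime).ne_zero⟩
        set c := (k : ℕ) + (p - (i : ℕ)) with hc
        have hcne : ¬ p ∣ c := by
          intro h
          apply hik
          obtain ⟨m, hm⟩ := h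
          have hi' := i.2
          have hk' := k.2
          apply Fin.ext
          rcases m with _ | _ | m
          · simp at hm; omega
          · simp at hm; omega
          · have : p * (m + 1 + 1) ≥ 2 * p := by rw [mul_comm 2 p]; exact Nat.mul_le_mul_left p (by omega)
            omega
        have hu : IsUnit (c : ZMod p) :=
          (ZMod.isUnit_iff_coprime c p).2 (((Fact.out : p.Prime).coprime_iff_not_dvd.2 hcne).symm)
        refine Fintype.prod_equiv (Equiv.ofBijective
          (fun j : Fin p => (⟨((j : ℕ) * c) % p, Nat.mod_lt _ (Fact.out : p.Prime).pos⟩ : Fin p))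
          (Finite.injective_iff_bijective.1 fun a b hab => ?_)) _ _ fun j => ?_
        · have h1 : ((a : ℕ) * c) % p = ((b : ℕ) * c) % p := congrArg Fin.val hab
          have h2 := (Nat.ModEq.cancel_right_of_coprime
            (((Fact.out : p.Prime).coprime_iff_not_dvd.2 hcne)) h1)
          exact Fin.ext (Nat.ModEq.eq_of_lt_of_lt h2 a.2 b.2)
        · show _ = φ (z ^ (((j : ℕ) * c) % p)) ((d i : D i) : W)
          rw [← hzmod _ _ (hdU i), hxj, hzpow, hc, mul_add]
    have hkp : φ z (((d k : D k) : W) ^ p) = ((d k : D k) : W) ^ p := by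
      have hPr : φ z (∏ i ∈ Finset.univ.erase k, Nm ((d i : D i) : W)) =
          ∏ i ∈ Finset.univ.erase k, Nm ((d i : D i) : W) := by
        rw [map_prod]; exact Finset.prod_congr rfl fun i _ => hNm _ (hdU i)
      rw [hexp, map_mul, hPr] at hLfix
      exact mul_right_cancel hLfix
    have hk : φ z ((d k : D k) : W) = d k := by
      rw [map_pow] at hkp
      exact (powCoprime (show (Nat.card W).Coprime p from hcop)).injective hkp
    refine mem_fixSub_sup.2 ⟨mem_fixSub_zpowers.2 ?_, hZ' ▸ mem_fixSub_sup.2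
      ⟨hdU k, mem_fixSub_zpowers.2 hk⟩⟩
    have h1 := hdi k
    rw [map_mul, MulAut.mul_apply, mem_fixSub_zpowers.2 hk _ (pow_mem (Subgroup.mem_zpowers z) _)] at h1
    exact h1
  -- counting
  have hrange : ∀ d, μ d ∈ U := fun d => by
    show ∏ i, ((d i : D i) : W) ∈ U
    exact prod_mem fun i _ => hDU i (d i).2
  let μ' : (∀ i, D i) →* U ⧸ C.subgroupOf U :=
    (QuotientGroup.mk' (C.subgroupOf U)).comp (μ.codRestrict U hrange)
  have hkercard : Nat.card μ'.ker ≤ Nat.card X ^ p := by
    have : Nat.card (Fin p → X) = Nat.card X ^ p := by simp [Nat.card_pi]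
    rw [← this]
    refine Nat.card_le_card_of_injective
      (fun d i => (⟨((d.1 i : D i) : W), hker d.1 ?_ i⟩ : X)) fun a b h => ?_
    · have h := d.2
      rw [MonoidHom.mem_ker] at h
      exact Subgroup.mem_subgroupOf.1 ((QuotientGroup.eq_one_iff _).1 h)
    · exact Subtype.ext (funext fun i => Subtype.ext (congrArg (fun v => ((v i : X) : W)) h))
  have hCU : C ≤ U := fixSub_antitone (hZ' ▸ le_sup_left)
  have h1 : Nat.card (∀ i, D i) = ∏ i : Fin p, Nat.card (D i) := Nat.card_pi
  rw [← μ'.ker.card_mul_index] at h1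
  rw [← h1, Subgroup.index_ker, mul_assoc]
  calc Nat.card μ'.ker * (Nat.card μ'.range * Nat.card C)
      ≤ Nat.card X ^ p * (Nat.card (U ⧸ C.subgroupOf U) * Nat.card C) :=
        Nat.mul_le_mul hkercard (Nat.mul_le_mul (Subgroup.card_le_card_group _) le_rfl)
    _ = _ := by
      rw [← Nat.card_congr (Subgroup.subgroupOfEquivOfLe hCU).toEquiv,
        ← Subgroup.card_eq_card_quotient_mul_card_subgroup, mul_comm]

end Abelian

/-- The inequality, for an action of the `p`-group `P` on `W`. -/
def FixIneq (p : ℕ) {W : Type*} [Group W] (φ : P →* MulAut W) : Prop :=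
  fixProd φ ⊥ ^ p * Nat.card (fixSub φ ⊤) ^ Nat.card P ≤
    Nat.card W ^ Nat.card P * Nat.card (fixSub φ ⊤) ^ (p * Nat.card P)

theorem fixIneq_of_comm (hP : IsPGroup p P) {W : Type*} [CommGroup W] [Finite W]
    (φ : P →* MulAut W) (hcop : (Nat.card W).Coprime p) : FixIneq p φ := by
  classical
  letI := Fintype.ofFinite P
  suffices h : ∀ Z : Subgroup P, Z.Normal → fixProd φ Z ^ p * Nat.card (fixSub φ ⊤) ^ Nat.card P ≤
      Nat.card (fixSub φ Z) ^ Nat.card P * Nat.card (fixSub φ ⊤) ^ (p * Nat.card P) by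
    have := h ⊥ inferInstance
    rwa [fixSub_bot, Subgroup.card_top] at this
  intro Z
  induction Z using WellFoundedGT.induction with
  | ind Z ih =>
    intro hn
    by_cases hZ : Z = ⊤
    · subst hZ
      simp only [fixProd, sup_top_eq, Finset.prod_const, Finset.card_univ, ← Nat.card_eq_fintype_card,
        ← pow_mul]
      rw [mul_comm (Nat.card P) p, mul_comm]
    haveI := hn
    haveI : Nontrivial (P ⧸ Z) := QuotientGroup.nontrivial_iff.2 hZ
    have hQ : IsPGroup p (P ⧸ Z) := hP.to_quotient Z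
    haveI := hQ.center_nontrivial
    obtain ⟨k, hk⟩ := IsPGroup.iff_card.1 (hQ.to_subgroup (Subgroup.center (P ⧸ Z)))
    have hdvd : p ∣ Nat.card (Subgroup.center (P ⧸ Z)) := by
      have h1 : 1 < Nat.card (Subgroup.center (P ⧸ Z)) := Finite.one_lt_card
      rw [hk] at h1 ⊢
      exact dvd_pow_self p fun h => by rw [h, pow_zero] at h1; exact lt_irrefl _ h1
    obtain ⟨c, hc⟩ := exists_prime_orderOf_dvd_card' p hdvd
    obtain ⟨z, hz⟩ := QuotientGroup.mk'_surjective Z (c : P ⧸ Z)
    have hzp : z ^ p ∈ Z := by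
      rw [← QuotientGroup.eq_one_iff, QuotientGroup.mk_pow]
      have h' : ((z : P) : P ⧸ Z) = (c : P ⧸ Z) := hz
      rw [h', ← hc, ← SubgroupClass.coe_pow, pow_orderOf_eq_one, Subgroup.coe_one]
    have hzZ : z ∉ Z := fun h => by
      have h' : (c : P ⧸ Z) = 1 := hz ▸ (QuotientGroup.eq_one_iff z).2 h
      have : c = 1 := Subtype.ext h'
      rw [this, orderOf_one] at hc
      exact (Fact.out : p.Prime).ne_one hc.symm
    have hcomm : ∀ x : P, ⁅x, z⁆ ∈ Z := fun x => by
      rw [← QuotientGroup.eq_one_iff]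
      show QuotientGroup.mk' Z ⁅x, z⁆ = 1
      rw [map_commutatorElement, hz, commutatorElement_eq_one_iff_mul_comm]
      exact Subgroup.mem_center_iff.1 c.2 _
    set Z' := Z ⊔ Subgroup.zpowers z with hZ'
    have hlt : Z < Z' := left_lt_sup.2 fun h => hzZ (h (Subgroup.mem_zpowers z))
    have hn' : Z'.Normal := by
      refine Subgroup.normalizer_eq_top_iff.1 (top_le_iff.1 fun x _ => ?_)
      refine Subgroup.mem_normalizer_iff_map_conj_eq.2 (Subgroup.eq_of_le_of_card_ge ?_
        (Subgroup.card_map_of_injective (MulAut.conj x).injective).ge)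
      rw [hZ', Subgroup.map_sup, sup_le_iff, MonoidHom.map_zpowers, Subgroup.zpowers_le]
      refine ⟨?_, ?_⟩
      · rintro _ ⟨y, hy, rfl⟩
        exact Subgroup.mem_sup_left (hn.conj_mem y hy x)
      · show x * z * x⁻¹ ∈ Z ⊔ Subgroup.zpowers z
        rw [show x * z * x⁻¹ = ⁅x, z⁆ * z by rw [commutatorElement_def]; group]
        exact mul_mem (Subgroup.mem_sup_left (hcomm x)) (Subgroup.mem_sup_right (Subgroup.mem_zpowers z))
    have hih := ih Z' hlt hn'
    have hprod := Finset.prod_le_prod' (s := (Finset.univ : Finset P))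
      fun x _ => prod_coset_le φ hcop hZ' hzp x (hcomm x)
    rw [Finset.prod_mul_distrib, Finset.prod_mul_distrib, Finset.prod_comm, Finset.prod_pow] at hprod
    have hshift : ∀ i : Fin p,
        ∏ x : P, Nat.card (fixSub φ (Subgroup.zpowers (x * z ^ (i : ℕ)) ⊔ Z)) = fixProd φ Z := fun i =>
      Fintype.prod_equiv (Equiv.mulRight (z ^ (i : ℕ)))
        (fun x => Nat.card (fixSub φ (Subgroup.zpowers (x * z ^ (i : ℕ)) ⊔ Z)))
        (fun x => Nat.card (fixSub φ (Subgroup.zpowers x ⊔ Z))) fun x => rfl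
    simp only [hshift, Finset.prod_const, Finset.card_univ, 
      ← Nat.card_eq_fintype_card, Nat.card_fin] at hprod
    change fixProd φ Z ^ p * _ ≤ _ * fixProd φ Z' ^ p at hprod
    refine Nat.le_of_mul_le_mul_right ?_
      (show 0 < Nat.card (fixSub φ Z') ^ Nat.card P from pow_pos Nat.card_pos _)
    calc fixProd φ Z ^ p * Nat.card (fixSub φ ⊤) ^ Nat.card P * Nat.card (fixSub φ Z') ^ Nat.card P
        = (fixProd φ Z ^ p * Nat.card (fixSub φ Z') ^ Nat.card P) *
            Nat.card (fixSub φ ⊤) ^ Nat.card P := by ring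
      _ ≤ (Nat.card (fixSub φ Z) ^ Nat.card P * fixProd φ Z' ^ p) *
            Nat.card (fixSub φ ⊤) ^ Nat.card P := Nat.mul_le_mul_right _ hprod
      _ ≤ Nat.card (fixSub φ Z) ^ Nat.card P * (Nat.card (fixSub φ Z') ^ Nat.card P *
            Nat.card (fixSub φ ⊤) ^ (p * Nat.card P)) := by
          rw [mul_assoc]; exact Nat.mul_le_mul_left _ hih
      _ = _ := by ring

section Extension

variable {W : Type*} [Group W] (φ : P →* MulAut W) (N : Subgroup W)
  (hN : ∀ a : P, ∀ n ∈ N, φ a n ∈ N)

/-- Restriction of the action to an invariant subgroup. -/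
def resAct : P →* MulAut N where
  toFun a :=
    { toFun := fun n => ⟨φ a n, hN a n n.2⟩
      invFun := fun n => ⟨φ a⁻¹ n, hN a⁻¹ n n.2⟩
      left_inv := fun n => Subtype.ext (by
        show φ a⁻¹ (φ a n) = n
        rw [← MulAut.mul_apply, ← map_mul, inv_mul_cancel, map_one]; rfl)
      right_inv := fun n => Subtype.ext (by
        show φ a (φ a⁻¹ n) = n
        rw [← MulAut.mul_apply, ← map_mul, mul_inv_cancel, map_one]; rfl)
      map_mul' := fun n m => Subtype.ext (by simp) }
  map_one' := MulEquiv.ext fun n => Subtype.ext (by simp)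
  map_mul' a b := MulEquiv.ext fun n => Subtype.ext (by simp)

@[simp] theorem resAct_apply (a : P) (n : N) : ((resAct φ N hN a n : N) : W) = φ a n := rfl

/-- The action on the quotient by an invariant normal subgroup. -/
def quotAct [N.Normal] : P →* MulAut (W ⧸ N) where
  toFun a := QuotientGroup.congr N N (φ a) (by
    ext w
    refine ⟨?_, fun hw => ⟨φ a⁻¹ w, hN _ w hw, by
      show φ a (φ a⁻¹ w) = w
      rw [← MulAut.mul_apply, ← map_mul, mul_inv_cancel, map_one]; rfl⟩⟩
    rintro ⟨v, hv, rfl⟩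
    exact hN a v hv)
  map_one' := MulEquiv.ext fun q => by
    induction q using QuotientGroup.induction_on with
    | H w => simp
  map_mul' a b := MulEquiv.ext fun q => by
    induction q using QuotientGroup.induction_on with
    | H w => simp

theorem quotAct_mk [N.Normal] (a : P) (w : W) :
    quotAct φ N hN a (w : W ⧸ N) = ((φ a w : W) : W ⧸ N) := rfl

theorem card_fixSub_mul [Finite W] [N.Normal] (hP : IsPGroup p P)
    (hcop : (Nat.card W).Coprime p) (B : Subgroup P) :
    Nat.card (fixSub φ B) =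
      Nat.card (fixSub (resAct φ N hN) B) * Nat.card (fixSub (quotAct φ N hN) B) := by
  let f : fixSub φ B →* fixSub (quotAct φ N hN) B :=
    ((QuotientGroup.mk' N).comp (fixSub φ B).subtype).codRestrict _ fun w b hb => by
      show quotAct φ N hN b ((w : W) : W ⧸ N) = ((w : W) : W ⧸ N)
      rw [quotAct_mk, w.2 b hb]
  have hsurj : Function.Surjective f := by
    rintro ⟨q, hq⟩
    obtain ⟨k, rfl⟩ := QuotientGroup.mk'_surjective N q
    haveI : Group.IsNilpotent B := (hP.to_subgroup B).isNilpotent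
    obtain ⟨c, hc1, hc2⟩ := Cfsg.Agent.H20.External.exists_fixed_mem_coset (φ.comp B.subtype)
      (by
        obtain ⟨i, hi⟩ := IsPGroup.iff_card.1 (hP.to_subgroup B)
        rw [hi]
        exact hcop.symm.pow_left i)
      (Or.inl inferInstance) N (fun a n hn => hN _ n hn) (k := k) (fun a => by
        have := hq (a : P) a.2
        rw [QuotientGroup.mk'_apply, quotAct_mk] at this
        exact QuotientGroup.eq.1 this.symm)
    refine ⟨⟨c, fun b hb => hc2 ⟨b, hb⟩⟩, Subtype.ext ?_⟩
    show ((c : W) : W ⧸ N) = (k : W ⧸ N)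
    exact (QuotientGroup.eq.2 hc1).symm
  have hker : Nat.card f.ker = Nat.card (fixSub (resAct φ N hN) B) := by
    have hmem : ∀ w : fixSub φ B, w ∈ f.ker ↔ (w : W) ∈ N := fun w => by
      rw [MonoidHom.mem_ker, Subtype.ext_iff]
      exact QuotientGroup.eq_one_iff (N := N) (w : W)
    exact Nat.card_congr
      { toFun := fun w => ⟨⟨(w.1 : W), (hmem w.1).1 w.2⟩, fun b hb => Subtype.ext (w.1.2 b hb)⟩
        invFun := fun n => ⟨⟨(n.1 : W), fun b hb => congrArg Subtype.val (n.2 b hb)⟩,
          (hmem ⟨(n.1 : W), fun b hb => congrArg Subtype.val (n.2 b hb)⟩).2 n.1.2⟩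
        left_inv := fun w => rfl
        right_inv := fun n => rfl }
  rw [← f.ker.card_mul_index, Subgroup.index_ker, MonoidHom.range_eq_top.2 hsurj, Subgroup.card_top,
    hker]

theorem FixIneq.of_extension [Finite W] [N.Normal] (hP : IsPGroup p P)
    (hcop : (Nat.card W).Coprime p) (h1 : FixIneq p (resAct φ N hN))
    (h2 : FixIneq p (quotAct φ N hN)) : FixIneq p φ := by
  classical
  letI := Fintype.ofFinite P
  have hm := card_fixSub_mul φ N hN hP hcop
  have hF : fixProd φ ⊥ = fixProd (resAct φ N hN) ⊥ * fixProd (quotAct φ N hN) ⊥ := by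
    simp only [fixProd, ← Finset.prod_mul_distrib]
    exact Finset.prod_congr rfl fun x _ => hm _
  have hW : Nat.card W = Nat.card N * Nat.card (W ⧸ N) := by
    rw [mul_comm, ← Subgroup.card_eq_card_quotient_mul_card_subgroup]
  rw [FixIneq, hF, hm ⊤, hW]
  simp only [mul_pow]
  have := Nat.mul_le_mul h1 h2
  calc _ = fixProd (resAct φ N hN) ⊥ ^ p * Nat.card (fixSub (resAct φ N hN) ⊤) ^ Nat.card P *
        (fixProd (quotAct φ N hN) ⊥ ^ p * Nat.card (fixSub (quotAct φ N hN) ⊤) ^ Nat.card P) := by ring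
    _ ≤ _ := this
    _ = _ := by ring

end Extension

universe v

theorem fixIneq_of_nilpotent (hP : IsPGroup p P) (n : ℕ) :
    ∀ {W : Type v} [Group W] [Finite W] [Group.IsNilpotent W] (φ : P →* MulAut W),
      (Nat.card W).Coprime p → Nat.card W ≤ n → FixIneq p φ := by
  induction n with
  | zero => intro W _ _ _ φ _ h; exact absurd h (Nat.not_le.2 Nat.card_pos)
  | succ n ih =>
    intro W _ _ _ φ hcop hn
    by_cases hcomm : ∀ a b : W, a * b = b * a
    · letI : CommGroup W := { (inferInstance : Group W) with mul_comm := hcomm }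
      exact fixIneq_of_comm hP φ hcop
    haveI : Nontrivial W := by
      by_contra h
      rw [not_nontrivial_iff_subsingleton] at h
      exact hcomm fun a b => Subsingleton.elim _ _
    set N := Subgroup.center W
    have hN : ∀ a : P, ∀ m ∈ N, φ a m ∈ N := fun a m hm => Subgroup.mem_center_iff.2 fun w => by
      obtain ⟨v, rfl⟩ := (φ a).surjective w
      rw [← map_mul, ← map_mul, Subgroup.mem_center_iff.1 hm v]
    refine FixIneq.of_extension φ N hN hP hcop ?_ ?_
    · letI : CommGroup N := { (inferInstance : Group N) with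
        mul_comm := fun a b => Subtype.ext (Subgroup.mem_center_iff.1 b.2 (a : W)) }
      exact fixIneq_of_comm hP _ (hcop.coprime_dvd_left (Subgroup.card_subgroup_dvd_card N))
    · haveI : Group.IsNilpotent (W ⧸ N) :=
        Group.nilpotent_of_surjective (QuotientGroup.mk' N) (QuotientGroup.mk'_surjective N)
      refine ih _ (hcop.coprime_dvd_left (Subgroup.card_quotient_dvd_card N)) ?_
      have h1 : 1 < Nat.card N := by
        rw [Finite.one_lt_card_iff_nontrivial]
        exact (Subgroup.nontrivial_iff_ne_bot _).2 (Group.IsNilpotent.center_ne_bot _)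
      have h2 := Subgroup.card_eq_card_quotient_mul_card_subgroup N
      have h3 : 0 < Nat.card (W ⧸ N) := Nat.card_pos
      nlinarith

section Sylow

open SemidirectProduct (inl inr)

variable {W : Type*} [Group W] [Finite W]

theorem card_fixSub_invariant_sylow (φ : P →* MulAut W) (hP : IsPGroup p P)
    (hcop : (Nat.card W).Coprime p) {r : ℕ} [Fact r.Prime] (R : Sylow r W)
    (hR : ∀ a : P, ∀ x ∈ (R : Subgroup W), φ a x ∈ (R : Subgroup W)) (B : Subgroup P) :
    Nat.card (fixSub (resAct φ (R : Subgroup W) hR) B) =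
      r ^ (Nat.card (fixSub φ B)).factorization r := by
  classical
  have h0 : Nat.card (fixSub (resAct φ (R : Subgroup W) hR) B) =
      Nat.card ((R : Subgroup W) ⊓ fixSub φ B : Subgroup W) :=
    Nat.card_congr
      { toFun := fun n => ⟨(n.1 : W), n.1.2, fun b hb => congrArg Subtype.val (n.2 b hb)⟩
        invFun := fun w => ⟨⟨(w : W), w.2.1⟩, fun b hb => Subtype.ext (w.2.2 b hb)⟩
        left_inv := fun n => rfl
        right_inv := fun w => rfl }
  rw [h0]
  set ψ := φ.comp B.subtype with hψ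
  haveI := Cfsg.Agent.H20.External.finite_semidirect ψ
  set K := (inl : W →* W ⋊[ψ] B).range with hK
  set B' := (inr : B →* W ⋊[ψ] B).range with hB'
  set A := K ⊓ Subgroup.centralizer (B' : Set (W ⋊[ψ] B)) with hA
  have hmem : ∀ c : W, (inl c : W ⋊[ψ] B) ∈ Subgroup.centralizer (B' : Set _) ↔ c ∈ fixSub φ B :=
    fun c => (Cfsg.Agent.H20.External.inl_mem_centralizer_iff ψ).trans
      ⟨fun h b hb => h ⟨b, hb⟩, fun h b => h b b.2⟩
  have hmap : ∀ S : Subgroup W, (S ⊓ fixSub φ B).map (inl : W →* W ⋊[ψ] B) =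
      S.map (inl : W →* W ⋊[ψ] B) ⊓ Subgroup.centralizer (B' : Set _) := by
    intro S
    ext x
    constructor
    · rintro ⟨c, ⟨hc1, hc2⟩, rfl⟩
      exact ⟨⟨c, hc1, rfl⟩, (hmem c).2 hc2⟩
    · rintro ⟨⟨c, hc, rfl⟩, hx⟩
      exact ⟨c, ⟨hc, (hmem c).1 hx⟩, rfl⟩
  have hAcard : Nat.card A = Nat.card (fixSub φ B) := by
    have := hmap ⊤
    rw [top_inf_eq, ← MonoidHom.range_eq_map] at this
    rw [hA, hK, ← this, Subgroup.card_map_of_injective SemidirectProduct.inl_injective]
  rw [← Subgroup.card_map_of_injective (f := (inl : W →* W ⋊[ψ] B))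
    SemidirectProduct.inl_injective, hmap, ← hAcard]
  set Q := (R : Subgroup W).map (inl : W →* W ⋊[ψ] B) with hQdef
  have hQK : Q ≤ K := Subgroup.map_le_range _ _
  have hQp : IsPGroup r Q := R.2.map _
  have hKcard : Nat.card K = Nat.card W := Cfsg.Agent.H20.External.card_range_inl ψ
  have hQc : Nat.card Q = r ^ (Nat.card K).factorization r := by
    rw [hQdef, Subgroup.card_map_of_injective SemidirectProduct.inl_injective, hKcard,
      R.card_eq_multiplicity]
  have hBK : B' ≤ Subgroup.normalizer (K : Set _) := by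
    rw [hK, MonoidHom.range_eq_map]
    exact Cfsg.Agent.H20.External.range_le_normalizer ψ ⊤ fun _ _ _ => Subgroup.mem_top _
  have hBQ : B' ≤ Subgroup.normalizer (Q : Set _) :=
    Cfsg.Agent.H20.External.range_le_normalizer ψ _ fun a x hx => hR _ x hx
  have hcopL : (Nat.card B').Coprime (Nat.card K) := by
    obtain ⟨i, hi⟩ := IsPGroup.iff_card.1 (hP.to_subgroup B)
    rw [hKcard, hB', Cfsg.Agent.H20.External.card_range_inr, hi]
    exact hcop.symm.pow_left i
  have hsolv : Group.IsSolvable B' ∨ Group.IsSolvable K := by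
    haveI : Group.IsNilpotent B := (hP.to_subgroup B).isNilpotent
    exact Cfsg.Agent.H20.External.solvable_range ψ (Or.inl inferInstance)
  refine le_antisymm ?_ ?_
  · obtain ⟨k, hk⟩ := IsPGroup.iff_card.mp (hQp.to_le (inf_le_left :
      Q ⊓ Subgroup.centralizer (B' : Set _) ≤ Q))
    rw [hk]
    refine Nat.pow_le_pow_right (Fact.out : r.Prime).pos ?_
    refine (Nat.Prime.pow_dvd_iff_le_factorization Fact.out (Nat.card_pos.ne')).mp ?_
    rw [← hk]
    exact Subgroup.card_dvd_of_le (inf_le_inf_right _ hQK)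
  · obtain ⟨S⟩ := (inferInstance : Nonempty (Sylow r A))
    set S' := (S : Subgroup A).map A.subtype
    have hSA : S' ≤ A := Subgroup.map_subtype_le _
    have hBS : B' ≤ Subgroup.normalizer (S' : Set _) :=
      Cfsg.Agent.H20.le_normalizer_of_le_centralizer fun b hb => by
        rw [Subgroup.mem_centralizer_iff]
        exact fun s hs => (Subgroup.mem_centralizer_iff.mp (hSA hs).2 b hb).symm
    obtain ⟨Q1, hle, hQ1⟩ := Cfsg.Agent.H20.exists_invariant_sylow_ge hBK hcopL hsolv r
      (hSA.trans inf_le_left) (Cfsg.Agent.H20.isPGroup_map_sylow S) hBS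
    obtain ⟨h, hh, heq⟩ := Cfsg.Agent.H20.invariant_sylow_subgroup_conj hBK hcopL hsolv
      (Subgroup.map_subtype_le _) hQK (Cfsg.Agent.H20.card_map_sylow Q1) hQc hQ1 hBQ
    have hsub : MulAut.conj h • S' ≤ Q ⊓ Subgroup.centralizer (B' : Set _) := by
      intro x hx
      rw [Cfsg.Agent.H20.mem_conj_smul] at hx
      refine Subgroup.mem_inf.mpr ⟨?_, ?_⟩
      · rw [← heq, Cfsg.Agent.H20.mem_conj_smul]; exact hle hx
      · obtain ⟨-, h1⟩ := Subgroup.mem_inf.mp hh
        obtain ⟨-, h2⟩ := Subgroup.mem_inf.mp (hSA hx)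
        have := mul_mem (mul_mem h1 h2) (inv_mem h1)
        simpa [mul_assoc] using this
    rw [← Cfsg.Agent.H20.card_map_sylow S, ← Cfsg.Agent.H20.card_conj_smul h]
    exact Subgroup.card_le_of_le hsub

theorem prod_ordProj_eq {n m : ℕ} (hn : n ∣ m) (hm : m ≠ 0) :
    ∏ r ∈ m.primeFactors, r ^ n.factorization r = n := by
  have hn0 : n ≠ 0 := fun h => hm (Nat.eq_zero_of_zero_dvd (h ▸ hn))
  conv_rhs => rw [← Nat.prod_factorization_pow_eq_self hn0]
  rw [Finsupp.prod, Nat.support_factorization]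
  refine (Finset.prod_subset (Nat.primeFactors_mono hn hm) fun r _ hr => ?_).symm
  rw [← Nat.support_factorization, Finsupp.notMem_support_iff] at hr
  rw [hr, pow_zero]

/-- The inequality for every `p'`-group. -/
theorem fixIneq (hP : IsPGroup p P) (φ : P →* MulAut W) (hcop : (Nat.card W).Coprime p) :
    FixIneq p φ := by
  classical
  letI := Fintype.ofFinite P
  set s := (Nat.card W).primeFactors with hs
  haveI : Group.IsSolvable P := by haveI := hP.isNilpotent; infer_instance
  have hcopP : (Nat.card P).Coprime (Nat.card W) := by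
    obtain ⟨i, hi⟩ := IsPGroup.iff_card.1 hP
    rw [hi]
    exact hcop.symm.pow_left i
  have hW0 : Nat.card W ≠ 0 := Nat.card_pos.ne'
  have hdec : ∀ B : Subgroup P, Nat.card (fixSub φ B) =
      ∏ r ∈ s, r ^ (Nat.card (fixSub φ B)).factorization r :=
    fun B => (prod_ordProj_eq (Subgroup.card_subgroup_dvd_card _) hW0).symm
  have hWdec : Nat.card W = ∏ r ∈ s, r ^ (Nat.card W).factorization r :=
    (prod_ordProj_eq dvd_rfl hW0).symm
  have key : ∀ r ∈ s,
      (∏ x : P, r ^ (Nat.card (fixSub φ (Subgroup.zpowers x ⊔ ⊥))).factorization r) ^ p *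
        (r ^ (Nat.card (fixSub φ ⊤)).factorization r) ^ Nat.card P ≤
      (r ^ (Nat.card W).factorization r) ^ Nat.card P *
        (r ^ (Nat.card (fixSub φ ⊤)).factorization r) ^ (p * Nat.card P) := by
    intro r hr
    haveI := Fact.mk (Nat.prime_of_mem_primeFactors hr)
    obtain ⟨R, hR⟩ := Cfsg.Agent.H20.External.exists_invariant_sylow φ hcopP (Or.inl inferInstance) r
    haveI : Group.IsNilpotent (R : Subgroup W) := R.2.isNilpotent
    have := fixIneq_of_nilpotent hP _ (resAct φ (R : Subgroup W) hR)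
      (hcop.coprime_dvd_left (Subgroup.card_subgroup_dvd_card _)) le_rfl
    simp only [FixIneq, fixProd, card_fixSub_invariant_sylow φ hP hcop R hR,
      R.card_eq_multiplicity] at this
    exact this
  have := Finset.prod_le_prod' key
  simp only [Finset.prod_mul_distrib, Finset.prod_pow] at this
  rw [Finset.prod_comm] at this
  simp only [← hdec, ← hWdec] at this
  exact this

end Sylow

end Cfsg.Agent.H87
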