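import Mathlib

/-!
The arithmetic behind the classification of non-solvable groups with four automorphism orbits.
-/

set_option autoImplicit false

namespace Cfsg.Agent.H87

/-- The local data at a prime `p`: Sylow order `a`, centre order `z`, `e = |N(P) : P|`,
`m` Sylow subgroups. -/
def LocalData (n p a z e m : ℕ) (others : ℕ → Prop) : Prop :=
  p.Prime ∧ (∃ k, 1 ≤ k ∧ a = p ^ k) ∧ 2 ≤ z ∧ n = m * a * e ∧ m % p = 1 ∧
    (e = 1 ∨ (others e ∧ z % e = 1)) ∧ ((z = a ∧ e ≠ 1) ∨ z * p ^ 2 ≤ a)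

namespace LocalData

variable {n p a z e m : ℕ} {others : ℕ → Prop}

theorem m_pos (h : LocalData n p a z e m others) : 0 < m := by
  obtain ⟨-, -, -, -, hm, -, -⟩ := h
  rcases Nat.eq_zero_or_pos m with rfl | h
  · simp at hm
  · exact h

theorem e_pos (h : LocalData n p a z e m others) : 0 < e := by
  obtain ⟨-, -, hz, -, -, he, -⟩ := h
  rcases Nat.eq_zero_or_pos e with rfl | h
  · rcases he with h | ⟨-, h⟩
    · simp at h
    · simp at h; omega
  · exact h

/-- The share of the elements of order `p` when the Sylow subgroup is abelian. -/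
theorem share_abelian (h : LocalData n p a z e m others) (hza : z = a) :
    e * (m * (z - 1)) < n := by
  have hm := h.m_pos
  have he := h.e_pos
  obtain ⟨-, -, hz, hn, -, -, -⟩ := h
  calc e * (m * (z - 1)) < e * (m * z) :=
        Nat.mul_lt_mul_of_pos_left (Nat.mul_lt_mul_of_pos_left (by omega) hm) he
    _ = n := by rw [hn, hza]; ring

/-- The share of the elements of order `p` when the Sylow subgroup is not abelian. -/
theorem share_nonabelian (h : LocalData n p a z e m others) (hza : z * p ^ 2 ≤ a) :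
    p ^ 2 * (m * (z - 1)) < n := by
  have hm := h.m_pos
  have he := h.e_pos
  obtain ⟨hp, -, hz, hn, -, -, -⟩ := h
  calc p ^ 2 * (m * (z - 1)) < p ^ 2 * (m * z) :=
        Nat.mul_lt_mul_of_pos_left (Nat.mul_lt_mul_of_pos_left (by omega) hm) (pow_pos hp.pos 2)
    _ = m * (z * p ^ 2) := by ring
    _ ≤ m * (a * e) := Nat.mul_le_mul_left _ (le_trans hza (Nat.le_mul_of_pos_right a he))
    _ = n := by rw [hn]; ring

theorem le_a (h : LocalData n p a z e m others) : p ≤ a := by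
  obtain ⟨-, ⟨k, hk1, hk⟩, -⟩ := h
  exact hk ▸ Nat.le_self_pow (by omega) p

/-- In odd order a share is below a fifth, unless the automizer has order three. -/
theorem share_odd {q r : ℕ} (h : LocalData n p a z e m (fun x => x = q ∨ x = r)) (hp : 3 ≤ p)
    (hq : 3 ≤ q) (hr : 3 ≤ r) (hq4 : q ≠ 4) (hr4 : r ≠ 4) :
    5 * (m * (z - 1)) < n ∨ (e = 3 ∧ (q = 3 ∨ r = 3) ∧ 3 * (m * (z - 1)) < n) := by
  rcases h.2.2.2.2.2.2 with ⟨hza, he1⟩ | hza
  · have hs := h.share_abelian hza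
    obtain ⟨he, -⟩ := h.2.2.2.2.2.1.resolve_left he1
    by_cases h3 : e = 3
    · subst h3
      exact Or.inr ⟨rfl, by omega, hs⟩
    · refine Or.inl (lt_of_le_of_lt (Nat.mul_le_mul_right _ ?_) hs)
      rcases he with rfl | rfl <;> omega
  · refine Or.inl (lt_of_le_of_lt (Nat.mul_le_mul_right _ ?_) (h.share_nonabelian hza))
    calc 5 ≤ 3 ^ 2 := by norm_num
      _ ≤ p ^ 2 := Nat.pow_le_pow_left hp 2

end LocalData

/-- An order three times five times three at least. -/
theorem le_prod_three {n p q r : ℕ} (hp : 3 ≤ p) (hq : 3 ≤ q) (hr : 3 ≤ r) (hpq : p ≠ q)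
    (hp4 : p ≠ 4) (hq4 : q ≠ 4) (h : p * q * r ≤ n) : 45 ≤ n := by
  refine le_trans ?_ h
  rcases Nat.lt_or_ge p 5 with h5 | h5
  · calc 45 ≤ 3 * 5 * 3 := le_rfl
      _ ≤ _ := Nat.mul_le_mul (Nat.mul_le_mul hp (by omega)) hr
  · calc 45 ≤ 5 * 3 * 3 := le_rfl
      _ ≤ _ := Nat.mul_le_mul (Nat.mul_le_mul h5 hq) hr

/-- There is no solution in odd order. -/
theorem no_odd_solution {n p q r : ℕ} {a b c z w v e f g mp mq mr : ℕ}
    (hpq : p ≠ q) (hpr : p ≠ r) (hqr : q ≠ r) (hp2 : p ≠ 2) (hq2 : q ≠ 2) (hr2 : r ≠ 2)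
    (hn : n = a * b * c)
    (P : LocalData n p a z e mp (fun x => x = q ∨ x = r))
    (Q : LocalData n q b w f mq (fun x => x = p ∨ x = r))
    (R : LocalData n r c v g mr (fun x => x = p ∨ x = q))
    (heq : n = 1 + mp * (z - 1) + mq * (w - 1) + mr * (v - 1)) : False := by
  have odd_big : ∀ x : ℕ, x.Prime → x ≠ 2 → 3 ≤ x ∧ x ≠ 4 := by
    intro x hx h2
    refine ⟨by have := hx.two_le; omega, fun h => ?_⟩
    rw [h] at hx; norm_num at hx
  obtain ⟨p3, p4⟩ := odd_big p P.1 hp2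
  obtain ⟨q3, q4⟩ := odd_big q Q.1 hq2
  obtain ⟨r3, r4⟩ := odd_big r R.1 hr2
  have hnbig : 45 ≤ n :=
    le_prod_three p3 q3 r3 hpq p4 q4 (hn ▸ Nat.mul_le_mul (Nat.mul_le_mul P.le_a Q.le_a) R.le_a)
  have sP := P.share_odd p3 q3 r3 q4 r4
  have sQ := Q.share_odd q3 p3 r3 p4 r4
  have sR := R.share_odd r3 p3 q3 p4 q4
  generalize mp * (z - 1) = X at heq sP
  generalize mq * (w - 1) = Y at heq sQ
  generalize mr * (v - 1) = W at heq sR
  clear P Q R hn
  omega

/-- Powers of two modulo 15. -/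
theorem two_pow_mod_fifteen (k : ℕ) :
    2 ^ k % 15 = 1 ∨ 2 ^ k % 15 = 2 ∨ 2 ^ k % 15 = 4 ∨ 2 ^ k % 15 = 8 := by
  induction k with
  | zero => simp
  | succ k ih => rw [pow_succ]; omega

/-- `3 ^ b = 2 ^ k + 1` with `k ≥ 2` forces `2 ^ k = 8`. -/
theorem three_pow_eq_two_pow_add_one {b k : ℕ} (hk : 2 ≤ k) (h : 3 ^ b = 2 ^ k + 1) : 2 ^ k = 8 := by
  have h4 : 2 ^ k % 4 = 0 := by
    obtain ⟨j, rfl⟩ := Nat.exists_eq_add_of_le hk
    rw [pow_add]; exact Nat.mul_mod_right 4 _
  obtain ⟨c, rfl⟩ : Even b := by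
    rcases Nat.even_or_odd b with h' | ⟨c, rfl⟩
    · exact h'
    · exfalso
      have : 3 ^ (2 * c + 1) % 4 = 3 := by
        rw [pow_succ, pow_mul, Nat.mul_mod, Nat.pow_mod]; norm_num
      rw [h] at this
      generalize 2 ^ k = X at *
      omega
  have hc : 1 ≤ 3 ^ c := Nat.one_le_pow _ _ (by norm_num)
  have hfac : (3 ^ c - 1) * (3 ^ c + 1) = 2 ^ k := by
    rw [pow_add] at h
    obtain ⟨t, ht⟩ := Nat.exists_eq_add_of_le hc
    rw [ht] at h ⊢
    rw [Nat.add_sub_cancel_left]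
    nlinarith
  obtain ⟨i, -, hi⟩ := (Nat.dvd_prime_pow Nat.prime_two).1 ⟨_, hfac.symm⟩
  obtain ⟨j, -, hj⟩ :=
    (Nat.dvd_prime_pow Nat.prime_two).1 ⟨3 ^ c - 1, hfac.symm.trans (mul_comm _ _)⟩
  have hi2 : i ≤ 1 := by
    by_contra hgt
    have hij : i ≤ j := by
      by_contra hlt
      have := Nat.pow_lt_pow_right (by norm_num : 1 < 2) (show j < i by omega)
      omega
    have h4i : 4 ∣ 2 ^ i := pow_dvd_pow 2 (show 2 ≤ i by omega)
    have h4j : 4 ∣ 2 ^ j := pow_dvd_pow 2 (show 2 ≤ j by omega)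
    omega
  have h3c : 3 ^ c % 2 = 1 := by rw [Nat.pow_mod]; norm_num
  interval_cases i
  · omega
  · have h3 : 3 ^ c = 3 := by omega
    rw [h3] at hfac
    omega

/-- If `P` is the only prime with automizer of order two there is no solution. -/
theorem mixed_false {n r s e q R S mr g X Y W : ℕ} (r3 : 3 ≤ r) (r4 : r % 2 = 1) (s3 : 3 ≤ s) (s4 : s % 2 = 1)
    (hrs : r ≠ s) (he : e = r ∨ e = s) (hqe : q % e = 1) (hq : ∃ k, q = 2 ^ k) (hR : 1 ≤ R)
    (hn : n = q * R * S) (hnA : n = mr * R * 2) (hmr : mr % r = 1) (hg : g = r) (hS : S % r = 1)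
    (h60 : 60 ≤ n) (heq : n = 1 + X + Y + W) (hX : e * X < n) (hY : 2 * Y < n) (hW : g * W < n) :
    False := by
  subst hg
  have h2 : mr * 2 = q * S := by
    have : mr * 2 * R = q * S * R := by
      calc mr * 2 * R = mr * R * 2 := by ring
        _ = q * R * S := by rw [← hnA, hn]
        _ = q * S * R := by ring
    exact Nat.eq_of_mul_eq_mul_right hR this
  have hq2 : q % g = 2 := by
    have hh : mr * 2 % g = q * S % g := by rw [h2]
    rw [Nat.mul_mod, hmr, Nat.mul_mod q S, hS, one_mul, mul_one, Nat.mod_mod, Nat.mod_mod,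
      Nat.mod_eq_of_lt (show 2 < g by omega)] at hh
    exact hh.symm
  rcases he with rfl | rfl
  · omega
  · obtain ⟨k, hk⟩ := hq
    have h15 := two_pow_mod_fifteen k
    rw [← hk] at h15
    clear hn hnA h2 hk hS hmr
    have : (g = 3 ∧ e = 5) ∨ (g = 5 ∧ e = 3) := by
      clear h15 hqe hq2
      by_cases h3 : g = 3
      · subst h3
        by_contra hc
        have : 7 ≤ e := by omega
        have : 7 * X < n := lt_of_le_of_lt (Nat.mul_le_mul_right X this) hX
        omega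
      · have g5 : 5 ≤ g := by omega
        have : 5 * W < n := lt_of_le_of_lt (Nat.mul_le_mul_right W g5) hW
        by_cases he3 : e = 3
        · subst he3
          by_contra hc
          have : 7 * W < n := lt_of_le_of_lt (Nat.mul_le_mul_right W (show 7 ≤ g by omega)) hW
          omega
        · exfalso
          have : 5 * X < n := lt_of_le_of_lt (Nat.mul_le_mul_right X (show 5 ≤ e by omega)) hX
          omega
    rcases this with ⟨rfl, rfl⟩ | ⟨rfl, rfl⟩ <;> omega

/-- The key computation when both odd primes have automizers of order two. -/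
theorem both_two {n r s q R S kq m2 mr ms : ℕ} (hr : r.Prime) (hs : s.Prime) (hr2 : r ≠ 2)
    (hs2 : s ≠ 2) (hq : q = 2 ^ kq) (hqr : q % r = 1)
    (hR : ∃ k, 1 ≤ k ∧ R = r ^ k) (hS : ∃ k, 1 ≤ k ∧ S = s ^ k) (hq4 : 4 ≤ q)
    (hn : n = q * R * S) (hnP : n = m2 * q * r) (hnA : n = mr * R * 2) (hnB : n = ms * S * 2)
    (hmr : mr % r = 1) (heq : n = 1 + m2 * (q - 1) + mr * (R - 1) + ms * (S - 1)) :
    n = 60 ∨ (n = 504 ∧ q = 8 ∧ r = 7 ∧ R = 7 ∧ S = 9) := by
  have r3 : 3 ≤ r := by have := hr.two_le; omega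
  have s3 : 3 ≤ s := by have := hs.two_le; omega
  obtain ⟨kR, hkR1, hkR⟩ := hR
  obtain ⟨kS, hkS1, hkS⟩ := hS
  have hR3 : r ≤ R := hkR ▸ Nat.le_self_pow (by omega) r
  have hS3 : s ≤ S := hkS ▸ Nat.le_self_pow (by omega) s
  have h2 : mr * 2 = q * S := by
    have : mr * 2 * R = q * S * R := by
      calc mr * 2 * R = mr * R * 2 := by ring
        _ = q * R * S := by rw [← hnA, hn]
        _ = q * S * R := by ring
    exact Nat.eq_of_mul_eq_mul_right (by omega) this
  have h3 : ms * 2 = q * R := by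
    have : ms * 2 * S = q * R * S := by
      calc ms * 2 * S = ms * S * 2 := by ring
        _ = _ := by rw [← hnB, hn]
    exact Nat.eq_of_mul_eq_mul_right (by omega) this
  have h1 : m2 * r = R * S := by
    have : m2 * r * q = R * S * q := by
      calc m2 * r * q = m2 * q * r := by ring
        _ = q * R * S := by rw [← hnP, hn]
        _ = R * S * q := by ring
    exact Nat.eq_of_mul_eq_mul_right (by omega) this
  have hS2 : S % r = 2 := by
    have hh : mr * 2 % r = q * S % r := by rw [h2]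
    rw [Nat.mul_mod, hmr, Nat.mul_mod q S, hqr, one_mul, one_mul, Nat.mod_mod, Nat.mod_mod,
      Nat.mod_eq_of_lt (show 2 < r by omega)] at hh
    exact hh.symm
  have hSbig : r + 2 ≤ S := by
    have hSodd : S % 2 = 1 := by
      rw [hkS, Nat.pow_mod, Nat.Prime.eq_two_or_odd hs |>.resolve_left hs2]; simp
    have := Nat.div_add_mod S r
    rcases Nat.eq_zero_or_pos (S / r) with h | h
    · rw [h, mul_zero] at this; omega
    · have : r * 1 ≤ r * (S / r) := Nat.mul_le_mul_left r h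
      omega
  obtain ⟨k, hk⟩ : ∃ k, q = k * r + 1 := ⟨q / r, by
    have := Nat.div_add_mod q r; rw [hqr, mul_comm] at this; omega⟩
  have hk1 : 1 ≤ k := by
    rcases Nat.eq_zero_or_pos k with rfl | h
    · omega
    · exact h
  have heq2 : 2 * k * R * S + 2 = (k * r + 1) * (R + S) := by
    rw [← hk]
    zify at heq h1 h2 h3 hn hk ⊢
    rw [Nat.cast_sub (by omega : 1 ≤ q), Nat.cast_sub (by omega : 1 ≤ R),
      Nat.cast_sub (by omega : 1 ≤ S)] at heq
    push_cast at heq
    linear_combination (-2 : ℤ) * heq + 2 * hn - ((R : ℤ) - 1) * h2 - ((S : ℤ) - 1) * h3 -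
      2 * (k : ℤ) * h1 - 2 * (m2 : ℤ) * hk
  have hRr : R = r := by
    by_contra hne
    have h2r : 3 * r ≤ R := by
      have : kR ≠ 1 := fun h => hne (by rw [hkR, h, pow_one])
      calc 3 * r ≤ r * r := Nat.mul_le_mul_right r r3
        _ = r ^ 2 := (pow_two r).symm
        _ ≤ R := hkR ▸ Nat.pow_le_pow_right (by omega) (by omega)
    have e1 : k * (r + 2) * R ≤ k * S * R := Nat.mul_le_mul_right R (Nat.mul_le_mul_left k hSbig)
    have e2 : k * (3 * r) * S ≤ k * R * S := Nat.mul_le_mul_right S (Nat.mul_le_mul_left k h2r)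
    have e3 : 1 * R ≤ k * R := Nat.mul_le_mul_right R hk1
    have e4 : 9 * S ≤ k * R * S :=
      Nat.mul_le_mul_right S (le_trans (show 9 ≤ R by omega) (Nat.le_mul_of_pos_left R hk1))
    nlinarith only [heq2, e1, e2, e3, e4, hS3, s3]
  subst hRr
  obtain ⟨t, rfl⟩ := Nat.exists_eq_add_of_le hSbig
  have hkey : (2 + t) * (k * R) + 2 = 2 * R + (2 + t) := by nlinarith only [heq2]
  have hk' : k = 1 := by
    by_contra h
    have e1 : (2 + t) * (2 * R) ≤ (2 + t) * (k * R) :=
      Nat.mul_le_mul_left _ (Nat.mul_le_mul_right R (show 2 ≤ k by omega))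
    nlinarith only [e1, hkey, r3]
  subst hk'
  have ht : t = 0 := by nlinarith only [hkey, r3]
  subst ht
  by_cases h3r : R = 3
  · left; rw [hn, hk, h3r]
  · right
    have hrnot3 : R % 3 ≠ 0 := fun h => h3r
      ((Nat.prime_dvd_prime_iff_eq Nat.prime_three hr).1 (Nat.dvd_of_mod_eq_zero h)).symm
    have hq15 := two_pow_mod_fifteen kq
    rw [← hq] at hq15
    have hs3 : s = 3 := by
      have h3d : 3 ∣ s ^ kS := by
        rw [← hkS]; exact Nat.dvd_of_mod_eq_zero (by omega)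
      exact ((Nat.prime_dvd_prime_iff_eq Nat.prime_three hs).1
        (Nat.prime_three.dvd_of_dvd_pow h3d)).symm
    subst hs3
    have hkq2 : 2 ≤ kq := by
      by_contra h
      have : kq ≤ 1 := by omega
      interval_cases kq <;> omega
    have h8 := three_pow_eq_two_pow_add_one hkq2 (b := kS) (by rw [← hkS, ← hq]; omega)
    rw [← hq] at h8
    have h7 : R = 7 := by omega
    refine ⟨?_, h8, h7, h7, by omega⟩
    rw [hn, h8, h7]

/-- With `p = 2`, the only candidates are `60` and `504`. -/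
theorem even_solution {n r s : ℕ} {q R S z2 zr zs e f g m2 mr ms : ℕ}
    (hr2 : r ≠ 2) (hs2 : s ≠ 2) (hrs : r ≠ s) (hn : n = q * R * S)
    (hab : z2 = q)
    (P : LocalData n 2 q z2 e m2 (fun x => x = r ∨ x = s))
    (A : LocalData n r R zr f mr (fun x => x = 2 ∨ x = s))
    (B : LocalData n s S zs g ms (fun x => x = 2 ∨ x = r))
    (heq : n = 1 + m2 * (z2 - 1) + mr * (zr - 1) + ms * (zs - 1)) :
    n = 60 ∨ (n = 504 ∧ q = 8 ∧ e = 7 ∧
      ((r = 7 ∧ R = 7 ∧ f = 2 ∧ S = 9) ∨ (s = 7 ∧ S = 7 ∧ g = 2 ∧ R = 9))) := by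
  have hr := A.1; have hs := B.1
  have r3 : 3 ≤ r := by have := hr.two_le; omega
  have s3 : 3 ≤ s := by have := hs.two_le; omega
  have r4 : r ≠ 4 := fun h => by rw [h] at hr; norm_num at hr
  have s4 : s ≠ 4 := fun h => by rw [h] at hs; norm_num at hs
  obtain ⟨kq, hkq1, hkq⟩ := P.2.1
  obtain ⟨he, hqe⟩ : (e = r ∨ e = s) ∧ q % e = 1 := by
    rcases P.2.2.2.2.2.2 with ⟨-, h⟩ | h
    · rw [← hab]; exact P.2.2.2.2.2.1.resolve_left h
    · exfalso; rw [hab] at h; have := P.2.2.1; omega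
  have e3 : 3 ≤ e := by rcases he with rfl | rfl <;> assumption
  have q4 : 4 ≤ q := by
    rcases Nat.lt_or_ge kq 2 with h | h
    · have hq2 : q = 2 := by rw [hkq, show kq = 1 by omega, pow_one]
      rw [hq2, Nat.mod_eq_of_lt (show 2 < e by omega)] at hqe
      omega
    · calc 4 = 2 ^ 2 := rfl
        _ ≤ q := hkq ▸ Nat.pow_le_pow_right (by norm_num) h
  have hn60 : 60 ≤ n := by
    rw [hn]
    rcases Nat.lt_or_ge r 5 with h | h
    · calc 60 = 4 * 3 * 5 := rfl
        _ ≤ _ := Nat.mul_le_mul (Nat.mul_le_mul q4 (le_trans r3 A.le_a))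
          (le_trans (show 5 ≤ s by omega) B.le_a)
    · calc 60 = 4 * 5 * 3 := rfl
        _ ≤ _ := Nat.mul_le_mul (Nat.mul_le_mul q4 (le_trans h A.le_a)) (le_trans s3 B.le_a)
  have sP := P.share_abelian hab
  have sP3 : 3 * (m2 * (z2 - 1)) < n := lt_of_le_of_lt (Nat.mul_le_mul_right _ e3) sP
  have sA2 : zr ≠ R → 9 * (mr * (zr - 1)) < n := fun h =>
    lt_of_le_of_lt (Nat.mul_le_mul_right _ (Nat.pow_le_pow_left r3 2))
      (A.share_nonabelian (A.2.2.2.2.2.2.resolve_left fun h' => h h'.1))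
  have sB2 : zs ≠ S → 9 * (ms * (zs - 1)) < n := fun h =>
    lt_of_le_of_lt (Nat.mul_le_mul_right _ (Nat.pow_le_pow_left s3 2))
      (B.share_nonabelian (B.2.2.2.2.2.2.resolve_left fun h' => h h'.1))
  have hAw : 2 * (mr * (zr - 1)) < n ∧ (zr ≠ R → 9 * (mr * (zr - 1)) < n) := by
    refine ⟨?_, sA2⟩
    by_cases h : zr = R
    · have hf : f ≠ 1 := by
        rcases A.2.2.2.2.2.2 with h' | h'
        · exact h'.2
        · exfalso
          have := A.le_a
          have : zr * 1 < zr * r ^ 2 := Nat.mul_lt_mul_of_pos_left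
            (Nat.one_lt_pow (by norm_num) (by omega)) (by have := A.2.2.1; omega)
          omega
      have := A.e_pos
      exact lt_of_le_of_lt (Nat.mul_le_mul_right _ (show 2 ≤ f by omega)) (A.share_abelian h)
    · have := sA2 h; omega
  have hBw : 2 * (ms * (zs - 1)) < n ∧ (zs ≠ S → 9 * (ms * (zs - 1)) < n) := by
    refine ⟨?_, sB2⟩
    by_cases h : zs = S
    · have hg : g ≠ 1 := by
        rcases B.2.2.2.2.2.2 with h' | h'
        · exact h'.2
        · exfalso
          have : zs * 1 < zs * s ^ 2 := Nat.mul_lt_mul_of_pos_left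
            (Nat.one_lt_pow (by norm_num) (by omega)) (by have := B.2.2.1; omega)
          omega
      have := B.e_pos
      exact lt_of_le_of_lt (Nat.mul_le_mul_right _ (show 2 ≤ g by omega)) (B.share_abelian h)
    · have := sB2 h; omega
  have hzr : zr = R := by
    by_contra h
    have := hAw.2 h; have := hBw.1
    generalize m2 * (z2 - 1) = X, mr * (zr - 1) = Y, ms * (zs - 1) = W at *
    clear A B P hn
    omega
  have hzs : zs = S := by
    by_contra h
    have := hBw.2 h; have := hAw.1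
    generalize m2 * (z2 - 1) = X, mr * (zr - 1) = Y, ms * (zs - 1) = W at *
    clear A B P hn
    omega
  have hf1 : f ≠ 1 := by
    rcases A.2.2.2.2.2.2 with h' | h'
    · exact h'.2
    · exfalso
      have : zr * 1 < zr * r ^ 2 := Nat.mul_lt_mul_of_pos_left
        (Nat.one_lt_pow (by norm_num) (by omega)) (by have := A.2.2.1; omega)
      omega
  have hg1 : g ≠ 1 := by
    rcases B.2.2.2.2.2.2 with h' | h'
    · exact h'.2
    · exfalso
      have : zs * 1 < zs * s ^ 2 := Nat.mul_lt_mul_of_pos_left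
        (Nat.one_lt_pow (by norm_num) (by omega)) (by have := B.2.2.1; omega)
      omega
  obtain ⟨hf, hfd⟩ := A.2.2.2.2.2.1.resolve_left hf1
  obtain ⟨hg, hgd⟩ := B.2.2.2.2.2.1.resolve_left hg1
  have sA := A.share_abelian hzr
  have sB := B.share_abelian hzs
  subst hzr hzs hab
  rcases hf with hf | hf <;> rcases hg with hg | hg
  · rcases he with her | hes
    · rcases both_two hr hs hr2 hs2 hkq (her ▸ hqe) A.2.1 B.2.1 q4 hn
        (her ▸ P.2.2.2.1) (hf ▸ A.2.2.2.1) (hg ▸ B.2.2.2.1) A.2.2.2.2.1 heq with h | ⟨h1, h2, h3, h4, h5⟩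
      · exact Or.inl h
      · exact Or.inr ⟨h1, h2, her.trans h3, Or.inl ⟨h3, h4, hf, h5⟩⟩
    · rcases both_two hs hr hs2 hr2 hkq (hes ▸ hqe) B.2.1 A.2.1 q4 (by rw [hn]; ring)
        (hes ▸ P.2.2.2.1) (hg ▸ B.2.2.2.1) (hf ▸ A.2.2.2.1) B.2.2.2.2.1
        (by rw [add_right_comm]; exact heq) with h | ⟨h1, h2, h3, h4, h5⟩
      · exact Or.inl h
      · exact Or.inr ⟨h1, h2, hes.trans h3, Or.inr ⟨h3, h4, hg, h5⟩⟩
  · exfalso
    refine mixed_false (S := zs) (g := g) r3 (hr.eq_two_or_odd.resolve_left hr2) s3 (hs.eq_two_or_odd.resolve_left hs2) hrs he hqe ⟨kq, hkq⟩ (le_trans (by omega) A.le_a) hn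
      (hf ▸ A.2.2.2.1) A.2.2.2.2.1 hg (hg ▸ hgd) hn60 heq sP (hf ▸ sA) sB
  · exfalso
    refine mixed_false (S := zr) (g := f) s3 (hs.eq_two_or_odd.resolve_left hs2) r3 (hr.eq_two_or_odd.resolve_left hr2) hrs.symm he.symm hqe ⟨kq, hkq⟩
      (le_trans (by omega) B.le_a) (show n = z2 * zs * zr by rw [hn]; ring)
      (hg ▸ B.2.2.2.1) B.2.2.2.2.1 hf (hf ▸ hfd) hn60 (by rw [add_right_comm]; exact heq) sP (hg ▸ sB) sA
  · exfalso
    subst hf hg
    generalize m2 * (z2 - 1) = X, mr * (zr - 1) = Y, ms * (zs - 1) = W at *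
    clear A B P hn hfd hgd hqe
    rcases Nat.lt_or_ge g 5 with h | h
    · have h5 : 5 * Y < n := lt_of_le_of_lt (Nat.mul_le_mul_right Y (show 5 ≤ f by omega)) sA
      have h3 : 3 * W < n := lt_of_le_of_lt (Nat.mul_le_mul_right W r3) sB
      omega
    · have h5 : 5 * W < n := lt_of_le_of_lt (Nat.mul_le_mul_right W h) sB
      have h3 : 3 * Y < n := lt_of_le_of_lt (Nat.mul_le_mul_right Y s3) sA
      omega

end Cfsg.Agent.H87
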