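import Mathlib
import Cfsg.Agent.H19.Cores
import Cfsg.Agent.H21.Complement
import Cfsg.Agent.H25.Burnside
import Cfsg.Agent.H30.Basics
import Cfsg.Agent.S0494
import Cfsg.Agent.H87.FourOrbitsArith

/-!
A non-solvable finite group with four automorphism orbits is `A₅`.
-/

set_option autoImplicit false
open scoped Pointwise

namespace Cfsg.Agent.H87

variable {G : Type*} [Group G] [Finite G]

omit [Finite G] in
theorem mul_self_eq_one_of_orderOf_two {x : G} (h : orderOf x = 2) : x * x = 1 := by
  rw [← pow_two]; exact orderOf_dvd_iff_pow_eq_one.1 (dvd_of_eq h)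

theorem zmod_seven_eq_of_sq : ∀ x : ZMod 7, x * x = 1 → x = 1 ∨ x = -1 := by decide

/-- A group order with at most two prime divisors is `p^a q^b`. -/
theorem isSolvable_of_card_primeFactors_le_two (h : (Nat.card G).primeFactors.card ≤ 2) :
    Group.IsSolvable G := by
  classical
  have h0 : Nat.card G ≠ 0 := Nat.card_pos.ne'
  obtain ⟨p, q, hp, hq, hall⟩ : ∃ p q : ℕ, p.Prime ∧ q.Prime ∧
      ∀ r ∈ (Nat.card G).primeFactors, r = p ∨ r = q := by
    set s := (Nat.card G).primeFactors with hs
    rcases Nat.lt_or_ge s.card 1 with h1 | h1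
    · refine ⟨2, 2, Nat.prime_two, Nat.prime_two, fun r hr => ?_⟩
      rw [Finset.card_eq_zero.1 (by omega : s.card = 0)] at hr; simp at hr
    · rcases Nat.lt_or_ge s.card 2 with h2 | h2
      · obtain ⟨p, hp⟩ := Finset.card_eq_one.1 (by omega : s.card = 1)
        have : p.Prime := Nat.prime_of_mem_primeFactors (show p ∈ s by rw [hp]; simp)
        exact ⟨p, p, this, this, fun r hr => Or.inl (by rw [hp] at hr; simpa using hr)⟩
      · obtain ⟨p, q, -, hpq⟩ := Finset.card_eq_two.1 (by omega : s.card = 2)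
        exact ⟨p, q, Nat.prime_of_mem_primeFactors (show p ∈ s by rw [hpq]; simp),
          Nat.prime_of_mem_primeFactors (show q ∈ s by rw [hpq]; simp),
          fun r hr => by rw [hpq] at hr; simpa using hr⟩
  by_cases hpq : p = q
  · subst hpq
    refine Cfsg.Agent.H25.isSolvable_of_card_eq_mul_pow (a := (Nat.card G).primeFactorsList.length)
      (b := 0) hp hp ?_
    rw [pow_zero, mul_one]
    exact Nat.eq_prime_pow_of_unique_prime_dvd h0 fun {r} hr hd =>
      (hall r (Nat.mem_primeFactors.2 ⟨hr, hd, h0⟩)).elim id id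
  · refine Cfsg.Agent.H25.isSolvable_of_card_eq_mul_pow (a := (Nat.card G).factorization p)
      (b := (Nat.card G).factorization q) hp hq ?_
    conv_lhs => rw [← Nat.prod_factorization_pow_eq_self h0]
    rw [Finsupp.prod, Nat.support_factorization,
      Finset.prod_subset (s₂ := {p, q}) (fun r hr => by simpa using hall r hr) ?_,
      Finset.prod_pair hpq]
    intro r hr hrn
    have hrp : r.Prime := by
      simp only [Finset.mem_insert, Finset.mem_singleton] at hr
      rcases hr with rfl | rfl <;> assumption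
    rw [Nat.factorization_eq_zero_of_not_dvd fun hd => hrn (Nat.mem_primeFactors.2 ⟨hrp, hd, h0⟩),
      pow_zero]

/-- The orders and the automorphism transitivity of a non-solvable group with four orbits. -/
theorem four_orbits_orders (hns : ¬ Group.IsSolvable G)
    (h4 : Nat.card (MulAction.orbitRel.Quotient (MulAut G) G) = 4) :
    (Nat.card G).primeFactors.card = 3 ∧ (∀ g : G, g ≠ 1 → (orderOf g).Prime) ∧
      ∀ g g' : G, orderOf g = orderOf g' → ∃ α : MulAut G, α g = g' := by
  classical
  set s := (Nat.card G).primeFactors with hs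
  have h3 : 3 ≤ s.card := by
    by_contra h
    exact hns (isSolvable_of_card_primeFactors_le_two (by rw [← hs]; omega))
  let f : MulAction.orbitRel.Quotient (MulAut G) G → ℕ := Quotient.lift (fun g => orderOf g) (by
    rintro a b ⟨α, hα⟩
    show orderOf a = orderOf b
    rw [← hα]; exact MulEquiv.orderOf_eq α b)
  letI := Fintype.ofFinite (MulAction.orbitRel.Quotient (MulAut G) G)
  set T := Finset.univ.image f with hT
  have hsub : insert 1 s ⊆ T := by
    intro r hr
    rcases Finset.mem_insert.1 hr with rfl | hr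
    · exact Finset.mem_image.2 ⟨Quotient.mk'' 1, Finset.mem_univ _, orderOf_one⟩
    · haveI := Fact.mk (Nat.prime_of_mem_primeFactors hr)
      obtain ⟨x, hx⟩ := exists_prime_orderOf_dvd_card' (G := G) r (Nat.dvd_of_mem_primeFactors hr)
      exact Finset.mem_image.2 ⟨Quotient.mk'' x, Finset.mem_univ _, hx⟩
  have h1s : (1 : ℕ) ∉ s := fun h => Nat.not_prime_one (Nat.prime_of_mem_primeFactors h)
  have hTle : T.card ≤ 4 := by
    refine Finset.card_image_le.trans ?_
    rw [Finset.card_univ, ← Nat.card_eq_fintype_card, h4]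
  have hins : (insert 1 s).card = s.card + 1 := Finset.card_insert_of_notMem h1s
  have hle := Finset.card_le_card hsub
  have heq : insert 1 s = T := Finset.eq_of_subset_of_card_le hsub (by omega)
  have hinj : Function.Injective f := by
    have h : Set.InjOn f ↑(Finset.univ : Finset (MulAction.orbitRel.Quotient (MulAut G) G)) :=
      Finset.injOn_of_card_image_eq (by
        rw [← hT, Finset.card_univ, ← Nat.card_eq_fintype_card, h4]; omega)
    exact fun a b hab => h (Finset.mem_coe.2 (Finset.mem_univ a)) (Finset.mem_coe.2 (Finset.mem_univ b)) hab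
  refine ⟨by omega, fun g hg => ?_, fun g g' hgg' => ?_⟩
  · have : orderOf g ∈ T := Finset.mem_image.2 ⟨Quotient.mk'' g, Finset.mem_univ _, rfl⟩
    rw [← heq] at this
    rcases Finset.mem_insert.1 this with h | h
    · exact absurd (orderOf_eq_one_iff.1 h) hg
    · exact Nat.prime_of_mem_primeFactors h
  · obtain ⟨α, hα⟩ := Quotient.eq''.1
      (hinj (show f (Quotient.mk'' g') = f (Quotient.mk'' g) from hgg'.symm))
    exact ⟨α, hα⟩

/-- Commuting elements of different orders are impossible. -/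
theorem not_commute_of_orders (hord : ∀ g : G, g ≠ 1 → (orderOf g).Prime) {a b : G} {p q : ℕ}
    (hp : p.Prime) (hq : q.Prime) (hpq : p ≠ q) (ha : orderOf a = p) (hb : orderOf b = q) :
    ¬ Commute a b := by
  intro hc
  have h := hc.orderOf_mul_eq_mul_orderOf_of_coprime
    (by rw [ha, hb]; exact (Nat.coprime_primes hp hq).2 hpq)
  rw [ha, hb] at h
  have h1 : a * b ≠ 1 := fun e => by
    rw [e, orderOf_one] at h
    exact hp.ne_one (Nat.eq_one_of_mul_eq_one_right h.symm)
  have := hord _ h1
  rw [h] at this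
  exact Nat.not_prime_mul hp.ne_one hq.ne_one this

/-- The group is simple. -/
theorem four_orbits_simple (hns : ¬ Group.IsSolvable G) (hcard3 : (Nat.card G).primeFactors.card = 3)
    (hord : ∀ g : G, g ≠ 1 → (orderOf g).Prime)
    (htr : ∀ g g' : G, orderOf g = orderOf g' → ∃ α : MulAut G, α g = g') : IsSimpleGroup G := by
  classical
  have hmem : ∀ (N : Subgroup G), (∀ α : MulAut G, ∀ x ∈ N, α x ∈ N) → ∀ a ∈ N, ∀ g : G,
      orderOf g = orderOf a → g ∈ N := by
    intro N hN a ha g hg
    obtain ⟨α, rfl⟩ := htr a g hg.symm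
    exact hN α a ha
  have hchar : ∀ (N : Subgroup G), (∀ α : MulAut G, ∀ x ∈ N, α x ∈ N) → N ≠ ⊥ → N = ⊤ := by
    intro N hN hNbot
    by_cases h3 : ((Nat.card N).primeFactors).card ≤ 2
    · exfalso
      haveI := isSolvable_of_card_primeFactors_le_two h3
      haveI : Nontrivial N := (Subgroup.nontrivial_iff_ne_bot N).2 hNbot
      have hex := (Group.isSolvable_def N).1 inferInstance
      set k := Nat.find hex with hk
      have hk0 : k ≠ 0 := by
        intro h0
        have := Nat.find_spec hex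
        rw [← hk, h0, derivedSeries_zero] at this
        exact top_ne_bot this
      obtain ⟨j, hj⟩ := Nat.exists_eq_succ_of_ne_zero hk0
      obtain ⟨a₀, ha₀, ha₀1⟩ :=
        (Subgroup.bot_or_exists_ne_one _).resolve_left (Nat.find_min hex (by omega : j < k))
      set A := (derivedSeries N j).map N.subtype
      have hA : ∀ α : MulAut G, ∀ x ∈ A, α x ∈ A := by
        rintro α x ⟨⟨y, hy⟩, hy', rfl⟩
        let e : N →* N := (α.toMonoidHom.comp N.subtype).codRestrict N (fun y => hN α y y.2)
        exact ⟨e ⟨y, hy⟩, map_derivedSeries_le_derivedSeries e j ⟨_, hy', rfl⟩, rfl⟩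
      have hAc : ∀ a ∈ A, ∀ b ∈ A, Commute a b := by
        rintro _ ⟨a, ha, rfl⟩ _ ⟨b, hb, rfl⟩
        have hlast : derivedSeries N (j + 1) = ⊥ := by
          have := Nat.find_spec hex; rwa [← hk, hj] at this
        have := Subgroup.commutator_mem_commutator ha hb
        rw [← derivedSeries_succ, hlast, Subgroup.mem_bot] at this
        show N.subtype a * N.subtype b = N.subtype b * N.subtype a
        rw [← map_mul, ← map_mul, commutatorElement_eq_one_iff_mul_comm.1 this]
      have ha₁ : (a₀ : G) ∈ A := ⟨a₀, ha₀, rfl⟩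
      have ha₁1 : (a₀ : G) ≠ 1 := fun h => ha₀1 (Subtype.ext h)
      set p := orderOf (a₀ : G)
      have hp : p.Prime := hord _ ha₁1
      haveI := Fact.mk hp
      haveI hAn : A.Normal := ⟨fun x hx g => hA (MulAut.conj g) x hx⟩
      have hAp : ∀ x ∈ A, x ≠ 1 → orderOf x = p := by
        intro x hx hx1
        by_contra hne
        exact not_commute_of_orders hord (hord x hx1) hp hne rfl rfl (hAc x hx _ ha₁)
      haveI : Group.IsSolvable A :=
        Group.isSolvable_of_comm fun a b => Subtype.ext (hAc a a.2 b b.2)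
      apply hns
      haveI : Group.IsSolvable (G ⧸ A) := by
        refine isSolvable_of_card_primeFactors_le_two ?_
        have hss : (Nat.card (G ⧸ A)).primeFactors ⊆ (Nat.card G).primeFactors.erase p := by
          intro r hr
          have hrp := Nat.prime_of_mem_primeFactors hr
          refine Finset.mem_erase.2 ⟨?_, Nat.primeFactors_mono A.card_quotient_dvd_card Nat.card_pos.ne' hr⟩
          rintro rfl
          obtain ⟨x, hx⟩ := exists_prime_orderOf_dvd_card' (G := G ⧸ A) p (Nat.dvd_of_mem_primeFactors hr)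
          obtain ⟨y, rfl⟩ := QuotientGroup.mk_surjective x
          have hy1 : y ≠ 1 := by
            rintro rfl
            rw [QuotientGroup.mk_one, orderOf_one] at hx
            exact hp.ne_one hx.symm
          have hd : p ∣ orderOf y := hx ▸ orderOf_map_dvd (QuotientGroup.mk' A) y
          have hyA : y ∈ A := hmem A hA _ ha₁ y
            ((Nat.prime_dvd_prime_iff_eq hp (hord y hy1)).1 hd).symm
          rw [(QuotientGroup.eq_one_iff y).2 hyA, orderOf_one] at hx
          exact hp.ne_one hx.symm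
        refine (Finset.card_le_card hss).trans ?_
        rw [Finset.card_erase_of_mem (Nat.mem_primeFactors.2 ⟨hp, orderOf_dvd_natCard _, Nat.card_pos.ne'⟩)]
        omega
      exact Group.isSolvable_of_ker_le_range (f := A.subtype) (g := QuotientGroup.mk' A) (by simp)
    · rw [eq_top_iff]
      intro g _
      by_cases hg : g = 1
      · exact hg ▸ one_mem N
      have heq : (Nat.card N).primeFactors = (Nat.card G).primeFactors :=
        Finset.eq_of_subset_of_card_le
          (Nat.primeFactors_mono (Subgroup.card_subgroup_dvd_card N) Nat.card_pos.ne') (by omega)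
      have hmemp : orderOf g ∈ (Nat.card N).primeFactors := by
        rw [heq]; exact Nat.mem_primeFactors.2 ⟨hord g hg, orderOf_dvd_natCard g, Nat.card_pos.ne'⟩
      haveI := Fact.mk (hord g hg)
      obtain ⟨a, ha⟩ := exists_prime_orderOf_dvd_card' (G := N) (orderOf g) (Nat.dvd_of_mem_primeFactors hmemp)
      exact hmem N hN a a.2 g (by rw [Subgroup.orderOf_coe, ha])
  haveI : Nontrivial G := by
    by_contra h
    haveI := not_nontrivial_iff_subsingleton.1 h
    exact hns (Group.isSolvable_of_comm fun a b => Subsingleton.elim _ _)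
  refine IsSimpleGroup.mk fun N₀ hN₀ => ?_
  by_contra hcon
  push Not at hcon
  obtain ⟨N, -, hN⟩ := exists_minimal_le_of_wellFoundedLT
    (fun N : Subgroup G => N.Normal ∧ N ≠ ⊥ ∧ N ≠ ⊤) N₀ ⟨hN₀, hcon.1, hcon.2⟩
  obtain ⟨hNn, hNbot, hNtop⟩ := hN.1
  by_cases hall : ∀ α : MulAut G, ∀ x ∈ N, α x ∈ N
  · exact hNtop (hchar N hall hNbot)
  push Not at hall
  obtain ⟨α, x, hx, hαx⟩ := hall
  set M := N.map α.toMonoidHom
  haveI hMn : M.Normal := hNn.map _ α.surjective
  have hinf : N ⊓ M = ⊥ := by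
    by_contra h
    have hle : N ≤ N ⊓ M :=
      hN.2 ⟨Subgroup.normal_inf_normal N M, h,
        fun e => hNtop (top_le_iff.1 (e ▸ inf_le_left))⟩ inf_le_left
    have hNM : N = M := Subgroup.eq_of_le_of_card_ge (hle.trans inf_le_right)
      (le_of_eq (Subgroup.card_map_of_injective α.injective))
    exact hαx (hNM ▸ ⟨x, hx, rfl⟩)
  obtain ⟨a, ha, ha1⟩ := (Subgroup.bot_or_exists_ne_one _).resolve_left hNbot
  set p := orderOf a
  haveI := Fact.mk (hord a ha1)
  have hNp : IsPGroup p N := by
    refine IsPGroup.iff_orderOf.2 fun b => ?_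
    by_cases hb : (b : G) = 1
    · exact ⟨0, by rw [← Subgroup.orderOf_coe, hb, orderOf_one, pow_zero]⟩
    refine ⟨1, ?_⟩
    rw [pow_one, ← Subgroup.orderOf_coe]
    by_contra hne
    refine not_commute_of_orders hord (hord _ hb) (hord a ha1) hne rfl (MulEquiv.orderOf_eq α a) ?_
    exact Subgroup.commute_of_normal_of_disjoint N M hNn hMn (disjoint_iff.2 hinf) _ _ b.2 ⟨a, ha, rfl⟩
  have hcore : Cfsg.pCore p G ≠ ⊥ := fun h =>
    hNbot (le_bot_iff.1 (h ▸ Cfsg.Agent.H19.le_pCore hNn hNp))
  have htop := hchar (Cfsg.pCore p G) (fun β x hx => by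
    have := Cfsg.Agent.H19.pCore_characteristic p G
    exact (Subgroup.characteristic_iff_comap_eq.1 this β).ge hx) hcore
  apply hns
  have hp' : IsPGroup p G :=
    IsPGroup.of_equiv (by rw [← htop]; exact Cfsg.Agent.H19.pCore_isPGroup p) Subgroup.topEquiv
  haveI := hp'.isNilpotent
  infer_instance

variable [IsSimpleGroup G]

/-- The centre of a subgroup, inside the ambient group. -/
def centerIn (P : Subgroup G) : Subgroup G := (Subgroup.center P).map P.subtype

omit [Finite G] [IsSimpleGroup G] in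
theorem mem_centerIn {P : Subgroup G} {x : G} :
    x ∈ centerIn P ↔ x ∈ P ∧ ∀ u ∈ P, u * x = x * u := by
  constructor
  · rintro ⟨⟨y, hy⟩, hy', rfl⟩
    exact ⟨hy, fun u hu => congrArg Subtype.val (Subgroup.mem_center_iff.1 hy' ⟨u, hu⟩)⟩
  · rintro ⟨hx, h⟩
    exact ⟨⟨x, hx⟩, Subgroup.mem_center_iff.2 fun u => Subtype.ext (h u u.2), rfl⟩

/-- A non-identity central element of a Sylow subgroup has that subgroup as centralizer. -/
theorem centralizer_eq_of_mem_center (hord : ∀ g : G, g ≠ 1 → (orderOf g).Prime) {p : ℕ}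
    [Fact p.Prime] (P : Sylow p G) {v : G} (hv : v ∈ centerIn (P : Subgroup G)) (hv1 : v ≠ 1) :
    Subgroup.centralizer ({v} : Set G) = (P : Subgroup G) := by
  obtain ⟨hvP, hvc⟩ := mem_centerIn.1 hv
  have hvp : orderOf v = p := by
    obtain ⟨k, hk⟩ := IsPGroup.iff_orderOf.1 P.isPGroup' ⟨v, hvP⟩
    rw [Subgroup.orderOf_mk] at hk
    have := hord v hv1
    rw [hk] at this ⊢
    rw [Nat.Prime.eq_one_of_pow this, pow_one]
  refine P.is_maximal' ?_ fun u hu => Subgroup.mem_centralizer_singleton_iff.2 (hvc u hu)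
  refine IsPGroup.iff_orderOf.2 fun g => ?_
  by_cases hg : (g : G) = 1
  · exact ⟨0, by rw [← Subgroup.orderOf_coe, hg, orderOf_one, pow_zero]⟩
  refine ⟨1, ?_⟩
  rw [pow_one, ← Subgroup.orderOf_coe]
  by_contra hne
  exact not_commute_of_orders hord (hord _ hg) Fact.out hne rfl hvp
    (Subgroup.mem_centralizer_singleton_iff.1 g.2)

/-- Every element of order `p` is central in exactly one Sylow subgroup, its centralizer. -/
theorem exists_sylow_eq_centralizer (hord : ∀ g : G, g ≠ 1 → (orderOf g).Prime)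
    (htr : ∀ g g' : G, orderOf g = orderOf g' → ∃ α : MulAut G, α g = g') {p : ℕ}
    [hp : Fact p.Prime] (x : G) (hx : orderOf x = p) :
    ∃ Q : Sylow p G, Subgroup.centralizer ({x} : Set G) = (Q : Subgroup G) ∧
      x ∈ centerIn (Q : Subgroup G) := by
  obtain ⟨P⟩ : Nonempty (Sylow p G) := inferInstance
  haveI : Nontrivial (P : Subgroup G) := by
    rw [Subgroup.nontrivial_iff_ne_bot]
    exact P.ne_bot_of_dvd_card (hx ▸ orderOf_dvd_natCard x)
  haveI := P.isPGroup'.center_nontrivial
  obtain ⟨⟨⟨v, hvP⟩, hvc⟩, hv1⟩ := exists_ne (1 : Subgroup.center (P : Subgroup G))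
  have hv1' : v ≠ 1 := fun e => hv1 (Subtype.ext (Subtype.ext e))
  have hv : v ∈ centerIn (P : Subgroup G) := ⟨_, hvc, rfl⟩
  have hvp : orderOf v = p := by
    obtain ⟨k, hk⟩ := IsPGroup.iff_orderOf.1 P.isPGroup' ⟨v, hvP⟩
    rw [Subgroup.orderOf_mk] at hk
    have := hord v hv1'
    rw [hk] at this ⊢
    rw [Nat.Prime.eq_one_of_pow this, pow_one]
  obtain ⟨α, rfl⟩ := htr v x (hvp.trans hx.symm)
  have hC : Subgroup.centralizer ({α v} : Set G) = (P : Subgroup G).map α.toMonoidHom := by
    rw [← centralizer_eq_of_mem_center hord P hv hv1']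
    ext g
    rw [Subgroup.mem_map_equiv, Subgroup.mem_centralizer_singleton_iff,
      Subgroup.mem_centralizer_singleton_iff]
    conv_rhs => rw [← α.injective.eq_iff, map_mul, map_mul, MulEquiv.apply_symm_apply]
  let Q : Sylow p G := Sylow.ofCard ((P : Subgroup G).map α.toMonoidHom)
    (by rw [Subgroup.card_map_of_injective α.injective, P.card_eq_multiplicity])
  have hQ : (Q : Subgroup G) = (P : Subgroup G).map α.toMonoidHom := rfl
  refine ⟨Q, hC.trans hQ.symm, mem_centerIn.2 ⟨?_, fun u hu => ?_⟩⟩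
  · rw [hQ]; exact ⟨v, hvP, rfl⟩
  · rw [hQ, ← hC] at hu
    exact Subgroup.mem_centralizer_singleton_iff.1 hu

/-- The local data at a prime divisor. -/
theorem local_data (hna : ¬ IsMulCommutative G) (hord : ∀ g : G, g ≠ 1 → (orderOf g).Prime)
    (htr : ∀ g g' : G, orderOf g = orderOf g' → ∃ α : MulAut G, α g = g')
    {p : ℕ} [hp : Fact p.Prime] (hdvd : p ∣ Nat.card G) :
    ∃ z e m : ℕ, LocalData (Nat.card G) p (p ^ (Nat.card G).factorization p) z e m
        (fun x => x ∈ (Nat.card G).primeFactors ∧ x ≠ p) ∧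
      Nat.card {g : G // orderOf g = p} = m * (z - 1) ∧
      (p = 2 → z = 2 ^ (Nat.card G).factorization 2) ∧
      ∀ P : Sylow p G, Nat.card (Subgroup.normalizer ((P : Subgroup G) : Set G)) =
        Nat.card (P : Subgroup G) * e := by
  classical
  obtain ⟨P⟩ : Nonempty (Sylow p G) := inferInstance
  set N := Subgroup.normalizer ((P : Subgroup G) : Set G) with hNdef
  set Z := centerIn (P : Subgroup G) with hZdef
  haveI hPnt : Nontrivial (P : Subgroup G) := by
    rw [Subgroup.nontrivial_iff_ne_bot]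
    exact P.ne_bot_of_dvd_card hdvd
  haveI := P.isPGroup'.center_nontrivial
  have hzcard : Nat.card Z = Nat.card (Subgroup.center (P : Subgroup G)) :=
    Subgroup.card_map_of_injective (Subgroup.subtype_injective _)
  haveI hZnt : Nontrivial Z := Finite.one_lt_card_iff_nontrivial.1 (by
    rw [hzcard]; exact Finite.one_lt_card)
  letI : CommGroup Z := { (inferInstance : Group Z) with
    mul_comm := fun a b =>
      Subtype.ext ((mem_centerIn.1 b.2).2 a (mem_centerIn.1 a.2).1) }
  obtain ⟨v₀, hv₀⟩ := exists_ne (1 : Z)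
  have hNZ : N ≤ Subgroup.normalizer (Z : Set G) := by
    intro g hg
    have key : ∀ g ∈ N, ∀ x ∈ Z, g * x * g⁻¹ ∈ Z := by
      intro g hg x hx
      obtain ⟨hxP, hxc⟩ := mem_centerIn.1 hx
      refine mem_centerIn.2 ⟨(Subgroup.mem_normalizer_iff.1 hg x).1 hxP, fun u hu => ?_⟩
      have hu' : g⁻¹ * u * g ∈ (P : Subgroup G) := by
        have := (Subgroup.mem_normalizer_iff.1 (inv_mem hg) u).1 hu
        simpa using this
      calc u * (g * x * g⁻¹) = g * ((g⁻¹ * u * g) * x) * g⁻¹ := by group
        _ = _ := by rw [hxc _ hu']; group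
    rw [Subgroup.mem_normalizer_iff]
    intro x
    refine ⟨key g hg x, fun h => ?_⟩
    simpa [mul_assoc] using key g⁻¹ (inv_mem hg) _ h
  set ψ := Cfsg.Agent.H21.conjHom hNZ with hψ
  have hψapp : ∀ (g : N) (v : Z), (ψ g v : G) = g * v * (g : G)⁻¹ := fun g v => rfl
  have hker : ψ.ker = (P : Subgroup G).subgroupOf N := by
    ext g
    rw [MonoidHom.mem_ker, Subgroup.mem_subgroupOf]
    constructor
    · intro h
      rw [← centralizer_eq_of_mem_center hord P v₀.2 (fun e => hv₀ (Subtype.ext e)),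
        Subgroup.mem_centralizer_singleton_iff]
      have := congrArg (fun f : MulAut Z => ((f v₀ : Z) : G)) h
      simp only [hψapp, MulAut.one_apply] at this
      exact mul_inv_eq_iff_eq_mul.1 this
    · intro h
      refine MulEquiv.ext fun v => Subtype.ext ?_
      rw [hψapp, MulAut.one_apply, (mem_centerIn.1 v.2).2 _ h, mul_inv_cancel_right]
  have hfpf : ∀ e : ψ.range, e ≠ 1 → ∀ v : Z, (ψ.range.subtype e) v = v → v = 1 := by
    rintro ⟨_, g, rfl⟩ he v hv
    by_contra hv1
    apply he
    have hgP : (g : G) ∈ (P : Subgroup G) := by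
      rw [← centralizer_eq_of_mem_center hord P v.2 (fun e => hv1 (Subtype.ext e)),
        Subgroup.mem_centralizer_singleton_iff]
      have h1 : ((ψ g v : Z) : G) = v := congrArg Subtype.val hv
      rw [hψapp] at h1
      exact mul_inv_eq_iff_eq_mul.1 h1
    have : g ∈ ψ.ker := by rw [hker]; exact Subgroup.mem_subgroupOf.2 hgP
    exact Subtype.ext this
  set A := ψ.range
  set e := Nat.card A with he
  have hNcard : Nat.card N = Nat.card (P : Subgroup G) * e := by
    have h := ψ.ker.card_mul_index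
    rw [Subgroup.index_ker, hker,
      Nat.card_congr (Subgroup.subgroupOfEquivOfLe Subgroup.le_normalizer).toEquiv] at h
    exact h.symm
  have hNall : ∀ Q : Sylow p G, Nat.card (Subgroup.normalizer ((Q : Subgroup G) : Set G)) =
      Nat.card (Q : Subgroup G) * e := by
    intro Q
    have h1 := (Subgroup.normalizer ((Q : Subgroup G) : Set G)).card_mul_index
    have h2 := N.card_mul_index
    have hi : ∀ Q : Sylow p G, (Subgroup.normalizer ((Q : Subgroup G) : Set G)).index = Nat.card (Sylow p G) :=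
      fun Q => Q.card_eq_index_normalizer.symm
    rw [hi] at h1
    rw [show N.index = Nat.card (Sylow p G) from hi P, hNcard, ← h1] at h2
    have := Nat.eq_of_mul_eq_mul_right Nat.card_pos h2
    rw [← this, Q.card_eq_multiplicity, P.card_eq_multiplicity]
  -- orders in `A`
  have hA : ∀ a : A, a ≠ 1 → (orderOf a).Prime ∧ orderOf a ≠ p ∧ orderOf a ∣ Nat.card G := by
    rintro ⟨_, g, rfl⟩ ha
    have hg1 : (g : G) ≠ 1 := fun h =>
      ha (Subtype.ext (show ψ g = 1 by rw [show g = 1 from Subtype.ext h, map_one]))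
    have hd : orderOf (⟨ψ g, g, rfl⟩ : A) ∣ orderOf (g : G) := by
      rw [Subgroup.orderOf_coe g]
      calc orderOf (⟨ψ g, g, rfl⟩ : A) = orderOf (ψ g) := (Subgroup.orderOf_coe _).symm
        _ ∣ orderOf g := orderOf_map_dvd ψ g
    have heq : orderOf (⟨ψ g, g, rfl⟩ : A) = orderOf (g : G) :=
      ((Nat.Prime.eq_one_or_self_of_dvd (hord _ hg1) _ hd).resolve_left
        fun h => ha (orderOf_eq_one_iff.1 h))
    refine ⟨heq ▸ hord _ hg1, fun h => ha ?_, heq ▸ orderOf_dvd_natCard _⟩
    rw [heq] at h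
    have hgP : (g : G) ∈ (P : Subgroup G) := by
      have hz : IsPGroup p (Subgroup.zpowers (g : G)) :=
        IsPGroup.of_card (n := 1) (by rw [Nat.card_zpowers, h, pow_one])
      have hsup := IsPGroup.to_sup_of_normal_right' hz P.isPGroup'
        (Subgroup.zpowers_le.2 g.2)
      rw [← P.is_maximal' hsup le_sup_right]
      exact (le_sup_left : Subgroup.zpowers (g : G) ≤ _) (Subgroup.mem_zpowers _)
    have : g ∈ ψ.ker := by rw [hker]; exact Subgroup.mem_subgroupOf.2 hgP
    exact Subtype.ext this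
  have hepr : e = 1 ∨ ((e ∈ (Nat.card G).primeFactors ∧ e ≠ p) ∧ Nat.card Z % e = 1) := by
    by_cases he1 : e = 1
    · exact Or.inl he1
    haveI : Nontrivial A := Finite.one_lt_card_iff_nontrivial.1 (by
      have : 0 < e := Nat.card_pos
      omega)
    obtain ⟨a₀, ha₀⟩ := exists_ne (1 : A)
    set t := orderOf a₀
    obtain ⟨ht, htp, htd⟩ := hA a₀ ha₀
    haveI := Fact.mk ht
    -- all elements have order `t`
    have hnocomm : ∀ a b : A, a ≠ 1 → b ≠ 1 → Commute a b → orderOf a = orderOf b := by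
      intro a b ha hb hab
      by_contra hne
      have h := hab.orderOf_mul_eq_mul_orderOf_of_coprime
        ((Nat.coprime_primes (hA a ha).1 (hA b hb).1).2 hne)
      have h1 : a * b ≠ 1 := fun e => by
        rw [e, orderOf_one] at h
        exact (hA a ha).1.ne_one (Nat.eq_one_of_mul_eq_one_right h.symm)
      have := (hA _ h1).1
      rw [h] at this
      exact Nat.not_prime_mul (hA a ha).1.ne_one (hA b hb).1.ne_one this
    haveI : IsZGroup A := ⟨fun r hr R => by
      haveI := Fact.mk hr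
      rcases subsingleton_or_nontrivial (R : Subgroup A) with h | h
      · infer_instance
      haveI := R.isPGroup'.center_nontrivial
      obtain ⟨⟨c, hc⟩, hc1⟩ := exists_ne (1 : Subgroup.center (R : Subgroup A))
      have hc1' : c ≠ 1 := fun h => hc1 (Subtype.ext h)
      have hR : ∀ u : (R : Subgroup A), u ≠ 1 → orderOf u = r := by
        intro u hu
        obtain ⟨k, hk⟩ := IsPGroup.iff_orderOf.1 R.isPGroup' u
        have h1 := (hA u (fun h => hu (Subtype.ext h))).1
        rw [Subgroup.orderOf_coe, hk] at h1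
        rw [hk, Nat.Prime.eq_one_of_pow h1, pow_one]
      refine ⟨⟨c, fun u => ?_⟩⟩
      by_cases hu : u = 1
      · rw [hu]; exact ⟨0, zpow_zero _⟩
      · exact Cfsg.Agent.H21.mem_zpowers_of_commute (A.subtype.comp (R : Subgroup A).subtype)
          (fun d hd => hfpf d (fun h => hd (Subtype.ext h))) (hR u hu) (hR c hc1')
          (Subgroup.mem_center_iff.1 hc u)⟩
    have hsame : ∀ b : A, b ≠ 1 → orderOf b = t := by
      intro b hb
      rcases Subgroup.bot_or_exists_ne_one (commutator A) with hc | ⟨c, hc, hc1⟩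
      · refine hnocomm b a₀ hb ha₀ ?_
        have := Subgroup.commutator_mem_commutator (Subgroup.mem_top b) (Subgroup.mem_top a₀)
        rw [← commutator_def, hc, Subgroup.mem_bot] at this
        exact commutatorElement_eq_one_iff_mul_comm.1 this
      · haveI := IsZGroup.isCyclic_commutator (G := A)
        obtain ⟨hcp, -, -⟩ := hA c hc1
        have hgen : commutator A = Subgroup.zpowers c := by
          refine le_antisymm (fun u hu => ?_) (Subgroup.zpowers_le.2 hc)
          obtain ⟨w, hw⟩ := IsCyclic.exists_generator (α := commutator A)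
          have hw1 : (w : A) ≠ 1 := fun h => by
            obtain ⟨i, hi⟩ := hw ⟨c, hc⟩
            have : c = (w : A) ^ i := (congrArg Subtype.val hi).symm
            rw [h, one_zpow] at this
            exact hc1 this
          have hwc : Subgroup.zpowers c = Subgroup.zpowers (w : A) := by
            have hle : Subgroup.zpowers c ≤ Subgroup.zpowers (w : A) := by
              obtain ⟨i, hi⟩ := hw ⟨c, hc⟩
              exact Subgroup.zpowers_le.2 ⟨i, congrArg Subtype.val hi⟩
            refine Subgroup.eq_of_le_of_card_ge hle (le_of_eq ?_)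
            rw [Nat.card_zpowers, Nat.card_zpowers]
            exact hnocomm _ _ hw1 hc1 (by
              obtain ⟨i, hi⟩ := hle (Subgroup.mem_zpowers c)
              rw [← show (w : A) ^ i = c from hi]
              exact Commute.self_zpow _ i)
          rw [hwc]
          obtain ⟨i, hi⟩ := hw ⟨u, hu⟩
          exact ⟨i, congrArg Subtype.val hi⟩
        have hall : ∀ d : A, d ≠ 1 → orderOf d = orderOf c := by
          intro d hd
          by_contra hne
          haveI := Fact.mk (hA d hd).1
          haveI := Fact.mk hcp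
          refine hne (hnocomm d c hd hc1 (Cfsg.Agent.H21.commute_of_card_pq A.subtype hfpf
            (p := orderOf d) (q := orderOf c) rfl rfl ?_))
          rw [← hgen]
          exact (inferInstance : (commutator A).Normal).conj_mem c hc d
        rw [hall b hb]; exact (hall a₀ ha₀).symm
    have hAt : IsPGroup t A := IsPGroup.iff_orderOf.2 fun b => by
      by_cases hb : b = 1
      · exact ⟨0, by rw [hb, orderOf_one, pow_zero]⟩
      · exact ⟨1, by rw [hsame b hb, pow_one]⟩
    haveI := hAt.center_nontrivial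
    obtain ⟨⟨c, hc⟩, hc1⟩ := exists_ne (1 : Subgroup.center A)
    have hc1' : c ≠ 1 := fun h => hc1 (Subtype.ext h)
    have htop : Subgroup.zpowers c = ⊤ := by
      rw [Subgroup.eq_top_iff']
      intro u
      by_cases hu : u = 1
      · rw [hu]; exact one_mem _
      · exact Cfsg.Agent.H21.mem_zpowers_of_commute A.subtype hfpf (hsame u hu) (hsame c hc1')
          (Subgroup.mem_center_iff.1 hc u)
    have het : e = t := by
      rw [he, ← Subgroup.card_top, ← htop, Nat.card_zpowers, hsame c hc1']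
    refine Or.inr ⟨⟨het ▸ Nat.mem_primeFactors.2 ⟨ht, htd, Nat.card_pos.ne'⟩, het ▸ htp⟩, ?_⟩
    have := Cfsg.Agent.H21.card_modEq_one (A := A) (V := Z) hAt fun v hv =>
      hfpf a₀ ha₀ v (hv a₀)
    rw [het]
    exact Eq.trans this (Nat.mod_eq_of_lt ht.one_lt)
  set a := p ^ (Nat.card G).factorization p with ha
  have hPa : Nat.card (P : Subgroup G) = a := P.card_eq_multiplicity
  refine ⟨Nat.card Z, e, Nat.card (Sylow p G), ⟨hp.out, ⟨_, ?_, rfl⟩, Finite.one_lt_card, ?_, ?_,
    hepr, ?_⟩, ?_, ?_, hNall⟩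
  · exact hp.out.factorization_pos_of_dvd Nat.card_pos.ne' hdvd
  · rw [P.card_eq_index_normalizer, mul_assoc, ← hPa, ← hNcard]
    exact (Subgroup.index_mul_card N).symm
  · exact Eq.trans (card_sylow_modEq_one p G) (Nat.mod_eq_of_lt hp.out.one_lt)
  · -- abelian or small centre
    by_cases hab : Subgroup.center (P : Subgroup G) = ⊤
    · refine Or.inl ⟨by rw [hzcard, hab, Subgroup.card_top, hPa], fun he1 => ?_⟩
      refine Cfsg.Agent.H30.not_normalizer_le_centralizer hna p hdvd P ?_
      have hNP : N = (P : Subgroup G) := (Subgroup.eq_of_le_of_card_ge Subgroup.le_normalizer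
        (by rw [hNcard, he1, mul_one])).symm
      rw [← hNdef, hNP]
      intro x hx
      rw [Subgroup.mem_centralizer_iff]
      intro u hu
      have hxc : (⟨x, hx⟩ : (P : Subgroup G)) ∈ Subgroup.center (P : Subgroup G) := hab ▸ Subgroup.mem_top _
      exact congrArg Subtype.val (Subgroup.mem_center_iff.1 hxc ⟨u, hu⟩)
    · refine Or.inr ?_
      rw [hzcard, ← hPa, ← (Subgroup.center (P : Subgroup G)).card_mul_index]
      refine Nat.mul_le_mul_left _ ?_
      obtain ⟨i, hi⟩ := P.isPGroup'.index (Subgroup.center (P : Subgroup G))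
      rw [hi]
      refine Nat.pow_le_pow_right hp.out.pos ?_
      by_contra hlt
      apply hab
      haveI : IsCyclic ((P : Subgroup G) ⧸ Subgroup.center (P : Subgroup G)) := by
        rcases i with _ | i
        · have : Nat.card ((P : Subgroup G) ⧸ Subgroup.center (P : Subgroup G)) = 1 := hi
          haveI := (Nat.card_eq_one_iff_unique.1 this).1
          infer_instance
        · exact isCyclic_of_prime_card (p := p) (show Nat.card _ = p by
            rw [show i = 0 by omega, pow_one] at hi; exact hi)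
      rw [Subgroup.eq_top_iff']
      intro u
      rw [Subgroup.mem_center_iff]
      intro w
      exact commutative_of_cyclic_center_quotient (QuotientGroup.mk' (Subgroup.center (P : Subgroup G)))
        (by rw [QuotientGroup.ker_mk']) w u
  · -- counting
    have hzall : ∀ Q : Sylow p G, Nat.card (centerIn (Q : Subgroup G)) = Nat.card Z := fun Q => by
      rw [hzcard, centerIn, Subgroup.card_map_of_injective (Subgroup.subtype_injective _)]
      exact Nat.card_congr (Subgroup.centerCongr (Q.equiv P)).toEquiv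
    let f : (Σ Q : Sylow p G, {v : centerIn (Q : Subgroup G) // v ≠ 1}) → {g : G // orderOf g = p} :=
      fun w => ⟨w.2.1, by
        obtain ⟨k, hk⟩ := IsPGroup.iff_orderOf.1 w.1.isPGroup' ⟨_, (mem_centerIn.1 w.2.1.2).1⟩
        rw [Subgroup.orderOf_mk] at hk
        have h1 := hord (w.2.1 : G) (fun h => w.2.2 (Subtype.ext h))
        rw [hk] at h1 ⊢
        rw [Nat.Prime.eq_one_of_pow h1, pow_one]⟩
    have hf : Function.Bijective f := by
      constructor
      · rintro ⟨Q, v⟩ ⟨Q', v'⟩ h
        have h : ((v.1 : G)) = v'.1 := congrArg Subtype.val h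
        have hQ : Q = Q' := by
          apply Sylow.ext
          rw [← centralizer_eq_of_mem_center hord Q v.1.2 (fun e => v.2 (Subtype.ext e)),
            ← centralizer_eq_of_mem_center hord Q' v'.1.2 (fun e => v'.2 (Subtype.ext e)), h]
        subst hQ
        exact Sigma.ext rfl (heq_of_eq (Subtype.ext (Subtype.ext h)))
      · rintro ⟨g, hg⟩
        obtain ⟨Q, -, hQ⟩ := exists_sylow_eq_centralizer hord htr g hg
        have hg1 : g ≠ 1 := fun h => by
          rw [h, orderOf_one] at hg; exact hp.out.ne_one hg.symm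
        exact ⟨⟨Q, ⟨g, hQ⟩, fun h => hg1 (congrArg Subtype.val h)⟩, rfl⟩
    letI := Fintype.ofFinite (Sylow p G)
    rw [← Nat.card_congr (Equiv.ofBijective f hf), Nat.card_sigma]
    have : ∀ Q : Sylow p G, Nat.card {v : centerIn (Q : Subgroup G) // v ≠ 1} = Nat.card Z - 1 := by
      intro Q
      rw [← hzall Q]
      letI := Fintype.ofFinite (centerIn (Q : Subgroup G))
      rw [Nat.card_eq_fintype_card, Nat.card_eq_fintype_card, Fintype.card_subtype_compl,
        Fintype.card_subtype_eq]
    rw [Finset.sum_congr rfl (fun Q _ => this Q), Finset.sum_const, Finset.card_univ, smul_eq_mul,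
      ← Nat.card_eq_fintype_card]
  · rintro rfl
    rw [hzcard, ← ha, ← hPa, ← Subgroup.card_top (G := (P : Subgroup G))]
    congr 1
    rw [show Subgroup.center (P : Subgroup G) = ⊤ from ?_]
    rw [Subgroup.eq_top_iff']
    intro u
    rw [Subgroup.mem_center_iff]
    have hinv : ∀ w : (P : Subgroup G), w⁻¹ = w := by
      intro w
      refine inv_eq_of_mul_eq_one_right ?_
      by_cases hw : w = 1
      · rw [hw, one_mul]
      obtain ⟨k, hk⟩ := IsPGroup.iff_orderOf.1 P.isPGroup' w
      have h1 := hord (w : G) (fun h => hw (Subtype.ext h))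
      rw [Subgroup.orderOf_coe, hk] at h1
      rw [Nat.Prime.eq_one_of_pow h1, pow_one] at hk
      exact mul_self_eq_one_of_orderOf_two hk
    intro w
    calc w * u = (w * u)⁻¹ := (hinv _).symm
      _ = u * w := by rw [mul_inv_rev, hinv, hinv]

/-- There is no such group of order `504`. -/
theorem no_order_504 (hord : ∀ g : G, g ≠ 1 → (orderOf g).Prime)
    (htr : ∀ g g' : G, orderOf g = orderOf g' → ∃ α : MulAut G, α g = g') (hn : Nat.card G = 504)
    (hN2 : ∀ P : Sylow 2 G, Nat.card (Subgroup.normalizer ((P : Subgroup G) : Set G)) = 56)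
    (hN7 : ∀ P : Sylow 7 G, Nat.card (Subgroup.normalizer ((P : Subgroup G) : Set G)) = 14) :
    False := by
  classical
  haveI : Fact (Nat.Prime 2) := ⟨Nat.prime_two⟩
  haveI : Fact (Nat.Prime 7) := ⟨by norm_num⟩
  obtain ⟨P⟩ : Nonempty (Sylow 2 G) := inferInstance
  set E : Subgroup G := (P : Subgroup G) with hE
  set M := Subgroup.normalizer (E : Set G) with hM
  have hEcard : Nat.card E = 8 := by
    rw [hE]
    exact Cfsg.Agent.H30.card_sylow_subgroup P (show Nat.card G = 2 ^ 3 * 63 by rw [hn]; norm_num)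
      (by norm_num)
  have hE2 : ∀ a ∈ E, a ≠ 1 → orderOf a = 2 := by
    intro a ha ha1
    obtain ⟨k, hk⟩ := IsPGroup.iff_orderOf.1 P.isPGroup' ⟨a, ha⟩
    rw [Subgroup.orderOf_mk] at hk
    have := hord a ha1
    rw [hk] at this ⊢
    rw [Nat.Prime.eq_one_of_pow this, pow_one]
  have hEsq : ∀ a ∈ E, a * a = 1 := by
    intro a ha
    by_cases ha1 : a = 1
    · rw [ha1, one_mul]
    · exact mul_self_eq_one_of_orderOf_two (hE2 a ha ha1)
  have hEc : ∀ a ∈ E, ∀ b ∈ E, a * b = b * a := by
    intro a ha b hb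
    have hinv : ∀ c ∈ E, c⁻¹ = c := fun c hc => inv_eq_of_mul_eq_one_right (hEsq c hc)
    calc a * b = (a * b)⁻¹ := (hinv _ (mul_mem ha hb)).symm
      _ = b * a := by rw [mul_inv_rev, hinv a ha, hinv b hb]
  have hEcent : ∀ a ∈ E, a ≠ 1 → Subgroup.centralizer ({a} : Set G) = E := fun a ha ha1 =>
    centralizer_eq_of_mem_center hord P (mem_centerIn.2 ⟨ha, fun u hu => hEc u hu a ha⟩) ha1
  obtain ⟨d, hd⟩ := exists_prime_orderOf_dvd_card' (G := M) 7 (by
    rw [show Nat.card M = 56 from hN2 P]; norm_num)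
  have hd7 : orderOf (d : G) = 7 := (Subgroup.orderOf_coe d).trans hd
  have hME : ∀ x ∈ M, orderOf x = 2 → x ∈ E := by
    intro x hx hx2
    have hz : IsPGroup 2 (Subgroup.zpowers x) :=
      IsPGroup.of_card (n := 1) (by rw [Nat.card_zpowers, hx2, pow_one])
    have hsup := IsPGroup.to_sup_of_normal_right' hz P.isPGroup' (Subgroup.zpowers_le.2 hx)
    show x ∈ (P : Subgroup G)
    rw [← P.is_maximal' hsup le_sup_right]
    exact (le_sup_left : Subgroup.zpowers x ≤ _) (Subgroup.mem_zpowers _)
  -- an involution inverting `d`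
  obtain ⟨w, hw2, hwd⟩ : ∃ w : G, orderOf w = 2 ∧ w * d * w⁻¹ = (d : G)⁻¹ := by
    obtain ⟨Q, hQC, hdQ⟩ := exists_sylow_eq_centralizer hord htr (d : G) hd7
    have hQcard : Nat.card (Q : Subgroup G) = 7 :=
      Cfsg.Agent.H30.card_sylow_subgroup Q (show Nat.card G = 7 ^ 1 * 72 by rw [hn]; norm_num)
        (by norm_num)
    have hQz : (Q : Subgroup G) = Subgroup.zpowers (d : G) := by
      refine (Subgroup.eq_of_le_of_card_ge (Subgroup.zpowers_le.2 (mem_centerIn.1 hdQ).1) ?_).symm
      rw [hQcard, Nat.card_zpowers, hd7]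
    obtain ⟨⟨w, hwN⟩, hw⟩ := exists_prime_orderOf_dvd_card'
      (G := Subgroup.normalizer ((Q : Subgroup G) : Set G)) 2 (by rw [hN7 Q]; norm_num)
    rw [Subgroup.orderOf_mk] at hw
    refine ⟨w, hw, ?_⟩
    have hmem : w * d * w⁻¹ ∈ Subgroup.zpowers (d : G) := by
      rw [← hQz]; exact (Subgroup.mem_normalizer_iff.1 hwN _).1 (mem_centerIn.1 hdQ).1
    obtain ⟨i, hi⟩ := hmem
    have hi : (d : G) ^ i = w * d * w⁻¹ := hi
    have hww : w * w = 1 := mul_self_eq_one_of_orderOf_two hw
    have h2 : (d : G) ^ (i * i) = d := by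
      calc (d : G) ^ (i * i) = ((d : G) ^ i) ^ i := zpow_mul _ _ _
        _ = w * (d : G) ^ i * w⁻¹ := by
          conv_lhs => rw [hi, conj_zpow]
        _ = (w * w) * d * (w * w)⁻¹ := by rw [hi]; group
        _ = d := by rw [hww]; group
    have h3 : ((i : ZMod 7) * i) = 1 := by
      have : (d : G) ^ (i * i - 1) = 1 := by rw [zpow_sub, h2, zpow_one, mul_inv_cancel]
      rw [← orderOf_dvd_iff_zpow_eq_one, hd7, ← ZMod.intCast_zmod_eq_zero_iff_dvd] at this
      push_cast at this
      exact sub_eq_zero.1 this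
    have h4 : (i : ZMod 7) = 1 ∨ (i : ZMod 7) = -1 := by
      exact zmod_seven_eq_of_sq _ h3
    rcases h4 with h4 | h4
    · exfalso
      have : (d : G) ^ (i - 1) = 1 := by
        rw [← orderOf_dvd_iff_zpow_eq_one, hd7, ← ZMod.intCast_zmod_eq_zero_iff_dvd]
        push_cast; rw [h4, sub_self]
      rw [zpow_sub, zpow_one, mul_inv_eq_one] at this
      rw [hi] at this
      exact not_commute_of_orders hord Nat.prime_two (by norm_num) (by norm_num) hw hd7
        (mul_inv_eq_iff_eq_mul.1 this)
    · have : (d : G) ^ (i + 1) = 1 := by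
        rw [← orderOf_dvd_iff_zpow_eq_one, hd7, ← ZMod.intCast_zmod_eq_zero_iff_dvd]
        push_cast; rw [h4, neg_add_cancel]
      rw [zpow_add, zpow_one, hi] at this
      exact eq_inv_of_mul_eq_one_left this
  have hwM : w ∉ M := by
    intro hwM
    have hwE := hME w hwM hw2
    have hcE : (d : G) * w * (d : G)⁻¹ ∈ E := (Subgroup.mem_normalizer_iff.1 d.2 w).1 hwE
    have hd2 : (d : G) ^ 2 ∈ E := by
      have : (d : G) ^ 2 = (d : G) * w * (d : G)⁻¹ * w := by
        calc (d : G) ^ 2 = (d : G) * ((d : G)⁻¹)⁻¹ := by rw [inv_inv, pow_two]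
          _ = (d : G) * (w * (d : G) * w⁻¹)⁻¹ := by rw [hwd]
          _ = (d : G) * w * (d : G)⁻¹ * w⁻¹ := by group
          _ = _ := by rw [inv_eq_of_mul_eq_one_right (mul_self_eq_one_of_orderOf_two hw2)]
      rw [this]; exact mul_mem hcE hwE
    have h1 : orderOf ((d : G) ^ 2) = 7 := by
      rw [orderOf_pow' _ two_ne_zero, hd7]; rfl
    have hne : (d : G) ^ 2 ≠ 1 := fun h => by rw [h, orderOf_one] at h1; norm_num at h1
    have := hE2 _ hd2 hne
    omega
  -- the action on the nine cosets of `M`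
  have hwinv : w⁻¹ = w := inv_eq_of_mul_eq_one_right (mul_self_eq_one_of_orderOf_two hw2)
  have hEN : ∀ a ∈ E, a ∈ M := fun a ha => Subgroup.le_normalizer ha
  let P0 : G ⧸ M := QuotientGroup.mk w
  let inf : G ⧸ M := QuotientGroup.mk (1 : G)
  have hP0 : P0 ≠ inf := fun h => hwM (by
    have h' := QuotientGroup.eq.1 h
    simpa using M.inv_mem (by simpa using h'))
  have hEfree : ∀ a ∈ E, a • P0 = P0 → a = 1 := by
    intro a ha h
    by_contra ha1
    apply hwM
    have h' := QuotientGroup.eq.1 (show (QuotientGroup.mk (a * w) : G ⧸ M) = QuotientGroup.mk w from h)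
    have ha2 := hE2 a ha ha1
    have hcM : w * a * w ∈ M := by
      have : (a * w)⁻¹ * w = (w * a * w)⁻¹ * (w * w) := by
        rw [mul_inv_rev, hwinv, show a⁻¹ = a from inv_eq_of_mul_eq_one_right (hEsq a ha)]
        rw [show (w * a * w)⁻¹ = w⁻¹ * a⁻¹ * w⁻¹ by group, hwinv, show a⁻¹ = a from inv_eq_of_mul_eq_one_right (hEsq a ha)]
        rw [show w * w = 1 from mul_self_eq_one_of_orderOf_two hw2, mul_one]
      rw [this, show w * w = 1 from mul_self_eq_one_of_orderOf_two hw2, mul_one] at h'
      exact (Subgroup.inv_mem_iff M).1 h'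
    have hconj : ∀ b : G, w * b * w = MulAut.conj w b := fun b => by
      rw [MulAut.conj_apply, hwinv]
    have hcE := hME _ hcM (by rw [hconj, MulEquiv.orderOf_eq]; exact ha2)
    have hc1 : w * a * w ≠ 1 := fun h => ha1 (by
      rw [hconj] at h; exact (map_eq_one_iff _ (MulAut.conj w).injective).1 h)
    have key : ∀ b ∈ E, w * b * w ∈ E := by
      intro b hb
      rw [← hEcent _ hcE hc1, Subgroup.mem_centralizer_singleton_iff, hconj, hconj, ← map_mul,
        ← map_mul, hEc b hb a ha]
    rw [Subgroup.mem_normalizer_iff]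
    intro b
    rw [hwinv]
    refine ⟨key b, fun hb => ?_⟩
    have := key _ hb
    have hww : w * w = 1 := mul_self_eq_one_of_orderOf_two hw2
    rwa [show w * (w * b * w) * w = (w * w) * b * (w * w) by group, hww, one_mul, mul_one] at this
  have hEinf : ∀ a ∈ E, a • inf = inf := by
    intro a ha
    show (QuotientGroup.mk (a * 1) : G ⧸ M) = QuotientGroup.mk 1
    rw [mul_one, QuotientGroup.eq, mul_one]
    exact inv_mem (hEN a ha)
  have hinj : ∀ a ∈ E, ∀ b ∈ E, a • P0 = b • P0 → a = b := by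
    intro a ha b hb h
    have := hEfree (b⁻¹ * a) (mul_mem (inv_mem hb) ha) (by rw [mul_smul, h, inv_smul_smul])
    exact (inv_mul_eq_one.1 this).symm
  have hcover : ∀ x : G ⧸ M, x ≠ inf → ∃ a ∈ E, x = a • P0 := by
    intro x hx
    let f : Option E → G ⧸ M := fun o => o.elim inf fun a => (a : G) • P0
    have hfi : Function.Injective f := by
      rintro (_ | a) (_ | b) h
      · rfl
      · exfalso
        have h' : inf = (b : G) • P0 := h
        exact hP0 (by
          apply (MulAction.injective (b : G))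
          show (b : G) • P0 = (b : G) • inf
          rw [← h', hEinf b b.2])
      · exfalso
        have h' : (a : G) • P0 = inf := h
        exact hP0 (by
          apply (MulAction.injective (a : G))
          show (a : G) • P0 = (a : G) • inf
          rw [h', hEinf a a.2])
      · exact congrArg some (Subtype.ext (hinj a a.2 b b.2 h))
    have hidx : Nat.card (G ⧸ M) = 9 := by
      have := M.index_mul_card
      rw [hn, show Nat.card M = 56 from hN2 P] at this
      show M.index = 9
      omega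
    have hbij : Function.Bijective f := (Nat.bijective_iff_injective_and_card f).2
      ⟨hfi, by rw [hidx, Finite.card_option, hEcard]⟩
    obtain ⟨o, rfl⟩ := hbij.2 x
    rcases o with _ | a
    · exact absurd rfl hx
    · exact ⟨a, a.2, rfl⟩
  have hdP0 : ∀ i : ℕ, (d : G) ^ i • P0 = P0 := by
    intro i
    show (QuotientGroup.mk ((d : G) ^ i * w) : G ⧸ M) = QuotientGroup.mk w
    rw [eq_comm, QuotientGroup.eq]
    have : w⁻¹ * ((d : G) ^ i * w) = ((d : G) ^ i)⁻¹ := by
      rw [← inv_pow, ← hwd, conj_pow, hwinv, mul_assoc]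
    rw [this]
    exact inv_mem (pow_mem d.2 i)
  -- conjugates by powers of `d`
  have hwP0 : w • P0 = inf := by
    show (QuotientGroup.mk (w * w) : G ⧸ M) = QuotientGroup.mk 1
    rw [mul_self_eq_one_of_orderOf_two hw2]
  obtain ⟨e, he, he1, hfix⟩ : ∃ e ∈ E, e ≠ 1 ∧ w • e • P0 = e • P0 := by
    obtain ⟨a₀, ha₀, ha₀1⟩ : ∃ a ∈ E, a ≠ 1 := by
      refine (Subgroup.bot_or_exists_ne_one E).resolve_left fun h => ?_
      rw [h, Subgroup.card_bot] at hEcard; norm_num at hEcard
    have hx : w • a₀ • P0 ≠ inf := by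
      intro h
      rw [← hwP0] at h
      exact ha₀1 (hEfree a₀ ha₀ (MulAction.injective w h))
    obtain ⟨b, hb, hwb⟩ := hcover _ hx
    have hb1 : b ≠ 1 := by
      intro h
      rw [h, one_smul] at hwb
      have h' : a₀ • P0 = inf := MulAction.injective w (by
        show w • a₀ • P0 = w • inf
        rw [hwb, ← hwP0, ← mul_smul, mul_self_eq_one_of_orderOf_two hw2, one_smul])
      exact hP0 (MulAction.injective a₀ (by show a₀ • P0 = a₀ • inf; rw [h', hEinf a₀ ha₀]))
    -- `b` is a conjugate of `a₀`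
    have hconjE : ∀ i : ℕ, (d : G) ^ i * a₀ * ((d : G) ^ i)⁻¹ ∈ E := fun i =>
      (Subgroup.mem_normalizer_iff.1 (pow_mem d.2 i) a₀).1 ha₀
    have hne1 : ∀ i : ℕ, (d : G) ^ i * a₀ * ((d : G) ^ i)⁻¹ ≠ 1 := fun i h => ha₀1 (by
      rw [← MulAut.conj_apply] at h
      exact (map_eq_one_iff _ (MulAut.conj _).injective).1 h)
    obtain ⟨j, hj⟩ : ∃ j : Fin 7, (d : G) ^ (j : ℕ) * a₀ * ((d : G) ^ (j : ℕ))⁻¹ = b := by
      let g : Fin 7 → {a : E // a ≠ 1} := fun i =>
        ⟨⟨_, hconjE i⟩, fun h => hne1 i (congrArg Subtype.val h)⟩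
      have hg : Function.Injective g := by
        intro i j h
        have h : (d : G) ^ (i : ℕ) * a₀ * ((d : G) ^ (i : ℕ))⁻¹ = (d : G) ^ (j : ℕ) * a₀ * ((d : G) ^ (j : ℕ))⁻¹ :=
          congrArg (fun z : {a : E // a ≠ 1} => ((z.1 : E) : G)) h
        by_contra hij
        have hc : Commute ((d : G) ^ ((j : ℤ) - i)) a₀ := by
          show (d : G) ^ ((j : ℤ) - i) * a₀ = a₀ * (d : G) ^ ((j : ℤ) - i)
          rw [zpow_sub, zpow_natCast, zpow_natCast]
          calc (d : G) ^ (j : ℕ) * ((d : G) ^ (i : ℕ))⁻¹ * a₀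
              = ((d : G) ^ (i : ℕ))⁻¹ * ((d : G) ^ (j : ℕ) * a₀ * ((d : G) ^ (j : ℕ))⁻¹) * (d : G) ^ (j : ℕ) := by
                rw [((Commute.refl (d : G)).pow_pow j i).inv_right.eq]; group
            _ = a₀ * (((d : G) ^ (i : ℕ))⁻¹ * (d : G) ^ (j : ℕ)) := by rw [← h]; group
            _ = _ := by rw [((Commute.refl (d : G)).pow_pow j i).inv_right.eq]
        have hne : (d : G) ^ ((j : ℤ) - i) ≠ 1 := by
          rw [Ne, ← orderOf_dvd_iff_zpow_eq_one, hd7]
          intro hdd
          have := i.isLt; have := j.isLt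
          exact hij (Fin.ext (by omega))
        have ho : orderOf ((d : G) ^ ((j : ℤ) - i)) = 7 :=
          ((Nat.Prime.eq_one_or_self_of_dvd (by norm_num) _
            ((orderOf_dvd_of_mem_zpowers (Subgroup.zpow_mem_zpowers _ _)).trans (dvd_of_eq hd7))).resolve_left
              fun h1 => hne (orderOf_eq_one_iff.1 h1))
        exact not_commute_of_orders hord (by norm_num) Nat.prime_two (by norm_num) ho (hE2 a₀ ha₀ ha₀1) hc
      have hcard7 : Nat.card {a : E // a ≠ 1} = 7 := by
        letI := Fintype.ofFinite E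
        rw [Nat.card_eq_fintype_card, Fintype.card_subtype_compl, Fintype.card_subtype_eq,
          ← Nat.card_eq_fintype_card, hEcard]
      obtain ⟨i, hi⟩ := ((Nat.bijective_iff_injective_and_card g).2 ⟨hg, by rw [hcard7, Nat.card_fin]⟩).2
        ⟨⟨b, hb⟩, fun h => hb1 (congrArg Subtype.val h)⟩
      exact ⟨i, congrArg (fun z : {a : E // a ≠ 1} => ((z.1 : E) : G)) hi⟩
    -- the fixed point
    refine ⟨_, hconjE (4 * j), hne1 _, ?_⟩
    have hbP : w • a₀ • P0 = (d : G) ^ (j : ℕ) • a₀ • P0 := by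
      rw [hwb, ← hj, mul_smul, mul_smul]
      congr 2
      rw [inv_smul_eq_iff, hdP0]
    have hconjP : ∀ i : ℕ, ((d : G) ^ i * a₀ * ((d : G) ^ i)⁻¹) • P0 = (d : G) ^ i • a₀ • P0 := by
      intro i
      rw [mul_smul, mul_smul]
      congr 2
      rw [inv_smul_eq_iff, hdP0]
    rw [hconjP, ← mul_smul w, show w * (d : G) ^ (4 * (j : ℕ)) = ((d : G) ^ (4 * (j : ℕ)))⁻¹ * w by
      rw [← inv_pow, ← hwd, conj_pow]; group, mul_smul, hbP, inv_smul_eq_iff,
      ← mul_smul ((d : G) ^ (4 * (j : ℕ))), ← pow_add]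
    congr 1
    rw [← pow_mod_orderOf (d : G) (j : ℕ), ← pow_mod_orderOf (d : G) (4 * (j : ℕ) + 4 * (j : ℕ)), hd7]
    congr 1
    omega
  -- the relation
  have hwe : ∀ (x : G), x ∈ M → w * x * w⁻¹ = x⁻¹ → orderOf x = 7 → ∀ i : ℕ,
      (w • (x ^ i * e * (x ^ i)⁻¹) • P0) = ((x ^ i)⁻¹ * e * x ^ i) • P0 := by
    intro x hx hwx hx7 i
    have hxP : ∀ k : ℕ, (x ^ k) • P0 = P0 := by
      intro k
      show (QuotientGroup.mk (x ^ k * w) : G ⧸ M) = QuotientGroup.mk w
      rw [eq_comm, QuotientGroup.eq]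
      have : w⁻¹ * (x ^ k * w) = (x ^ k)⁻¹ := by rw [← inv_pow, ← hwx, conj_pow, hwinv, mul_assoc]
      rw [this]
      exact inv_mem (pow_mem hx k)
    rw [mul_smul, mul_smul, mul_smul, mul_smul, hxP, ← mul_smul w, show w * x ^ i = (x ^ i)⁻¹ * w by
      rw [← inv_pow, ← hwx, conj_pow]; group, mul_smul, inv_smul_eq_iff.2 (hxP i).symm, hfix]
  obtain ⟨x, hxM, hwx, hx7, hrel⟩ : ∃ x : G, x ∈ M ∧ w * x * w⁻¹ = x⁻¹ ∧ orderOf x = 7 ∧
      e * (x * e * x⁻¹) = x ^ 3 * e * (x ^ 3)⁻¹ := by
    have hmem : ∀ i : ℕ, (d : G) ^ i * e * ((d : G) ^ i)⁻¹ ∈ E := fun i =>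
      (Subgroup.mem_normalizer_iff.1 (pow_mem d.2 i) e).1 he
    have hne1 : ∀ i : ℕ, (d : G) ^ i * e * ((d : G) ^ i)⁻¹ ≠ 1 := fun i h => he1 (by
      rw [← MulAut.conj_apply] at h
      exact (map_eq_one_iff _ (MulAut.conj _).injective).1 h)
    let c : ℕ → G := fun i => (d : G) ^ i * e * ((d : G) ^ i)⁻¹
    have hcmod : ∀ i, c i = c (i % 7) := fun i => by
      show _ = (d : G) ^ (i % 7) * e * ((d : G) ^ (i % 7))⁻¹
      rw [← hd7, pow_mod_orderOf]
    have hcinj : ∀ i j, i < 7 → j < 7 → i ≠ j → c i ≠ c j := by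
      intro i j hi hj hij hc
      rcases Nat.lt_or_ge i j with hlt | hlt
      · obtain ⟨k, rfl⟩ := Nat.exists_eq_add_of_le hlt.le
        have hcm : Commute ((d : G) ^ k) e := by
          show (d : G) ^ k * e = e * (d : G) ^ k
          have hc' : (d : G) ^ i * e * ((d : G) ^ i)⁻¹ = (d : G) ^ (i + k) * e * ((d : G) ^ (i + k))⁻¹ := hc
          rw [pow_add] at hc'
          calc (d : G) ^ k * e = ((d : G) ^ i)⁻¹ * ((d : G) ^ i * (d : G) ^ k * e * ((d : G) ^ i * (d : G) ^ k)⁻¹) * (d : G) ^ i * (d : G) ^ k := by group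
            _ = _ := by rw [← hc']; group
        have ho : orderOf ((d : G) ^ k) = 7 := by
          rw [orderOf_pow' _ (by omega : k ≠ 0), hd7,
            Nat.Coprime.gcd_eq_one ((Nat.Prime.coprime_iff_not_dvd (by norm_num)).2 (by omega)), Nat.div_one]
        exact not_commute_of_orders hord (by norm_num) Nat.prime_two (by norm_num) ho (hE2 e he he1) hcm
      · obtain ⟨k, rfl⟩ := Nat.exists_eq_add_of_le hlt
        have hcm : Commute ((d : G) ^ k) e := by
          show (d : G) ^ k * e = e * (d : G) ^ k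
          have hc' : (d : G) ^ (j + k) * e * ((d : G) ^ (j + k))⁻¹ = (d : G) ^ j * e * ((d : G) ^ j)⁻¹ := hc
          rw [pow_add] at hc'
          calc (d : G) ^ k * e = ((d : G) ^ j)⁻¹ * ((d : G) ^ j * (d : G) ^ k * e * ((d : G) ^ j * (d : G) ^ k)⁻¹) * (d : G) ^ j * (d : G) ^ k := by group
            _ = _ := by rw [hc']; group
        have ho : orderOf ((d : G) ^ k) = 7 := by
          rw [orderOf_pow' _ (by omega : k ≠ 0), hd7,
            Nat.Coprime.gcd_eq_one ((Nat.Prime.coprime_iff_not_dvd (by norm_num)).2 (by omega)), Nat.div_one]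
        exact not_commute_of_orders hord (by norm_num) Nat.prime_two (by norm_num) ho (hE2 e he he1) hcm
    have hcsh : ∀ i k, c i * c (i + 1) = c (i + k) ↔ c 0 * c 1 = c k := by
      intro i k
      have key : ∀ m, c (i + m) = MulAut.conj ((d : G) ^ i) (c m) := fun m => by
        show (d : G) ^ (i + m) * e * ((d : G) ^ (i + m))⁻¹ =
          (d : G) ^ i * ((d : G) ^ m * e * ((d : G) ^ m)⁻¹) * ((d : G) ^ i)⁻¹
        rw [pow_add]; group
      have h0 := key 0
      rw [add_zero] at h0
      rw [h0, key 1, key k, ← map_mul, (MulAut.conj ((d : G) ^ i)).injective.eq_iff]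
    have h01 : c 0 * c 1 ∈ E := mul_mem (hmem 0) (hmem 1)
    have h01ne : c 0 * c 1 ≠ 1 := fun h => hcinj 0 1 (by norm_num) (by norm_num) (by norm_num) (by
      have := hEsq _ (hmem 1)
      calc c 0 = c 0 * (c 1 * c 1) := by rw [show c 1 * c 1 = 1 from this, mul_one]
        _ = c 1 := by rw [← mul_assoc, h, one_mul])
    obtain ⟨k, hk7, hk⟩ : ∃ k < 7, c 0 * c 1 = c k := by
      let g : Fin 7 → {a : E // a ≠ 1} := fun i =>
        ⟨⟨_, hmem i⟩, fun h => hne1 i (congrArg Subtype.val h)⟩
      have hg : Function.Injective g := fun i j h => by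
        by_contra hij
        exact hcinj i j i.isLt j.isLt (fun e => hij (Fin.ext e))
          (congrArg (fun z : {a : E // a ≠ 1} => ((z.1 : E) : G)) h)
      have hcard7 : Nat.card {a : E // a ≠ 1} = 7 := by
        letI := Fintype.ofFinite E
        rw [Nat.card_eq_fintype_card, Fintype.card_subtype_compl, Fintype.card_subtype_eq,
          ← Nat.card_eq_fintype_card, hEcard]
      obtain ⟨i, hi⟩ := ((Nat.bijective_iff_injective_and_card g).2 ⟨hg, by rw [hcard7, Nat.card_fin]⟩).2
        ⟨⟨_, h01⟩, fun h => h01ne (congrArg Subtype.val h)⟩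
      exact ⟨i, i.isLt, (congrArg (fun z : {a : E // a ≠ 1} => ((z.1 : E) : G)) hi).symm⟩
    have hsq : ∀ i, c i * c i = 1 := fun i => hEsq _ (hmem i)
    have hcc : ∀ i j, c i * c j = c j * c i := fun i j => hEc _ (hmem i) _ (hmem j)
    have hne : ∀ i j, i < 7 → j < 7 → c i = c j → i = j := fun i j hi hj h => by
      by_contra hij; exact hcinj i j hi hj hij h
    have hc0 : c 0 = e := by show (d : G) ^ 0 * e * ((d : G) ^ 0)⁻¹ = e; simp
    interval_cases k
    · exfalso
      have : c 1 = 1 := mul_left_cancel (hk.trans (mul_one _).symm)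
      exact hne1 1 this
    · exfalso
      exact hne1 0 (mul_right_cancel (hk.trans (one_mul _).symm))
    · exfalso
      have h1 := (hcsh 1 2).2 hk
      have : c 3 = c 0 := by
        rw [show (3 : ℕ) = 1 + 2 from rfl, ← h1, ← hk, hcc 0 1, ← mul_assoc, hsq, one_mul]
      exact absurd (hne 3 0 (by norm_num) (by norm_num) this) (by norm_num)
    · refine ⟨d, d.2, hwd, hd7, ?_⟩
      have h := hk
      rw [hc0] at h
      simpa [c] using h
    · exfalso
      have h1 := (hcsh 4 4).2 hk
      rw [hcmod (4 + 4)] at h1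
      have : c 5 = c 0 := by
        calc c 5 = (c 4 * c 4) * c 5 := by rw [hsq, one_mul]
          _ = c 4 * (c 4 * c (4 + 1)) := mul_assoc _ _ _
          _ = c 4 * c 1 := by rw [h1]
          _ = c 0 := by rw [← hk, mul_assoc, hsq, mul_one]
      exact absurd (hne 5 0 (by norm_num) (by norm_num) this) (by norm_num)
    · refine ⟨(d : G)⁻¹, inv_mem d.2, ?_, by rw [orderOf_inv, hd7], ?_⟩
      · rw [← conj_inv, hwd]
      · have h := (hcsh 6 5).2 hk
        rw [hcmod (6 + 1), hcmod (6 + 5), show (6 + 1) % 7 = 0 from rfl, show (6 + 5) % 7 = 4 from rfl,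
          hcc 6 0, hc0] at h
        have hp : ∀ i j : ℕ, i + j = 7 → ((d : G)⁻¹) ^ i = (d : G) ^ j := by
          intro i j hij
          rw [inv_pow, inv_eq_iff_mul_eq_one, ← pow_add, hij, ← hd7, pow_orderOf_eq_one]
        rw [hp 3 4 rfl]
        conv_lhs => rw [show ((d : G)⁻¹) = (d : G) ^ 6 by rw [← pow_one ((d : G)⁻¹), hp 1 6 rfl]]
        exact h
    · exfalso
      have h1 := (hcsh 6 6).2 hk
      rw [hcmod (6 + 1), hcmod (6 + 6), show (6 + 1) % 7 = 0 from rfl, show (6 + 6) % 7 = 5 from rfl,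
        ← hk, hcc 0 1, mul_assoc, hsq, mul_one] at h1
      exact absurd (hne 1 5 (by norm_num) (by norm_num) h1) (by norm_num)
  let c : ℕ → G := fun i => x ^ i * e * (x ^ i)⁻¹
  have hcE : ∀ i, c i ∈ E := fun i => (Subgroup.mem_normalizer_iff.1 (pow_mem hxM i) e).1 he
  have hc1 : ∀ i, c i ≠ 1 := fun i h => he1 (by
    rw [show c i = MulAut.conj (x ^ i) e from rfl] at h
    exact (map_eq_one_iff _ (MulAut.conj _).injective).1 h)
  have hcrel : ∀ i, c i * c (i + 1) = c (i + 3) := by
    intro i
    have key : ∀ m, c (i + m) = MulAut.conj (x ^ i) (c m) := fun m => by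
      show x ^ (i + m) * e * (x ^ (i + m))⁻¹ = x ^ i * (x ^ m * e * (x ^ m)⁻¹) * (x ^ i)⁻¹
      rw [pow_add]; group
    have h0 := key 0
    rw [add_zero] at h0
    rw [h0, key 1, key 3, ← map_mul]
    congr 1
    simpa [c] using hrel
  have hcmod : ∀ i, c i = c (i % 7) := fun i => by
    show _ = x ^ (i % 7) * e * (x ^ (i % 7))⁻¹
    rw [← hx7, pow_mod_orderOf]
  have hsq : ∀ i, c i * c i = 1 := fun i => hEsq _ (hcE i)
  have hcc : ∀ i j, c i * c j = c j * c i := fun i j => hEc _ (hcE i) _ (hcE j)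
  have third : ∀ i j k, c i * c j = c k → c i * c k = c j := fun i j k h => by
    rw [← h, ← mul_assoc, hsq, one_mul]
  set u := c 1 * w with hu
  have hstep : ∀ i j k : ℕ, (i + j) % 7 = 0 → c 1 * c j = c k →
      u • (c i • P0) = c k • P0 := by
    intro i j k hij hk
    have hinvp : (x ^ i)⁻¹ = x ^ j := by
      rw [inv_eq_iff_mul_eq_one, ← pow_add, ← pow_mod_orderOf, hx7, hij, pow_zero]
    rw [hu, mul_smul, show w • c i • P0 = ((x ^ i)⁻¹ * e * x ^ i) • P0 from hwe x hxM hwx hx7 i,
      hinvp, show x ^ i = (x ^ j)⁻¹ by rw [← hinvp, inv_inv], ← mul_smul]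
    exact congrArg (· • P0) hk
  have r0 := hcrel 0; have r1 := hcrel 1; have r5 := hcrel 5
  rw [hcmod (5 + 3), show (5 + 3) % 7 = 1 from rfl] at r5
  simp only [Nat.zero_add, Nat.reduceAdd] at r0 r1 r5
  have u1 : u • inf = c 1 • P0 := by
    rw [hu, mul_smul]
    congr 1
    show (QuotientGroup.mk (w * 1) : G ⧸ M) = QuotientGroup.mk w
    rw [mul_one]
  have u2 : u • c 1 • P0 = c 5 • P0 := hstep 1 6 5 rfl (by
    rw [hcc 1 6]; exact third 6 5 1 ((hcc 6 5).trans r5))
  have u3 : u • c 5 • P0 = c 4 • P0 := hstep 5 2 4 rfl r1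
  have u4 : u • c 4 • P0 = c 0 • P0 := hstep 4 3 0 rfl (third 1 0 3 ((hcc 1 0).trans r0))
  have u5 : u • c 0 • P0 = c 3 • P0 := hstep 0 0 3 rfl ((hcc 1 0).trans r0)
  have u6 : u • c 3 • P0 = c 2 • P0 := hstep 3 4 2 rfl (third 1 2 4 r1)
  have u7 : u • c 2 • P0 = c 6 • P0 := hstep 2 5 6 rfl (by
    rw [hcc 1 5]; exact third 5 6 1 r5)
  have hnotinf : ∀ i, c i • P0 ≠ inf := fun i h => hP0 (MulAction.injective (c i) (by
    show c i • P0 = c i • inf
    rw [h, hEinf _ (hcE i)]))
  have hc14 : c 4 ≠ c 1 := fun h => hc1 2 (mul_left_cancel (r1.trans (h.trans (mul_one (c 1)).symm)))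
  by_cases hu1 : u = 1
  · apply hnotinf 1
    rw [← u1, hu1, one_smul]
  have hp := hord u hu1
  have hup := pow_orderOf_eq_one u
  have hdvd : orderOf u ∣ 504 := hn ▸ orderOf_dvd_natCard u
  have h237 : orderOf u = 2 ∨ orderOf u = 3 ∨ orderOf u = 7 := by
    rcases hp.dvd_mul.1 (show orderOf u ∣ 8 * 63 from hdvd) with h | h
    · exact Or.inl ((Nat.prime_dvd_prime_iff_eq hp Nat.prime_two).1
        (hp.dvd_of_dvd_pow (show orderOf u ∣ 2 ^ 3 from h)))
    · rcases hp.dvd_mul.1 (show orderOf u ∣ 9 * 7 from h) with h | h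
      · exact Or.inr (Or.inl ((Nat.prime_dvd_prime_iff_eq hp Nat.prime_three).1
          (hp.dvd_of_dvd_pow (show orderOf u ∣ 3 ^ 2 from h))))
      · exact Or.inr (Or.inr ((Nat.prime_dvd_prime_iff_eq hp (by norm_num)).1 h))
  rcases h237 with h | h | h
  · rw [h, pow_two] at hup
    apply hnotinf 5
    rw [← u2, ← u1, ← mul_smul, hup, one_smul]
  · rw [h, pow_succ, pow_two] at hup
    apply hnotinf 4
    rw [← u3, ← u2, ← u1, ← mul_smul, ← mul_smul, hup, one_smul]
  · rw [h] at hup
    simp only [pow_succ, pow_zero, one_mul] at hup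
    apply hnotinf 6
    rw [← u7, ← u6, ← u5, ← u4, ← u3, ← u2, ← u1]
    simp only [← mul_smul, ← mul_assoc, hup, one_smul]

omit [IsSimpleGroup G] in
/-- A non-solvable group with four automorphism orbits is `A₅`. -/
theorem four_orbits_iso_alternating (hns : ¬ Group.IsSolvable G)
    (h4 : Nat.card (MulAction.orbitRel.Quotient (MulAut G) G) = 4) :
    Nonempty (G ≃* alternatingGroup (Fin 5)) := by
  classical
  obtain ⟨h3, hord, htr⟩ := four_orbits_orders hns h4
  haveI := four_orbits_simple hns h3 hord htr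
  have hna : ¬ IsMulCommutative G := fun h =>
    hns (Group.isSolvable_of_comm fun a b => h.is_comm.comm a b)
  obtain ⟨p, q, r, hpq, hpr, hqr, hs⟩ := Finset.card_eq_three.1 h3
  have hmem : ∀ x ∈ ({p, q, r} : Finset ℕ), x.Prime ∧ x ∣ Nat.card G := fun x hx => by
    rw [← hs] at hx
    exact ⟨Nat.prime_of_mem_primeFactors hx, Nat.dvd_of_mem_primeFactors hx⟩
  have main : ∀ p q r : ℕ, p ≠ q → p ≠ r → q ≠ r → (Nat.card G).primeFactors = {p, q, r} →
      (p = 2 ∨ (p ≠ 2 ∧ q ≠ 2 ∧ r ≠ 2)) → Nonempty (G ≃* alternatingGroup (Fin 5)) := by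
    intro p q r hpq hpr hqr hs htwo
    have hmem : ∀ x ∈ ({p, q, r} : Finset ℕ), x.Prime ∧ x ∣ Nat.card G := fun x hx => by
      rw [← hs] at hx
      exact ⟨Nat.prime_of_mem_primeFactors hx, Nat.dvd_of_mem_primeFactors hx⟩
    obtain ⟨hp, hpd⟩ := hmem p (by simp)
    obtain ⟨hq, hqd⟩ := hmem q (by simp)
    obtain ⟨hr, hrd⟩ := hmem r (by simp)
    haveI := Fact.mk hp; haveI := Fact.mk hq; haveI := Fact.mk hr
    obtain ⟨z, e, m, P, cP, hP2, hPN⟩ := local_data hna hord htr hpd
    obtain ⟨w, f, mq, Q, cQ, -, hQN⟩ := local_data hna hord htr hqd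
    obtain ⟨v, g, mr, R, cR, -, hRN⟩ := local_data hna hord htr hrd
    have conv : ∀ {t : ℕ} {a z e m : ℕ} (y₁ y₂ : ℕ),
        ({p, q, r} : Finset ℕ).erase t ⊆ {y₁, y₂} →
        LocalData (Nat.card G) t a z e m (fun x => x ∈ (Nat.card G).primeFactors ∧ x ≠ t) →
        LocalData (Nat.card G) t a z e m (fun x => x = y₁ ∨ x = y₂) := by
      rintro t a z e m y₁ y₂ hsub ⟨h1, h2, h3, h4, h5, h6, h7⟩
      refine ⟨h1, h2, h3, h4, h5, h6.imp id fun ⟨⟨hx, hxt⟩, hz⟩ => ⟨?_, hz⟩, h7⟩
      rw [hs] at hx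
      simpa using hsub (Finset.mem_erase.2 ⟨hxt, hx⟩)
    have P' := conv q r (by intro x; simp; try tauto) P
    have Q' := conv p r (by intro x; simp; try tauto) Q
    have R' := conv p q (by intro x; simp; try tauto) R
    have hn : Nat.card G = p ^ (Nat.card G).factorization p * q ^ (Nat.card G).factorization q *
        r ^ (Nat.card G).factorization r := by
      conv_lhs => rw [← Nat.prod_factorization_pow_eq_self (Nat.card_pos (α := G)).ne']
      rw [Finsupp.prod, Nat.support_factorization, hs,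
        Finset.prod_insert (by simp [hpq, hpr]), Finset.prod_pair hqr, mul_assoc]
    have heq : Nat.card G = 1 + m * (z - 1) + mq * (w - 1) + mr * (v - 1) := by
      rw [← cP, ← cQ, ← cR]
      letI := Fintype.ofFinite G
      simp only [Nat.card_eq_fintype_card, Fintype.card_subtype]
      have hfib := Finset.card_eq_sum_card_fiberwise (f := fun g : G => orderOf g)
        (s := Finset.univ) (t := insert 1 {p, q, r}) (fun g _ => by
          by_cases hg : g = 1
          · simp [hg]
          · rw [Finset.mem_coe, Finset.mem_insert, ← hs]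
            exact Or.inr (Nat.mem_primeFactors.2 ⟨hord g hg, orderOf_dvd_natCard g, Nat.card_pos.ne'⟩))
      rw [Finset.card_univ] at hfib
      conv_lhs => rw [hfib]
      have h1 : (Finset.univ.filter fun g : G => orderOf g = 1) = {1} := by
        ext g; simp [orderOf_eq_one_iff]
      have := hp.one_lt; have := hq.one_lt; have := hr.one_lt
      rw [Finset.sum_insert (by simp; omega), Finset.sum_insert (by simp [hpq, hpr]),
        Finset.sum_pair hqr, h1, Finset.card_singleton]
      ring
    rcases htwo with rfl | ⟨hp2, hq2, hr2⟩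
    · rcases even_solution (Ne.symm hpq) (Ne.symm hpr) hqr hn (hP2 rfl) P' Q' R' heq with h | ⟨h, h8, he7, hsub⟩
      · exact Cfsg.Agent.S0494.result h
      · exfalso
        refine no_order_504 hord htr h (fun S => by rw [hPN S, S.card_eq_multiplicity, h8, he7]) ?_
        intro S
        rcases hsub with ⟨hr7, hR, hf, -⟩ | ⟨hr7, hR, hf, -⟩
        · subst hr7; rw [hQN S, S.card_eq_multiplicity, hR, hf]
        · subst hr7; rw [hRN S, S.card_eq_multiplicity, hR, hf]
    · exact (no_odd_solution hpq hpr hqr hp2 hq2 hr2 hn P' Q' R' heq).elim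
  by_cases hp2 : p = 2
  · exact main p q r hpq hpr hqr hs (Or.inl hp2)
  by_cases hq2 : q = 2
  · exact main q p r hpq.symm hqr hpr (by rw [hs]; ext; simp; tauto) (Or.inl hq2)
  by_cases hr2 : r = 2
  · exact main r p q hpr.symm hqr.symm hpq (by rw [hs]; ext; simp; tauto) (Or.inl hr2)
  exact main p q r hpq hpr hqr hs (Or.inr ⟨hp2, hq2, hr2⟩)

end Cfsg.Agent.H87
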