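import Mathlib
import Cfsg.Agent.H35.SmallPGroups
import Cfsg.Agent.H24.MaxClass

/-! The first two omega layers of a metacyclic `p`-group (`p` odd) without a cyclic maximal
subgroup. -/

set_option autoImplicit false

namespace Cfsg.Agent.H87

open Subgroup
open scoped commutatorElement

variable {G : Type*} [Group G] [Finite G] {p : ℕ} [hp : Fact p.Prime]

/-- A normal subgroup of order `p` of a `p`-group is central. -/
theorem le_center_of_normal_card_prime (hG : IsPGroup p G) {K : Subgroup G} [K.Normal]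
    (hK : Nat.card K = p) : K ≤ center G := by
  have hnil : Group.IsNilpotent G := hG.isNilpotent
  obtain ⟨K', hK'n, -, hK'le, hcard, hcomm, -⟩ := H24.exists_normal_below hG (N := ⊥) (M := K) bot_le
    (fun h => hp.out.ne_one (by rw [← hK, ← h, card_bot]))
  have h1 : Nat.card K' = 1 := by
    rw [hK] at hcard
    exact (Nat.mul_eq_left hp.out.ne_zero).1 hcard.symm
  intro x hx
  refine mem_center_iff.2 fun g => ?_
  have := hcomm (commutator_mem_commutator (mem_top g) hx)
  rw [K'.eq_bot_of_card_eq h1, mem_bot] at this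
  exact commutatorElement_eq_one_iff_mul_comm.1 this

/-- What is used about such groups. -/
structure OmegaLayers (G : Type*) [Group G] (p : ℕ) (E W : Subgroup G) : Prop where
  card_E : Nat.card E = p ^ 2
  normal_E : E.Normal
  mem_E : ∀ x : G, x ∈ E ↔ x ^ p = 1
  mem_W : ∀ x : G, x ∈ W ↔ x ^ p ∈ E
  E_le : E ≤ W
  comm_pow : ∀ x ∈ W, ∀ y ∈ W, (x * y) ^ p = x ^ p * y ^ p
  surj : ∀ e ∈ E, ∃ w ∈ W, w ^ p = e
  commute : ∀ w ∈ W, ∀ e ∈ E, w * e = e * w
  not_cyclic : ¬ IsCyclic E

/-- The layers exist. -/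
theorem exists_omegaLayers (hp2 : p ≠ 2) (hG : IsPGroup p G) (hm : Cfsg.IsMetacyclic G)
    (hnc : ∀ C : Subgroup G, IsCyclic C → C.index ≠ p) (hnt : Nontrivial G) :
    ∃ E W : Subgroup G, OmegaLayers G p E W := by
  have hncyc : ¬ IsCyclic G := by
    intro h
    obtain ⟨k, hk⟩ := hG.exists_card_eq
    have hk0 : k ≠ 0 := by
      rintro rfl
      rw [pow_zero, Nat.card_eq_one_iff_unique] at hk
      exact not_subsingleton G hk.1
    obtain ⟨C, hC⟩ := Sylow.exists_subgroup_card_pow_prime p (n := k - 1) (G := G)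
      (hk ▸ pow_dvd_pow p (Nat.sub_le k 1))
    refine hnc C inferInstance ?_
    have := C.card_mul_index
    rw [hC, hk, ← Nat.sub_add_cancel (Nat.one_le_iff_ne_zero.2 hk0), pow_succ] at this
    exact Nat.eq_of_mul_eq_mul_left (pow_pos hp.out.pos _) this
  obtain ⟨⟨hEc, hEe⟩, hEcard⟩ := H35.omegaOne_of_metacyclic hp2 hG hm hncyc
  set E := Cfsg.omegaOne p (⊤ : Subgroup G) with hE
  have hmemE : ∀ x : G, x ∈ E ↔ x ^ p = 1 := fun x =>
    ⟨hEe x, fun hx => subset_closure ⟨mem_top x, hx⟩⟩
  have hEn : E.Normal := ⟨fun x hx g => (hmemE _).2 (by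
    rw [conj_pow, (hmemE x).1 hx, mul_one, mul_inv_cancel])⟩
  have hEnc : ¬ IsCyclic E := by
    intro h
    obtain ⟨g, hg⟩ := IsCyclic.exists_ofOrder_eq_natCard (α := E)
    have h1 : orderOf g ∣ p := orderOf_dvd_of_pow_eq_one (Subtype.ext (by simpa using hEe g.1 g.2))
    rw [hg, hEcard] at h1
    have := Nat.le_of_dvd hp.out.pos h1
    nlinarith [hp.out.two_le]
  set q := QuotientGroup.mk' E
  -- the quotient by `E` is not cyclic
  have hQnc : ¬ IsCyclic (G ⧸ E) := by
    intro hQ
    obtain ⟨gbar, hgbar⟩ := hQ.exists_generator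
    obtain ⟨g, rfl⟩ := QuotientGroup.mk'_surjective E gbar
    have hsup : ∀ x : G, ∃ j : ℤ, (g ^ j)⁻¹ * x ∈ E := fun x => by
      obtain ⟨j, hj⟩ := hgbar (q x)
      refine ⟨j, QuotientGroup.eq.1 ?_⟩
      rw [← QuotientGroup.mk'_apply, map_zpow]
      exact hj
    by_cases hg1 : g = 1
    · have htop : E = ⊤ := eq_top_iff.2 fun x _ => by
        obtain ⟨j, hj⟩ := hsup x
        rwa [hg1, one_zpow, inv_one, one_mul] at hj
      obtain ⟨C, hC⟩ := Sylow.exists_subgroup_card_pow_prime p (n := 1) (G := G) (by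
        rw [← card_top (G := G), ← htop, hEcard]
        exact pow_dvd_pow p (by norm_num))
      refine hnc C (isCyclic_of_prime_card (p := p) (by rw [hC, pow_one])) ?_
      have := C.card_mul_index
      rw [hC, pow_one, ← card_top (G := G), ← htop, hEcard, sq] at this
      exact Nat.eq_of_mul_eq_mul_left hp.out.pos this
    · -- `⟨g⟩ ∩ E ≠ 1`
      set C := zpowers g
      have hpd : p ∣ Nat.card C := ((hG.to_subgroup C).card_eq_or_dvd.resolve_left fun h =>
        hg1 (Subgroup.mem_bot.1 (C.eq_bot_of_card_eq h ▸ mem_zpowers g)))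
      obtain ⟨c, hc⟩ := exists_prime_orderOf_dvd_card' (G := C) p hpd
      have hcE : (c : G) ∈ E := (hmemE _).2 (by
        rw [← SubmonoidClass.coe_pow, ← hc, pow_orderOf_eq_one, OneMemClass.coe_one])
      have hidx : C.index ∣ p := by
        let f : C →* G ⧸ E := q.comp C.subtype
        have hf : Function.Surjective f := fun xbar => by
          obtain ⟨j, hj⟩ := hgbar xbar
          exact ⟨⟨g, mem_zpowers g⟩ ^ j, by rw [map_zpow]; exact hj⟩
        have hne : f.ker ≠ ⊥ := fun h => by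
          have : c ∈ f.ker := (QuotientGroup.eq_one_iff _).2 hcE
          rw [h, mem_bot] at this
          rw [this, orderOf_one] at hc
          exact hp.out.ne_one hc.symm
        obtain ⟨s, hs⟩ := ((hG.to_subgroup C).to_subgroup f.ker).exists_card_eq
        have hs0 : s ≠ 0 := by
          rintro rfl
          exact hne (eq_bot_of_card_eq _ (by rw [hs, pow_zero]))
        have h1 := f.ker.card_mul_index
        rw [index_ker, MonoidHom.range_eq_top.2 hf, card_top, hs] at h1
        have h2 := C.card_mul_index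
        rw [card_eq_card_quotient_mul_card_subgroup E, hEcard, ← h1] at h2
        have h3 : p ^ s * C.index = p ^ 2 := by
          refine Nat.eq_of_mul_eq_mul_left (Nat.card_pos (α := G ⧸ E)) ?_
          rw [← h2]; ring
        refine ⟨p ^ (s - 1), Nat.eq_of_mul_eq_mul_left hp.out.pos ?_⟩
        rw [← sq, ← h3]
        conv_lhs => rw [← Nat.sub_add_cancel (Nat.one_le_iff_ne_zero.2 hs0), pow_succ]
        ring
      rcases (Nat.dvd_prime hp.out).1 hidx with h | h
      · exact hncyc ⟨g, fun x => by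
          have hCtop : C = ⊤ := index_eq_one.1 h
          show x ∈ C
          rw [hCtop]
          exact mem_top x⟩
      · exact hnc C inferInstance h
  obtain ⟨⟨hFc, hFe⟩, hFcard⟩ := H35.omegaOne_of_metacyclic hp2 (hG.to_quotient E)
    (H35.isMetacyclic_quotient_of_normal hm E) hQnc
  set F := Cfsg.omegaOne p (⊤ : Subgroup (G ⧸ E))
  set W := F.comap q with hW
  have hmemW : ∀ x : G, x ∈ W ↔ x ^ p ∈ E := fun x => by
    constructor
    · intro hx
      have := hFe _ hx
      rwa [← map_pow, QuotientGroup.mk'_apply, QuotientGroup.eq_one_iff] at this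
    · intro hx
      refine subset_closure ⟨mem_top _, ?_⟩
      show q x ^ p = 1
      rw [← map_pow]
      exact (QuotientGroup.eq_one_iff _).2 hx
  have hEW : E ≤ W := fun x hx => (hmemW x).2 (pow_mem hx p)
  obtain ⟨N, hNn, hNc, hQc⟩ := hm
  have hcW : ∀ x ∈ W, ∀ y ∈ W, ⁅y, x⁆ ∈ E ∧ ⁅y, x⁆ ∈ center G := by
    intro x hx y hy
    have h1 : ⁅y, x⁆ ∈ E := by
      rw [← QuotientGroup.eq_one_iff, ← QuotientGroup.mk'_apply, map_commutatorElement,
        commutatorElement_eq_one_iff_mul_comm]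
      exact congrArg Subtype.val (hFc.is_comm.comm (⟨q y, hy⟩ : F) ⟨q x, hx⟩)
    have h2 : ⁅y, x⁆ ∈ N := by
      rw [← QuotientGroup.eq_one_iff, ← QuotientGroup.mk'_apply, map_commutatorElement,
        commutatorElement_eq_one_iff_mul_comm]
      obtain ⟨g, hg⟩ := hQc.exists_generator
      obtain ⟨i, hi⟩ := hg (QuotientGroup.mk' N y)
      obtain ⟨j, hj⟩ := hg (QuotientGroup.mk' N x)
      rw [← hi, ← hj]
      exact (Commute.zpow_zpow_self g i j).eq
    refine ⟨h1, ?_⟩
    have hle : Nat.card (N ⊓ E : Subgroup G) ≤ p := by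
      obtain ⟨w, hw⟩ := IsCyclic.exists_ofOrder_eq_natCard (α := (N ⊓ E : Subgroup G))
        (h := isCyclic_of_injective (Subgroup.inclusion inf_le_left) (Subgroup.inclusion_injective _))
      rw [← hw]
      exact orderOf_le_of_pow_eq_one hp.out.pos (Subtype.ext (by simpa using hEe w.1 w.2.2))
    rcases eq_or_ne (N ⊓ E : Subgroup G) ⊥ with h0 | h0
    · have : ⁅y, x⁆ ∈ N ⊓ E := ⟨h2, h1⟩
      rw [h0, mem_bot] at this
      rw [this]
      exact one_mem _
    · have hdvd := (hG.to_subgroup (N ⊓ E)).card_eq_or_dvd.resolve_left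
        fun h => h0 (eq_bot_of_card_eq _ h)
      exact le_center_of_normal_card_prime hG (le_antisymm hle (Nat.le_of_dvd Nat.card_pos hdvd))
        ⟨h2, h1⟩
  have hpowmul : ∀ x ∈ W, ∀ y ∈ W, (x * y) ^ p = x ^ p * y ^ p := fun x hx y hy =>
    H24.mul_pow_prime_of_class_two hp.out hp2 (hcW x hx y hy).2 ((hmemE _).1 (hcW x hx y hy).1)
  have hsurj : ∀ e ∈ E, ∃ w ∈ W, w ^ p = e := by
    let f : W →* E :=
      { toFun := fun w => ⟨(w : G) ^ p, (hmemW _).1 w.2⟩
        map_one' := Subtype.ext (one_pow p)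
        map_mul' := fun x y => Subtype.ext (hpowmul x x.2 y y.2) }
    have hker : f.ker = E.subgroupOf W := by
      ext w
      rw [MonoidHom.mem_ker, mem_subgroupOf, hmemE, Subtype.ext_iff]
      rfl
    have h1 : Nat.card W = p ^ 4 := by
      have h := (F.comap q).card_mul_index
      rw [index_comap_of_surjective _ (QuotientGroup.mk'_surjective E)] at h
      have e := F.card_mul_index
      have e3 : Nat.card G = Nat.card (G ⧸ E) * Nat.card E := card_eq_card_quotient_mul_card_subgroup E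
      rw [e3, ← e, hFcard, hEcard] at h
      refine Nat.eq_of_mul_eq_mul_right (Nat.pos_of_ne_zero (index_ne_zero_of_finite (H := F))) ?_
      rw [hW, h]; ring
    have h2 : Nat.card f.range = p ^ 2 := by
      have h := f.ker.card_mul_index
      rw [index_ker, hker, Nat.card_congr (subgroupOfEquivOfLe hEW).toEquiv, h1, hEcard] at h
      refine Nat.eq_of_mul_eq_mul_left (pow_pos hp.out.pos 2) ?_
      rw [h]; ring
    have h3 : f.range = ⊤ := f.range.eq_top_of_card_eq (by rw [h2, hEcard])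
    intro e he
    obtain ⟨w, hw⟩ := h3 ▸ mem_top (⟨e, he⟩ : E)
    exact ⟨w, w.2, congrArg Subtype.val hw⟩
  refine ⟨E, W, hEcard, hEn, hmemE, hmemW, hEW, hpowmul, hsurj, ?_, hEnc⟩
  intro w hw e he
  obtain ⟨v, hv, rfl⟩ := hsurj e he
  obtain ⟨h1, h2⟩ := hcW v hv w hw
  have h3 : ⁅w, v⁆ ^ p = 1 := (hmemE _).1 h1
  rw [← H24.comm_pow_right h2, commutatorElement_eq_one_iff_mul_comm] at h3
  exact h3

end Cfsg.Agent.H87
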