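import Mathlib
import Cfsg.Agent.H87.MetacyclicOmega

/-! In a group of maximal class the centre has order `p` and the normal subgroup of order `p²` is
unique. -/

set_option autoImplicit false

namespace Cfsg.Agent.H87

open Subgroup

variable {G : Type*} [Group G] [Finite G] {p : ℕ} [hp : Fact p.Prime]

/-- The centre of a group of maximal class. -/
theorem center_of_max_class [Group.IsNilpotent G] {k : ℕ} (hk : Nat.card G = p ^ k) (hk3 : 3 ≤ k)
    (hc : k - 1 ≤ Group.nilpotencyClass G) :
    Nat.card (center G) = p ∧ Nat.card (G ⧸ center G) = p ^ (k - 1) ∧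
      k - 2 ≤ Group.nilpotencyClass (G ⧸ center G) := by
  have hG : IsPGroup p G := IsPGroup.of_card hk
  have : Nontrivial G := by
    rw [← Finite.one_lt_card_iff_nontrivial, hk]
    exact Nat.one_lt_pow (by omega) hp.out.one_lt
  obtain ⟨r, hr⟩ := (hG.to_subgroup (center G)).exists_card_eq
  obtain ⟨m, hm⟩ := (hG.to_quotient (center G)).exists_card_eq
  have h1 := card_mul_index (center G)
  rw [index_eq_card, hr, hm, hk, ← pow_add] at h1
  have hadd := Nat.pow_right_injective hp.out.two_le h1
  have hr1 : 1 ≤ r := by
    by_contra h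
    exact Group.IsNilpotent.center_ne_bot G
      (eq_bot_of_card_eq _ (by rw [hr, show r = 0 by omega, pow_zero]))
  have h2 := Group.nilpotencyClass_eq_quotient_center_plus_one (G := G)
  have hq2 : 2 ≤ m := by
    by_contra h
    have := H24.isCyclic_of_card_pow_le hm (by omega)
    have h3 := H24.class_le_one_of_comm (H24.isMulCommutative_of_cyclic_quotient (G := G) le_rfl)
    omega
  have h4 := H24.class_le_pred (G ⧸ center G) p m hm hq2
  have hr' : r = 1 := by omega
  exact ⟨by rw [hr, hr', pow_one], by rw [hm]; congr 1; omega, by omega⟩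

/-- Two normal subgroups of order `p²` of a group of maximal class of order at least `p⁴` are
equal. -/
theorem normal_sq_eq_of_max_class [Group.IsNilpotent G] {k : ℕ} (hk : Nat.card G = p ^ k)
    (hk4 : 4 ≤ k) (hc : k - 1 ≤ Group.nilpotencyClass G) {A B : Subgroup G} [A.Normal] [B.Normal]
    (hA : Nat.card A = p ^ 2) (hB : Nat.card B = p ^ 2) : A = B := by
  have hG : IsPGroup p G := IsPGroup.of_card hk
  obtain ⟨hZ, hQ, hQc⟩ := center_of_max_class hk (by omega) hc
  obtain ⟨hZQ, -, -⟩ := center_of_max_class hQ (by omega) (by omega)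
  set q := QuotientGroup.mk' (center G)
  set Z2 := (center (G ⧸ center G)).comap q with hZ2
  have hZ2card : Nat.card Z2 = p ^ 2 := by
    have h := Z2.card_mul_index
    rw [hZ2, index_comap_of_surjective _ (QuotientGroup.mk'_surjective _),
      card_eq_card_quotient_mul_card_subgroup (center G), ← (center (G ⧸ center G)).card_mul_index,
      hZ, hZQ] at h
    refine Nat.eq_of_mul_eq_mul_right
      (Nat.pos_of_ne_zero (index_ne_zero_of_finite (H := center (G ⧸ center G)))) ?_
    rw [hZ2, h]; ring
  suffices key : ∀ C : Subgroup G, C.Normal → Nat.card C = p ^ 2 → C = Z2 by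
    rw [key A inferInstance hA, key B inferInstance hB]
  intro C hCn hC
  refine eq_of_le_of_card_ge ?_ (by rw [hZ2card, hC])
  obtain ⟨K, hK, -, hKle, hcard, hcomm, -⟩ := H24.exists_normal_below hG (N := ⊥) (M := C) bot_le
    (fun h => by
      rw [← h, card_bot] at hC
      exact absurd hC.symm (Nat.one_lt_pow two_ne_zero hp.out.one_lt).ne')
  have hKc : Nat.card K = p := by
    rw [hC, sq] at hcard
    exact (Nat.eq_of_mul_eq_mul_left hp.out.pos hcard).symm
  have hKZ : K ≤ center G := le_center_of_normal_card_prime hG hKc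
  intro x hx
  refine mem_comap.2 (mem_center_iff.2 fun gbar => ?_)
  obtain ⟨g, rfl⟩ := QuotientGroup.mk'_surjective _ gbar
  rw [← commutatorElement_eq_one_iff_mul_comm, ← map_commutatorElement]
  exact (QuotientGroup.eq_one_iff _).2 (hKZ (hcomm (commutator_mem_commutator (mem_top g) hx)))

end Cfsg.Agent.H87
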