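import Mathlib
import Cfsg.Agent.H87.MaxClassNormal

/-! An automorphism of order `p` of a metacyclic `p`-group without cyclic maximal subgroup moves
`Ω₁` exactly when `p = 3` and the semidirect product has maximal class. -/

set_option autoImplicit false

namespace Cfsg.Agent.H87

open Subgroup SemidirectProduct
open scoped commutatorElement

variable {L : Type*} [Group L] [Finite L] {p : ℕ} [hp : Fact p.Prime]

/-- The semidirect product by the powers of `a`. -/
abbrev AutExt (a : MulAut L) := SemidirectProduct L ↥(zpowers a) (zpowers a).subtype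

theorem card_autExt {a : MulAut L} (ha : orderOf a = p) {m : ℕ} (hm : Nat.card L = p ^ m) :
    Nat.card (AutExt a) = p ^ (m + 1) := by
  rw [SemidirectProduct.card, hm, Nat.card_zpowers, ha, pow_succ]

theorem autExt_inr_conj (a : MulAut L) (g : ↥(zpowers a)) (l : L) :
    (inr g : AutExt a) * inl l * (inr g)⁻¹ = inl ((g : MulAut L) l) := by
  rw [← map_inv, ← inl_aut]; rfl

/-- A moved element of order `p` yields the unipotent action on `Ω₁`. -/
theorem exists_unipotent {E W : Subgroup L} (hS : OmegaLayers L p E W) {a : MulAut L}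
    (ha : orderOf a = p) (hmove : ∃ x ∈ E, a x ≠ x) {m : ℕ} (hm : Nat.card L = p ^ m) :
    ∃ K : Subgroup L, Nat.card K = p ∧ K ≤ E ∧ (∀ k ∈ K, a k = k) ∧
      (∀ e ∈ E, a e * e⁻¹ ∈ K) ∧ ∀ e ∈ E, a e = e → e ∈ K := by
  have hX : IsPGroup p (AutExt a) := IsPGroup.of_card (card_autExt ha hm)
  have : Finite (AutExt a) := Nat.finite_of_card_ne_zero (by
    rw [card_autExt ha hm]; exact pow_ne_zero _ hp.out.ne_zero)
  set ι : L →* AutExt a := inl
  have hinj : Function.Injective ι := inl_injective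
  set EX := E.map ι with hEX
  have hEXn : EX.Normal := by
    refine ⟨?_⟩
    rintro _ ⟨e, he, rfl⟩ g
    refine ⟨g.left * (g.right : MulAut L) e * g.left⁻¹, ?_, ?_⟩
    · rw [SetLike.mem_coe, hS.mem_E]
      rw [conj_pow, ← map_pow, (hS.mem_E e).1 he, map_one, mul_one, mul_inv_cancel]
    · have h := autExt_inr_conj a g.right e
      conv_rhs => rw [← inl_left_mul_inr_right g, mul_inv_rev]
      simp only [map_mul, map_inv, ι]
      rw [← h]
      group
  have hEXc : Nat.card EX = p ^ 2 := by rw [hEX, card_map_of_injective hinj, hS.card_E]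
  obtain ⟨K', hK'n, -, hK'le, hcard, hcomm, -⟩ := H24.exists_normal_below hX (N := ⊥) (M := EX)
    bot_le (fun h => by
      rw [← h, card_bot] at hEXc
      exact absurd hEXc.symm (Nat.one_lt_pow two_ne_zero hp.out.one_lt).ne')
  have hK'c : Nat.card K' = p := by
    rw [hEXc, sq] at hcard
    exact (Nat.eq_of_mul_eq_mul_left hp.out.pos hcard).symm
  have hKZ := le_center_of_normal_card_prime hX hK'c
  set g₀ : ↥(zpowers a) := ⟨a, mem_zpowers a⟩
  have hfix : ∀ k : L, ι k ∈ K' → a k = k := fun k hk => by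
    have h := autExt_inr_conj a g₀ k
    rw [mem_center_iff.1 (hKZ hk) (inr g₀), mul_inv_cancel_right] at h
    exact (hinj h).symm
  set K := K'.comap ι
  have hKc : Nat.card K = p := by
    rw [← hK'c, ← card_map_of_injective hinj, map_comap_eq_self]
    exact hK'le.trans (map_le_range _ _)
  have hKE : K ≤ E := fun k hk => by
    obtain ⟨e, he, heq⟩ := hK'le hk
    exact hinj heq ▸ he
  have hdiff : ∀ e ∈ E, a e * e⁻¹ ∈ K := by
    intro e he
    have h := hcomm (commutator_mem_commutator (mem_top (inr g₀)) (mem_map_of_mem ι he))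
    rw [commutatorElement_def, autExt_inr_conj] at h
    rwa [mem_comap, map_mul, map_inv]
  refine ⟨K, hKc, hKE, fun k hk => hfix k hk, hdiff, fun e he hae => ?_⟩
  -- the fixed subgroup of `E` is proper, hence equal to `K`
  let F : Subgroup L := E ⊓ MonoidHom.eqLocus a.toMonoidHom (MonoidHom.id L)
  have hKF : K ≤ F := le_inf hKE fun k hk => hfix k hk
  have hFE : Nat.card F < Nat.card E := by
    refine lt_of_le_of_ne (card_le_of_le inf_le_left) fun h => ?_
    obtain ⟨x, hxE, hx⟩ := hmove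
    exact hx ((eq_of_le_of_card_ge (H := F) inf_le_left h.ge).ge hxE).2
  obtain ⟨s, hs⟩ := ((IsPGroup.of_card hm).to_subgroup F).exists_card_eq
  have hFK : F = K := by
    refine (eq_of_le_of_card_ge hKF ?_).symm
    rw [hs, hS.card_E] at hFE
    rw [hs, hKc]
    calc p ^ s ≤ p ^ 1 := Nat.pow_le_pow_right hp.out.pos (by
          have := (Nat.pow_lt_pow_iff_right hp.out.one_lt).1 hFE; omega)
      _ = p := pow_one p
  exact hFK ▸ (⟨he, hae⟩ : e ∈ F)

/-- The iterates of `a` on a chain `x, v, c, d`. -/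
theorem iterate_chain {W : Subgroup L} {a : MulAut L} {x v c d : L} (hv : v ∈ W)
    (hcc : ∀ w ∈ W, w * c = c * w) (hdc : ∀ w ∈ W, w * d = d * w) (hd : a d = d)
    (hx : a x = v * x) (hav : a v = c * v) (hac : a c = d * c) (hc : c ∈ W) (n : ℕ) :
    (a ^ n) x = d ^ n.choose 3 * c ^ n.choose 2 * v ^ n * x := by
  induction n with
  | zero => simp
  | succ n ih =>
    have hcv : Commute c v := (hcc v hv).symm
    have hdcm : Commute d c := (hdc c hc).symm
    rw [pow_succ', MulAut.mul_apply, ih]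
    simp only [map_mul, map_pow, hd, hac, hav, hx]
    rw [hdcm.mul_pow, hcv.mul_pow, Nat.choose_succ_succ n 2, Nat.choose_succ_succ n 1,
      Nat.choose_one_right, pow_succ v n, Nat.add_comm (n.choose 2) (n.choose 3),
      Nat.add_comm n (n.choose 2), pow_add, pow_add]
    simp only [Nat.succ_eq_add_one, mul_assoc]

/-- Moving `Ω₁` forces `p = 3` and a fixed subgroup of order `p`. -/
theorem moved_omega (hp2 : p ≠ 2) {E W : Subgroup L} (hS : OmegaLayers L p E W) {a : MulAut L}
    (ha : orderOf a = p) (hmove : ∃ x ∈ E, a x ≠ x) {m : ℕ} (hm : Nat.card L = p ^ m) :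
    p = 3 ∧ ∃ K : Subgroup L, Nat.card K = p ∧ ∀ g : L, a g = g ↔ g ∈ K := by
  obtain ⟨K, hKc, hKE, hKfix, hdiff, hfixE⟩ := exists_unipotent hS ha hmove hm
  obtain ⟨e, he, hne⟩ := hmove
  obtain ⟨x, hxW, hxe⟩ := hS.surj e he
  have haW : ∀ w ∈ W, a w ∈ W := fun w hw => by
    rw [hS.mem_W, ← map_pow, hS.mem_E, ← map_pow, (hS.mem_E _).1 ((hS.mem_W w).1 hw), map_one]
  set v := a x * x⁻¹ with hv
  have hvW : v ∈ W := mul_mem (haW x hxW) (inv_mem hxW)
  set z := a e * e⁻¹ with hz
  have hzK : z ∈ K := hdiff e he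
  have hz1 : z ≠ 1 := fun h => hne (mul_inv_eq_one.1 h)
  have hvp : v ^ p = z := by
    rw [hv, hS.comm_pow _ (haW x hxW) _ (inv_mem hxW), ← map_pow, inv_pow, hxe]
  set c := a v * v⁻¹ with hc
  have hcE : c ∈ E := by
    rw [hS.mem_E, hc, hS.comm_pow _ (haW v hvW) _ (inv_mem hvW), ← map_pow, inv_pow, hvp,
      hKfix z hzK, mul_inv_cancel]
  set d := a c * c⁻¹ with hd
  have hdK : d ∈ K := hdiff c hcE
  have hchain := iterate_chain (a := a) (x := x) (v := v) (c := c) (d := d) hvW
    (fun w hw => hS.commute w hw c hcE) (fun w hw => hS.commute w hw d (hKE hdK))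
    (hKfix d hdK) (by rw [hv, inv_mul_cancel_right]) (by rw [hc, inv_mul_cancel_right])
    (by rw [hd, inv_mul_cancel_right]) (hS.E_le hcE) p
  have hap : (a ^ p) x = x := by rw [← ha, pow_orderOf_eq_one, MulAut.one_apply]
  obtain ⟨i, hi⟩ : p ∣ p.choose 2 := hp.out.dvd_choose_self two_ne_zero
    (by have := hp.out.two_le; omega)
  rw [hap, hvp, hi, pow_mul c, (hS.mem_E c).1 hcE, one_pow, mul_one, eq_comm,
    mul_eq_right] at hchain
  have h3 : p = 3 := by
    by_contra h3
    obtain ⟨j, hj⟩ : p ∣ p.choose 3 := hp.out.dvd_choose_self (by norm_num)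
      (by have := hp.out.two_le; omega)
    rw [hj, pow_mul, (hS.mem_E d).1 (hKE hdK), one_pow, one_mul] at hchain
    exact hz1 hchain
  have hd1 : d ≠ 1 := fun h => hz1 (by simpa [h] using hchain)
  refine ⟨h3, K, hKc, fun g => ⟨fun hg => ?_, hKfix g⟩⟩
  -- fixed elements of exponent `p²` lie in `K`
  have hpow : ∀ k ∈ K, ∃ i : ℕ, v ^ (p * i) = k := fun k hk => by
    have := mem_powers_of_prime_card (G := K) hKc (g := ⟨z, hzK⟩) (g' := ⟨k, hk⟩)
      fun h => hz1 (congrArg Subtype.val h)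
    obtain ⟨i, hi⟩ := this
    exact ⟨i, by rw [pow_mul, hvp]; exact congrArg Subtype.val hi⟩
  have hfixW : ∀ g ∈ W, a g = g → g ∈ K := by
    intro g hgW hg
    have hgpK : g ^ p ∈ K := hfixE _ ((hS.mem_W g).1 hgW) (by rw [map_pow, hg])
    obtain ⟨i, hi⟩ := hpow _ hgpK
    set f := g * (v ^ i)⁻¹ with hf
    have hfE : f ∈ E := by
      rw [hS.mem_E, hf, hS.comm_pow _ hgW _ (inv_mem (pow_mem hvW i)), inv_pow, ← pow_mul,
        mul_comm i, hi, mul_inv_cancel]
    have hcv : Commute c v := (hS.commute v hvW c hcE).symm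
    have hci : c ^ i ∈ K := by
      have h1 := hdiff f hfE
      rw [hf, map_mul, map_inv, map_pow, hg, show a v = c * v by rw [hc, inv_mul_cancel_right],
        hcv.mul_pow] at h1
      have h2 : (g * (c ^ i * v ^ i)⁻¹ * (g * (v ^ i)⁻¹)⁻¹) = g * (c ^ i)⁻¹ * g⁻¹ := by
        rw [(hcv.pow_pow i i).eq]; group
      rw [h2, hS.commute g hgW _ (inv_mem (pow_mem hcE i)), mul_inv_cancel_right] at h1
      exact inv_mem_iff.1 h1
    have hdi : d ^ i = 1 := by
      have h1 := hKfix _ hci
      rw [map_pow, show a c = d * c by rw [hd, inv_mul_cancel_right],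
        (Commute.mul_pow (hS.commute c (hS.E_le hcE) d (hKE hdK)).symm i), mul_eq_right] at h1
      exact h1
    obtain ⟨j, rfl⟩ : p ∣ i := by
      rw [← orderOf_eq_prime ((hS.mem_E d).1 (hKE hdK)) hd1]
      exact orderOf_dvd_of_pow_eq_one hdi
    refine hfixE g ((hS.mem_E g).2 ?_) hg
    rw [← hi, pow_mul, hvp, pow_mul, (hS.mem_E z).1 (hKE hzK), one_pow]
  have key : ∀ k, g ^ p ^ k = 1 → g ^ p ^ 2 = 1 := by
    intro k
    induction k with
    | zero => intro h; rw [pow_zero, pow_one] at h; rw [h, one_pow]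
    | succ k ih =>
      intro h
      by_cases hk : k + 1 ≤ 2
      · rw [← Nat.sub_add_cancel hk, pow_add, mul_comm, pow_mul, h, one_pow]
      · apply ih
        set w := g ^ p ^ (k - 1) with hw
        have hwp : w ^ p = g ^ p ^ k := by
          rw [hw, ← pow_mul, ← pow_succ, Nat.sub_add_cancel (by omega)]
        have hwW : w ∈ W := by
          rw [hS.mem_W, hS.mem_E, hwp, ← pow_mul, ← pow_succ]; exact h
        rw [← hwp]
        exact (hS.mem_E w).1 (hKE (hfixW w hwW (by rw [map_pow, hg])))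
  obtain ⟨k, hk⟩ := IsPGroup.of_card hm g
  refine hfixW g ?_ hg
  rw [hS.mem_W, hS.mem_E, ← pow_mul, ← sq]
  exact key k hk

end Cfsg.Agent.H87
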