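import Mathlib
import Cfsg.Agent.H24.Power

/-! For odd `p`, a `p`-group whose elements of order `p` are central needs at most as many
generators as `Ω₁` has rank. -/

set_option autoImplicit false

namespace Cfsg.Agent.H87

open Subgroup
open scoped commutatorElement

variable {G : Type*} [Group G] {p : ℕ}

/-- Central elements of order dividing `p` as a subgroup. -/
def omegaCentralSub (hc : ∀ x : G, x ^ p = 1 → x ∈ center G) : Subgroup G where
  carrier := {x | x ^ p = 1}
  one_mem' := one_pow p
  mul_mem' := fun {a b} ha hb => by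
    have hab : Commute a b := (mem_center_iff.1 (hc a ha) b).symm
    show (a * b) ^ p = 1
    rw [hab.mul_pow, ha, hb, one_mul]
  inv_mem' := fun {a} ha => by
    show a⁻¹ ^ p = 1
    rw [inv_pow, ha, inv_one]

theorem mem_omegaCentralSub {hc : ∀ x : G, x ^ p = 1 → x ∈ center G} {x : G} :
    x ∈ omegaCentralSub hc ↔ x ^ p = 1 := Iff.rfl

/-- If elements of order `p` are central, commutators with elements of order dividing `p²` have
order dividing `p`. -/
theorem comm_pow_prime_eq_one [Finite G] [hp : Fact p.Prime] (hp2 : p ≠ 2) (hG : IsPGroup p G)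
    (hc : ∀ x : G, x ^ p = 1 → x ∈ center G) (x y : G) (hx : x ^ (p * p) = 1) :
    ⁅x, y⁆ ^ p = 1 := by
  suffices key : ∀ d, ∀ x y : G, Nat.card (closure ({x, y} : Set G)) ≤ d → x ^ (p * p) = 1 →
      ⁅x, y⁆ ^ p = 1 by exact key _ x y le_rfl hx
  intro d
  induction d with
  | zero =>
    intro x y h _
    exact absurd h (not_le.mpr Nat.card_pos)
  | succ d ih =>
    intro x y hd hx
    set J := closure ({x, y} : Set G) with hJ
    have hxJ : x ∈ J := subset_closure (by simp)
    have hyJ : y ∈ J := subset_closure (by simp)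
    by_cases hcyc : zpowers x = J
    · obtain ⟨k, rfl⟩ : y ∈ zpowers x := hcyc ▸ hyJ
      rw [commutatorElement_eq_one_iff_mul_comm.2 (Commute.self_zpow x k).eq, one_pow]
    · -- a normal maximal subgroup of `J` above `x`
      obtain ⟨M, hM, hxM⟩ := (eq_top_or_exists_le_coatom (zpowers (⟨x, hxJ⟩ : J))).resolve_left
        fun h => hcyc <| le_antisymm (zpowers_le.2 hxJ) fun z hz => by
          obtain ⟨k, hk⟩ := h ▸ mem_top (⟨z, hz⟩ : J)
          exact ⟨k, congrArg Subtype.val hk⟩
      have hnJ : Group.IsNilpotent J := (hG.to_subgroup J).isNilpotent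
      have hMn : M.Normal :=
        Subgroup.NormalizerCondition.normal_of_coatom _ Group.normalizerCondition_of_isNilpotent hM
      set y' := y * x⁻¹ * y⁻¹ with hy'
      have hsub : ∀ a b : G, a ∈ M.map J.subtype → b ∈ M.map J.subtype →
          Nat.card (closure ({a, b} : Set G)) ≤ d := by
        intro a b ha hb
        have hle : closure ({a, b} : Set G) ≤ M.map J.subtype :=
          (closure_le _).2 fun z hz => by
            rcases hz with rfl | rfl
            exacts [ha, hb]
        have h1 := Subgroup.card_le_of_le hle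
        rw [card_map_of_injective J.subtype_injective] at h1
        have h2 : Nat.card M < Nat.card J := by
          refine lt_of_le_of_ne (card_le_card_group M) fun h => hM.1 ?_
          exact M.eq_top_of_card_eq h
        omega
      have hxM' : (⟨x, hxJ⟩ : J) ∈ M := hxM (mem_zpowers _)
      have hxmap : x ∈ M.map J.subtype := ⟨_, hxM', rfl⟩
      have hx'map : y * x * y⁻¹ ∈ M.map J.subtype :=
        ⟨_, hMn.conj_mem _ hxM' ⟨y, hyJ⟩, rfl⟩
      set x' := y * x * y⁻¹ with hx'
      have hx'2 : x' ^ (p * p) = 1 := by rw [hx', conj_pow, hx, mul_one, mul_inv_cancel]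
      have h1 : ⁅x', x⁻¹⁆ ^ p = 1 := ih x' x⁻¹ (hsub _ _ hx'map (inv_mem hxmap)) hx'2
      have hxp : x ^ p ∈ center G := hc _ (by rw [← pow_mul, hx])
      have hconj : x' ^ p = x ^ p := by
        rw [hx', conj_pow, mem_center_iff.1 hxp y, mul_inv_cancel_right]
      have h2 : (x⁻¹ * x') ^ p = 1 := by
        rw [H24.mul_pow_prime_of_class_two hp.out hp2 (hc _ h1) h1, inv_pow, hconj, inv_mul_cancel]
      have h3 : x⁻¹ * x' = ⁅x⁻¹, y⁆ := by
        rw [hx', commutatorElement_def]; group
      rw [h3] at h2
      have h4 : ⁅x, y⁆ = x * ⁅x⁻¹, y⁆⁻¹ * x⁻¹ := by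
        simp only [commutatorElement_def]; group
      rw [h4, conj_pow, inv_pow, h2, inv_one, mul_one, mul_inv_cancel]

/-- The number of generators is bounded by the rank of `Ω₁` when the latter is central. -/
theorem exists_generators_of_omega_central [Finite G] [hp : Fact p.Prime] (hp2 : p ≠ 2)
    (hG : IsPGroup p G) (hc : ∀ x : G, x ^ p = 1 → x ∈ center G) (r : ℕ)
    (hr : Nat.card (omegaCentralSub hc) ≤ p ^ r) :
    ∃ S : Finset G, S.card ≤ r ∧ closure (S : Set G) = ⊤ := by
  suffices key : ∀ d, ∀ (G : Type _) [Group G] [Finite G], Nat.card G ≤ d → IsPGroup p G →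
      ∀ (hc : ∀ x : G, x ^ p = 1 → x ∈ center G) (r : ℕ),
      Nat.card (omegaCentralSub hc) ≤ p ^ r →
      ∃ S : Finset G, S.card ≤ r ∧ closure (S : Set G) = ⊤ by
    exact key _ G le_rfl hG hc r hr
  intro d
  induction d with
  | zero =>
    intro G _ _ h
    exact absurd h (not_le.mpr Nat.card_pos)
  | succ d ih =>
    intro G _ _ hd hG hc r hr
    classical
    set Ω := omegaCentralSub hc with hΩ
    by_cases htriv : Nat.card G = 1
    · have : Subsingleton G := (Nat.card_eq_one_iff_unique.1 htriv).1
      exact ⟨∅, by simp, Subsingleton.elim _ _⟩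
    have hΩne : Ω ≠ ⊥ := by
      intro h
      obtain ⟨a, ha⟩ := hG.exists_card_eq
      have ha0 : a ≠ 0 := fun h0 => htriv (by rw [ha, h0, pow_zero])
      obtain ⟨g, hg⟩ := exists_prime_orderOf_dvd_card' p (ha ▸ dvd_pow_self p ha0)
      have : g ∈ Ω := by
        rw [hΩ, mem_omegaCentralSub, ← hg]; exact pow_orderOf_eq_one g
      rw [h, mem_bot] at this
      rw [this, orderOf_one] at hg
      exact hp.out.ne_one hg.symm
    by_cases hex : ∃ M : Subgroup G, IsCoatom M ∧ ¬ Ω ≤ M
    · obtain ⟨M, hM, hΩM⟩ := hex
      obtain ⟨z, hz, hzM⟩ := SetLike.not_le_iff_exists.1 hΩM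
      have hcM : ∀ x : M, x ^ p = 1 → x ∈ center M := fun x hx => mem_center_iff.2 fun y =>
        Subtype.ext (mem_center_iff.1 (hc x.1 (by simpa using congrArg Subtype.val hx)) y.1)
      have hlt : Nat.card (omegaCentralSub hcM) < Nat.card Ω := by
        have hle : (omegaCentralSub hcM).map M.subtype ≤ Ω ⊓ M := by
          rintro _ ⟨x, hx, rfl⟩
          have hx' : x ^ p = 1 := hx
          have hx'' : (x : G) ^ p = 1 := by simpa using congrArg Subtype.val hx'
          exact ⟨hx'', x.2⟩
        have h1 := Subgroup.card_le_of_le hle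
        rw [card_map_of_injective M.subtype_injective] at h1
        refine lt_of_le_of_lt h1 (lt_of_le_of_ne (Subgroup.card_le_of_le inf_le_left) fun h => ?_)
        exact hΩM (inf_eq_left.1 (eq_of_le_of_card_ge inf_le_left h.ge))
      obtain ⟨b, hb⟩ := (hG.to_subgroup Ω).exists_card_eq
      obtain ⟨c, hc'⟩ := ((hG.to_subgroup M).to_subgroup (omegaCentralSub hcM)).exists_card_eq
      have hbr : b ≤ r := (Nat.pow_le_pow_iff_right hp.out.one_lt).1 (hb ▸ hr)
      have hcb : c < b := (Nat.pow_lt_pow_iff_right hp.out.one_lt).1 (hb ▸ hc' ▸ hlt)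
      have hMcard : Nat.card M ≤ d := by
        have : Nat.card M < Nat.card G :=
          lt_of_le_of_ne (card_le_card_group M) fun h => hM.1 (M.eq_top_of_card_eq h)
        omega
      obtain ⟨S, hS, hSgen⟩ := ih M hMcard (hG.to_subgroup M) hcM c hc'.le
      refine ⟨insert z (S.image M.subtype), ?_, ?_⟩
      · have := Finset.card_insert_le z (S.image M.subtype)
        have := Finset.card_image_le (s := S) (f := M.subtype)
        omega
      · have hM_le : M ≤ closure ((insert z (S.image M.subtype) : Finset G) : Set G) := by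
          have h1 := congrArg (Subgroup.map M.subtype) hSgen
          rw [MonoidHom.map_closure, ← MonoidHom.range_eq_map, range_subtype] at h1
          refine le_of_eq_of_le h1.symm (closure_mono ?_)
          rw [Finset.coe_insert, Finset.coe_image]
          exact Set.subset_insert _ _
        refine hM.2 _ (lt_of_le_of_ne hM_le fun h => hzM ?_)
        rw [h]
        exact subset_closure (by simp)
    · push Not at hex
      have hΩn : Ω.Normal := ⟨fun x hx g => by
        rw [mem_center_iff.1 (hc x hx) g, mul_inv_cancel_right]; exact hx⟩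
      have hcQ : ∀ q : G ⧸ Ω, q ^ p = 1 → q ∈ center (G ⧸ Ω) := by
        intro q hq
        induction q using QuotientGroup.induction_on with
        | H x =>
          have hxp : (x ^ p) ^ p = 1 := (QuotientGroup.eq_one_iff _).1 hq
          refine mem_center_iff.2 fun q' => ?_
          induction q' using QuotientGroup.induction_on with
          | H y =>
            symm
            rw [← commutatorElement_eq_one_iff_mul_comm]
            have := comm_pow_prime_eq_one hp2 hG hc x y (by rw [pow_mul, hxp])
            exact (QuotientGroup.eq_one_iff _).2 this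
      have hcardQ : Nat.card (omegaCentralSub hcQ) ≤ Nat.card Ω := by
        set T := (omegaCentralSub hcQ).comap (QuotientGroup.mk' Ω) with hT
        have hTmem : ∀ x : T, ((x : G) ^ p) ^ p = 1 := fun x => (QuotientGroup.eq_one_iff _).1 x.2
        let f : T →* Ω :=
          { toFun := fun x => ⟨(x : G) ^ p, hTmem x⟩
            map_one' := Subtype.ext (one_pow p)
            map_mul' := fun x y => Subtype.ext <| by
              have h1 := comm_pow_prime_eq_one hp2 hG hc (y : G) x (by rw [pow_mul]; exact hTmem y)
              exact H24.mul_pow_prime_of_class_two hp.out hp2 (hc _ h1) h1 }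
        have hker : Nat.card f.ker ≤ Nat.card Ω := by
          refine Nat.card_le_card_of_injective (fun x => ⟨((x.1 : T) : G), ?_⟩) ?_
          · exact congrArg Subtype.val x.2
          · intro a b h
            exact Subtype.ext (Subtype.ext (congrArg Subtype.val h :))
        have hrange : Nat.card f.range ≤ Nat.card Ω := card_le_card_group _
        have h1 : Nat.card T = Nat.card f.ker * Nat.card f.range := by
          rw [← index_ker, card_mul_index]
        have h2 : Nat.card T = Nat.card (omegaCentralSub hcQ) * Nat.card Ω := by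
          have e := card_mul_index T
          have e' := card_mul_index (omegaCentralSub hcQ)
          have e'' : T.index = (omegaCentralSub hcQ).index :=
            index_comap_of_surjective _ (QuotientGroup.mk'_surjective Ω)
          have e3 : Nat.card G = Nat.card (G ⧸ Ω) * Nat.card Ω := card_eq_card_quotient_mul_card_subgroup Ω
          rw [e'', e3, ← e'] at e
          refine Nat.eq_of_mul_eq_mul_right (Nat.pos_of_ne_zero (index_ne_zero_of_finite (H := omegaCentralSub hcQ))) ?_
          rw [e]; ring
        refine Nat.le_of_mul_le_mul_right ?_ (Nat.card_pos (α := Ω))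
        rw [← h2, h1]
        exact Nat.mul_le_mul hker hrange
      have hQcard : Nat.card (G ⧸ Ω) ≤ d := by
        have e3 : Nat.card G = Nat.card (G ⧸ Ω) * Nat.card Ω := card_eq_card_quotient_mul_card_subgroup Ω
        have h1 : 1 < Nat.card Ω := one_lt_card_iff_ne_bot Ω |>.2 hΩne
        have : Nat.card (G ⧸ Ω) * 2 ≤ Nat.card G := e3 ▸ Nat.mul_le_mul_left _ h1
        omega
      obtain ⟨S, hS, hSgen⟩ := ih (G ⧸ Ω) hQcard (hG.to_quotient Ω) hcQ r (hcardQ.trans hr)
      refine ⟨S.image (Function.surjInv (QuotientGroup.mk'_surjective Ω)),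
        Finset.card_image_le.trans hS, ?_⟩
      by_contra hne
      obtain ⟨M, hM, hle⟩ := (eq_top_or_exists_le_coatom _).resolve_left hne
      refine hM.1 (eq_top_iff.2 fun x _ => ?_)
      have h1 : (closure (S.image (Function.surjInv (QuotientGroup.mk'_surjective Ω)) : Set G)).map
          (QuotientGroup.mk' Ω) = ⊤ := by
        have hid : (QuotientGroup.mk' Ω) ∘ Function.surjInv (QuotientGroup.mk'_surjective Ω) = id :=
          funext (Function.surjInv_eq _)
        rw [MonoidHom.map_closure, Finset.coe_image, ← Set.image_comp, hid, Set.image_id, hSgen]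
      obtain ⟨k, hk, hkx⟩ := h1 ▸ mem_top (QuotientGroup.mk' Ω x)
      have : k⁻¹ * x ∈ Ω := QuotientGroup.eq.1 hkx
      have := mul_mem (hle hk) (hex M hM this)
      rwa [mul_inv_cancel_left] at this

end Cfsg.Agent.H87
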