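import Mathlib
import Cfsg.Agent.H49.Homs
import Cfsg.Agent.H87.PowerGraph
import Cfsg.Agent.H87.SelfNorm
import Cfsg.Agent.S0228

/-!
# Groups whose `p`-by-cyclic subgroups are cyclic or dihedral
-/

set_option autoImplicit false

open scoped Pointwise

namespace Cfsg.Agent.H87

variable {G : Type*} [Group G] [Finite G] {p : ℕ} [Fact p.Prime]

/-- `H` has a normal Sylow `p`-subgroup with cyclic quotient. -/
def PByCyclic (p : ℕ) (H : Subgroup G) : Prop :=
  (∀ S : Sylow p ↥H, (S : Subgroup ↥H).Normal) ∧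
    ∀ (S : Sylow p ↥H) [(S : Subgroup ↥H).Normal], IsCyclic (↥H ⧸ (S : Subgroup ↥H))

theorem pByCyclic_sup_zpowers {X : Subgroup G} (hX : IsPGroup p X) {y : G}
    (hy : y ∈ Subgroup.normalizer (X : Set G)) : PByCyclic p (X ⊔ Subgroup.zpowers y) := by
  set H := X ⊔ Subgroup.zpowers y with hH
  have hXH : X ≤ H := le_sup_left
  have hyH : y ∈ H := Subgroup.mem_sup_right (Subgroup.mem_zpowers y)
  haveI hn : (X.subgroupOf H).Normal :=
    (Subgroup.normal_subgroupOf_iff_le_normalizer hXH).2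
      (sup_le Subgroup.le_normalizer (Subgroup.zpowers_le.2 hy))
  set π := QuotientGroup.mk' (X.subgroupOf H)
  have hgen : ∀ h : H, ∃ i : ℤ, (h : H ⧸ X.subgroupOf H) = (π ⟨y, hyH⟩) ^ i := by
    intro h
    have h2 : (h : G) ∈ X ⊔ Subgroup.zpowers y := h.2
    rw [← SetLike.mem_coe, sup_comm,
      Subgroup.coe_mul_of_left_le_normalizer_right _ _ (Subgroup.zpowers_le.2 hy)] at h2
    obtain ⟨_, ⟨i, rfl⟩, x, hx, e⟩ := h2
    refine ⟨i, ?_⟩
    rw [← map_zpow]
    refine QuotientGroup.eq.2 (Subgroup.mem_subgroupOf.2 ?_)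
    have e : y ^ i * x = (h : G) := e
    show (h : G)⁻¹ * y ^ i ∈ X
    rw [← e]
    simpa using X.inv_mem hx
  have hXS : ∀ S : Sylow p H, X.subgroupOf H ≤ (S : Subgroup H) := fun S => by
    have hXp : IsPGroup p (X.subgroupOf H) := hX.comap_subtype
    exact hXp.le_sylow_of_normal S
  have hcomm : ∀ a b : H, a * b * a⁻¹ * b⁻¹ ∈ X.subgroupOf H := by
    intro a b
    obtain ⟨i, hi⟩ := hgen a
    obtain ⟨j, hj⟩ := hgen b
    rw [← QuotientGroup.eq_one_iff, QuotientGroup.mk_mul, QuotientGroup.mk_mul,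
      QuotientGroup.mk_mul, QuotientGroup.mk_inv, QuotientGroup.mk_inv, hi, hj,
      ← zpow_add, add_comm i j, zpow_add, mul_inv_cancel_right, mul_inv_cancel]
  have hnorm : ∀ S : Sylow p H, (S : Subgroup H).Normal := fun S => ⟨fun s hs g => by
    have := (S : Subgroup H).mul_mem (hXS S (hcomm g s)) hs
    rwa [inv_mul_cancel_right] at this⟩
  refine ⟨hnorm, fun S _ => ?_⟩
  refine ⟨((⟨y, hyH⟩ : H) : H ⧸ (S : Subgroup H)), fun q => ?_⟩
  obtain ⟨h, rfl⟩ := QuotientGroup.mk_surjective q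
  obtain ⟨i, hi⟩ := hgen h
  refine ⟨i, ?_⟩
  show ((⟨y, hyH⟩ : H) : H ⧸ (S : Subgroup H)) ^ i = h
  rw [← QuotientGroup.mk_zpow, QuotientGroup.eq]
  refine hXS S ?_
  rw [← map_zpow] at hi
  exact QuotientGroup.eq.1 hi.symm

/-- A generator of the cyclic quotient of order prime to `p`. -/
theorem exists_complement_generator {H : Type*} [Group H] [Finite H] (S : Sylow p H)
    [(S : Subgroup H).Normal] [IsCyclic (H ⧸ (S : Subgroup H))] :
    ∃ w : H, orderOf w = (S : Subgroup H).index ∧ (orderOf w).Coprime p ∧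
      ∀ h : H, ∃ s ∈ (S : Subgroup H), ∃ i : ℤ, h = w ^ i * s := by
  obtain ⟨q, hq⟩ := IsCyclic.exists_generator (α := H ⧸ (S : Subgroup H))
  obtain ⟨v, rfl⟩ := QuotientGroup.mk_surjective q
  set m := (S : Subgroup H).index with hm
  have hcop : m.Coprime (Nat.card (S : Subgroup H)) := by
    obtain ⟨k, hk⟩ := IsPGroup.iff_card.1 S.2
    rw [hk]
    exact (((Fact.out : p.Prime).coprime_iff_not_dvd.2 S.not_dvd_index).symm).pow_right k
  set w := v ^ Nat.card (S : Subgroup H) with hw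
  have hordq : orderOf ((v : H) : H ⧸ (S : Subgroup H)) = m := by
    rw [orderOf_eq_card_of_forall_mem_zpowers hq, ← Subgroup.index_eq_card]
  have hwm : w ^ m = 1 := by
    rw [hw, ← pow_mul, Subgroup.card_mul_index, pow_card_eq_one']
  have hwq : orderOf ((w : H) : H ⧸ (S : Subgroup H)) = m := by
    rw [hw, QuotientGroup.mk_pow, Nat.Coprime.orderOf_pow (by rw [hordq]; exact hcop), hordq]
  have hord : orderOf w = m := Nat.dvd_antisymm (orderOf_dvd_of_pow_eq_one hwm)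
    (hwq ▸ orderOf_map_dvd (QuotientGroup.mk' (S : Subgroup H)) w)
  refine ⟨w, hord, ?_, fun h => ?_⟩
  · rw [hord]
    exact ((Fact.out : p.Prime).coprime_iff_not_dvd.2 S.not_dvd_index).symm
  · have hgw : ((h : H) : H ⧸ (S : Subgroup H)) ∈ Subgroup.zpowers ((w : H) : H ⧸ (S : Subgroup H)) := by
      have : Subgroup.zpowers ((w : H) : H ⧸ (S : Subgroup H)) = ⊤ :=
        Subgroup.eq_top_of_card_eq _ (by rw [Nat.card_zpowers, hwq, hm, Subgroup.index_eq_card])
      rw [this]; exact Subgroup.mem_top _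
    obtain ⟨i, hi⟩ := hgw
    have hi : ((w : H) : H ⧸ (S : Subgroup H)) ^ i = h := hi
    rw [← QuotientGroup.mk_zpow] at hi
    exact ⟨(w ^ i)⁻¹ * h, QuotientGroup.eq.1 hi, i, (mul_inv_cancel_left _ _).symm⟩

/-- A central cyclic normal Sylow subgroup with cyclic quotient forces cyclicity. -/
theorem isCyclic_of_commute {H : Type*} [Group H] [Finite H] (S : Sylow p H)
    (hS : IsCyclic (S : Subgroup H)) {w : H} (hw : orderOf w = (S : Subgroup H).index)
    (hcop : (orderOf w).Coprime p) (hcomm : ∀ s ∈ (S : Subgroup H), w * s = s * w) : IsCyclic H := by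
  obtain ⟨s, hs⟩ := hS.exists_generator
  have hsord : orderOf (s : H) = Nat.card (S : Subgroup H) := by
    rw [Subgroup.orderOf_coe, orderOf_eq_card_of_forall_mem_zpowers hs]
  refine isCyclic_of_orderOf_eq_card (w * s) ?_
  rw [Commute.orderOf_mul_eq_mul_orderOf_of_coprime (hcomm s s.2)]
  · rw [hw, hsord, mul_comm, Subgroup.card_mul_index]
  · obtain ⟨k, hk⟩ := IsPGroup.iff_card.1 S.2
    rw [hsord, hk]
    exact hcop.pow_right k

omit [Finite G] in
theorem mem_conj_iff {g x : G} {K : Subgroup G} :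
    x ∈ K.map (MulAut.conj g).toMonoidHom ↔ g⁻¹ * x * g ∈ K := by
  constructor
  · rintro ⟨y, hy, rfl⟩
    show g⁻¹ * (g * y * g⁻¹) * g ∈ K
    simpa [mul_assoc] using hy
  · intro h
    refine ⟨_, h, ?_⟩
    show g * (g⁻¹ * x * g) * g⁻¹ = x
    group

/-! ### Odd `p` -/

/-- Elements normalizing but not centralizing a `p`-subgroup are inverting involutions. -/
theorem inverting_of_restricted (hp : p ≠ 2)
    (h : ∀ H : Subgroup G, PByCyclic p H →
      IsCyclic H ∨ ∃ n : ℕ, Nonempty (H ≃* DihedralGroup (p ^ n)))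
    {X : Subgroup G} (hX : IsPGroup p X) {y : G} (hy : y ∈ Subgroup.normalizer (X : Set G))
    (hy' : y ∉ Subgroup.centralizer (X : Set G)) :
    orderOf y = 2 ∧ ∀ a ∈ X, y * a * y⁻¹ = a⁻¹ := by
  set H := X ⊔ Subgroup.zpowers y with hH
  have hyH : y ∈ H := Subgroup.mem_sup_right (Subgroup.mem_zpowers y)
  rcases h H (pByCyclic_sup_zpowers hX hy) with hc | ⟨n, ⟨e⟩⟩
  · exfalso
    haveI := hc
    refine hy' (Subgroup.mem_centralizer_iff.2 fun a ha => ?_)
    exact congrArg Subtype.val (mul_comm' (⟨a, Subgroup.mem_sup_left ha⟩ : H) ⟨y, hyH⟩)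
  have hrot : ∀ a (ha : a ∈ X), ∃ i, e ⟨a, Subgroup.mem_sup_left ha⟩ = DihedralGroup.r i := by
    intro a ha
    rcases hE : e ⟨a, Subgroup.mem_sup_left ha⟩ with i | i
    · exact ⟨i, rfl⟩
    · exfalso
      have h2 : orderOf a = 2 := by
        rw [← Subgroup.orderOf_mk a (Subgroup.mem_sup_left ha : a ∈ H), ← MulEquiv.orderOf_eq e, hE,
          DihedralGroup.orderOf_sr]
      obtain ⟨k, hk⟩ := IsPGroup.iff_orderOf.1 hX ⟨a, ha⟩
      rw [Subgroup.orderOf_mk, h2] at hk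
      exact hp ((Nat.prime_dvd_prime_iff_eq Nat.prime_two Fact.out).1
        (Nat.prime_two.dvd_of_dvd_pow (dvd_of_eq hk))).symm
  rcases hY : e ⟨y, hyH⟩ with j | j
  · exfalso
    refine hy' (Subgroup.mem_centralizer_iff.2 fun a ha => ?_)
    obtain ⟨i, hi⟩ := hrot a ha
    have : (⟨a, Subgroup.mem_sup_left ha⟩ : H) * ⟨y, hyH⟩ = ⟨y, hyH⟩ * ⟨a, Subgroup.mem_sup_left ha⟩ :=
      e.injective (by rw [map_mul, map_mul, hi, hY, DihedralGroup.r_mul_r, DihedralGroup.r_mul_r, add_comm])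
    exact congrArg Subtype.val this
  · refine ⟨?_, fun a ha => ?_⟩
    · rw [← Subgroup.orderOf_mk y hyH, ← MulEquiv.orderOf_eq e, hY, DihedralGroup.orderOf_sr]
    · obtain ⟨i, hi⟩ := hrot a ha
      have : (⟨y, hyH⟩ : H) * ⟨a, Subgroup.mem_sup_left ha⟩ =
          (⟨a, Subgroup.mem_sup_left ha⟩ : H)⁻¹ * ⟨y, hyH⟩ :=
        e.injective (by
          rw [map_mul, map_mul, map_inv, hi, hY, DihedralGroup.inv_r, DihedralGroup.sr_mul_r,
            DihedralGroup.r_mul_sr, sub_neg_eq_add])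
      exact mul_inv_eq_iff_eq_mul.2 (congrArg Subtype.val this)

theorem restricted_forward (hp : p ≠ 2) (P : Sylow p G)
    (h : ∀ H : Subgroup G, PByCyclic p H →
      IsCyclic H ∨ ∃ n : ℕ, Nonempty (H ≃* DihedralGroup (p ^ n))) :
    IsCyclic P ∧
      (Subgroup.normalizer ((P : Subgroup G) : Set G) = Subgroup.centralizer ((P : Subgroup G) : Set G) ∨
       ((Subgroup.centralizer ((P : Subgroup G) : Set G)).relIndex (Subgroup.normalizer ((P : Subgroup G) : Set G)) = 2 ∧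
        ∀ Q : Subgroup G, Q ≤ P → Nat.card Q = p →
          IsMulCommutative ↥(Subgroup.centralizer (Q : Set G)) ∧
          ∀ x : G, x ∈ Subgroup.normalizer (Q : Set G) → x ∉ Subgroup.centralizer (Q : Set G) →
            orderOf x = 2 ∧ ∀ c : G, c ∈ Subgroup.centralizer (Q : Set G) → x * c * x⁻¹ = c⁻¹)) := by
  refine ⟨?_, ?_⟩
  · have h1 := pByCyclic_sup_zpowers (X := (P : Subgroup G)) P.2 (y := 1) (one_mem _)
    rw [Subgroup.zpowers_one_eq_bot, sup_bot_eq] at h1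
    rcases h _ h1 with hc | ⟨n, ⟨e⟩⟩
    · exact hc
    · exfalso
      obtain ⟨k, hk⟩ := IsPGroup.iff_card.1 P.2
      have := Nat.card_congr e.toEquiv
      rw [DihedralGroup.nat_card, hk] at this
      exact hp ((Nat.prime_dvd_prime_iff_eq Nat.prime_two Fact.out).1
        (Nat.prime_two.dvd_of_dvd_pow ⟨p ^ n, this⟩)).symm
  set N := Subgroup.normalizer ((P : Subgroup G) : Set G) with hN
  set C := Subgroup.centralizer ((P : Subgroup G) : Set G) with hC
  have hCN : C ≤ N := Subgroup.centralizer_le_normalizer _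
  by_cases hNC : N ≤ C
  · exact Or.inl (le_antisymm hNC hCN)
  obtain ⟨y, hyN, hyC⟩ := SetLike.not_le_iff_exists.1 hNC
  obtain ⟨hy2, hyinv⟩ := inverting_of_restricted hp h P.2 hyN hyC
  refine Or.inr ⟨?_, fun Q hQP hQ => ?_⟩
  · rw [Subgroup.relIndex, Subgroup.index_eq_two_iff]
    refine ⟨⟨y, hyN⟩, fun b => ?_⟩
    by_cases hb : b ∈ C.subgroupOf N
    · refine Or.inr ⟨hb, fun h' => hyC ?_⟩
      have := mul_mem (inv_mem hb) h'
      rw [inv_mul_cancel_left] at this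
      exact this
    refine Or.inl ⟨?_, hb⟩
    rw [Subgroup.mem_subgroupOf, hC, Subgroup.mem_centralizer_iff]
    intro a ha
    obtain ⟨-, hbinv⟩ := inverting_of_restricted hp h P.2 b.2 (fun hb' => hb (Subgroup.mem_subgroupOf.2 hb'))
    show a * ((b : G) * y) = (b : G) * y * a
    rw [eq_comm, ← mul_inv_eq_iff_eq_mul]
    calc (b : G) * y * a * ((b : G) * y)⁻¹ = b * (y * a * y⁻¹) * (b : G)⁻¹ := by group
      _ = (b * a * (b : G)⁻¹)⁻¹ := by rw [hyinv a ha]; group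
      _ = a := by rw [hbinv a ha, inv_inv]
  · have hQp : IsPGroup p Q := P.2.to_le hQP
    have hinvol : ∀ x, x ∈ Subgroup.normalizer (Q : Set G) → x ∉ Subgroup.centralizer (Q : Set G) →
        orderOf x = 2 ∧ ∀ c : G, c ∈ Subgroup.centralizer (Q : Set G) → x * c * x⁻¹ = c⁻¹ := by
      intro x hx hx'
      obtain ⟨hx2, -⟩ := inverting_of_restricted hp h hQp hx hx'
      refine ⟨hx2, fun c hc => ?_⟩
      have hxc : x * c ∈ Subgroup.normalizer (Q : Set G) :=
        mul_mem hx (Subgroup.centralizer_le_normalizer _ hc)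
      have hxc' : x * c ∉ Subgroup.centralizer (Q : Set G) := fun h' => hx' (by
        have := mul_mem h' (inv_mem hc)
        rwa [mul_inv_cancel_right] at this)
      obtain ⟨h2, -⟩ := inverting_of_restricted hp h hQp hxc hxc'
      have e1 : x⁻¹ = x := inv_eq_of_mul_eq_one_right (by
        rw [← pow_two, ← hx2, pow_orderOf_eq_one])
      have e2 : x * c * (x * c) = 1 := by rw [← pow_two, ← h2, pow_orderOf_eq_one]
      rw [e1]
      exact eq_inv_of_mul_eq_one_left (by rw [mul_assoc]; exact e2)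
    refine ⟨?_, hinvol⟩
    have hyQ : y ∈ Subgroup.normalizer (Q : Set G) := by
      refine Subgroup.mem_normalizer_iff_map_conj_eq.2 (Subgroup.eq_of_le_of_card_ge ?_
        (Subgroup.card_map_of_injective (MulAut.conj y).injective).ge)
      rintro _ ⟨a, ha, rfl⟩
      show y * a * y⁻¹ ∈ Q
      rw [hyinv a (hQP ha)]
      exact inv_mem ha
    have hyQ' : y ∉ Subgroup.centralizer (Q : Set G) := fun hc => by
      obtain ⟨a, ha⟩ := exists_prime_orderOf_dvd_card' p (G := Q) hQ.symm.dvd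
      have h1 := hyinv a (hQP a.2)
      rw [← Subgroup.mem_centralizer_iff.1 hc a a.2, mul_inv_cancel_right] at h1
      have h2 : orderOf (a : G) ∣ 2 := orderOf_dvd_of_pow_eq_one (by
        rw [pow_two]; exact eq_inv_iff_mul_eq_one.1 h1)
      rw [Subgroup.orderOf_coe, ha] at h2
      exact hp ((Nat.prime_dvd_prime_iff_eq Fact.out Nat.prime_two).1 h2)
    obtain ⟨-, hinv⟩ := hinvol y hyQ hyQ'
    refine ⟨⟨fun a b => Subtype.ext ?_⟩⟩
    have h1 := hinv _ (mul_mem a.2 b.2)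
    rw [show y * ((a : G) * b) * y⁻¹ = (y * a * y⁻¹) * (y * b * y⁻¹) by group, hinv _ a.2, hinv _ b.2,
      ← mul_inv_rev] at h1
    exact (inv_injective h1).symm

theorem restricted_backward (hp : p ≠ 2) (P : Sylow p G) (hPc : IsCyclic P)
    (hcond : Subgroup.normalizer ((P : Subgroup G) : Set G) = Subgroup.centralizer ((P : Subgroup G) : Set G) ∨
      ∀ Q : Subgroup G, Q ≤ P → Nat.card Q = p →
          IsMulCommutative ↥(Subgroup.centralizer (Q : Set G)) ∧
          ∀ x : G, x ∈ Subgroup.normalizer (Q : Set G) → x ∉ Subgroup.centralizer (Q : Set G) →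
            orderOf x = 2 ∧ ∀ c : G, c ∈ Subgroup.centralizer (Q : Set G) → x * c * x⁻¹ = c⁻¹)
    {H : Subgroup G} (hH : PByCyclic p H) :
    IsCyclic H ∨ ∃ n : ℕ, Nonempty (H ≃* DihedralGroup (p ^ n)) := by
  obtain ⟨S⟩ : Nonempty (Sylow p H) := inferInstance
  haveI := hH.1 S
  haveI := hH.2 S
  obtain ⟨w, hw, hwp, hgen⟩ := exists_complement_generator S
  set S' := (S : Subgroup H).map H.subtype with hS'
  have hS'p : IsPGroup p S' := S.2.map _
  obtain ⟨R, hR⟩ := hS'p.exists_le_sylow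
  obtain ⟨g, hg⟩ := MulAction.exists_smul_eq G P R
  have hRP : ∀ x : G, x ∈ (R : Subgroup G) → g⁻¹ * x * g ∈ (P : Subgroup G) := by
    intro x hx
    rw [← hg, Sylow.coe_subgroup_smul] at hx
    obtain ⟨y, hy, rfl⟩ := hx
    show g⁻¹ * (g * y * g⁻¹) * g ∈ (P : Subgroup G)
    rw [show g⁻¹ * (g * y * g⁻¹) * g = y by group]
    exact hy
  haveI hScyc : IsCyclic (S : Subgroup H) := by
    haveI := hPc
    let f : (S : Subgroup H) →* (P : Subgroup G) :=
      MonoidHom.mk' (fun s => ⟨g⁻¹ * ((s : H) : G) * g, hRP _ (hR ⟨s, s.2, rfl⟩)⟩)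
        fun a b => Subtype.ext (by
          show g⁻¹ * (((a : H) : G) * ((b : H) : G)) * g = g⁻¹ * _ * g * (g⁻¹ * _ * g)
          group)
    refine isCyclic_of_injective f fun a b hab => Subtype.ext (Subtype.ext ?_)
    exact mul_left_cancel (mul_right_cancel (congrArg Subtype.val hab))
  by_cases hcomm : ∀ s ∈ (S : Subgroup H), w * s = s * w
  · exact Or.inl (isCyclic_of_commute S hScyc hw hwp hcomm)
  obtain ⟨s₀, hs₀⟩ := hScyc.exists_generator
  set s : G := ((s₀ : H) : G) with hs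
  have hsS' : s ∈ S' := ⟨s₀, s₀.2, rfl⟩
  have hwsS : ∀ u ∈ S', (w : G) * u * (w : G)⁻¹ ∈ S' := by
    rintro _ ⟨u, hu, rfl⟩
    exact ⟨w * u * w⁻¹, (inferInstance : (S : Subgroup H).Normal).conj_mem u hu w, rfl⟩
  have hS'z : S' = Subgroup.zpowers s := by
    refine le_antisymm ?_ (Subgroup.zpowers_le.2 hsS')
    rintro _ ⟨u, hu, rfl⟩
    obtain ⟨i, hi⟩ := hs₀ ⟨u, hu⟩
    exact ⟨i, congrArg (fun v : (S : Subgroup H) => ((v : H) : G)) hi⟩
  rcases hcond with hNC | hcond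
  · exfalso
    refine hcomm fun u hu => ?_
    obtain ⟨O, hOn, hdisj, hOmem⟩ := exists_burnside_kernel P hNC.le
    have hwO : (w : G) ∈ O := hOmem _ (by rwa [Subgroup.orderOf_coe])
    have h1 : (w : G) * u * (w : G)⁻¹ * (u : G)⁻¹ ∈ S' :=
      mul_mem (hwsS _ ⟨u, hu, rfl⟩) (inv_mem ⟨u, hu, rfl⟩)
    have h2 : (w : G) * u * (w : G)⁻¹ * (u : G)⁻¹ ∈ O := by
      rw [show (w : G) * u * (w : G)⁻¹ * (u : G)⁻¹ = w * ((u : G) * (w : G)⁻¹ * (u : G)⁻¹) by group]
      exact mul_mem hwO (hOn.conj_mem _ (inv_mem hwO) _)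
    have h3 : g⁻¹ * ((w : G) * u * (w : G)⁻¹ * (u : G)⁻¹) * g ∈ O ⊓ (P : Subgroup G) :=
      ⟨by simpa using hOn.conj_mem _ h2 g⁻¹, hRP _ (hR h1)⟩
    rw [hdisj, Subgroup.mem_bot] at h3
    have h4 : (w : G) * u * (w : G)⁻¹ * (u : G)⁻¹ = 1 := by
      have := congrArg (fun v => g * v * g⁻¹) h3
      simpa [mul_assoc] using this
    refine Subtype.ext ?_
    exact mul_inv_eq_iff_eq_mul.1 (mul_inv_eq_one.1 h4)
  -- the subgroup of order `p` of `S'`
  have hs1 : s ≠ 1 := fun h1 => hcomm fun u hu => by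
    have hu' : (u : G) ∈ S' := ⟨u, hu, rfl⟩
    rw [hS'z, h1, Subgroup.zpowers_one_eq_bot, Subgroup.mem_bot] at hu'
    rw [Subtype.ext (show (u : G) = ((1 : H) : G) by rw [hu']; rfl), mul_one, one_mul]
  obtain ⟨k, hk⟩ : ∃ k, orderOf s = p ^ k := by
    obtain ⟨k, hk⟩ := IsPGroup.iff_orderOf.1 hS'p ⟨s, hsS'⟩
    exact ⟨k, by rwa [Subgroup.orderOf_mk] at hk⟩
  have hk0 : k ≠ 0 := fun h0 => hs1 (orderOf_eq_one_iff.1 (by rw [hk, h0, pow_zero]))
  obtain ⟨a, has, ha⟩ := exists_of_dvd (g := s) (d := p) (hk ▸ dvd_pow_self p hk0) (orderOf_pos s).ne'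
  set Q := Subgroup.zpowers a with hQ
  have hQS : Q ≤ S' := hS'z ▸ Subgroup.zpowers_le.2 has
  set Q₀ := Q.map (MulAut.conj g⁻¹).toMonoidHom with hQ₀
  have hQ₀P : Q₀ ≤ (P : Subgroup G) := by
    intro x hx
    rw [hQ₀, mem_conj_iff] at hx
    have h5 := hRP _ (hR (hQS hx))
    simpa [mul_assoc] using h5
  have hQ₀card : Nat.card Q₀ = p := by
    rw [hQ₀, Subgroup.card_map_of_injective (MulAut.conj g⁻¹).injective, hQ, Nat.card_zpowers, ha]
  obtain ⟨hab, hinv⟩ := hcond Q₀ hQ₀P hQ₀card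
  -- transport back
  have hcen : ∀ c : G, c ∈ Subgroup.centralizer (Q : Set G) →
      g⁻¹ * c * g ∈ Subgroup.centralizer (Q₀ : Set G) := by
    intro c hc
    rw [Subgroup.mem_centralizer_iff]
    intro x hx
    rw [SetLike.mem_coe, hQ₀, mem_conj_iff, inv_inv] at hx
    have := Subgroup.mem_centralizer_iff.1 hc _ hx
    calc x * (g⁻¹ * c * g) = g⁻¹ * ((g * x * g⁻¹) * c) * g := by group
      _ = g⁻¹ * (c * (g * x * g⁻¹)) * g := by rw [this]
      _ = _ := by group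
  have hS'C : ∀ u ∈ S', u ∈ Subgroup.centralizer (Q : Set G) := fun u hu =>
    Subgroup.mem_centralizer_iff.2 fun x hx => by
      have hx' : x ∈ Subgroup.zpowers s := hS'z ▸ hQS hx
      rw [hS'z] at hu
      obtain ⟨i, rfl⟩ := hx'
      obtain ⟨j, rfl⟩ := hu
      exact ((Commute.refl s).zpow_zpow i j).eq
  have hwQ : (w : G) ∈ Subgroup.normalizer (Q : Set G) := by
    refine Subgroup.mem_normalizer_iff_map_conj_eq.2 (Subgroup.eq_of_le_of_card_ge ?_
      (Subgroup.card_map_of_injective (MulAut.conj (w : G)).injective).ge)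
    rw [hQ, MonoidHom.map_zpowers, Subgroup.zpowers_le]
    have h1 := hwsS a (hQS (Subgroup.mem_zpowers a))
    rw [hS'z] at h1
    refine mem_of_orderOf_dvd h1 has (dvd_of_eq ?_)
    show orderOf ((MulAut.conj (w : G)) a) = orderOf a
    exact MulEquiv.orderOf_eq _ a
  have hwC : g⁻¹ * (w : G) * g ∉ Subgroup.centralizer (Q₀ : Set G) := fun hwc => hcomm fun u hu => by
    haveI := hab
    have h1 := congrArg Subtype.val (mul_comm' (⟨_, hwc⟩ : Subgroup.centralizer (Q₀ : Set G))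
      ⟨_, hcen _ (hS'C _ ⟨u, hu, rfl⟩)⟩)
    refine Subtype.ext ?_
    simp only [Subgroup.coe_mul, Subgroup.coe_subtype] at h1
    have h1 : g⁻¹ * (w : G) * g * (g⁻¹ * (u : G) * g) = g⁻¹ * (u : G) * g * (g⁻¹ * (w : G) * g) := h1
    show (w : G) * u = u * w
    calc (w : G) * u = g * (g⁻¹ * (w : G) * g * (g⁻¹ * (u : G) * g)) * g⁻¹ := by group
      _ = g * (g⁻¹ * (u : G) * g * (g⁻¹ * (w : G) * g)) * g⁻¹ := by rw [h1]
      _ = _ := by group
  have hwN : g⁻¹ * (w : G) * g ∈ Subgroup.normalizer (Q₀ : Set G) := by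
    rw [Subgroup.mem_normalizer_iff]
    intro x
    rw [hQ₀, mem_conj_iff, mem_conj_iff, inv_inv]
    have := Subgroup.mem_normalizer_iff.1 hwQ (g * x * g⁻¹)
    simpa [mul_assoc] using this
  obtain ⟨hord2, hwinv⟩ := hinv _ hwN hwC
  have hwinv' : (w : G) * s * (w : G)⁻¹ = s⁻¹ := by
    have := hwinv _ (hcen _ (hS'C _ hsS'))
    calc (w : G) * s * (w : G)⁻¹ =
        g * (g⁻¹ * (w : G) * g * (g⁻¹ * s * g) * (g⁻¹ * (w : G) * g)⁻¹) * g⁻¹ := by group
      _ = s⁻¹ := by rw [this]; group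
  have hw2 : orderOf (w : G) = 2 := by
    rw [← hord2, show g⁻¹ * (w : G) * g = MulAut.conj g⁻¹ (w : G) by simp, MulEquiv.orderOf_eq]
  have hcard : Nat.card H = 2 * p ^ k := by
    rw [← (S : Subgroup H).card_mul_index, ← hw, ← Subgroup.orderOf_coe w, hw2, mul_comm]
    congr 1
    rw [← hk, ← Nat.card_zpowers s, ← hS'z, hS', Subgroup.card_map_of_injective H.subtype_injective]
  haveI : NeZero (p ^ k) := ⟨pow_ne_zero k (Fact.out : p.Prime).ne_zero⟩
  refine Or.inr ⟨k, Cfsg.Agent.H49.nonempty_equiv_dihedral H (A := s) (B := (w : G))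
    (s₀ : H).2 w.2 hcard hk ?_ hwinv' ?_⟩
  · rw [← pow_two, ← hw2, pow_orderOf_eq_one]
  · intro hmem
    have h1 := orderOf_dvd_of_mem hmem
    rw [hw2, hk] at h1
    exact hp ((Nat.prime_dvd_prime_iff_eq Nat.prime_two Fact.out).1
      (Nat.prime_two.dvd_of_dvd_pow h1)).symm

end Cfsg.Agent.H87
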