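import Mathlib
import Cfsg.Agent.H87.PByCyclic
import Cfsg.Agent.S0228

/-!
# Groups whose 2-by-cyclic subgroups are cyclic, dihedral or `A₄`
-/

set_option autoImplicit false

open scoped Pointwise

namespace Cfsg.Agent.H87

/-- A non-cyclic 2-group embedding in a dihedral group: a cyclic part and an inverting involution. -/
theorem dihedral_shape {S : Type*} [Group S] [Finite S] {N : ℕ} [NeZero N] (hS : IsPGroup 2 S)
    (f : S →* DihedralGroup N) (hf : Function.Injective f) (hnc : ¬ IsCyclic S) :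
    ∃ c t : S, ∃ k : ℕ, 1 ≤ k ∧ orderOf c = 2 ^ k ∧ t * t = 1 ∧ t * c * t⁻¹ = c⁻¹ ∧
      t ∉ Subgroup.zpowers c ∧ Nat.card S = 2 * 2 ^ k ∧
      ∀ s : S, s ∉ Subgroup.zpowers c → orderOf s = 2 := by
  classical
  let R : Subgroup (DihedralGroup N) := Subgroup.zpowers (DihedralGroup.r 1)
  have hrmem : ∀ i : ZMod N, DihedralGroup.r i ∈ R := fun i =>
    ⟨i.val, by
      show DihedralGroup.r (1 : ZMod N) ^ ((i.val : ℕ) : ℤ) = _
      rw [zpow_natCast, DihedralGroup.r_one_pow, ZMod.natCast_rightInverse]⟩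
  set C := R.comap f with hC
  haveI hCc : IsCyclic C := by
    haveI : IsCyclic R := inferInstance
    exact isCyclic_of_injective (f.subgroupComap R) fun a b h =>
      Subtype.ext (hf (congrArg Subtype.val h))
  have hout : ∀ s : S, s ∉ C → ∃ i, f s = DihedralGroup.sr i := by
    intro s hs
    rcases hE : f s with i | i
    · exact absurd (show s ∈ C by rw [hC, Subgroup.mem_comap, hE]; exact hrmem i) hs
    · exact ⟨i, rfl⟩
  obtain ⟨t, ht⟩ : ∃ t : S, t ∉ C := by
    by_contra h
    push_neg at h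
    haveI := hCc
    exact hnc (isCyclic_of_surjective C.subtype fun s => ⟨⟨s, h s⟩, rfl⟩)
  obtain ⟨it, hit⟩ := hout t ht
  obtain ⟨c₀, hc₀⟩ := hCc.exists_generator
  set c : S := (c₀ : S) with hc
  have hCz : C = Subgroup.zpowers c := by
    refine le_antisymm (fun x hx => ?_) (Subgroup.zpowers_le.2 c₀.2)
    obtain ⟨i, hi⟩ := hc₀ ⟨x, hx⟩
    exact ⟨i, congrArg Subtype.val hi⟩
  obtain ⟨ic, hic⟩ : ∃ i, f c = DihedralGroup.r i := by
    rcases hE : f c with i | i
    · exact ⟨i, rfl⟩
    · exfalso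
      have h1 : f c ∈ R := c₀.2
      rw [hE] at h1
      obtain ⟨j, hj⟩ := h1
      rcases Int.eq_nat_or_neg j with ⟨m, rfl | rfl⟩
      · simp only [zpow_natCast, DihedralGroup.r_one_pow] at hj
        cases hj
      · simp only [zpow_neg, zpow_natCast, DihedralGroup.r_one_pow, DihedralGroup.inv_r] at hj
        cases hj
  have hinv : t * c * t⁻¹ = c⁻¹ := hf (by
    rw [map_mul, map_mul, map_inv, map_inv, hit, hic, DihedralGroup.inv_sr, DihedralGroup.inv_r,
      DihedralGroup.sr_mul_r, DihedralGroup.sr_mul_sr]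
    congr 1
    ring)
  have hord : ∀ s : S, s ∉ C → orderOf s = 2 := fun s hs => by
    obtain ⟨i, hi⟩ := hout s hs
    rw [← orderOf_injective f hf, hi, DihedralGroup.orderOf_sr]
  have hidx : C.index = 2 := by
    rw [Subgroup.index_eq_two_iff]
    refine ⟨t, fun b => ?_⟩
    by_cases hb : b ∈ C
    · refine Or.inr ⟨hb, fun h' => ht ?_⟩
      have := C.mul_mem (C.inv_mem hb) h'
      rwa [inv_mul_cancel_left] at this
    · obtain ⟨i, hi⟩ := hout b hb
      refine Or.inl ⟨?_, hb⟩
      rw [hC, Subgroup.mem_comap, map_mul, hi, hit, DihedralGroup.sr_mul_sr]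
      exact hrmem _
  obtain ⟨k, hk⟩ := IsPGroup.iff_orderOf.1 hS c
  have hcard : Nat.card S = 2 * 2 ^ k := by
    rw [← C.card_mul_index, hidx, hCz, Nat.card_zpowers, hk, mul_comm]
  refine ⟨c, t, k, Nat.pos_of_ne_zero fun h0 => hnc ?_, hk, ?_, hinv, hCz ▸ ht, hcard,
    fun s hs => hord s (hCz ▸ hs)⟩
  · exact isCyclic_of_prime_card (p := 2) (by rw [hcard, h0]; rfl)
  · rw [← pow_two, ← hord t ht, pow_orderOf_eq_one]

/-- Odd order automorphisms of a dihedral 2-group of order at least 8 are trivial. -/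
theorem aut_eq_one_of_dihedral_shape {S : Type*} [Group S] [Finite S] {c t : S} {k : ℕ} (hk : 2 ≤ k)
    (hc : orderOf c = 2 ^ k) (ht : t ∉ Subgroup.zpowers c) (hcard : Nat.card S = 2 * 2 ^ k)
    (hout : ∀ s : S, s ∉ Subgroup.zpowers c → orderOf s = 2) (θ : MulAut S) {m : ℕ} (hm : Odd m)
    (hθm : θ ^ m = 1) : θ = 1 := by
  have h2 : orderOf c ≠ 2 := by
    rw [hc]
    intro h
    have := Nat.pow_right_injective le_rfl (show 2 ^ k = 2 ^ 1 by rw [h, pow_one])
    omega
  have hCinv : ∀ x ∈ Subgroup.zpowers c, θ x ∈ Subgroup.zpowers c := by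
    intro x hx
    have hθc : θ c ∈ Subgroup.zpowers c := by
      by_contra h
      exact h2 (by rw [← MulEquiv.orderOf_eq θ]; exact hout _ h)
    obtain ⟨i, rfl⟩ := hx
    rw [map_zpow]
    exact zpow_mem hθc i
  let g : Subgroup.zpowers c →* Subgroup.zpowers c :=
    MonoidHom.mk' (fun x => ⟨θ x, hCinv x x.2⟩) fun x y => Subtype.ext (map_mul θ _ _)
  let θ' : MulAut (Subgroup.zpowers c) := MulEquiv.ofBijective g
    (Finite.injective_iff_bijective.1 fun x y h => Subtype.ext (θ.injective (congrArg Subtype.val h)))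
  have hθ' : ∀ (j : ℕ) (x : Subgroup.zpowers c), (((θ' ^ j) x : Subgroup.zpowers c) : S) = (θ ^ j) x := by
    intro j
    induction j with
    | zero => intro x; rfl
    | succ j ih =>
      intro x
      rw [pow_succ', MulAut.mul_apply, pow_succ', MulAut.mul_apply, ← ih]
      rfl
  have hθ'1 : θ' = 1 := by
    rw [← orderOf_eq_one_iff]
    refine Nat.eq_one_of_dvd_coprimes (a := m) (b := 2 ^ (k - 1)) ?_ ?_ ?_
    · exact (Nat.prime_two.coprime_iff_not_dvd.2 hm.not_two_dvd_nat).symm.pow_right _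
    · exact orderOf_dvd_of_pow_eq_one (MulEquiv.ext fun x => Subtype.ext (by rw [hθ', hθm]; rfl))
    · have h1 : Nat.card (MulAut (Subgroup.zpowers c)) = 2 ^ (k - 1) := by
        rw [IsCyclic.card_mulAut, Nat.card_zpowers, hc, Nat.totient_prime_pow Nat.prime_two (by omega)]
        norm_num
      exact h1 ▸ orderOf_dvd_natCard θ'
  have hfixC : ∀ x ∈ Subgroup.zpowers c, θ x = x := fun x hx => by
    have := congrArg (fun e : MulAut (Subgroup.zpowers c) => ((e ⟨x, hx⟩ : Subgroup.zpowers c) : S)) hθ'1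
    exact this
  have hidx : (Subgroup.zpowers c).index = 2 := by
    have := (Subgroup.zpowers c).card_mul_index
    rw [hcard, Nat.card_zpowers, hc] at this
    exact Nat.eq_of_mul_eq_mul_left (show 0 < 2 ^ k by positivity) (by rw [this]; ring)
  obtain ⟨x, hx, hxt⟩ : ∃ x ∈ Subgroup.zpowers c, θ t = t * x := by
    refine ⟨t⁻¹ * θ t, ?_, (mul_inv_cancel_left _ _).symm⟩
    rw [Subgroup.mul_mem_iff_of_index_two hidx, inv_mem_iff]
    refine iff_of_false ht fun h => ht ?_
    have h' := hfixC _ h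
    rw [θ.injective h'] at h
    exact h
  have hit : ∀ j : ℕ, (θ ^ j) t = t * x ^ j := by
    intro j
    induction j with
    | zero => simp
    | succ j ih =>
      rw [pow_succ', MulAut.mul_apply, ih, map_mul, hxt, map_pow, hfixC x hx, pow_succ' x, mul_assoc]
  have hx1 : x = 1 := by
    have h1 := hit m
    rw [hθm, MulAut.one_apply, left_eq_mul] at h1
    have h3 := orderOf_dvd_of_mem hx
    rw [hc] at h3
    exact orderOf_eq_one_iff.1 (Nat.eq_one_of_dvd_coprimes
      ((Nat.prime_two.coprime_iff_not_dvd.2 hm.not_two_dvd_nat).symm.pow_right k)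
      (orderOf_dvd_of_pow_eq_one h1) h3)
  refine MulEquiv.ext fun s => ?_
  show θ s = s
  by_cases hs : s ∈ Subgroup.zpowers c
  · exact hfixC s hs
  · have h1 : t⁻¹ * s ∈ Subgroup.zpowers c := by
      rw [Subgroup.mul_mem_iff_of_index_two hidx, inv_mem_iff]
      exact iff_of_false ht hs
    rw [show s = t * (t⁻¹ * s) by group, map_mul, hfixC _ h1, hxt, hx1, mul_one]

/-- Odd order automorphisms of a four group. -/
theorem four_group_aut {S : Type*} [Group S] [Finite S] (hcard : Nat.card S = 4)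
    (hexp : ∀ u : S, u * u = 1) (θ : MulAut S) {m : ℕ} (hm : Odd m) (hθm : θ ^ m = 1) :
    θ ^ 3 = 1 ∧ ∀ u : S, u ≠ 1 → θ u = u → θ = 1 := by
  classical
  haveI := Fintype.ofFinite S
  refine ⟨?_, fun u hu hfix => ?_⟩
  · let ρ : MulAut S →* Equiv.Perm {x : S // x ≠ 1} :=
      MonoidHom.mk' (fun φ => φ.toEquiv.subtypeEquiv fun x => by
        show x ≠ 1 ↔ φ x ≠ 1
        exact not_congr (MulEquiv.map_eq_one_iff φ).symm) fun φ ψ => by
          ext x; rfl
    have hρ : Function.Injective ρ := fun φ ψ h => MulEquiv.ext fun x => by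
      by_cases hx : x = 1
      · rw [hx, map_one, map_one]
      · exact congrArg (fun e : Equiv.Perm {x : S // x ≠ 1} => ((e ⟨x, hx⟩ : {x : S // x ≠ 1}) : S)) h
    have h6 : Nat.card (Equiv.Perm {x : S // x ≠ 1}) = 6 := by
      rw [Nat.card_perm, Nat.card_eq_fintype_card, Fintype.card_subtype_compl, Fintype.card_subtype_eq,
        ← Nat.card_eq_fintype_card, hcard]
      rfl
    have h1 : orderOf θ ∣ 6 := by
      rw [← orderOf_injective ρ hρ θ, ← h6]; exact orderOf_dvd_natCard _
    refine orderOf_dvd_iff_pow_eq_one.1 ?_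
    have hcop : (orderOf θ).Coprime 2 :=
      (Nat.coprime_two_right.2 hm).coprime_dvd_left (orderOf_dvd_of_pow_eq_one hθm)
    exact hcop.dvd_of_dvd_mul_left (show orderOf θ ∣ 2 * 3 from h1)
  · have hθ2 : θ ^ 2 = 1 := by
      refine MulEquiv.ext fun v => ?_
      show θ (θ v) = v
      by_cases hv : v = 1
      · rw [hv, map_one, map_one]
      by_cases hvu : v = u
      · rw [hvu, hfix, hfix]
      have h14 : u ≠ u * v := fun h => hv (left_eq_mul.1 h)
      have h15 : v ≠ u * v := fun h => hu (right_eq_mul.1 h)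
      have h13 : (1 : S) ≠ u * v := fun h => hvu (mul_left_cancel (h.symm.trans (hexp u).symm))
      have huniv : ({1, u, v, u * v} : Finset S) = Finset.univ := by
        refine Finset.eq_univ_of_card _ ?_
        rw [← Nat.card_eq_fintype_card, hcard]
        simp [Ne.symm hu, Ne.symm hv, h13, Ne.symm hvu, h14, h15]
      have hmem : θ v ∈ ({1, u, v, u * v} : Finset S) := huniv ▸ Finset.mem_univ _
      simp only [Finset.mem_insert, Finset.mem_singleton] at hmem
      rcases hmem with h | h | h | h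
      · exact absurd ((MulEquiv.map_eq_one_iff θ).1 h) hv
      · exact absurd (θ.injective (h.trans hfix.symm)) hvu
      · rw [h, h]
      · rw [h, map_mul, hfix, h, ← mul_assoc, hexp, one_mul]
    obtain ⟨j, hj⟩ := hm
    rw [← hθm, hj, pow_succ, pow_mul, hθ2, one_pow, one_mul]

variable {G : Type*} [Group G] [Finite G]

theorem restricted_two_forward (P : Sylow 2 G)
    (h : ∀ H : Subgroup G, PByCyclic 2 H →
      IsCyclic H ∨ (∃ n : ℕ, Nonempty (H ≃* DihedralGroup (2 ^ n))) ∨
        Nonempty (H ≃* alternatingGroup (Fin 4))) :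
    IsCyclic P ∨
      ((∃ n : ℕ, 1 ≤ n ∧ Nonempty ((P : Subgroup G) ≃* DihedralGroup (2 ^ n))) ∧
        ∀ K : Subgroup G, K ≤ P → Nat.card K = 4 → (∀ k ∈ K, k ^ 2 = 1) →
          Subgroup.centralizer (K : Set G) = K) := by
  have hA4 : Nat.card (alternatingGroup (Fin 4)) = 12 := by
    rw [Nat.card_eq_fintype_card]; decide +kernel
  have h1 := pByCyclic_sup_zpowers (X := (P : Subgroup G)) P.2 (y := 1) (one_mem _)
  rw [Subgroup.zpowers_one_eq_bot, sup_bot_eq] at h1
  rcases h _ h1 with hc | ⟨n, ⟨e⟩⟩ | ⟨⟨e⟩⟩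
  · exact Or.inl hc
  swap
  · exfalso
    obtain ⟨k, hk⟩ := IsPGroup.iff_card.1 P.2
    have := Nat.card_congr e.toEquiv
    rw [hk, hA4] at this
    have h3 : 3 ∣ 2 ^ k := ⟨4, this⟩
    exact absurd ((Nat.prime_dvd_prime_iff_eq Nat.prime_three Nat.prime_two).1
      (Nat.prime_three.dvd_of_dvd_pow h3)) (by norm_num)
  rcases Nat.eq_zero_or_pos n with rfl | hn
  · left
    exact isCyclic_of_prime_card (p := 2) (by rw [Nat.card_congr e.toEquiv, DihedralGroup.nat_card]; rfl)
  refine Or.inr ⟨⟨n, hn, ⟨e⟩⟩, fun K hKP hK4 hK2 => ?_⟩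
  have hKinv : ∀ a ∈ K, a⁻¹ = a := fun a ha =>
    inv_eq_of_mul_eq_one_right (by rw [← pow_two]; exact hK2 a ha)
  have hKcomm : ∀ a ∈ K, ∀ b ∈ K, a * b = b * a := fun a ha b hb => by
    calc a * b = (a * b)⁻¹ := (hKinv _ (K.mul_mem ha hb)).symm
      _ = b * a := by rw [mul_inv_rev, hKinv a ha, hKinv b hb]
  refine le_antisymm (fun y hy => ?_)
    fun a ha => Subgroup.mem_centralizer_iff.2 fun b hb => hKcomm b hb a ha
  have hKp : IsPGroup 2 K := IsPGroup.of_card (n := 2) hK4
  set H := K ⊔ Subgroup.zpowers y with hH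
  have hKH : K ≤ H := le_sup_left
  have hyH : y ∈ H := Subgroup.mem_sup_right (Subgroup.mem_zpowers y)
  let S : Subgroup G :=
    { carrier := {x | (∀ a ∈ K, x * a = a * x) ∧ x * y = y * x}
      one_mem' := ⟨fun a _ => by simp, by simp⟩
      mul_mem' := fun {u v} hu hv => ⟨fun a ha =>
          ((show Commute u a from hu.1 a ha).mul_left (hv.1 a ha)).eq,
        ((show Commute u y from hu.2).mul_left hv.2).eq⟩
      inv_mem' := fun {u} hu => ⟨fun a ha => (show Commute u a from hu.1 a ha).inv_left.eq,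
        (show Commute u y from hu.2).inv_left.eq⟩ }
  have hyK : ∀ a ∈ K, y * a = a * y := fun a ha => (Subgroup.mem_centralizer_iff.1 hy a ha).symm
  have hHS : H ≤ S := sup_le (fun a ha => ⟨hKcomm a ha, (hyK a ha).symm⟩)
    (Subgroup.zpowers_le.2 ⟨hyK, rfl⟩)
  have hHab : ∀ u v : H, u * v = v * u := by
    intro u v
    let T : Subgroup G := Subgroup.centralizer {(u : G)}
    have hT : H ≤ T := sup_le
      (fun a ha => Subgroup.mem_centralizer_singleton_iff.2 ((hHS u.2).1 a ha).symm)
      (Subgroup.zpowers_le.2 (Subgroup.mem_centralizer_singleton_iff.2 (hHS u.2).2.symm))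
    exact Subtype.ext (Subgroup.mem_centralizer_singleton_iff.1 (hT v.2)).symm
  rcases h H (pByCyclic_sup_zpowers hKp (Subgroup.centralizer_le_normalizer _ hy)) with
    hc | ⟨m, ⟨e'⟩⟩ | ⟨⟨e'⟩⟩
  · exfalso
    haveI := hc
    haveI : IsCyclic K := isCyclic_of_injective (Subgroup.inclusion hKH) (Subgroup.inclusion_injective hKH)
    obtain ⟨a, ha⟩ := IsCyclic.exists_generator (α := K)
    have h4 := orderOf_eq_card_of_forall_mem_zpowers ha
    rw [hK4, ← Subgroup.orderOf_coe] at h4
    have := orderOf_dvd_of_pow_eq_one (hK2 a a.2)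
    rw [h4] at this
    norm_num at this
  · have hm : m ≤ 1 := by
      by_contra hm
      have h1 := hHab (e'.symm (DihedralGroup.sr 0)) (e'.symm (DihedralGroup.r 1))
      rw [← map_mul, ← map_mul] at h1
      have h2 := e'.symm.injective h1
      simp only [DihedralGroup.sr_mul_r, DihedralGroup.r_mul_sr, DihedralGroup.sr.injEq, zero_add,
        zero_sub] at h2
      have h3 : ((2 : ℕ) : ZMod (2 ^ m)) = 0 := by
        push_cast
        linear_combination h2
      rw [ZMod.natCast_eq_zero_iff] at h3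
      have h5 : 2 ^ 2 ≤ 2 ^ m := Nat.pow_le_pow_right two_pos (by omega)
      have := Nat.le_of_dvd two_pos h3
      norm_num at h5
      omega
    have hle : Nat.card H ≤ Nat.card K := by
      rw [hK4, Nat.card_congr e'.toEquiv, DihedralGroup.nat_card]
      calc 2 * 2 ^ m ≤ 2 * 2 ^ 1 := Nat.mul_le_mul_left _ (Nat.pow_le_pow_right two_pos hm)
        _ = 4 := rfl
    rwa [Subgroup.eq_of_le_of_card_ge hKH hle]
  · exfalso
    have h2 : ¬ ∀ u v : alternatingGroup (Fin 4), u * v = v * u := by decide +kernel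
    exact h2 fun u v => e'.symm.injective (by rw [map_mul, map_mul]; exact hHab _ _)

theorem restricted_two_backward (P : Sylow 2 G)
    (hcond : IsCyclic P ∨
      ((∃ n : ℕ, 1 ≤ n ∧ Nonempty ((P : Subgroup G) ≃* DihedralGroup (2 ^ n))) ∧
        ∀ K : Subgroup G, K ≤ P → Nat.card K = 4 → (∀ k ∈ K, k ^ 2 = 1) →
          Subgroup.centralizer (K : Set G) = K))
    {H : Subgroup G} (hH : PByCyclic 2 H) :
    IsCyclic H ∨ (∃ n : ℕ, Nonempty (H ≃* DihedralGroup (2 ^ n))) ∨
      Nonempty (H ≃* alternatingGroup (Fin 4)) := by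
  classical
  obtain ⟨S⟩ : Nonempty (Sylow 2 H) := inferInstance
  haveI := hH.1 S
  haveI := hH.2 S
  obtain ⟨w, hw, hwp, hgen⟩ := exists_complement_generator S
  have hwodd : Odd (orderOf w) := Nat.coprime_two_right.1 hwp
  set S' := (S : Subgroup H).map H.subtype with hS'
  obtain ⟨R, hR⟩ := (S.2.map H.subtype : IsPGroup 2 S').exists_le_sylow
  obtain ⟨g, hg⟩ := MulAction.exists_smul_eq G P R
  have hRP : ∀ x : G, x ∈ (R : Subgroup G) → g⁻¹ * x * g ∈ (P : Subgroup G) := by
    intro x hx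
    rw [← hg, Sylow.coe_subgroup_smul] at hx
    obtain ⟨y, hy, rfl⟩ := hx
    show g⁻¹ * (g * y * g⁻¹) * g ∈ (P : Subgroup G)
    rw [show g⁻¹ * (g * y * g⁻¹) * g = y by group]
    exact hy
  let f : (S : Subgroup H) →* (P : Subgroup G) :=
    MonoidHom.mk' (fun s => ⟨g⁻¹ * ((s : H) : G) * g, hRP _ (hR ⟨s, s.2, rfl⟩)⟩)
      fun a b => Subtype.ext (by
        show g⁻¹ * (((a : H) : G) * ((b : H) : G)) * g = g⁻¹ * _ * g * (g⁻¹ * _ * g)
        group)
  have hf : Function.Injective f := fun a b hab =>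
    Subtype.ext (Subtype.ext (mul_left_cancel (mul_right_cancel (congrArg Subtype.val hab))))
  set θ : MulAut (S : Subgroup H) := MulAut.conjNormal w with hθ
  have hθm : θ ^ orderOf w = 1 := by rw [hθ, ← map_pow, pow_orderOf_eq_one, map_one]
  have hθcomm : θ = 1 → ∀ s ∈ (S : Subgroup H), w * s = s * w := fun h1 s hs => by
    have h2 : (((θ ⟨s, hs⟩ : (S : Subgroup H)) : H)) = s := by rw [h1]; rfl
    rw [hθ, MulAut.conjNormal_apply] at h2
    exact mul_inv_eq_iff_eq_mul.1 h2
  by_cases hScyc : IsCyclic (S : Subgroup H)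
  · refine Or.inl (isCyclic_of_commute S hScyc hw hwp (hθcomm ?_))
    obtain ⟨k, hk⟩ := IsPGroup.iff_card.1 S.2
    rw [← orderOf_eq_one_iff]
    have h1 : orderOf θ ∣ Nat.totient (2 ^ k) := by
      rw [← hk, ← IsCyclic.card_mulAut]; exact orderOf_dvd_natCard θ
    have h2 := orderOf_dvd_of_pow_eq_one hθm
    rcases Nat.eq_zero_or_pos k with rfl | hk0
    · simpa using h1
    · rw [Nat.totient_prime_pow Nat.prime_two hk0] at h1
      refine Nat.eq_one_of_dvd_coprimes (hwp.pow_right (k - 1)) h2 ?_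
      simpa using h1
  rcases hcond with hPc | ⟨⟨n, hn, ⟨e⟩⟩, hK⟩
  · exact absurd (isCyclic_of_injective f hf) hScyc
  haveI : NeZero (2 ^ n) := ⟨by positivity⟩
  obtain ⟨c, t, k, hk1, hc, ht2, hinv, htc, hcard, hout⟩ :=
    dihedral_shape S.2 (e.toMonoidHom.comp f) (e.injective.comp hf) hScyc
  -- the four group generated by `t` and the central involution
  set z := c ^ 2 ^ (k - 1) with hz
  have hz2 : orderOf z = 2 := by
    rw [hz, orderOf_pow' _ (by positivity), hc,
      Nat.gcd_eq_right (pow_dvd_pow 2 (Nat.sub_le k 1)), Nat.pow_div (Nat.sub_le k 1) two_pos,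
      show k - (k - 1) = 1 by omega, pow_one]
  have hzz : z * z = 1 := by
    have := pow_orderOf_eq_one z
    rwa [hz2, pow_two] at this
  have hzinv : z⁻¹ = z := inv_eq_of_mul_eq_one_right hzz
  have htz : t * z = z * t := by
    have : t * z * t⁻¹ = z := by rw [hz, ← conj_pow, hinv, inv_pow, ← hz, hzinv]
    exact mul_inv_eq_iff_eq_mul.1 this
  have hzc : z ∈ Subgroup.zpowers c := Subgroup.pow_mem _ (Subgroup.mem_zpowers c) _
  set a := ((f t : (P : Subgroup G)) : G) with ha
  set b := ((f z : (P : Subgroup G)) : G) with hb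
  have hab : a * b = b * a := by
    rw [ha, hb, ← Subgroup.coe_mul, ← Subgroup.coe_mul, ← map_mul, ← map_mul, htz]
  have haa : a * a = 1 := by rw [ha, ← Subgroup.coe_mul, ← map_mul, ht2, map_one, Subgroup.coe_one]
  have hbb : b * b = 1 := by rw [hb, ← Subgroup.coe_mul, ← map_mul, hzz, map_one, Subgroup.coe_one]
  have hinj : ∀ u v : (S : Subgroup H), ((f u : (P : Subgroup G)) : G) = f v → u = v :=
    fun u v h => hf (Subtype.ext h)
  let K : Subgroup G :=
    { carrier := {x | x = 1 ∨ x = a ∨ x = b ∨ x = a * b}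
      one_mem' := Or.inl rfl
      mul_mem' := fun {u v} hu hv => by
        have e1 : a * (a * b) = b := by rw [← mul_assoc, haa, one_mul]
        have e2 : b * (a * b) = a := by rw [hab, ← mul_assoc, hbb, one_mul]
        have e3 : a * b * a = b := by rw [hab, mul_assoc, haa, mul_one]
        have e4 : a * b * b = a := by rw [mul_assoc, hbb, mul_one]
        have e5 : a * b * (a * b) = 1 := by rw [← mul_assoc, e3, hbb]
        show u * v = 1 ∨ u * v = a ∨ u * v = b ∨ u * v = a * b
        rcases hu with rfl | rfl | rfl | rfl <;> rcases hv with rfl | rfl | rfl | rfl <;>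
          simp [haa, hbb, ← hab, e1, e2, e3, e4, e5]
      inv_mem' := fun {u} hu => by
        have e5 : (a * b)⁻¹ = a * b := by
          refine inv_eq_of_mul_eq_one_right ?_
          rw [hab, mul_assoc, ← mul_assoc a b a, hab, mul_assoc b a a, haa, mul_one, hbb]
        show u⁻¹ = 1 ∨ u⁻¹ = a ∨ u⁻¹ = b ∨ u⁻¹ = a * b
        rcases hu with rfl | rfl | rfl | rfl
        · exact Or.inl inv_one
        · exact Or.inr (Or.inl (inv_eq_of_mul_eq_one_right haa))
        · exact Or.inr (Or.inr (Or.inl (inv_eq_of_mul_eq_one_right hbb)))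
        · exact Or.inr (Or.inr (Or.inr e5)) }
  have hz1 : z ≠ 1 := fun h => by rw [h, orderOf_one] at hz2; exact absurd hz2 (by norm_num)
  have ht1 : t ≠ 1 := fun h => htc (h ▸ one_mem _)
  have hKP : K ≤ (P : Subgroup G) := by
    rintro x (rfl | rfl | rfl | rfl)
    · exact one_mem _
    · exact (f t).2
    · exact (f z).2
    · exact mul_mem (f t).2 (f z).2
  have hne1 : a ≠ 1 := fun h => ht1 (hinj t 1 (by rw [map_one, Subgroup.coe_one]; exact h))
  have hne2 : b ≠ 1 := fun h => hz1 (hinj z 1 (by rw [map_one, Subgroup.coe_one]; exact h))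
  have hne3 : a ≠ b := fun h => htc (hinj t z h ▸ hzc)
  have hK4 : Nat.card K = 4 := by
    have hset : (K : Set G) = {1, a, b, a * b} := by ext x; simp [K]
    show Nat.card (K : Set G) = 4
    rw [hset, Nat.card_coe_set_eq, Set.ncard_eq_toFinset_card']
    have h13 : a * b ≠ 1 := fun h => hne3 ((eq_inv_of_mul_eq_one_left h).trans
      (inv_eq_of_mul_eq_one_right hbb))
    have h14 : a ≠ a * b := fun h => hne2 (left_eq_mul.1 h)
    have h15 : b ≠ a * b := fun h => hne1 (right_eq_mul.1 h)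
    simp [hne1.symm, hne2.symm, h13.symm, hne3, h14, h15]
  have hK2 : ∀ u ∈ K, u ^ 2 = 1 := by
    rintro u (rfl | rfl | rfl | rfl)
    · exact one_pow 2
    · rw [pow_two, haa]
    · rw [pow_two, hbb]
    · rw [(show Commute a b from hab).mul_pow, pow_two, pow_two, haa, hbb, one_mul]
  have hCK := hK K hKP hK4 hK2
  -- whatever centralizes `t` and `z` lies in `S`
  have hcent : ∀ v : H, v * t = t * v → v * z = z * v → g⁻¹ * (v : G) * g ∈ (P : Subgroup G) := by
    intro v hvt hvz
    refine hKP (hCK ▸ Subgroup.mem_centralizer_iff.2 ?_)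
    have hkey : ∀ u : (S : Subgroup H), v * u = u * v →
        ((f u : (P : Subgroup G)) : G) * (g⁻¹ * (v : G) * g) =
          g⁻¹ * (v : G) * g * ((f u : (P : Subgroup G)) : G) := fun u hu => by
      have hu' : (v : G) * ((u : H) : G) = ((u : H) : G) * v := congrArg Subtype.val hu
      show g⁻¹ * ((u : H) : G) * g * (g⁻¹ * (v : G) * g) = g⁻¹ * (v : G) * g * (g⁻¹ * ((u : H) : G) * g)
      calc g⁻¹ * ((u : H) : G) * g * (g⁻¹ * (v : G) * g) = g⁻¹ * (((u : H) : G) * v) * g := by group
        _ = g⁻¹ * ((v : G) * ((u : H) : G)) * g := by rw [hu']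
        _ = _ := by group
    rintro x (rfl | rfl | rfl | rfl)
    · simp
    · exact hkey t hvt
    · exact hkey z hvz
    · exact ((show Commute a _ from hkey t hvt).mul_left (hkey z hvz)).eq
  -- elements of odd order centralizing the four group are trivial
  have hodd1 : ∀ v : H, Odd (orderOf v) → v * t = t * v → v * z = z * v → v = 1 := by
    intro v hvo hvt hvz
    obtain ⟨j, hj⟩ := IsPGroup.iff_orderOf.1 P.2 ⟨_, hcent v hvt hvz⟩
    rw [Subgroup.orderOf_mk, show g⁻¹ * (v : G) * g = MulAut.conj g⁻¹ (v : G) by simp,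
      MulEquiv.orderOf_eq, Subgroup.orderOf_coe] at hj
    rw [← orderOf_eq_one_iff]
    exact Nat.eq_one_of_dvd_coprimes ((Nat.coprime_two_right.2 hvo).pow_right j) dvd_rfl hj.dvd
  by_cases hw1 : w = 1
  · refine Or.inr (Or.inl ⟨k, ?_⟩)
    have hS : (S : Subgroup H) = ⊤ := Subgroup.index_eq_one.1 (by rw [← hw, hw1, orderOf_one])
    haveI : NeZero (2 ^ k) := ⟨by positivity⟩
    obtain ⟨e'⟩ := Cfsg.Agent.H49.nonempty_equiv_dihedral (S := (S : Subgroup H)) ⊤
      (A := c) (B := t) (Subgroup.mem_top _) (Subgroup.mem_top _)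
      (by rw [Subgroup.card_top, hcard]) hc ht2 hinv htc
    exact ⟨((MulEquiv.subgroupCongr hS).trans Subgroup.topEquiv).symm.trans
      (Subgroup.topEquiv.symm.trans e')⟩
  have hk : k = 1 := by
    by_contra hk
    have h1 := hθcomm (aut_eq_one_of_dihedral_shape (by omega) hc htc hcard hout θ hwodd hθm)
    exact hw1 (hodd1 w hwodd (h1 t t.2) (h1 z z.2))
  -- `S` is a four group and `w` has order 3
  have hz_eq : z = c := by rw [hz, hk]; simp
  have hSset : ∀ u : (S : Subgroup H), u = 1 ∨ u = t ∨ u = z ∨ u = t * z := by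
    intro u
    have hidx : (Subgroup.zpowers c).index = 2 := by
      have := (Subgroup.zpowers c).card_mul_index
      rw [hcard, Nat.card_zpowers, hc, hk] at this
      omega
    have hcmem : ∀ v ∈ Subgroup.zpowers c, v = 1 ∨ v = z := by
      intro v hv
      obtain ⟨i, rfl⟩ := hv
      rcases Int.even_or_odd i with ⟨j, rfl⟩ | ⟨j, rfl⟩
      · left
        show c ^ (j + j) = 1
        rw [zpow_add, ← (Commute.refl c).mul_zpow, ← hz_eq, hzz, one_zpow]
      · right
        show c ^ (2 * j + 1) = z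
        rw [zpow_add, zpow_mul, zpow_two, ← hz_eq, hzz, one_zpow, one_mul, zpow_one]
    by_cases hu : u ∈ Subgroup.zpowers c
    · rcases hcmem u hu with h | h <;> simp [h]
    · have h1 : t⁻¹ * u ∈ Subgroup.zpowers c := by
        rw [Subgroup.mul_mem_iff_of_index_two hidx, inv_mem_iff]
        exact iff_of_false htc hu
      rcases hcmem _ h1 with h | h
      · right; left; exact (inv_mul_eq_one.1 h).symm
      · right; right; right; rw [← h, mul_inv_cancel_left]
  have hexp : ∀ u : (S : Subgroup H), u * u = 1 := by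
    intro u
    rcases hSset u with h | h | h | h <;> rw [h]
    · exact one_mul 1
    · exact ht2
    · exact hzz
    · rw [← pow_two, (show Commute t z from htz).mul_pow, pow_two, pow_two, ht2, hzz, one_mul]
  obtain ⟨hθ3, hfour⟩ := four_group_aut (by rw [hcard, hk]; rfl) hexp θ hwodd hθm
  have hw3 : w ^ 3 = 1 := by
    have h1 : ∀ s ∈ (S : Subgroup H), w ^ 3 * s = s * w ^ 3 := fun s hs => by
      have h2 : ((((θ ^ 3) ⟨s, hs⟩ : (S : Subgroup H))) : H) = s := by rw [hθ3]; rfl
      rw [hθ, ← map_pow, MulAut.conjNormal_apply] at h2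
      exact mul_inv_eq_iff_eq_mul.1 h2
    exact hodd1 _ (hwodd.of_dvd_nat (orderOf_pow_dvd 3)) (h1 t t.2) (h1 z z.2)
  have hord3 : orderOf w = 3 := by
    rcases (Nat.dvd_prime Nat.prime_three).1 (orderOf_dvd_of_pow_eq_one hw3) with h | h
    · exact absurd (orderOf_eq_one_iff.1 h) hw1
    · exact h
  refine Or.inr (Or.inr (Cfsg.Agent.S0228.result ?_ fun x hx hxc => ?_))
  · rw [← (S : Subgroup H).card_mul_index, hcard, ← hw, hord3, hk]; rfl
  · -- a central involution lies in `S` and is fixed by `w`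
    have hxS : x ∈ (S : Subgroup H) := by
      have h1 : IsPGroup 2 (Subgroup.zpowers x) :=
        IsPGroup.of_card (n := 1) (by rw [Nat.card_zpowers, hx, pow_one])
      obtain ⟨T, hT⟩ := h1.exists_le_sylow
      have hTS : T = S := by
        obtain ⟨v, hv⟩ := MulAction.exists_smul_eq H S T
        rw [← hv]
        exact Sylow.smul_eq_iff_mem_normalizer.2 (by
          show v ∈ Subgroup.normalizer ((S : Subgroup H) : Set H)
          rw [Subgroup.normalizer_eq_top (H := (S : Subgroup H))]; exact Subgroup.mem_top v)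
      exact hTS ▸ hT (Subgroup.mem_zpowers x)
    have hfix : θ ⟨x, hxS⟩ = ⟨x, hxS⟩ := Subtype.ext (by
      rw [hθ, MulAut.conjNormal_apply, Subgroup.mem_center_iff.1 hxc w, mul_inv_cancel_right])
    have hxne : (⟨x, hxS⟩ : (S : Subgroup H)) ≠ 1 := fun h => by
      have : x = 1 := congrArg Subtype.val h
      rw [this, orderOf_one] at hx
      exact absurd hx (by norm_num)
    -- then `θ` would be trivial
    have h1 := hθcomm (hfour _ hxne hfix)
    exact hw1 (hodd1 w hwodd (h1 t t.2) (h1 z z.2))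

end Cfsg.Agent.H87
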