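import Mathlib
import Cfsg.Prelude.Def_Solvable
import Cfsg.Agent.H34.SubnormalCore
import Cfsg.Agent.H89.IndexPowers

/-!
Subnormalizers of `p`-subgroups.
-/

set_option autoImplicit false
open scoped Pointwise

namespace Cfsg.Agent.H87

variable {G : Type*} [Group G] [Finite G] {p : ℕ} [hp : Fact p.Prime]

/-- `O_p(M)` as a subgroup of `G` is normalised by `M`. -/
theorem le_normalizer_map_pCore (M : Subgroup G) :
    M ≤ Subgroup.normalizer ((Cfsg.pCore p M).map M.subtype : Set G) := by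
  intro m hm
  have key : ∀ m ∈ M, ∀ x ∈ (Cfsg.pCore p M).map M.subtype,
      m * x * m⁻¹ ∈ (Cfsg.pCore p M).map M.subtype := by
    rintro m hm x ⟨y, hy, rfl⟩
    exact ⟨⟨m, hm⟩ * y * ⟨m, hm⟩⁻¹,
      (Cfsg.Agent.H19.pCore_normal p M).conj_mem y hy _, rfl⟩
  rw [Subgroup.mem_normalizer_iff]
  intro x
  refine ⟨key m hm x, fun h => ?_⟩
  simpa [mul_assoc] using key m⁻¹ (inv_mem hm) _ h

/-- A normal `p`-subgroup of `M` lies in `O_p(M)`. -/
theorem le_map_pCore {K M : Subgroup G} (hKM : K ≤ M) (hMK : M ≤ Subgroup.normalizer (K : Set G))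
    (hK : IsPGroup p K) : K ≤ (Cfsg.pCore p M).map M.subtype := by
  haveI : (K.subgroupOf M).Normal := (Subgroup.normal_subgroupOf_iff_le_normalizer hKM).2 hMK
  have h : K.subgroupOf M ≤ Cfsg.pCore p M :=
    Cfsg.Agent.H19.le_pCore inferInstance (hK.of_equiv (Subgroup.subgroupOfEquivOfLe hKM).symm)
  calc K = (K.subgroupOf M).map M.subtype := by
        rw [Subgroup.map_subgroupOf_eq_of_le hKM]
    _ ≤ _ := Subgroup.map_mono h

/-- `H` is subnormal in `⟨H, g⟩` iff some `p`-subgroup containing `H` is normalised by `g`. -/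
theorem isSubnormal_iff_exists_normalizer {H : Subgroup G} (hH : IsPGroup p H) (g : G) :
    (H.subgroupOf (H ⊔ Subgroup.zpowers g)).IsSubnormal ↔
      ∃ K : Subgroup G, H ≤ K ∧ IsPGroup p K ∧ g ∈ Subgroup.normalizer (K : Set G) := by
  set L := H ⊔ Subgroup.zpowers g
  have hgL : g ∈ L := (le_sup_right : Subgroup.zpowers g ≤ L) (Subgroup.mem_zpowers g)
  constructor
  · intro h
    refine ⟨(Cfsg.pCore p L).map L.subtype, ?_, (Cfsg.Agent.H19.pCore_isPGroup p).map _,
      le_normalizer_map_pCore L hgL⟩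
    have hle := Cfsg.Agent.H34.le_pCore_of_isSubnormal h
      (hH.of_equiv (Subgroup.subgroupOfEquivOfLe (le_sup_left : H ≤ L)).symm)
    calc H = (H.subgroupOf L).map L.subtype := by
          rw [Subgroup.map_subgroupOf_eq_of_le (le_sup_left : H ≤ L)]
      _ ≤ _ := Subgroup.map_mono hle
  · rintro ⟨K, hHK, hK, hg⟩
    have hLN : L ≤ Subgroup.normalizer (K : Set G) :=
      sup_le (hHK.trans Subgroup.le_normalizer) (Subgroup.zpowers_le.2 hg)
    set K' := (K ⊓ L).subgroupOf L
    have hK'n : K'.Normal := by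
      refine (Subgroup.normal_subgroupOf_iff_le_normalizer inf_le_right).2 fun x hx => ?_
      rw [Subgroup.mem_normalizer_iff]
      intro y
      have hxK := Subgroup.mem_normalizer_iff.1 (hLN hx) y
      constructor
      · intro hy
        have hyL : y ∈ L := hy.2
        exact ⟨hxK.1 hy.1, (mul_mem (mul_mem hx hyL) (inv_mem hx) : x * y * x⁻¹ ∈ L)⟩
      · intro hy
        refine ⟨hxK.2 hy.1, ?_⟩
        have hyL : x * y * x⁻¹ ∈ L := hy.2
        have := mul_mem (mul_mem (inv_mem hx) hyL) hx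
        simpa [mul_assoc] using this
    have hK'p : IsPGroup p K' :=
      ((hK.to_le inf_le_left).of_equiv (Subgroup.subgroupOfEquivOfLe inf_le_right).symm)
    haveI := hK'p.isNilpotent
    have hle : H.subgroupOf L ≤ K' := fun x hx =>
      Subgroup.mem_subgroupOf.2 ⟨hHK (Subgroup.mem_subgroupOf.1 hx), x.2⟩
    exact Subgroup.IsSubnormal.trans hle
      (Cfsg.Agent.H89.isSubnormal_of_normalizerCondition Group.normalizerCondition_of_isNilpotent _)
      hK'n.isSubnormal

/-- Radical `p`-subgroups exist above every `p`-subgroup, normalised by the same elements. -/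
theorem exists_radical_ge {K : Subgroup G} (hK : IsPGroup p K) :
    ∃ R : Subgroup G, K ≤ R ∧ IsPGroup p R ∧
      (Cfsg.pCore p (Subgroup.normalizer (R : Set G))).map
        (Subgroup.normalizer (R : Set G)).subtype = R ∧
      Subgroup.normalizer (K : Set G) ≤ Subgroup.normalizer (R : Set G) := by
  induction K using WellFoundedGT.induction with
  | ind K ih =>
    set N := Subgroup.normalizer (K : Set G)
    set R := (Cfsg.pCore p N).map N.subtype
    have hKR : K ≤ R := le_map_pCore Subgroup.le_normalizer le_rfl hK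
    rcases hKR.eq_or_lt with h | h
    · exact ⟨K, le_rfl, hK, h.symm, le_rfl⟩
    · obtain ⟨R', h1, h2, h3, h4⟩ := ih R h ((Cfsg.Agent.H19.pCore_isPGroup p).map _)
      exact ⟨R', hKR.trans h1, h2, h3, (le_normalizer_map_pCore N).trans h4⟩

/-- A radical `p`-subgroup containing `H` contains the intersection of the Sylow subgroups
containing `H`. -/
theorem sInf_sylow_le_radical {H R : Subgroup G} (hHR : H ≤ R)
    (hR : (Cfsg.pCore p (Subgroup.normalizer (R : Set G))).map
        (Subgroup.normalizer (R : Set G)).subtype = R) :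
    sInf {K : Subgroup G | ∃ Q : Sylow p G, H ≤ (Q : Subgroup G) ∧ K = (Q : Subgroup G)} ≤ R := by
  set D := sInf {K : Subgroup G | ∃ Q : Sylow p G, H ≤ (Q : Subgroup G) ∧ K = (Q : Subgroup G)}
  set N := Subgroup.normalizer (R : Set G)
  have hRp : IsPGroup p R := hR ▸ (Cfsg.Agent.H19.pCore_isPGroup p).map _
  set W := D ⊔ R
  have hWQ : ∀ Q : Sylow p G, R ≤ (Q : Subgroup G) → W ≤ (Q : Subgroup G) := fun Q hQ =>
    sup_le (sInf_le ⟨Q, hHR.trans hQ, rfl⟩) hQ
  obtain ⟨Q₀, hQ₀⟩ := hRp.exists_le_sylow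
  have hWp : IsPGroup p W := Q₀.isPGroup'.to_le (hWQ Q₀ hQ₀)
  by_contra hD
  have hlt : R < W := lt_of_le_of_ne le_sup_right fun e => hD (e ▸ le_sup_left)
  -- an element of `W` normalising `R` but outside `R`
  haveI := hWp.isNilpotent
  have hne : R.subgroupOf W ≠ ⊤ := fun e => hlt.not_ge (Subgroup.subgroupOf_eq_top.1 e)
  obtain ⟨⟨x, hxW⟩, hxN, hxR⟩ := SetLike.exists_of_lt
    (Group.normalizerCondition_of_isNilpotent (R.subgroupOf W) (lt_top_iff_ne_top.2 hne))
  have hxN' : x ∈ N := by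
    rw [Subgroup.mem_normalizer_iff]
    intro y
    constructor
    · intro hy
      have hyW : y ∈ W := (le_sup_right : R ≤ W) hy
      exact Subgroup.mem_subgroupOf.1 ((Subgroup.mem_normalizer_iff.1 hxN ⟨y, hyW⟩).1 hy)
    · intro hy
      have hyW : y ∈ W := by
        have := mul_mem (mul_mem (inv_mem hxW) ((le_sup_right : R ≤ W) hy)) hxW
        simpa [mul_assoc] using this
      exact Subgroup.mem_subgroupOf.1 ((Subgroup.mem_normalizer_iff.1 hxN ⟨y, hyW⟩).2 hy)
  -- it lies in `O_p(N) = R`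
  have hXp : IsPGroup p ↥((W ⊓ N).subgroupOf N) :=
    (hWp.to_le inf_le_left).of_equiv (Subgroup.subgroupOfEquivOfLe inf_le_right).symm
  have hmem : (⟨x, hxN'⟩ : N) ∈ Cfsg.pCore p N := by
    obtain ⟨S₀⟩ : Nonempty (Sylow p N) := inferInstance
    have hall : ∀ S : Sylow p N, (⟨x, hxN'⟩ : N) ∈ (S : Subgroup N) := by
      intro S
      obtain ⟨Q, hQ⟩ := (S.isPGroup'.map N.subtype).exists_le_sylow
      have hRS : Cfsg.pCore p N ≤ (S : Subgroup N) := by
        haveI := Cfsg.Agent.H19.pCore_normal p N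
        exact (le_sup_right (a := (S : Subgroup N))).trans
          (S.is_maximal' (S.isPGroup'.to_sup_of_normal_right (Cfsg.Agent.H19.pCore_isPGroup p))
            le_sup_left).le
      have hRQ : R ≤ (Q : Subgroup G) := by
        calc R = (Cfsg.pCore p N).map N.subtype := hR.symm
          _ ≤ _ := (Subgroup.map_mono hRS).trans hQ
      have hxQ : x ∈ (Q : Subgroup G) := hWQ Q hRQ hxW
      have hQN : IsPGroup p ↥((Q : Subgroup G).subgroupOf N) :=
        Q.isPGroup'.comap_of_injective _ N.subtype_injective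
      have hSle : (S : Subgroup N) ≤ (Q : Subgroup G).subgroupOf N := fun y hy =>
        Subgroup.mem_subgroupOf.2 (hQ ⟨y, hy, rfl⟩)
      rw [← S.is_maximal' hQN hSle]
      exact Subgroup.mem_subgroupOf.2 hxQ
    have hn : (⨅ S : Sylow p N, (S : Subgroup N)).Normal := by
      refine ⟨fun y hy m => Subgroup.mem_iInf.2 fun S => ?_⟩
      have hy' : y ∈ ((m⁻¹ • S : Sylow p N) : Subgroup N) := Subgroup.mem_iInf.1 hy _
      have hy'' : y ∈ MulAut.conj m⁻¹ • (S : Subgroup N) := hy'
      rw [Subgroup.mem_pointwise_smul_iff_inv_smul_mem] at hy''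
      simpa [MulAut.smul_def] using hy''
    exact Cfsg.Agent.H19.le_pCore hn (S₀.isPGroup'.to_le (iInf_le _ S₀))
      (Subgroup.mem_iInf.2 hall)
  refine hxR (Subgroup.mem_subgroupOf.2 ?_)
  rw [← hR]
  exact ⟨_, hmem, rfl⟩

end Cfsg.Agent.H87
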