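import Mathlib
import Cfsg.Agent.H87.Subnormalizer

/-!
The order of the subnormalizer of a `p`-subgroup, by a Möbius function argument.
-/

set_option autoImplicit false

namespace Cfsg.Agent.H87

variable {G : Type*} [Group G] [Finite G]

/-- Elements normalising some `p`-subgroup containing `H`. -/
def subnormalizerSet (p : ℕ) (H : Subgroup G) : Set G :=
  {g | ∃ K : Subgroup G, H ≤ K ∧ IsPGroup p K ∧ g ∈ Subgroup.normalizer (K : Set G)}

/-- `μ` satisfies the recursion of the Möbius function of the subgroup lattice above `H`. -/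
def IsMoebiusAbove [Fintype (Subgroup G)] [DecidableEq (Subgroup G)]
    [DecidableRel ((· ≤ ·) : Subgroup G → Subgroup G → Prop)] (H : Subgroup G)
    (μ : Subgroup G → ℤ) : Prop :=
  ∀ M, H ≤ M → ∑ L ∈ Finset.univ.filter (fun L => H ≤ L ∧ L ≤ M), μ L = if M = H then 1 else 0

variable [Fintype (Subgroup G)] [DecidableEq (Subgroup G)]
  [DecidableRel ((· ≤ ·) : Subgroup G → Subgroup G → Prop)]

theorem exists_isMoebiusAbove (H : Subgroup G) : ∃ μ, IsMoebiusAbove H μ := by
  classical
  letI : LocallyFiniteOrder (Subgroup G) := Fintype.toLocallyFiniteOrder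
  refine ⟨fun M => IncidenceAlgebra.mu ℤ H M, fun M hM => ?_⟩
  have h : Finset.univ.filter (fun L => H ≤ L ∧ L ≤ M) = Finset.Icc H M := by
    ext; simp
  rw [h, IncidenceAlgebra.sum_Icc_mu_right]
  exact if_congr eq_comm rfl rfl

/-- Weisner's theorem. -/
theorem IsMoebiusAbove.weisner {H a : Subgroup G} {μ : Subgroup G → ℤ} (hμ : IsMoebiusAbove H μ)
    (ha : H < a) : ∀ Y, a ≤ Y →
      ∑ M ∈ Finset.univ.filter (fun M => H ≤ M ∧ M ⊔ a = Y), μ M = 0 := by
  intro Y
  induction Y using WellFoundedLT.induction with
  | ind Y ih =>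
    intro hY
    have htot : ∑ M ∈ Finset.univ.filter (fun M => H ≤ M ∧ M ≤ Y), μ M = 0 := by
      rw [hμ Y (ha.le.trans hY), if_neg]
      intro e
      exact (ha.trans_le hY).ne e.symm
    rw [← Finset.sum_fiberwise_of_maps_to (t := Finset.univ.filter fun Z => a ≤ Z ∧ Z ≤ Y)
      (g := fun M => M ⊔ a) (fun M hM => by
        simp only [Finset.mem_filter, Finset.mem_univ, true_and] at hM ⊢
        exact ⟨le_sup_right, sup_le hM.2 hY⟩)] at htot
    rw [Finset.sum_eq_single Y] at htot
    · refine Eq.trans (Finset.sum_congr ?_ fun _ _ => rfl) htot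
      ext M
      simp only [Finset.mem_filter, Finset.mem_univ, true_and]
      exact ⟨fun h => ⟨⟨h.1, h.2 ▸ le_sup_left⟩, h.2⟩, fun h => ⟨h.1.1, h.2⟩⟩
    · intro Z hZ hne
      simp only [Finset.mem_filter, Finset.mem_univ, true_and] at hZ
      refine Eq.trans (Finset.sum_congr ?_ fun _ _ => rfl) (ih Z (lt_of_le_of_ne hZ.2 hne) hZ.1)
      ext M
      simp only [Finset.mem_filter, Finset.mem_univ, true_and]
      exact ⟨fun h => ⟨h.1.1, h.2⟩, fun h => ⟨⟨h.1, (h.2 ▸ le_sup_left).trans hZ.2⟩, h.2⟩⟩
    · intro h
      exact absurd (Finset.mem_filter.2 ⟨Finset.mem_univ _, hY, le_rfl⟩) h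

variable {p : ℕ} [hp : Fact p.Prime]

omit [Fintype (Subgroup G)] [DecidableEq (Subgroup G)] [DecidableRel ((· ≤ ·) : Subgroup G → Subgroup G → Prop)] in
/-- Normalisers grow in `p`-groups. -/
theorem lt_inf_normalizer {H M : Subgroup G} (hM : IsPGroup p M) (h : H < M) :
    H < M ⊓ Subgroup.normalizer (H : Set G) := by
  haveI := hM.isNilpotent
  obtain ⟨x, hx, hxH⟩ := SetLike.exists_of_lt (Group.normalizerCondition_of_isNilpotent
    (H.subgroupOf M) (lt_top_iff_ne_top.2 fun e => h.not_ge (Subgroup.subgroupOf_eq_top.1 e)))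
  refine lt_of_le_of_ne (le_inf h.le Subgroup.le_normalizer) fun e => hxH ?_
  rw [Subgroup.mem_subgroupOf, e]
  refine ⟨x.2, ?_⟩
  show (x : G) ∈ Subgroup.normalizer (H : Set G)
  rw [Subgroup.mem_normalizer_iff]
  intro y
  refine ⟨fun hy => ?_, fun hy => ?_⟩
  · exact (Subgroup.mem_normalizer_iff.1 hx ⟨y, h.le hy⟩).1 hy
  · have hyM : y ∈ M := by
      have := mul_mem (mul_mem (inv_mem x.2) (h.le hy)) x.2
      simpa [mul_assoc] using this
    exact (Subgroup.mem_normalizer_iff.1 hx ⟨y, hyM⟩).2 hy

/-- The Möbius function vanishes on `p`-groups outside the normalizer. -/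
theorem IsMoebiusAbove.eq_zero {H : Subgroup G} {μ : Subgroup G → ℤ} (hμ : IsMoebiusAbove H μ) :
    ∀ M, H ≤ M → IsPGroup p M → ¬ M ≤ Subgroup.normalizer (H : Set G) → μ M = 0 := by
  intro M
  induction M using WellFoundedLT.induction with
  | ind M ih =>
    intro hHM hM hN
    have hlt : H < M := lt_of_le_of_ne hHM fun e => hN (e ▸ Subgroup.le_normalizer)
    have hW := lt_inf_normalizer hM hlt
    have h1 := hμ M hHM
    rw [if_neg hlt.ne'] at h1
    have h2 := hμ (M ⊓ Subgroup.normalizer (H : Set G)) hW.le
    rw [if_neg hW.ne'] at h2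
    rw [← Finset.add_sum_erase _ _ (show M ∈ Finset.univ.filter (fun L => H ≤ L ∧ L ≤ M) from
      Finset.mem_filter.2 ⟨Finset.mem_univ _, hHM, le_rfl⟩)] at h1
    rw [← Finset.sum_subset (s₁ := Finset.univ.filter fun L => H ≤ L ∧
      L ≤ M ⊓ Subgroup.normalizer (H : Set G)) ?_ ?_, h2, add_zero] at h1
    · exact h1
    · intro L hL
      simp only [Finset.mem_filter, Finset.mem_univ, true_and, Finset.mem_erase] at hL ⊢
      exact ⟨fun e => hN (e ▸ hL.2.trans inf_le_right), hL.1, hL.2.trans inf_le_left⟩
    · intro L hL hL'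
      simp only [Finset.mem_filter, Finset.mem_univ, true_and, Finset.mem_erase] at hL hL'
      exact ih L (lt_of_le_of_ne hL.2.2 hL.1) hL.2.1 (hM.to_le hL.2.2)
        fun e => hL' ⟨hL.2.1, le_inf hL.2.2 e⟩

omit [Fintype (Subgroup G)] [DecidableEq (Subgroup G)] [DecidableRel ((· ≤ ·) : Subgroup G → Subgroup G → Prop)] in
theorem card_normalizer_mul (P : Sylow p G) :
    Nat.card (Sylow p G) * Nat.card (Subgroup.normalizer ((P : Subgroup G) : Set G)) = Nat.card G := by
  have h : (Subgroup.normalizer ((P : Subgroup G) : Set G)).index = Nat.card (Sylow p G) :=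
    P.card_eq_index_normalizer.symm
  rw [← h, Subgroup.index_mul_card]

omit [Fintype (Subgroup G)] [DecidableEq (Subgroup G)] [DecidableRel ((· ≤ ·) : Subgroup G → Subgroup G → Prop)] hp in
theorem eq_top_of_normalizer_eq_top {M : Subgroup G} (h : Subgroup.normalizer (M : Set G) = ⊤) :
    M.Normal := Subgroup.normalizer_eq_top_iff.1 h

end Cfsg.Agent.H87

namespace Cfsg.Agent.H87

/-- The number of elements of the subnormalizer of `H`. -/
theorem card_subnormalizerSet {p : ℕ} [Fact p.Prime] (n : ℕ) :
    ∀ (G : Type*) [Group G] [Finite G], Nat.card G ≤ n → ∀ (H : Subgroup G) (P : Sylow p G),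
      Nat.card (subnormalizerSet p H) = Nat.card {Q : Sylow p G // H ≤ (Q : Subgroup G)} *
        Nat.card (Subgroup.normalizer ((P : Subgroup G) : Set G)) := by
  induction n with
  | zero => intro G _ _ h; exact absurd h (Nat.not_le.2 Nat.card_pos)
  | succ n ih =>
    intro G _ _ hG H P
    classical
    letI : Fintype G := Fintype.ofFinite G
    letI : Fintype (Subgroup G) := Fintype.ofFinite _
    letI : Fintype (Sylow p G) := Fintype.ofFinite _
    set c := Nat.card (Subgroup.normalizer ((P : Subgroup G) : Set G)) with hc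
    induction H using WellFoundedGT.induction with
    | ind H ihH =>
      by_cases hH : IsPGroup p H
      swap
      · have h1 : IsEmpty (subnormalizerSet p H) :=
          ⟨fun g => by obtain ⟨K, h, hK, -⟩ := g.2; exact hH (hK.to_le h)⟩
        have h2 : IsEmpty {Q : Sylow p G // H ≤ (Q : Subgroup G)} :=
          ⟨fun Q => hH (Q.1.isPGroup'.to_le Q.2)⟩
        rw [Nat.card_of_isEmpty, Nat.card_of_isEmpty, zero_mul]
      set N := Subgroup.normalizer (H : Set G) with hN
      by_cases hnormal : N = ⊤
      · haveI : H.Normal := eq_top_of_normalizer_eq_top hnormal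
        have h1 : subnormalizerSet p H = Set.univ :=
          Set.eq_univ_of_forall fun g => ⟨H, le_rfl, hH, by rw [← hN, hnormal]; trivial⟩
        have h2 : ∀ Q : Sylow p G, H ≤ (Q : Subgroup G) := fun Q => by
          rw [← Q.is_maximal' (Q.isPGroup'.to_sup_of_normal_right hH) le_sup_left]
          exact le_sup_right
        rw [h1, Nat.card_congr (Equiv.Set.univ G), Nat.card_congr (Equiv.subtypeUnivEquiv h2),
          hc, card_normalizer_mul]
      by_cases hSyl : ∃ Q : Sylow p G, (Q : Subgroup G) = H
      · obtain ⟨Q, rfl⟩ := hSyl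
        have h1 : subnormalizerSet p (Q : Subgroup G) = (N : Set G) := by
          ext g
          refine ⟨?_, fun hg => ⟨_, le_rfl, Q.isPGroup', hg⟩⟩
          rintro ⟨K, hK, hKp, hg⟩
          rwa [Q.is_maximal' hKp hK] at hg
        have h2 : Nat.card {R : Sylow p G // (Q : Subgroup G) ≤ (R : Subgroup G)} = 1 := by
          refine Nat.card_eq_one_iff_unique.2 ⟨⟨fun R R' => Subtype.ext ?_⟩, ⟨⟨Q, le_rfl⟩⟩⟩
          exact Sylow.ext ((Q.is_maximal' R.1.isPGroup' R.2).trans
            (Q.is_maximal' R'.1.isPGroup' R'.2).symm)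
        rw [h1, h2, one_mul, hc]
        have e1 := card_normalizer_mul Q
        have e2 := card_normalizer_mul P
        rw [← e2] at e1
        exact Nat.eq_of_mul_eq_mul_left Nat.card_pos e1
      obtain ⟨μ, hμ⟩ := exists_isMoebiusAbove H
      let A := Finset.univ.filter fun M : Subgroup G => H ≤ M
      let φ : Subgroup G → G → ℤ := fun M g => if g ∈ subnormalizerSet p M then 1 else 0
      -- the Sylow side
      have hright : ∑ M ∈ A, μ M * (Nat.card {Q : Sylow p G // M ≤ (Q : Subgroup G)} : ℤ) = 0 := by
        have e : ∀ M : Subgroup G, (Nat.card {Q : Sylow p G // M ≤ (Q : Subgroup G)} : ℤ) =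
            ∑ Q : Sylow p G, if M ≤ (Q : Subgroup G) then 1 else 0 := fun M => by
          rw [Finset.sum_boole, Nat.card_eq_fintype_card, Fintype.card_subtype]
        simp only [e, Finset.mul_sum, mul_ite, mul_one, mul_zero]
        rw [Finset.sum_comm]
        refine Finset.sum_eq_zero fun Q _ => ?_
        rw [← Finset.sum_filter, Finset.filter_filter]
        by_cases hQ : H ≤ (Q : Subgroup G)
        · rw [hμ _ hQ, if_neg fun e => hSyl ⟨Q, e⟩]
        · refine Finset.sum_eq_zero fun M hM => ?_
          obtain ⟨-, h1, h2⟩ := Finset.mem_filter.1 hM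
          exact absurd (h1.trans h2) hQ
      -- elements outside the normalizer
      have hout : ∀ g : G, g ∉ N → ∑ M ∈ A, μ M * φ M g = 0 := by
        intro g hg
        by_cases hgS : g ∈ subnormalizerSet p H
        swap
        · refine Finset.sum_eq_zero fun M hM => ?_
          have : g ∉ subnormalizerSet p M := fun ⟨K, h1, h2⟩ =>
            hgS ⟨K, (Finset.mem_filter.1 hM).2.trans h1, h2⟩
          simp [φ, this]
        set T : Set (Subgroup G) :=
          {K | H ≤ K ∧ IsPGroup p K ∧ g ∈ Subgroup.normalizer (K : Set G)} with hT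
        set R := sInf T with hR
        have hHR : H ≤ R := le_sInf fun K hK => hK.1
        have hgR : g ∈ Subgroup.normalizer (R : Set G) := by
          rw [Subgroup.mem_normalizer_iff]
          intro y
          simp only [hR, Subgroup.mem_sInf]
          exact ⟨fun h K hK => (Subgroup.mem_normalizer_iff.1 hK.2.2 y).1 (h K hK),
            fun h K hK => (Subgroup.mem_normalizer_iff.1 hK.2.2 y).2 (h K hK)⟩
        have hlt : H < R := lt_of_le_of_ne hHR fun e => hg (by rw [hN, e]; exact hgR)
        have hsup : ∀ M ∈ A, φ M g = φ (M ⊔ R) g := by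
          intro M hM
          refine if_congr ⟨?_, ?_⟩ rfl rfl
          · rintro ⟨K, h1, h2, h3⟩
            exact ⟨K, sup_le h1 (sInf_le ⟨(Finset.mem_filter.1 hM).2.trans h1, h2, h3⟩), h2, h3⟩
          · rintro ⟨K, h1, h2⟩
            exact ⟨K, le_sup_left.trans h1, h2⟩
        rw [Finset.sum_congr rfl fun M hM => by rw [hsup M hM],
          ← Finset.sum_fiberwise_of_maps_to (t := Finset.univ.filter fun Y => R ≤ Y)
            (g := fun M => M ⊔ R) (fun M _ => Finset.mem_filter.2 ⟨Finset.mem_univ _, le_sup_right⟩)]
        refine Finset.sum_eq_zero fun Y hY => ?_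
        rw [Finset.sum_congr rfl (g := fun M => μ M * φ Y g) fun M hM => by
            rw [(Finset.mem_filter.1 hM).2],
          ← Finset.sum_mul]
        have := hμ.weisner hlt Y (Finset.mem_filter.1 hY).2
        rw [Finset.filter_filter, this, zero_mul]
      -- elements of the normalizer
      have hNlt : Nat.card N ≤ n := by
        have : Nat.card N ≠ Nat.card G := fun e => hnormal (Subgroup.eq_top_of_card_eq N e)
        have := Subgroup.card_le_card_group N
        omega
      letI : Fintype (Subgroup N) := Fintype.ofFinite _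
      letI : Fintype (Sylow p N) := Fintype.ofFinite _
      obtain ⟨PN⟩ : Nonempty (Sylow p N) := inferInstance
      have hrestr : ∀ (L : Subgroup N) (g : N),
          (g : G) ∈ subnormalizerSet p (L.map N.subtype) ↔ g ∈ subnormalizerSet p L := by
        intro L g
        constructor
        · rintro ⟨K, h1, h2, h3⟩
          refine ⟨K.subgroupOf N, fun y hy => h1 ⟨y, hy, rfl⟩,
            h2.comap_of_injective _ N.subtype_injective, ?_⟩
          rw [Subgroup.mem_normalizer_iff]
          intro y
          exact Subgroup.mem_normalizer_iff.1 h3 (y : G)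
        · rintro ⟨K, h1, h2, h3⟩
          exact ⟨K.map N.subtype, Subgroup.map_mono h1, h2.map _,
            Subgroup.le_normalizer_map N.subtype ⟨g, h3, rfl⟩⟩
      have hloc : ∑ L : Subgroup N, (if H.subgroupOf N ≤ L then
          μ (L.map N.subtype) * (Nat.card {Q : Sylow p N // L ≤ (Q : Subgroup N)} : ℤ) else 0) = 0 := by
        have e : ∀ L : Subgroup N, (Nat.card {Q : Sylow p N // L ≤ (Q : Subgroup N)} : ℤ) =
            ∑ Q : Sylow p N, if L ≤ (Q : Subgroup N) then 1 else 0 := fun L => by
          rw [Finset.sum_boole, Nat.card_eq_fintype_card, Fintype.card_subtype]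
        rw [← Finset.sum_filter]
        simp only [e, Finset.mul_sum, mul_ite, mul_one, mul_zero]
        rw [Finset.sum_comm]
        refine Finset.sum_eq_zero fun Q _ => ?_
        rw [← Finset.sum_filter, Finset.filter_filter]
        set Q' := (Q : Subgroup N).map N.subtype with hQ'
        have hQH : H.subgroupOf N ≤ (Q : Subgroup N) := by
          haveI : (H.subgroupOf N).Normal := Subgroup.normal_in_normalizer
          rw [← Q.is_maximal' (Q.isPGroup'.to_sup_of_normal_right
            (show IsPGroup p (H.subgroupOf N) from hH.comap_of_injective _ N.subtype_injective)) le_sup_left]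
          exact le_sup_right
        have hHQ' : H ≤ Q' := by
          rw [hQ', ← Subgroup.map_subgroupOf_eq_of_le (show H ≤ N from Subgroup.le_normalizer)]
          exact Subgroup.map_mono hQH
        have hne : Q' ≠ H := by
          intro e
          obtain ⟨S, hS⟩ := hH.exists_le_sylow
          have hlt : H < (S : Subgroup G) := lt_of_le_of_ne hS fun h => hSyl ⟨S, h.symm⟩
          refine (lt_inf_normalizer S.isPGroup' hlt).not_ge ?_
          have := Q.is_maximal' (show IsPGroup p (((S : Subgroup G) ⊓ N).subgroupOf N) from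
              (S.isPGroup'.to_le inf_le_left).comap_of_injective _ N.subtype_injective)
            (fun y hy => Subgroup.mem_subgroupOf.2 ⟨hS (e ▸ ⟨y, hy, rfl⟩), y.2⟩)
          calc (S : Subgroup G) ⊓ N = Q' := by
                rw [hQ', ← this, Subgroup.map_subgroupOf_eq_of_le inf_le_right]
            _ ≤ H := e.le
        have h0 := hμ Q' hHQ'
        rw [if_neg hne] at h0
        rw [← h0]
        refine Finset.sum_nbij' (fun L => L.map N.subtype) (fun M => M.subgroupOf N) ?_ ?_ ?_ ?_ ?_
        · intro L hL
          simp only [Finset.mem_coe, Finset.mem_filter, Finset.mem_univ, true_and] at hL ⊢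
          refine ⟨?_, Subgroup.map_mono hL.2⟩
          rw [← Subgroup.map_subgroupOf_eq_of_le (show H ≤ N from Subgroup.le_normalizer)]
          exact Subgroup.map_mono hL.1
        · intro M hM
          simp only [Finset.mem_coe, Finset.mem_filter, Finset.mem_univ, true_and] at hM ⊢
          refine ⟨Subgroup.comap_mono hM.1, fun y hy => ?_⟩
          obtain ⟨z, hz, e⟩ := hM.2 hy
          exact Subtype.ext e ▸ hz
        · intro L _
          exact Subgroup.comap_map_eq_self_of_injective N.subtype_injective L
        · intro M hM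
          simp only [Finset.mem_coe, Finset.mem_filter, Finset.mem_univ, true_and] at hM
          exact Subgroup.map_subgroupOf_eq_of_le (hM.2.trans (Subgroup.map_subtype_le _))
        · intro L _
          rfl
      have hin : ∑ g : N, ∑ M ∈ A, μ M * φ M g = 0 := by
        rw [Finset.sum_comm]
        simp only [← Finset.mul_sum]
        rw [← Finset.sum_subset (s₁ := A.filter fun M => M ≤ N) (Finset.filter_subset _ _) ?_]
        · refine Eq.trans ?_ (mul_eq_zero_of_left hloc (Nat.card (Subgroup.normalizer ((PN : Subgroup N) : Set N)) : ℤ))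
          rw [Finset.sum_mul]
          simp only [ite_mul, zero_mul]
          rw [← Finset.sum_filter]
          refine Finset.sum_nbij' (fun M => M.subgroupOf N) (fun L => L.map N.subtype) ?_ ?_ ?_ ?_ ?_
          · intro M hM
            simp only [A, Finset.mem_coe, Finset.mem_filter, Finset.mem_filter, Finset.mem_univ, true_and] at hM ⊢
            exact Subgroup.comap_mono hM.1
          · intro L hL
            simp only [A, Finset.mem_coe, Finset.mem_filter, Finset.mem_filter, Finset.mem_univ, true_and] at hL ⊢
            refine ⟨?_, Subgroup.map_subtype_le L⟩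
            rw [← Subgroup.map_subgroupOf_eq_of_le (show H ≤ N from Subgroup.le_normalizer)]
            exact Subgroup.map_mono hL
          · intro M hM
            simp only [A, Finset.mem_coe, Finset.mem_filter, Finset.mem_filter, Finset.mem_univ, true_and] at hM
            exact Subgroup.map_subgroupOf_eq_of_le hM.2
          · intro L _
            exact Subgroup.comap_map_eq_self_of_injective N.subtype_injective L
          · intro M hM
            simp only [A, Finset.mem_coe, Finset.mem_filter, Finset.mem_filter, Finset.mem_univ, true_and] at hM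
            show μ M * _ = μ ((M.subgroupOf N).map N.subtype) * _ * _
            rw [Subgroup.map_subgroupOf_eq_of_le hM.2, mul_assoc]
            congr 1
            rw [← Nat.cast_mul, ← ih N hNlt (M.subgroupOf N) PN, Finset.sum_boole, Nat.card_eq_fintype_card,
              ← Fintype.card_subtype]
            refine congrArg _ (Fintype.card_congr (Equiv.subtypeEquivRight fun g => ?_))
            conv_lhs => rw [← Subgroup.map_subgroupOf_eq_of_le hM.2]
            exact hrestr _ g
        · intro M hM hMN
          have hMN' : ¬ M ≤ N := fun e => hMN (Finset.mem_filter.2 ⟨hM, e⟩)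
          by_cases hMp : IsPGroup p M
          · rw [hμ.eq_zero M (Finset.mem_filter.1 hM).2 hMp hMN', zero_mul]
          · rw [Finset.sum_eq_zero fun g _ => ?_, mul_zero]
            have : (g : G) ∉ subnormalizerSet p M := fun ⟨K, h1, h2, _⟩ => hMp (h2.to_le h1)
            simp [φ, this]
      have hleft : ∑ M ∈ A, μ M * (Nat.card (subnormalizerSet p M) : ℤ) = 0 := by
        have e : ∀ M : Subgroup G, (Nat.card (subnormalizerSet p M) : ℤ) = ∑ g : G, φ M g := fun M => by
          rw [Finset.sum_boole, Nat.card_eq_fintype_card, ← Fintype.card_subtype]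
        simp only [e, Finset.mul_sum]
        rw [Finset.sum_comm, ← Finset.sum_filter_add_sum_filter_not Finset.univ (fun g => g ∈ N),
          Finset.sum_subtype (Finset.univ.filter fun g => g ∈ N) (p := fun g => g ∈ N) (by simp),
          hin, Finset.sum_eq_zero fun g hg => hout g (Finset.mem_filter.1 hg).2, add_zero]
      have hdiff : ∑ M ∈ A, μ M * ((Nat.card (subnormalizerSet p M) : ℤ) -
          (Nat.card {Q : Sylow p G // M ≤ (Q : Subgroup G)} : ℤ) * c) = 0 := by
        simp only [mul_sub, ← mul_assoc, Finset.sum_sub_distrib, ← Finset.sum_mul, hleft, hright,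
          zero_mul, sub_zero]
      rw [Finset.sum_eq_single H] at hdiff
      · have h1 := hμ H le_rfl
        rw [if_pos rfl, Finset.sum_eq_single H (fun L hL hne => absurd
          (le_antisymm (Finset.mem_filter.1 hL).2.2 (Finset.mem_filter.1 hL).2.1) hne)
          (fun h => absurd (Finset.mem_filter.2 ⟨Finset.mem_univ _, le_rfl, le_rfl⟩) h)] at h1
        rw [h1, one_mul, sub_eq_zero, ← Nat.cast_mul] at hdiff
        exact_mod_cast hdiff
      · intro M hM hne
        rw [ihH M (lt_of_le_of_ne (Finset.mem_filter.1 hM).2 (Ne.symm hne)), Nat.cast_mul, sub_self,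
          mul_zero]
      · intro h
        exact absurd (Finset.mem_filter.2 ⟨Finset.mem_univ _, le_rfl⟩) h

end Cfsg.Agent.H87

namespace Cfsg.Agent.H87

open scoped Pointwise

/-- Double counting of conjugates of `H` in a Sylow subgroup. -/
theorem card_sylow_ge_mul {G : Type*} [Group G] [Finite G] {p : ℕ} [Fact p.Prime]
    (H : Subgroup G) (P : Sylow p G) :
    Nat.card {Q : Sylow p G // H ≤ (Q : Subgroup G)} *
        Nat.card (Subgroup.normalizer ((P : Subgroup G) : Set G)) =
      Nat.card {K : Subgroup G // K ≤ (P : Subgroup G) ∧ ∃ g : G, K = H.map (MulAut.conj g).toMonoidHom} *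
        Nat.card (Subgroup.normalizer (H : Set G)) := by
  classical
  -- counting group elements in two ways
  have key : ∀ {X : Type _} [MulAction G X] (x : X) (S : Set X),
      (∀ y ∈ S, y ∈ MulAction.orbit G x) →
      Nat.card {g : G // g • x ∈ S} = Nat.card S * Nat.card (MulAction.stabilizer G x) := by
    intro X _ x S hS
    choose r hr using fun y : S => hS y.1 y.2
    have hr : ∀ y : S, r y • x = y.1 := hr
    rw [← Nat.card_prod]
    refine Nat.card_congr
      { toFun := fun g => (⟨g.1 • x, g.2⟩, ⟨(r ⟨g.1 • x, g.2⟩)⁻¹ * g.1, ?_⟩)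
        invFun := fun w => ⟨r w.1 * w.2, ?_⟩
        left_inv := fun g => Subtype.ext (mul_inv_cancel_left _ _)
        right_inv := ?_ }
    · rw [MulAction.mem_stabilizer_iff, mul_smul, inv_smul_eq_iff]
      exact (hr ⟨g.1 • x, g.2⟩).symm
    · rw [mul_smul, MulAction.mem_stabilizer_iff.1 w.2.2, hr]
      exact w.1.2
    · rintro ⟨y, s⟩
      have e : (r y * (s : G)) • x = y.1 := by
        rw [mul_smul, MulAction.mem_stabilizer_iff.1 s.2, hr]
      have e' : (⟨(r y * (s : G)) • x, by rw [e]; exact y.2⟩ : S) = y := Subtype.ext e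
      refine Prod.ext e' (Subtype.ext ?_)
      show (r _)⁻¹ * (r y * (s : G)) = s
      rw [e', inv_mul_cancel_left]
  have h1 := key (X := Sylow p G) P {Q | H ≤ (Q : Subgroup G)} fun Q _ => MulAction.exists_smul_eq G P Q
  have hstabP : MulAction.stabilizer G P = Subgroup.normalizer ((P : Subgroup G) : Set G) :=
    P.stabilizer_eq_normalizer
  rw [hstabP] at h1
  -- conjugates
  letI act : MulAction G (Subgroup G) :=
    { smul := fun g K => K.map (MulAut.conj g).toMonoidHom
      one_smul := fun K => by
        show K.map (MulAut.conj 1).toMonoidHom = K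
        rw [map_one]
        exact Subgroup.map_id K
      mul_smul := fun g g' K => by
        show K.map (MulAut.conj (g * g')).toMonoidHom =
          (K.map (MulAut.conj g').toMonoidHom).map (MulAut.conj g).toMonoidHom
        rw [Subgroup.map_map, map_mul]
        rfl }
  have h3 := key (X := Subgroup G) H
    {K | K ≤ (P : Subgroup G) ∧ ∃ g : G, K = H.map (MulAut.conj g).toMonoidHom}
    fun K hK => by obtain ⟨g, rfl⟩ := hK.2; exact ⟨g, rfl⟩
  have hstabH : MulAction.stabilizer G H = Subgroup.normalizer (H : Set G) := by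
    ext g
    rw [MulAction.mem_stabilizer_iff, Subgroup.mem_normalizer_iff]
    show H.map (MulAut.conj g).toMonoidHom = H ↔ _
    constructor
    · intro h x
      conv_rhs => rw [← h]
      exact (Subgroup.mem_map_iff_mem (f := (MulAut.conj g).toMonoidHom) (MulAut.conj g).injective).symm
    · intro h
      ext x
      rw [Subgroup.mem_map_equiv, h]
      simp [mul_assoc]
  rw [hstabH] at h3
  refine h1.symm.trans (Eq.trans ?_ h3)
  refine Nat.card_congr (Equiv.subtypeEquiv (Equiv.inv G) fun g => ?_)
  show H ≤ ((g • P : Sylow p G) : Subgroup G) ↔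
    H.map (MulAut.conj g⁻¹).toMonoidHom ≤ (P : Subgroup G) ∧ _
  rw [and_iff_left ⟨g⁻¹, rfl⟩, Subgroup.map_le_iff_le_comap]
  constructor
  · intro h x hx
    have : x ∈ MulAut.conj g • (P : Subgroup G) := h hx
    rw [Subgroup.mem_comap]
    rw [Subgroup.mem_pointwise_smul_iff_inv_smul_mem] at this
    simpa [MulAut.smul_def] using this
  · intro h x hx
    have := h hx
    show x ∈ MulAut.conj g • (P : Subgroup G)
    rw [Subgroup.mem_pointwise_smul_iff_inv_smul_mem]
    simpa [MulAut.smul_def] using this

end Cfsg.Agent.H87
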