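import Mathlib
import Cfsg.Agent.H87.SubnormalizerCard

/-!
The product formula for the number of Sylow subgroups over a `p`-subgroup along a normal series.
-/

set_option autoImplicit false

open scoped Pointwise

namespace Cfsg.Agent.H87

/-- The number of elements of `A` centralised by `H` modulo `B`. -/
noncomputable def centModCard {G : Type*} [Group G] (H A B : Subgroup G) : ℕ :=
  Nat.card {u : G // u ∈ A ∧ ∀ h ∈ H, h * u * h⁻¹ * u⁻¹ ∈ B}

section Step

variable {G : Type*} [Group G] [Finite G] {p : ℕ} [hp : Fact p.Prime] (N : Subgroup G) [N.Normal]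

/-- `n_H · |N(P)|`. -/
noncomputable def sylowProd (p : ℕ) (H : Subgroup G) (P : Subgroup G) : ℕ :=
  Nat.card {Q : Sylow p G // H ≤ (Q : Subgroup G)} * Nat.card (Subgroup.normalizer (P : Set G))

/-- Step over a normal `p`-subgroup. -/
theorem sylowProd_of_isPGroup (hN : IsPGroup p N) (H : Subgroup G) (P : Sylow p G) :
    sylowProd p H (P : Subgroup G) = Nat.card N *
      sylowProd p (H.map (QuotientGroup.mk' N))
        ((P.mapSurjective (QuotientGroup.mk'_surjective N) : Sylow p (G ⧸ N)) : Subgroup (G ⧸ N)) := by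
  set π := QuotientGroup.mk' N
  have hNle : ∀ Q : Sylow p G, N ≤ (Q : Subgroup G) := fun Q => by
    rw [← Q.is_maximal' (Q.isPGroup'.to_sup_of_normal_right hN) le_sup_left]
    exact le_sup_right
  set F := Sylow.mapSurjective (QuotientGroup.mk'_surjective N) (p := p)
  have hcomap : ∀ Q : Sylow p G, ((F Q : Sylow p (G ⧸ N)) : Subgroup (G ⧸ N)).comap π = (Q : Subgroup G) := by
    intro Q
    rw [Sylow.coe_mapSurjective, Subgroup.comap_map_eq, QuotientGroup.ker_mk', sup_eq_left]
    exact hNle Q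
  have hinj : Function.Injective F := fun Q Q' h => Sylow.ext (by rw [← hcomap Q, h, hcomap])
  have hbij : Function.Bijective F := ⟨hinj, Sylow.mapSurjective_surjective (QuotientGroup.mk'_surjective N) p⟩
  have e1 : Nat.card {Q : Sylow p G // H ≤ (Q : Subgroup G)} =
      Nat.card {Q : Sylow p (G ⧸ N) // H.map π ≤ (Q : Subgroup (G ⧸ N))} :=
    Nat.card_congr (Equiv.subtypeEquiv (Equiv.ofBijective F hbij) fun Q => by
      rw [Subgroup.map_le_iff_le_comap]
      show H ≤ _ ↔ H ≤ ((F Q : Sylow p (G ⧸ N)) : Subgroup (G ⧸ N)).comap π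
      rw [hcomap])
  have h1 := card_normalizer_mul P
  have h2 := card_normalizer_mul (F P)
  rw [← Nat.card_congr (Equiv.ofBijective F hbij)] at h2
  have h3 : Nat.card G = Nat.card (G ⧸ N) * Nat.card N :=
    Subgroup.card_eq_card_quotient_mul_card_subgroup N
  rw [← h2, mul_assoc] at h3
  rw [h3] at h1
  unfold sylowProd
  rw [Nat.eq_of_mul_eq_mul_left Nat.card_pos h1, e1]
  ring

/-- Step over a normal `p'`-subgroup. -/
theorem sylowProd_of_coprime (hN : (Nat.card N).Coprime p) (H : Subgroup G) (hH : IsPGroup p H)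
    (P : Sylow p G) :
    sylowProd p H (P : Subgroup G) = centModCard H N ⊥ *
      sylowProd p (H.map (QuotientGroup.mk' N))
        ((P.mapSurjective (QuotientGroup.mk'_surjective N) : Sylow p (G ⧸ N)) : Subgroup (G ⧸ N)) := by
  classical
  set π := QuotientGroup.mk' N with hπ
  set F := Sylow.mapSurjective (QuotientGroup.mk'_surjective N) (p := p) with hF
  have hFval : ∀ Q : Sylow p G, ((F Q : Sylow p (G ⧸ N)) : Subgroup (G ⧸ N)) = (Q : Subgroup G).map π :=
    fun Q => Sylow.coe_mapSurjective _ Q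
  -- `N` meets every Sylow subgroup trivially
  have hdisj : ∀ Q : Sylow p G, ∀ x ∈ N, x ∈ (Q : Subgroup G) → x = 1 := by
    intro Q x hx hxQ
    obtain ⟨k, hk⟩ := IsPGroup.iff_orderOf.1 Q.isPGroup' ⟨x, hxQ⟩
    rw [Subgroup.orderOf_mk] at hk
    exact orderOf_eq_one_iff.1 (Nat.eq_one_of_dvd_coprimes (hN.pow_right k)
      (by rw [← Subgroup.orderOf_mk x hx]; exact orderOf_dvd_natCard _) (dvd_of_eq hk))
  have hmemsmul : ∀ (g : G) (Q : Sylow p G) (x : G),
      x ∈ ((g • Q : Sylow p G) : Subgroup G) ↔ g⁻¹ * x * g ∈ (Q : Subgroup G) := by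
    intro g Q x
    show x ∈ MulAut.conj g • (Q : Subgroup G) ↔ _
    rw [Subgroup.mem_pointwise_smul_iff_inv_smul_mem]
    simp [MulAut.smul_def]
  -- elements of `N` fixing a Sylow subgroup centralise it
  have hcent : ∀ (Q : Sylow p G) (x : G), x ∈ N → x • Q = Q → ∀ q ∈ (Q : Subgroup G), q * x = x * q := by
    intro Q x hxN hxQ q hq
    have h1 : x⁻¹ * q * x ∈ (Q : Subgroup G) := (hmemsmul x Q q).1 (hxQ.symm ▸ hq)
    have h2 : q⁻¹ * (x⁻¹ * q * x) ∈ N := by
      rw [show q⁻¹ * (x⁻¹ * q * x) = (q⁻¹ * x⁻¹ * q) * x by group]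
      refine mul_mem ?_ hxN
      simpa using (inferInstance : N.Normal).conj_mem _ (inv_mem hxN) q⁻¹
    have h3 := hdisj Q _ h2 (mul_mem (inv_mem hq) h1)
    rw [inv_mul_eq_one] at h3
    calc q * x = x * (x⁻¹ * q * x) := by group
      _ = x * q := by rw [← h3]
  -- fibres of `F` are orbits of `N`
  have hfib : ∀ Q Q' : Sylow p G, F Q = F Q' ↔ ∃ x : N, (x : G) • Q = Q' := by
    intro Q Q'
    constructor
    · intro h
      set L := (Q : Subgroup G) ⊔ N
      have hQ'L : (Q' : Subgroup G) ≤ L := by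
        have h' : (Q : Subgroup G).map π = (Q' : Subgroup G).map π := by rw [← hFval, h, hFval]
        calc (Q' : Subgroup G) ≤ ((Q' : Subgroup G).map π).comap π := Subgroup.le_comap_map _ _
          _ = L := by rw [← h', Subgroup.comap_map_eq, hπ, QuotientGroup.ker_mk']
      obtain ⟨l, hl⟩ := MulAction.exists_smul_eq L (Q.subtype le_sup_left) (Q'.subtype hQ'L)
      rw [Sylow.smul_subtype] at hl
      have hl' := Sylow.subtype_injective hl
      obtain ⟨y, hy, x, hx, hyx⟩ := Subgroup.mem_sup_of_normal_right.1 l.2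
      refine ⟨⟨y * x * y⁻¹, (inferInstance : N.Normal).conj_mem x hx y⟩, ?_⟩
      show (y * x * y⁻¹) • Q = Q'
      rw [← hl']
      show (y * x * y⁻¹) • Q = (l : G) • Q
      calc (y * x * y⁻¹) • Q = (y * x * y⁻¹) • (y • Q) := by
            rw [Sylow.smul_eq_iff_mem_normalizer.2 (Subgroup.le_normalizer hy)]
        _ = (y * x) • Q := by rw [← mul_smul, inv_mul_cancel_right]
        _ = (l : G) • Q := by rw [hyx]
    · rintro ⟨x, rfl⟩
      apply Sylow.ext
      rw [hFval, hFval]
      ext z
      constructor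
      · rintro ⟨q, hq, rfl⟩
        refine ⟨(x : G) * q * (x : G)⁻¹, (hmemsmul _ _ _).2 (by
          rw [show (x : G)⁻¹ * ((x : G) * q * (x : G)⁻¹) * (x : G) = q by group]
          exact hq), ?_⟩
        rw [map_mul, map_mul, map_inv, show π (x : G) = 1 from (QuotientGroup.eq_one_iff _).2 x.2,
          one_mul, inv_one, mul_one]
      · rintro ⟨q, hq, rfl⟩
        refine ⟨(x : G)⁻¹ * q * x, (hmemsmul _ _ _).1 hq, ?_⟩
        rw [map_mul, map_mul, map_inv, show π (x : G) = 1 from (QuotientGroup.eq_one_iff _).2 x.2,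
          inv_one, one_mul, mul_one]
  have hsurj : Function.Surjective F := Sylow.mapSurjective_surjective (QuotientGroup.mk'_surjective N) p
  -- the fibre size
  set c := Nat.card (MulAction.stabilizer N P) with hc
  set k := Nat.card (MulAction.orbit N P) with hk
  have hkc : k * c = Nat.card N := by
    rw [hk, hc, ← Nat.card_prod]
    exact Nat.card_congr (MulAction.orbitProdStabilizerEquivGroup N P)
  have hstab : ∀ Q : Sylow p G, Nat.card (MulAction.stabilizer N Q) = c := by
    intro Q
    obtain ⟨g, rfl⟩ := MulAction.exists_smul_eq G P Q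
    refine Nat.card_congr
      { toFun := fun x => ⟨⟨g⁻¹ * (x : N) * g, by
            simpa using (inferInstance : N.Normal).conj_mem _ x.1.2 g⁻¹⟩, ?_⟩
        invFun := fun x => ⟨⟨g * (x : N) * g⁻¹, (inferInstance : N.Normal).conj_mem _ x.1.2 g⟩, ?_⟩
        left_inv := fun x => Subtype.ext (Subtype.ext (by simp [mul_assoc]))
        right_inv := fun x => Subtype.ext (Subtype.ext (by simp [mul_assoc])) }
    · have h : ((x : N) : G) • g • P = g • P := x.2
      show (g⁻¹ * (x : N) * g) • P = P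
      rw [mul_smul, mul_smul, h, inv_smul_smul]
    · have h : ((x : N) : G) • P = P := x.2
      show (g * (x : N) * g⁻¹) • g • P = g • P
      rw [← mul_smul, inv_mul_cancel_right, mul_smul, h]
  have horb : ∀ Q : Sylow p G, Nat.card (MulAction.orbit N Q) = k := by
    intro Q
    have h := Nat.card_congr (MulAction.orbitProdStabilizerEquivGroup N Q)
    rw [Nat.card_prod, hstab, ← hkc] at h
    exact Nat.eq_of_mul_eq_mul_right Nat.card_pos h
  -- fixed points in a fibre
  set C := N ⊓ Subgroup.centralizer (H : Set G) with hC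
  have hCcard : centModCard H N ⊥ = Nat.card C := by
    refine Nat.card_congr (Equiv.subtypeEquivRight fun u => ?_)
    simp only [hC, Subgroup.mem_inf, Subgroup.mem_centralizer_iff, Subgroup.mem_bot,
      mul_inv_eq_iff_eq_mul, one_mul, SetLike.mem_coe]
  have hfix : ∀ T : Sylow p (G ⧸ N), H.map π ≤ (T : Subgroup (G ⧸ N)) →
      Nat.card {Q : {Q : Sylow p G // H ≤ (Q : Subgroup G)} // F Q.1 = T} * c = Nat.card C := by
    intro T hT
    -- a fixed point
    obtain ⟨Q₀, hQ₀⟩ := hsurj T
    have hHL : H ≤ (Q₀ : Subgroup G) ⊔ N := by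
      rw [← hQ₀, hFval, Subgroup.map_le_iff_le_comap, Subgroup.comap_map_eq, hπ,
        QuotientGroup.ker_mk'] at hT
      exact hT
    obtain ⟨S, hS⟩ := (hH.comap_of_injective _ ((Q₀ : Subgroup G) ⊔ N).subtype_injective).exists_le_sylow
    obtain ⟨l, hl⟩ := MulAction.exists_smul_eq ↥((Q₀ : Subgroup G) ⊔ N) (Q₀.subtype le_sup_left) S
    set Q₁ := (l : G) • Q₀ with hQ₁
    have hHQ₁ : H ≤ (Q₁ : Subgroup G) := by
      intro h hh
      have := hS (show (⟨h, hHL hh⟩ : ↥((Q₀ : Subgroup G) ⊔ N)) ∈ H.subgroupOf _ from hh)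
      rw [← hl, Sylow.smul_subtype, Sylow.coe_subtype, Subgroup.mem_subgroupOf] at this
      exact this
    have hQ₁T : F Q₁ = T := by
      rw [← hQ₀, eq_comm, hfib]
      obtain ⟨y, hy, x, hx, hyx⟩ := Subgroup.mem_sup_of_normal_right.1 l.2
      refine ⟨⟨y * x * y⁻¹, (inferInstance : N.Normal).conj_mem x hx y⟩, ?_⟩
      show (y * x * y⁻¹) • Q₀ = Q₁
      calc (y * x * y⁻¹) • Q₀ = (y * x * y⁻¹) • (y • Q₀) := by
            rw [Sylow.smul_eq_iff_mem_normalizer.2 (Subgroup.le_normalizer hy)]
        _ = (y * x) • Q₀ := by rw [← mul_smul, inv_mul_cancel_right]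
        _ = Q₁ := by rw [hQ₁, hyx]
    have hset : Nat.card {Q : {Q : Sylow p G // H ≤ (Q : Subgroup G)} // F Q.1 = T} =
        Nat.card (MulAction.orbit C Q₁) := by
      refine Nat.card_congr ((Equiv.subtypeSubtypeEquivSubtypeInter _ (fun Q => F Q = T)).trans
        (Equiv.subtypeEquivRight fun Q => ?_))
      constructor
      · rintro ⟨hHQ, hQT⟩
        obtain ⟨x, rfl⟩ := (hfib Q₁ Q).1 (hQ₁T.trans hQT.symm)
        refine ⟨⟨x, x.2, Subgroup.mem_centralizer_iff.2 fun h hh => ?_⟩, rfl⟩
        have h1 : (x : G)⁻¹ * h * x ∈ (Q₁ : Subgroup G) := (hmemsmul _ _ _).1 (hHQ hh)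
        have h2 : h⁻¹ * ((x : G)⁻¹ * h * x) ∈ N := by
          rw [show h⁻¹ * ((x : G)⁻¹ * h * x) = (h⁻¹ * (x : G)⁻¹ * h) * x by group]
          refine mul_mem ?_ x.2
          simpa using (inferInstance : N.Normal).conj_mem _ (inv_mem x.2) h⁻¹
        have h3 := hdisj Q₁ _ h2 (mul_mem (inv_mem (hHQ₁ hh)) h1)
        rw [inv_mul_eq_one] at h3
        calc h * x = x * ((x : G)⁻¹ * h * x) := by group
          _ = x * h := by rw [← h3]
      · rintro ⟨⟨x, hxN, hxH⟩, rfl⟩
        refine ⟨fun h hh => (hmemsmul x Q₁ h).2 ?_, ?_⟩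
        · rw [mul_assoc, Subgroup.mem_centralizer_iff.1 hxH h hh, inv_mul_cancel_left]
          exact hHQ₁ hh
        · rw [← hQ₁T, eq_comm, hfib]
          exact ⟨⟨x, hxN⟩, rfl⟩
    have hst : Nat.card (MulAction.stabilizer C Q₁) = c := by
      rw [← hstab Q₁]
      refine Nat.card_congr
        { toFun := fun x => ⟨⟨(x : C), x.1.2.1⟩, x.2⟩
          invFun := fun x => ⟨⟨(x : N), x.1.2, Subgroup.mem_centralizer_iff.2 fun h hh =>
            hcent Q₁ _ x.1.2 x.2 h (hHQ₁ hh)⟩, x.2⟩
          left_inv := fun x => rfl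
          right_inv := fun x => rfl }
    rw [hset, ← hst, ← Nat.card_prod]
    exact Nat.card_congr (MulAction.orbitProdStabilizerEquivGroup C Q₁)
  -- the numbers of Sylow subgroups
  letI := Fintype.ofFinite (Sylow p (G ⧸ N))
  have hn : Nat.card (Sylow p G) = Nat.card (Sylow p (G ⧸ N)) * k := by
    rw [← Nat.card_congr (Equiv.sigmaFiberEquiv F), Nat.card_sigma, Finset.sum_congr rfl (g := fun _ => k),
      Finset.sum_const, Finset.card_univ, smul_eq_mul, ← Nat.card_eq_fintype_card]
    intro T _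
    obtain ⟨Q₀, hQ₀⟩ := hsurj T
    rw [← horb Q₀]
    refine Nat.card_congr (Equiv.subtypeEquivRight fun Q => ?_)
    rw [← hQ₀, eq_comm, hfib]
    rfl
  set nH := Nat.card {Q : Sylow p G // H ≤ (Q : Subgroup G)}
  set nH' := Nat.card {T : Sylow p (G ⧸ N) // H.map π ≤ (T : Subgroup (G ⧸ N))}
  have hnH : nH * c = nH' * Nat.card C := by
    letI := Fintype.ofFinite {T : Sylow p (G ⧸ N) // H.map π ≤ (T : Subgroup (G ⧸ N))}
    let F' : {Q : Sylow p G // H ≤ (Q : Subgroup G)} →
        {T : Sylow p (G ⧸ N) // H.map π ≤ (T : Subgroup (G ⧸ N))} := fun Q =>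
      ⟨F Q.1, by rw [hFval]; exact Subgroup.map_mono Q.2⟩
    rw [show nH = _ from (Nat.card_congr (Equiv.sigmaFiberEquiv F')).symm, Nat.card_sigma,
      Finset.sum_mul, Finset.sum_congr rfl (g := fun _ => Nat.card C), Finset.sum_const,
      Finset.card_univ, smul_eq_mul, ← Nat.card_eq_fintype_card]
    intro T _
    rw [← hfix T.1 T.2]
    congr 1
    exact Nat.card_congr (Equiv.subtypeEquivRight fun Q => Subtype.ext_iff)
  have h1 := card_normalizer_mul P
  have h2 := card_normalizer_mul (F P)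
  have h3 : Nat.card G = Nat.card (G ⧸ N) * Nat.card N :=
    Subgroup.card_eq_card_quotient_mul_card_subgroup N
  rw [hn, h3, ← h2, ← hkc] at h1
  have hNP : Nat.card (Subgroup.normalizer ((P : Subgroup G) : Set G)) =
      Nat.card (Subgroup.normalizer (((F P : Sylow p (G ⧸ N)) : Subgroup (G ⧸ N)) : Set (G ⧸ N))) * c := by
    refine Nat.eq_of_mul_eq_mul_left (Nat.mul_pos Nat.card_pos
      (Nat.pos_of_ne_zero fun h => by
        rw [h, zero_mul] at hkc
        exact Nat.card_pos.ne hkc)) (h1.trans ?_)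
    ring
  unfold sylowProd
  rw [hCcard, hNP, mul_comm _ c, ← mul_assoc, hnH]
  ring

end Step

/-- The product formula along a normal series. -/
theorem sylowProd_series {p : ℕ} [Fact p.Prime] :
    ∀ (n : ℕ) (G : Type*) [Group G] [Finite G] (H : Subgroup G) (_ : IsPGroup p H) (P : Sylow p G)
      (M : Fin (n + 1) → Subgroup G), M 0 = ⊥ → M (Fin.last n) = ⊤ → Monotone M →
      (∀ i, (M i).Normal) →
      (∀ i : Fin n, (∃ m : ℕ, (M i.castSucc).relIndex (M i.succ) = p ^ m) ∨
        ((M i.castSucc).relIndex (M i.succ)).Coprime p) →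
      sylowProd p H (P : Subgroup G) = Nat.card (P : Subgroup G) *
        ∏ i : Fin n, (if ((M i.castSucc).relIndex (M i.succ)).Coprime p then
          centModCard H (M i.succ) (M i.castSucc) / Nat.card (M i.castSucc) else 1) := by
  intro n
  induction n with
  | zero =>
    intro G _ _ H hH P M h0 hn _ _ _
    haveI : Subsingleton G := by
      have h : (⊥ : Subgroup G) = ⊤ := h0.symm.trans hn
      exact Subgroup.subsingleton_iff.1 (subsingleton_of_bot_eq_top h)
    rw [sylowProd, Fin.prod_univ_zero, mul_one]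
    have h1 : Nat.card {Q : Sylow p G // H ≤ (Q : Subgroup G)} = 1 := by
      refine Nat.card_eq_one_iff_unique.2 ⟨⟨fun a b => Subtype.ext (Sylow.ext
        (Subsingleton.elim _ _))⟩, ⟨⟨P, fun x _ => Subsingleton.elim (1 : G) x ▸ one_mem _⟩⟩⟩
    rw [h1, one_mul, Nat.card_of_subsingleton (1 : Subgroup.normalizer _),
      Nat.card_of_subsingleton (1 : (P : Subgroup G))]
  | succ n ih =>
    intro G _ _ H hH P M h0 hn hmono hnormal hfac
    set N := M 1 with hN
    haveI : N.Normal := hnormal 1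
    set π := QuotientGroup.mk' N with hπ
    have hsurj := QuotientGroup.mk'_surjective N
    have hone : ∀ i : Fin (n + 1), N ≤ M i.succ := fun i => hmono (Fin.one_le_of_ne_zero (Fin.succ_ne_zero i))
    have hcomap : ∀ i : Fin (n + 1), ((M i.succ).map π).comap π = M i.succ := fun i => by
      rw [Subgroup.comap_map_eq, hπ, QuotientGroup.ker_mk', sup_eq_left.2 (hone i)]
    have hcard : ∀ i : Fin (n + 1), Nat.card ↥(M i.succ) = Nat.card ↥((M i.succ).map π) * Nat.card N := by
      intro i
      have h1 := Subgroup.card_mul_index (M i.succ)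
      have h2 := Subgroup.card_mul_index ((M i.succ).map π)
      have h3 : Nat.card G = Nat.card (G ⧸ N) * Nat.card N :=
        Subgroup.card_eq_card_quotient_mul_card_subgroup N
      rw [← Subgroup.index_comap_of_surjective _ hsurj, hcomap] at h2
      rw [h3, ← h2] at h1
      refine Nat.eq_of_mul_eq_mul_right
        (Nat.pos_of_ne_zero (Subgroup.FiniteIndex.index_ne_zero (H := M i.succ))) ?_
      rw [h1]; ring
    set M' : Fin (n + 1) → Subgroup (G ⧸ N) := fun i => (M i.succ).map π
    have hrel : ∀ i : Fin n, (M' i.castSucc).relIndex (M' i.succ) =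
        (M i.succ.castSucc).relIndex (M i.succ.succ) := by
      intro i
      conv_rhs => rw [show i.succ.castSucc = i.castSucc.succ from rfl, ← hcomap i.castSucc,
        Subgroup.relIndex_comap]
    have hih := ih (G ⧸ N) (H.map π) (hH.map π) (P.mapSurjective hsurj) M'
      (by
        show (M 1).map π = ⊥
        rw [Subgroup.map_eq_bot_iff, hπ, QuotientGroup.ker_mk'])
      (by
        show (M (Fin.last n).succ).map π = ⊤
        rw [Fin.succ_last, hn, Subgroup.map_top_of_surjective _ hsurj])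
      (fun i j hij => Subgroup.map_mono (hmono (Fin.succ_le_succ_iff.2 hij)))
      (fun i => (hnormal i.succ).map _ hsurj)
      (fun i => by rw [hrel]; exact hfac i.succ)
    have hprod : ∏ i : Fin n, (if ((M' i.castSucc).relIndex (M' i.succ)).Coprime p then
          centModCard (H.map π) (M' i.succ) (M' i.castSucc) / Nat.card (M' i.castSucc) else 1) =
        ∏ i : Fin n, (if ((M i.succ.castSucc).relIndex (M i.succ.succ)).Coprime p then
          centModCard H (M i.succ.succ) (M i.succ.castSucc) / Nat.card (M i.succ.castSucc) else 1) := by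
      refine Finset.prod_congr rfl fun i _ => ?_
      rw [hrel]
      refine if_congr Iff.rfl ?_ rfl
      have hc : centModCard H (M i.succ.succ) (M i.succ.castSucc) =
          centModCard (H.map π) (M' i.succ) (M' i.castSucc) * Nat.card N := by
        let F : {u : G // u ∈ M i.succ.succ ∧ ∀ h ∈ H, h * u * h⁻¹ * u⁻¹ ∈ M i.succ.castSucc} →
            {u : G ⧸ N // u ∈ M' i.succ ∧ ∀ h ∈ H.map π, h * u * h⁻¹ * u⁻¹ ∈ M' i.castSucc} :=
          fun u => ⟨π u.1, ⟨_, u.2.1, rfl⟩, by
            rintro _ ⟨h, hh, rfl⟩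
            exact ⟨_, u.2.2 h hh, by simp only [map_mul, map_inv]⟩⟩
        have hmemc : ∀ (j : Fin (n + 1)) (u : G), π u ∈ (M j.succ).map π → u ∈ M j.succ := fun j u hu =>
          hcomap j ▸ (Subgroup.mem_comap.2 hu)
        letI := Fintype.ofFinite
          {u : G ⧸ N // u ∈ M' i.succ ∧ ∀ h ∈ H.map π, h * u * h⁻¹ * u⁻¹ ∈ M' i.castSucc}
        unfold centModCard
        rw [← Nat.card_congr (Equiv.sigmaFiberEquiv F), Nat.card_sigma,
          Finset.sum_congr rfl (g := fun _ => Nat.card N), Finset.sum_const, Finset.card_univ,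
          smul_eq_mul, ← Nat.card_eq_fintype_card]
        rintro ⟨v, hv1, hv2⟩ -
        obtain ⟨u, rfl⟩ := hsurj v
        have hmem : ∀ y : G, π y = π u → y ∈ M i.succ.succ ∧
            ∀ h ∈ H, h * y * h⁻¹ * y⁻¹ ∈ M i.succ.castSucc := fun y hy =>
          ⟨hmemc i.succ y (hy.symm ▸ hv1), fun h hh => hmemc i.castSucc _ (by
            simp only [map_mul, map_inv, hy]
            exact hv2 _ ⟨h, hh, rfl⟩)⟩
        have hmk : ∀ y : G, π y = π u ↔ u⁻¹ * y ∈ N := fun y => by
          rw [eq_comm]; exact QuotientGroup.eq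
        refine Nat.card_congr
          { toFun := fun w => ⟨u⁻¹ * w.1.1, (hmk _).1 (congrArg Subtype.val w.2)⟩
            invFun := fun z => ⟨⟨u * z, hmem _ ((hmk _).2 (by simp))⟩, Subtype.ext ((hmk _).2 (by simp))⟩
            left_inv := fun w => Subtype.ext (Subtype.ext (mul_inv_cancel_left _ _))
            right_inv := fun z => Subtype.ext (inv_mul_cancel_left _ _) }
      rw [hc, show i.succ.castSucc = i.castSucc.succ from rfl, hcard i.castSucc,
        Nat.mul_div_mul_right _ _ Nat.card_pos]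
    rw [Fin.prod_univ_succ, ← hprod]
    have hN1 : (M (0 : Fin (n + 1)).castSucc).relIndex (M (0 : Fin (n + 1)).succ) = Nat.card N := by
      rw [Fin.castSucc_zero, h0, Subgroup.relIndex_bot_left]; rfl
    rw [hN1, Fin.castSucc_zero, h0, Subgroup.card_bot, Nat.div_one]
    have hPcard : Nat.card (P : Subgroup G) = Nat.card (P.mapSurjective hsurj : Sylow p (G ⧸ N)) *
        p ^ (Nat.card N).factorization p := by
      rw [P.card_eq_multiplicity, (P.mapSurjective hsurj).card_eq_multiplicity, ← pow_add,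
        Subgroup.card_eq_card_quotient_mul_card_subgroup N,
        Nat.factorization_mul Nat.card_pos.ne' Nat.card_pos.ne', Finsupp.add_apply]
    by_cases hco : (Nat.card N).Coprime p
    · rw [if_pos hco, sylowProd_of_coprime N hco H hH P, hih]
      have h0' : (Nat.card N).factorization p = 0 := Nat.factorization_eq_zero_of_not_dvd fun h =>
        (Fact.out : p.Prime).not_dvd_one (hco ▸ Nat.dvd_gcd h dvd_rfl)
      rw [h0', pow_zero, mul_one] at hPcard
      rw [hPcard]
      rw [show M (0 : Fin (n + 1)).succ = N from rfl]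
      ring
    · rw [if_neg hco]
      obtain ⟨m, hm⟩ : ∃ m, Nat.card N = p ^ m := by
        rcases hfac 0 with h | h
        · rwa [hN1] at h
        · rw [hN1] at h; exact absurd h hco
      rw [hm, Nat.Prime.factorization_pow (Fact.out : p.Prime), Finsupp.single_eq_same] at hPcard
      rw [sylowProd_of_isPGroup N (IsPGroup.of_card hm) H P, hih, hPcard, hm]
      ring

end Cfsg.Agent.H87
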