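import Mathlib
import Cfsg.Agent.H87.FixedPointCount
import Cfsg.Agent.H87.SubnormalizerChain
import Cfsg.Prelude.Def_Local

/-!
# The number of `p`-elements against the number of Sylow subgroups in `p`-solvable groups
-/

set_option autoImplicit false

open scoped Pointwise

namespace Cfsg.Agent.H87

variable {G : Type*} [Group G] [Finite G] {p : ℕ} [Fact p.Prime]

/-- The action of a subgroup on a normal section. -/
def sectionAct (P : Subgroup G) (K L : Subgroup G) [hK : K.Normal] [hL : L.Normal] :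
    P →* MulAut (L ⧸ K.subgroupOf L) :=
  quotAct (resAct (MulAut.conj.comp P.subtype) L fun a n hn => hL.conj_mem n hn a)
    (K.subgroupOf L) fun a n hn => Subgroup.mem_subgroupOf.2
      (hK.conj_mem _ (Subgroup.mem_subgroupOf.1 hn) a)

theorem card_fixSub_sectionAct (P : Subgroup G) (K L : Subgroup G) [hK : K.Normal] [hL : L.Normal]
    (hKL : K ≤ L) (B : Subgroup P) :
    Nat.card (fixSub (sectionAct P K L) B) * Nat.card K =
      centModCard (B.map P.subtype) L K := by
  classical
  set π := QuotientGroup.mk' (K.subgroupOf L) with hπ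
  set S := (fixSub (sectionAct P K L) B).comap π with hS
  have h1 : Nat.card S = Nat.card (fixSub (sectionAct P K L) B) * Nat.card K := by
    have e : (fixSub (sectionAct P K L) B) = S.map π := by
      rw [hS, Subgroup.map_comap_eq_self_of_surjective (QuotientGroup.mk'_surjective _)]
    have hle : K.subgroupOf L ≤ S := fun y hy => by
      rw [hS, Subgroup.mem_comap, hπ, QuotientGroup.mk'_apply, (QuotientGroup.eq_one_iff y).2 hy]
      exact one_mem _
    let f : S →* fixSub (sectionAct P K L) B := π.subgroupComap (fixSub (sectionAct P K L) B)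
    have hf : Function.Surjective f := fun ⟨q, hq⟩ => by
      obtain ⟨y, rfl⟩ := QuotientGroup.mk'_surjective _ q
      exact ⟨⟨y, hq⟩, rfl⟩
    rw [← f.ker.card_mul_index, Subgroup.index_ker, MonoidHom.range_eq_top.2 hf, Subgroup.card_top,
      mul_comm]
    congr 1
    have hk : f.ker = (K.subgroupOf L).subgroupOf S := by
      ext y
      rw [MonoidHom.mem_ker, Subtype.ext_iff, Subgroup.mem_subgroupOf]
      exact QuotientGroup.eq_one_iff (N := K.subgroupOf L) (y : L)
    rw [hk, Nat.card_congr (Subgroup.subgroupOfEquivOfLe hle).toEquiv,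
      Nat.card_congr (Subgroup.subgroupOfEquivOfLe hKL).toEquiv]
  rw [← h1]
  have hrel : ∀ (y : L) (b : P), sectionAct P K L b (π y) = π y ↔
      (b : G) * y * (b : G)⁻¹ * (y : G)⁻¹ ∈ K := by
    intro y b
    show ((⟨(b : G) * y * (b : G)⁻¹, hL.conj_mem _ y.2 _⟩ : L) : L ⧸ K.subgroupOf L) =
      (y : L ⧸ K.subgroupOf L) ↔ _
    rw [← mul_inv_eq_one, ← QuotientGroup.mk_inv, ← QuotientGroup.mk_mul, QuotientGroup.eq_one_iff,
      Subgroup.mem_subgroupOf]
    rfl
  refine Nat.card_congr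
    { toFun := fun y => ⟨(y.1 : G), y.1.2, ?_⟩
      invFun := fun u => ⟨⟨u.1, u.2.1⟩, ?_⟩
      left_inv := fun y => rfl
      right_inv := fun u => rfl }
  · rintro _ ⟨b, hb, rfl⟩
    exact (hrel y.1 b).1 (y.2 b hb)
  · intro b hb
    exact (hrel _ b).2 (u.2.2 (b : G) ⟨b, hb, rfl⟩)

/-- The product over the `p'`-factors of a series. -/
noncomputable def seriesProd (p : ℕ) {n : ℕ} (M : Fin (n + 1) → Subgroup G) (H : Subgroup G) : ℕ :=
  ∏ i : Fin n, (if ((M i.castSucc).relIndex (M i.succ)).Coprime p then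
    centModCard H (M i.succ) (M i.castSucc) / Nat.card (M i.castSucc) else 1)

theorem seriesProd_ineq (P : Sylow p G) {n : ℕ} (M : Fin (n + 1) → Subgroup G) (hmono : Monotone M)
    (hnormal : ∀ i, (M i).Normal) [Fintype (P : Subgroup G)] :
    (∏ x : (P : Subgroup G), seriesProd p M (Subgroup.zpowers (x : G))) ^ p *
        seriesProd p M P ^ Nat.card (P : Subgroup G) ≤
      seriesProd p M ⊥ ^ Nat.card (P : Subgroup G) *
        seriesProd p M P ^ (p * Nat.card (P : Subgroup G)) := by
  classical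
  simp only [seriesProd]
  rw [Finset.prod_comm]
  simp only [← Finset.prod_pow, ← Finset.prod_mul_distrib]
  refine Finset.prod_le_prod' fun i _ => ?_
  by_cases hi : ((M i.castSucc).relIndex (M i.succ)).Coprime p
  swap
  · simp [hi]
  simp only [if_pos hi]
  haveI := hnormal i.castSucc
  haveI := hnormal i.succ
  have hle : M i.castSucc ≤ M i.succ := hmono (Fin.castSucc_le_succ i)
  set φ := sectionAct (P : Subgroup G) (M i.castSucc) (M i.succ) with hφ
  have hval : ∀ B : Subgroup (P : Subgroup G),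
      centModCard (B.map (P : Subgroup G).subtype) (M i.succ) (M i.castSucc) /
        Nat.card (M i.castSucc) = Nat.card (fixSub φ B) := fun B => by
    rw [← card_fixSub_sectionAct (P : Subgroup G) _ _ hle B, Nat.mul_div_cancel _ Nat.card_pos]
  have htop := hval ⊤
  rw [← MonoidHom.range_eq_map, Subgroup.range_subtype] at htop
  have hbot := hval ⊥
  rw [Subgroup.map_bot, fixSub_bot, Subgroup.card_top] at hbot
  have hx : ∀ x : (P : Subgroup G),
      centModCard (Subgroup.zpowers (x : G)) (M i.succ) (M i.castSucc) /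
        Nat.card (M i.castSucc) = Nat.card (fixSub φ (Subgroup.zpowers x)) := fun x => by
    rw [← hval, MonoidHom.map_zpowers]; rfl
  have key := fixIneq P.2 φ (p := p) (by
    have : Nat.card (↥(M i.succ) ⧸ (M i.castSucc).subgroupOf (M i.succ)) =
      (M i.castSucc).relIndex (M i.succ) := (Subgroup.index_eq_card _).symm
    rw [this]; exact hi)
  simp only [FixIneq, fixProd, sup_bot_eq] at key
  rw [Subsingleton.elim (Fintype.ofFinite (P : Subgroup G)) ‹Fintype (P : Subgroup G)›] at key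
  simp only [htop, hbot, hx]
  rw [Finset.prod_pow]
  exact key

/-- AM-GM for natural powers. -/
theorem card_pow_mul_prod_le {ι : Type*} [Fintype ι] [Nonempty ι] (T : ι → ℝ) (hT : ∀ i, 0 ≤ T i) :
    (Fintype.card ι : ℝ) ^ Fintype.card ι * ∏ i, T i ≤ (∑ i, T i) ^ Fintype.card ι := by
  have h := Real.geom_mean_le_arith_mean Finset.univ (fun _ : ι => (1 : ℝ)) T (fun _ _ => zero_le_one)
    (by simp [Fintype.card_pos]) fun i _ => hT i
  simp only [Real.rpow_one, one_mul, Finset.sum_const, Finset.card_univ, nsmul_eq_mul, mul_one] at h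
  have hN : (0 : ℝ) < Fintype.card ι := by exact_mod_cast Fintype.card_pos
  have h2 := pow_le_pow_left₀ (Real.rpow_nonneg (Finset.prod_nonneg fun i _ => hT i) _) h
    (Fintype.card ι)
  rw [Real.rpow_inv_natCast_pow (Finset.prod_nonneg fun i _ => hT i) Fintype.card_ne_zero, div_pow,
    le_div_iff₀ (pow_pos hN _)] at h2
  linarith

/-- `#P ^ p * n ^ (p - 1) ≤ u ^ p`. -/
theorem card_pElements_ge (hG : Cfsg.IsPSolvable p G) (P : Sylow p G) :
    Nat.card (P : Subgroup G) ^ p * Nat.card (Sylow p G) ^ (p - 1) ≤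
      Nat.card {g : G // ∃ k : ℕ, orderOf g = p ^ k} ^ p := by
  classical
  letI := Fintype.ofFinite G
  letI := Fintype.ofFinite (Sylow p G)
  letI := Fintype.ofFinite (P : Subgroup G)
  obtain ⟨n, M, h0, hn, hmono, hnormal, hfac⟩ := hG
  set S : Subgroup G → ℕ := fun H => Nat.card {Q : Sylow p G // H ≤ (Q : Subgroup G)} with hS
  have hformula : ∀ H : Subgroup G, IsPGroup p H →
      S H * Nat.card (Subgroup.normalizer ((P : Subgroup G) : Set G)) =
        Nat.card (P : Subgroup G) * seriesProd p M H := fun H hH =>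
    sylowProd_series n G H hH P M h0 hn hmono hnormal hfac
  have hSP : S (P : Subgroup G) = 1 := by
    refine Nat.card_eq_one_iff_unique.2 ⟨⟨fun R R' => Subtype.ext ?_⟩, ⟨⟨P, le_rfl⟩⟩⟩
    exact Sylow.ext ((P.is_maximal' R.1.isPGroup' R.2).trans (P.is_maximal' R'.1.isPGroup' R'.2).symm)
  set N₀ := Nat.card (Subgroup.normalizer ((P : Subgroup G) : Set G)) with hN₀
  have hN₀P : N₀ = Nat.card (P : Subgroup G) * seriesProd p M P := by
    rw [← hformula _ P.2, hSP, one_mul]
  set C := seriesProd p M P with hC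
  have hCpos : 0 < C := Nat.pos_of_ne_zero fun h => by
    rw [h, mul_zero] at hN₀P; exact Nat.card_pos.ne' hN₀P
  have hSC : ∀ H : Subgroup G, IsPGroup p H → S H * C = seriesProd p M H := fun H hH => by
    have := hformula H hH
    rw [hN₀P] at this
    exact Nat.eq_of_mul_eq_mul_left (Nat.card_pos (α := (P : Subgroup G))) (by rw [← this]; ring)
  set N := Nat.card (P : Subgroup G) with hN
  set nS := Nat.card (Sylow p G) with hnS
  have hS0 : S ⊥ = nS := Nat.card_congr (Equiv.subtypeUnivEquiv fun Q => bot_le)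
  let s : G → ℕ := fun g => S (Subgroup.zpowers g)
  have hsmem : ∀ (g : G) (Q : Sylow p G), Subgroup.zpowers g ≤ (Q : Subgroup G) ↔ g ∈ (Q : Subgroup G) :=
    fun g Q => Subgroup.zpowers_le
  have hprod : (∏ x : (P : Subgroup G), s x) ^ p ≤ nS ^ N := by
    have key := seriesProd_ineq P M hmono hnormal
    have hx : ∀ x : (P : Subgroup G), seriesProd p M (Subgroup.zpowers (x : G)) = s x * C := fun x =>
      (hSC _ (P.2.to_le (Subgroup.zpowers_le.2 x.2))).symm
    simp only [hx, Finset.prod_mul_distrib, Finset.prod_const, Finset.card_univ,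
      ← Nat.card_eq_fintype_card, ← hN, ← hC] at key
    rw [← hSC ⊥ IsPGroup.of_bot, hS0] at key
    refine Nat.le_of_mul_le_mul_right ?_ (show 0 < C ^ (p * N) * C ^ N by positivity)
    calc (∏ x : (P : Subgroup G), s x) ^ p * (C ^ (p * N) * C ^ N)
        = ((∏ x : (P : Subgroup G), s x) * C ^ N) ^ p * C ^ N := by
          rw [mul_pow, ← pow_mul C N p, mul_comm N p]; ring
      _ ≤ (nS * C) ^ N * C ^ (p * N) := key
      _ = _ := by rw [mul_pow]; ring
  -- counting pairs
  set u := Nat.card {g : G // ∃ k : ℕ, orderOf g = p ^ k} with hu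
  have hspos : ∀ (Q : Sylow p G) (g : G), g ∈ (Q : Subgroup G) → 0 < s g := fun Q g hg => by
    haveI : Nonempty {R : Sylow p G // Subgroup.zpowers g ≤ (R : Subgroup G)} :=
      ⟨⟨Q, (hsmem g Q).2 hg⟩⟩
    exact Nat.card_pos
  have hconj : ∀ (c g : G), s (c * g * c⁻¹) = s g := by
    intro c g
    refine Nat.card_congr (Equiv.subtypeEquiv (MulAction.toPerm (c⁻¹ : G)) fun Q => ?_)
    rw [hsmem, hsmem]
    show _ ↔ g ∈ MulAut.conj c⁻¹ • (Q : Subgroup G)
    rw [Subgroup.mem_pointwise_smul_iff_inv_smul_mem]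
    simp [MulAut.smul_def, mul_assoc]
  have hcount : (u : ℝ) = nS * ∑ x : (P : Subgroup G), ((s x : ℝ))⁻¹ := by
    have e1 : ∀ g : G, ∑ Q : Sylow p G, (if g ∈ (Q : Subgroup G) then ((s g : ℝ))⁻¹ else 0) =
        if ∃ k : ℕ, orderOf g = p ^ k then 1 else 0 := by
      intro g
      rw [← Finset.sum_filter, Finset.sum_const, nsmul_eq_mul]
      have hcard : (Finset.univ.filter fun Q : Sylow p G => g ∈ (Q : Subgroup G)).card = s g := by
        simp only [s, hS, hsmem]
        rw [Nat.card_eq_fintype_card, Fintype.card_subtype]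
      rw [hcard]
      by_cases hg : ∃ k : ℕ, orderOf g = p ^ k
      · rw [if_pos hg]
        obtain ⟨k, hk⟩ := hg
        have hp : IsPGroup p (Subgroup.zpowers g) :=
          IsPGroup.of_card (n := k) (by rw [Nat.card_zpowers, hk])
        obtain ⟨Q, hQ⟩ := hp.exists_le_sylow
        exact mul_inv_cancel₀ (by exact_mod_cast (hspos Q g ((hsmem g Q).1 hQ)).ne')
      · rw [if_neg hg]
        have : s g = 0 := Nat.card_eq_zero.2 (Or.inl ⟨fun Q => hg (by
          obtain ⟨k, hk⟩ := IsPGroup.iff_orderOf.1 Q.1.2 ⟨g, (hsmem g Q.1).1 Q.2⟩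
          exact ⟨k, by rwa [Subgroup.orderOf_mk] at hk⟩)⟩)
        simp [this]
    have e2 : ∀ Q : Sylow p G, ∑ g : G, (if g ∈ (Q : Subgroup G) then ((s g : ℝ))⁻¹ else 0) =
        ∑ x : (P : Subgroup G), ((s x : ℝ))⁻¹ := by
      intro Q
      obtain ⟨c, rfl⟩ := MulAction.exists_smul_eq G P Q
      have hmem : ∀ g : G, c * g * c⁻¹ ∈ ((c • P : Sylow p G) : Subgroup G) ↔ g ∈ (P : Subgroup G) := by
        intro g
        rw [Sylow.coe_subgroup_smul, Subgroup.mem_pointwise_smul_iff_inv_smul_mem]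
        simp [MulAut.smul_def, mul_assoc]
      rw [← Finset.sum_subtype (Finset.univ.filter fun g => g ∈ (P : Subgroup G)) (by simp)
        (fun g => ((s g : ℝ))⁻¹), Finset.sum_filter]
      refine (Fintype.sum_equiv (MulAut.conj c).toEquiv _ _ fun g => ?_).symm
      show _ = if c * g * c⁻¹ ∈ _ then ((s (c * g * c⁻¹) : ℝ))⁻¹ else 0
      simp only [hmem, hconj]
    calc (u : ℝ) = ∑ g : G, if ∃ k : ℕ, orderOf g = p ^ k then (1 : ℝ) else 0 := by
          rw [Finset.sum_boole, hu, Nat.card_eq_fintype_card, Fintype.card_subtype]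
      _ = ∑ g : G, ∑ Q : Sylow p G, (if g ∈ (Q : Subgroup G) then ((s g : ℝ))⁻¹ else 0) := by
          simp only [e1]
      _ = ∑ Q : Sylow p G, ∑ x : (P : Subgroup G), ((s x : ℝ))⁻¹ := by
          rw [Finset.sum_comm]; simp only [e2]
      _ = _ := by rw [Finset.sum_const, Finset.card_univ, nsmul_eq_mul, hnS, Nat.card_eq_fintype_card]
  -- conclusion
  have hp := (Fact.out : p.Prime).one_le
  set T : ℝ := ∑ x : (P : Subgroup G), ((s x : ℝ))⁻¹ with hT
  set Prd : ℝ := ∏ x : (P : Subgroup G), (s x : ℝ) with hPr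
  have hPrpos : 0 < Prd := Finset.prod_pos fun x _ => by exact_mod_cast hspos P x x.2
  have ham : (N : ℝ) ^ N ≤ T ^ N * Prd := by
    have := card_pow_mul_prod_le (fun x : (P : Subgroup G) => ((s x : ℝ))⁻¹)
      fun x => by positivity
    rw [← Nat.card_eq_fintype_card, ← hN, Finset.prod_inv_distrib, ← hPr, ← hT,
      ← div_eq_mul_inv, div_le_iff₀ hPrpos] at this
    exact this
  have hPrle : Prd ^ p ≤ (nS : ℝ) ^ N := by
    rw [hPr]; exact_mod_cast hprod
  have hT0 : 0 ≤ T := Finset.sum_nonneg fun x _ => by positivity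
  have hnpos : (0 : ℝ) < nS := by exact_mod_cast Nat.card_pos
  have hfinal : ((N : ℝ) ^ p * (nS : ℝ) ^ (p - 1)) ^ N ≤ ((u : ℝ) ^ p) ^ N := by
    rw [hcount]
    have h1 : ((N : ℝ) ^ N) ^ p ≤ (T ^ N) ^ p * (nS : ℝ) ^ N := by
      calc ((N : ℝ) ^ N) ^ p ≤ (T ^ N * Prd) ^ p := pow_le_pow_left₀ (by positivity) ham p
        _ = (T ^ N) ^ p * Prd ^ p := mul_pow _ _ _
        _ ≤ _ := mul_le_mul_of_nonneg_left hPrle (by positivity)
    calc ((N : ℝ) ^ p * (nS : ℝ) ^ (p - 1)) ^ N
        = ((N : ℝ) ^ N) ^ p * ((nS : ℝ) ^ (p - 1)) ^ N := by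
          rw [mul_pow, ← pow_mul, ← pow_mul, mul_comm p N, pow_mul, pow_mul]
      _ ≤ (T ^ N) ^ p * (nS : ℝ) ^ N * ((nS : ℝ) ^ (p - 1)) ^ N :=
          mul_le_mul_of_nonneg_right h1 (by positivity)
      _ = (((nS : ℝ) * T) ^ p) ^ N := by
          rw [mul_assoc, ← mul_pow, ← pow_succ', Nat.sub_add_cancel hp, mul_pow, mul_pow, ← pow_mul T,
            ← pow_mul T, mul_comm p N]
          ring
  have hNne : N ≠ 0 := Nat.card_pos.ne'
  have := (pow_le_pow_iff_left₀ (by positivity) (by positivity) hNne).1 hfinal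
  exact_mod_cast this

end Cfsg.Agent.H87
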