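import Mathlib

/-!
# Solvable non-nilpotent groups whose non-abelian subgroups are self-normalizing
-/

set_option autoImplicit false

open scoped commutatorElement

namespace Cfsg.Agent.H87

variable {G : Type*} [Group G] [Finite G]

theorem selfNorm_of_structure {x : G} {A : Subgroup G} {p : ℕ} (hp : p.Prime) (hA : A.Normal)
    (hab : IsMulCommutative A) (hord : ∃ k, orderOf x = p ^ k)
    (hcompl : (Subgroup.zpowers x).IsComplement' A) (hxp : x ^ p ∈ Subgroup.center G)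
    (hfpf : ∀ a, a ∈ A → a ≠ 1 → x * a * x⁻¹ ≠ a) {H : Subgroup G} (hH : ¬ IsMulCommutative H) :
    Subgroup.normalizer (H : Set G) = H := by
  haveI := hA
  haveI := hab
  have hAc : ∀ {a b : G}, a ∈ A → b ∈ A → a * b = b * a := fun {a b} ha hb =>
    congrArg Subtype.val (mul_comm' (⟨a, ha⟩ : A) ⟨b, hb⟩)
  have hdec : ∀ g : G, ∃ a ∈ A, ∃ i : ℤ, g = a * x ^ i := by
    intro g
    obtain ⟨⟨⟨a, ha⟩, ⟨_, i, rfl⟩⟩, hg⟩ := hcompl.symm.2 g
    exact ⟨a, ha, i, hg.symm⟩
  -- an element of `H` outside `A⟨x ^ p⟩`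
  obtain ⟨a₀, ha₀, i, hi, hh⟩ : ∃ a ∈ A, ∃ i : ℤ, ¬ (p : ℤ) ∣ i ∧ a * x ^ i ∈ H := by
    by_contra hno
    push_neg at hno
    refine hH ⟨⟨fun u v => Subtype.ext ?_⟩⟩
    obtain ⟨a, ha, i, hu⟩ := hdec u
    obtain ⟨b, hb, j, hv⟩ := hdec v
    have hci : x ^ i ∈ Subgroup.center G := by
      obtain ⟨c, rfl⟩ : (p : ℤ) ∣ i := by
        by_contra h
        exact hno a ha i h (hu ▸ u.2)
      rw [zpow_mul, zpow_natCast]; exact zpow_mem hxp c
    have hcj : x ^ j ∈ Subgroup.center G := by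
      obtain ⟨c, rfl⟩ : (p : ℤ) ∣ j := by
        by_contra h
        exact hno b hb j h (hv ▸ v.2)
      rw [zpow_mul, zpow_natCast]; exact zpow_mem hxp c
    have h1 := Subgroup.mem_center_iff.1 hci
    have h2 := Subgroup.mem_center_iff.1 hcj
    show (u : G) * v = v * u
    rw [hu, hv]
    calc a * x ^ i * (b * x ^ j) = a * (x ^ i * b) * x ^ j := by group
      _ = (a * b) * (x ^ i * x ^ j) := by rw [← h1 b]; group
      _ = (b * a) * (x ^ j * x ^ i) := by rw [hAc ha hb, (Commute.refl x).zpow_zpow i j]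
      _ = b * (a * x ^ j) * x ^ i := by group
      _ = b * (x ^ j * a) * x ^ i := by rw [h2 a]
      _ = _ := by group
  set h := a₀ * x ^ i with hhdef
  obtain ⟨k, hk⟩ := hord
  obtain ⟨u, hu⟩ : ∃ u : ℤ, (x ^ i) ^ u = x := by
    have hc : IsCoprime i ((p : ℤ) ^ k) :=
      ((Nat.prime_iff_prime_int.1 hp).coprime_iff_not_dvd.2 hi).symm.pow_right
    obtain ⟨u, v, huv⟩ := hc
    refine ⟨u, ?_⟩
    have : x ^ ((p : ℤ) ^ k) = 1 := by
      rw [← Nat.cast_pow, zpow_natCast, ← hk, pow_orderOf_eq_one]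
    calc (x ^ i) ^ u = x ^ (u * i) * (x ^ ((p : ℤ) ^ k)) ^ v := by
          rw [this, one_zpow, mul_one, ← zpow_mul, mul_comm]
      _ = x := by rw [← zpow_mul x ((p : ℤ) ^ k), ← zpow_add, mul_comm _ v, huv, zpow_one]
  -- `h` acts on `A` as `x ^ i`, without fixed points
  have hfix : ∀ a ∈ A, h * a * h⁻¹ = a → a = 1 := by
    intro a ha hfa
    by_contra hne
    refine hfpf a ha hne ?_
    have h1 : x ^ i * a * (x ^ i)⁻¹ = a := by
      have hc : a₀⁻¹ * a * a₀ = a := by rw [mul_assoc, hAc ha ha₀, inv_mul_cancel_left]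
      calc x ^ i * a * (x ^ i)⁻¹ = a₀⁻¹ * (h * a * h⁻¹) * a₀ := by rw [hhdef]; group
        _ = a := by rw [hfa, hc]
    have h2 : Commute (x ^ i) a := mul_inv_eq_iff_eq_mul.1 h1
    have h3 := (h2.zpow_left u)
    rw [hu] at h3
    rw [h3.eq, mul_inv_cancel_right]
  refine le_antisymm (fun g hg => ?_) Subgroup.le_normalizer
  -- `G = A H`
  obtain ⟨a, ha, j, hgj⟩ := hdec g
  obtain ⟨c, hc, hxc⟩ : ∃ c ∈ A, c * x ^ j ∈ H := by
    have hm : (a₀ * x ^ i) ^ (u * j) ∈ H := H.zpow_mem hh _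
    refine ⟨(a₀ * x ^ i) ^ (u * j) * (x ^ j)⁻¹, ?_, by rwa [inv_mul_cancel_right]⟩
    rw [← QuotientGroup.eq_one_iff, QuotientGroup.mk_mul, QuotientGroup.mk_zpow,
      QuotientGroup.mk_inv, QuotientGroup.mk_mul, (QuotientGroup.eq_one_iff a₀).2 ha₀, one_mul,
      ← QuotientGroup.mk_zpow, zpow_mul, hu, mul_inv_cancel]
  set n := a * c⁻¹ with hn
  have hnA : n ∈ A := A.mul_mem ha (A.inv_mem hc)
  have hgn : g = n * (c * x ^ j) := by rw [hn, hgj]; group
  have hnN : n ∈ Subgroup.normalizer (H : Set G) := by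
    have : n = g * (c * x ^ j)⁻¹ := by rw [hgn]; group
    rw [this]
    exact Subgroup.mul_mem _ hg (Subgroup.le_normalizer (H.inv_mem hxc))
  suffices hnH : n ∈ H by rw [hgn]; exact H.mul_mem hnH hxc
  -- `B := H ∩ A`; `δ` maps `B` onto `B`
  let δ : A →* A := MonoidHom.mk' (fun m => ⟨(m : G) * (h * (m : G)⁻¹ * h⁻¹),
      A.mul_mem m.2 (hA.conj_mem _ (A.inv_mem m.2) h)⟩) fun m m' => Subtype.ext (by
    show (m : G) * (m' : G) * (h * ((m : G) * (m' : G))⁻¹ * h⁻¹) =
      (m : G) * (h * (m : G)⁻¹ * h⁻¹) * ((m' : G) * (h * (m' : G)⁻¹ * h⁻¹))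
    have hcomm := hAc (A.mul_mem m'.2 (hA.conj_mem _ (A.inv_mem m'.2) h))
      (hA.conj_mem _ (A.inv_mem m.2) h)
    calc (m : G) * (m' : G) * (h * ((m : G) * (m' : G))⁻¹ * h⁻¹)
        = (m : G) * ((m' : G) * (h * (m' : G)⁻¹ * h⁻¹) * (h * (m : G)⁻¹ * h⁻¹)) := by group
      _ = _ := by rw [hcomm]; group)
  have hδinj : Function.Injective δ := (injective_iff_map_eq_one δ).2 fun m hm => by
    have hm : (m : G) * (h * (m : G)⁻¹ * h⁻¹) = 1 := congrArg Subtype.val hm
    refine Subtype.ext (hfix m m.2 ?_)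
    calc h * (m : G) * h⁻¹ = (h * (m : G)⁻¹ * h⁻¹)⁻¹ := by group
      _ = m := inv_eq_of_mul_eq_one_left hm
  have hB : ∀ m : A, (m : G) ∈ Subgroup.normalizer (H : Set G) → (δ m : G) ∈ H := by
    intro m hm
    show (m : G) * (h * (m : G)⁻¹ * h⁻¹) ∈ H
    rw [show (m : G) * (h * (m : G)⁻¹ * h⁻¹) = ((m : G) * h * (m : G)⁻¹) * h⁻¹ by group]
    exact H.mul_mem ((Subgroup.mem_normalizer_iff.1 hm h).1 hh) (H.inv_mem hh)
  let δB : H.subgroupOf A → H.subgroupOf A := fun m => ⟨δ m.1, hB _ (Subgroup.le_normalizer m.2)⟩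
  have hsur : Function.Surjective δB := Finite.surjective_of_injective fun m m' e =>
    Subtype.ext (hδinj (congrArg Subtype.val e))
  obtain ⟨m, hm⟩ := hsur ⟨δ ⟨n, hnA⟩, hB _ hnN⟩
  have : m.1 = ⟨n, hnA⟩ := hδinj (congrArg Subtype.val hm)
  have := m.2
  simp_all [Subgroup.mem_subgroupOf]

theorem structure_of_selfNorm [Group.IsSolvable G] (hnn : ¬ Group.IsNilpotent G)
    (hS : ∀ H : Subgroup G, ¬ IsMulCommutative H → Subgroup.normalizer (H : Set G) = H) :
    ∃ (x : G) (A : Subgroup G) (p : ℕ), p.Prime ∧ A.Normal ∧ IsMulCommutative A ∧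
      (∃ k : ℕ, orderOf x = p ^ k) ∧ ¬ p ∣ Nat.card A ∧ (Subgroup.zpowers x).IsComplement' A ∧
      x ^ p ∈ Subgroup.center G ∧ ∀ a : G, a ∈ A → a ≠ 1 → x * a * x⁻¹ ≠ a := by
  classical
  haveI : Nontrivial G := by
    by_contra h
    rw [not_nontrivial_iff_subsingleton] at h
    exact hnn inferInstance
  have hab : ∀ N : Subgroup G, N.Normal → N ≠ ⊤ → IsMulCommutative N := fun N hN hne =>
    by_contra fun h => hne ((hS N h).symm.trans (Subgroup.normalizer_eq_top (H := N)))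
  -- a normal subgroup of prime index
  obtain ⟨M, hMc, hMG'⟩ : ∃ M : Subgroup G, IsCoatom M ∧ commutator G ≤ M := by
    obtain ⟨M, hM, hle⟩ := (eq_top_or_exists_le_coatom (commutator G)).resolve_left
      (Group.IsSolvable.commutator_lt_top_of_nontrivial G).ne
    exact ⟨M, hM, hle⟩
  haveI hMn : M.Normal := ⟨fun m hm g => by
    have h1 : ⁅g, m⁆ ∈ M :=
      hMG' (Subgroup.commutator_mem_commutator (Subgroup.mem_top g) (Subgroup.mem_top m))
    have := M.mul_mem h1 hm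
    simpa [commutatorElement_def, mul_assoc] using this⟩
  haveI hMab := hab M hMn hMc.1
  have hprime : M.index.Prime := by
    haveI : IsSimpleGroup (G ⧸ M) := by
      haveI : Nontrivial (G ⧸ M) := QuotientGroup.nontrivial_iff.2 hMc.1
      refine ⟨fun N _ => ?_⟩
      have hle : M ≤ N.comap (QuotientGroup.mk' M) := fun m hm => by
        rw [Subgroup.mem_comap, show QuotientGroup.mk' M m = 1 from (QuotientGroup.eq_one_iff m).2 hm]
        exact one_mem _
      rcases hle.lt_or_eq with hlt | heq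
      · right
        have := hMc.2 _ hlt
        rw [← Subgroup.map_comap_eq_self_of_surjective (QuotientGroup.mk'_surjective M) N, this,
          Subgroup.map_top_of_surjective _ (QuotientGroup.mk'_surjective M)]
      · left
        rw [← Subgroup.map_comap_eq_self_of_surjective (QuotientGroup.mk'_surjective M) N, ← heq]
        simp [Subgroup.map_eq_bot_iff]
    letI : CommGroup (G ⧸ M) :=
      { (inferInstance : Group (G ⧸ M)) with
        mul_comm := fun a b => by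
          obtain ⟨a, rfl⟩ := QuotientGroup.mk_surjective a
          obtain ⟨b, rfl⟩ := QuotientGroup.mk_surjective b
          rw [← QuotientGroup.mk_mul, ← QuotientGroup.mk_mul, QuotientGroup.eq]
          refine hMG' ?_
          rw [show (a * b)⁻¹ * (b * a) = ⁅b⁻¹, a⁻¹⁆ by rw [commutatorElement_def]; group]
          exact Subgroup.commutator_mem_commutator (Subgroup.mem_top _) (Subgroup.mem_top _) }
    rw [Subgroup.index_eq_card]
    exact IsSimpleGroup.prime_card
  set p := M.index with hpdef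
  haveI := Fact.mk hprime
  obtain ⟨P⟩ : Nonempty (Sylow p G) := inferInstance
  -- the `p'`-part of `M`
  let A : Subgroup G :=
    { carrier := {g | g ∈ M ∧ (orderOf g).Coprime p}
      one_mem' := ⟨one_mem M, by simp⟩
      mul_mem' := fun {a b} ha hb => ⟨M.mul_mem ha.1 hb.1,
        (Nat.Coprime.mul_left ha.2 hb.2).coprime_dvd_left
          (show Commute a b from congrArg Subtype.val
            (mul_comm' (⟨a, ha.1⟩ : M) ⟨b, hb.1⟩)).orderOf_mul_dvd_mul_orderOf⟩
      inv_mem' := fun {a} ha => ⟨M.inv_mem ha.1, by rw [orderOf_inv]; exact ha.2⟩ }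
  have hAM : A ≤ M := fun a ha => ha.1
  haveI hAn : A.Normal := ⟨fun a ha g => ⟨hMn.conj_mem a ha.1 g, by
    rw [show g * a * g⁻¹ = MulAut.conj g a from rfl, MulEquiv.orderOf_eq]; exact ha.2⟩⟩
  haveI hAab : IsMulCommutative A := ⟨⟨fun a b => Subtype.ext
    (congrArg Subtype.val (mul_comm' (⟨a, hAM a.2⟩ : M) ⟨b, hAM b.2⟩) : _)⟩⟩
  have hAP : ∀ y ∈ A, y ∈ (P : Subgroup G) → y = 1 := fun y hy hyP => by
    obtain ⟨k, hk⟩ := IsPGroup.iff_orderOf.1 P.2 ⟨y, hyP⟩
    rw [Subgroup.orderOf_mk] at hk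
    exact orderOf_eq_one_iff.1 (Nat.eq_one_of_dvd_coprimes (hy.2.pow_right k) dvd_rfl hk.dvd)
  have hAp : ¬ p ∣ Nat.card A := fun h => by
    obtain ⟨a, ha⟩ := exists_prime_orderOf_dvd_card' p h
    rw [← Subgroup.orderOf_coe] at ha
    have := a.2.2
    rw [ha, Nat.coprime_self] at this
    exact hprime.ne_one this
  have htop : A ⊔ (P : Subgroup G) = ⊤ := by
    refine Subgroup.eq_top_of_card_eq _ (Nat.dvd_antisymm (Subgroup.card_subgroup_dvd_card _) ?_)
    refine (Nat.factorization_le_iff_dvd Nat.card_pos.ne' Nat.card_pos.ne').1 fun s => ?_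
    by_cases hs : s.Prime
    swap
    · simp [Nat.factorization_eq_zero_of_not_prime _ hs]
    rw [← hs.pow_dvd_iff_le_factorization Nat.card_pos.ne']
    haveI := Fact.mk hs
    obtain ⟨S⟩ : Nonempty (Sylow s G) := inferInstance
    rw [← S.card_eq_multiplicity]
    by_cases hsp : s = p
    · subst hsp
      rw [S.card_eq_multiplicity, ← P.card_eq_multiplicity]
      exact Subgroup.card_dvd_of_le le_sup_right
    · refine Subgroup.card_dvd_of_le fun y hy => Subgroup.mem_sup_left ?_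
      obtain ⟨k, hk⟩ := IsPGroup.iff_orderOf.1 S.2 ⟨y, hy⟩
      rw [Subgroup.orderOf_mk] at hk
      have hc : (orderOf y).Coprime p := by
        rw [hk]; exact ((Nat.coprime_primes hs hprime).2 hsp).pow_left k
      refine ⟨?_, hc⟩
      rw [← QuotientGroup.eq_one_iff, ← orderOf_eq_one_iff]
      refine Nat.eq_one_of_dvd_coprimes hc (orderOf_map_dvd (QuotientGroup.mk' M) y) ?_
      exact (orderOf_dvd_natCard _).trans (by rw [← Subgroup.index_eq_card])
  have hnormP : ¬ (P : Subgroup G).Normal := by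
    intro hPn
    haveI := hPn
    refine hnn ?_
    have hA : ∀ a ∈ A, ∀ y ∈ (P : Subgroup G), a * y = y * a := fun a ha y hy => by
      have h1 : ⁅a, y⁆ ∈ A ⊓ (P : Subgroup G) := Subgroup.commutator_le_inf A (P : Subgroup G)
        (Subgroup.commutator_mem_commutator ha hy)
      exact commutatorElement_eq_one_iff_mul_comm.1 (hAP _ h1.1 h1.2)
    haveI : Group.IsNilpotent (P : Subgroup G) := P.2.isNilpotent
    let f : A × (P : Subgroup G) →* G := (A.subtype).noncommCoprod (P : Subgroup G).subtype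
      fun a y => hA a a.2 y y.2
    have hf : Function.Surjective f := by
      rw [← MonoidHom.range_eq_top, show f.range = _ from MonoidHom.noncommCoprod_range _ _ _, Subgroup.range_subtype,
        Subgroup.range_subtype, htop]
    haveI : Group.IsNilpotent A := by
      letI : CommGroup A := { (inferInstance : Group A) with mul_comm := fun a b => mul_comm' a b }
      infer_instance
    exact Group.nilpotent_of_surjective f hf
  -- `P` does not centralize `A`
  have hnc : ¬ ∀ y ∈ (P : Subgroup G), ∀ a ∈ A, y * a = a * y := fun h => by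
    refine hnormP ⟨fun y hy g => ?_⟩
    have : g ∈ A ⊔ (P : Subgroup G) := htop ▸ Subgroup.mem_top g
    rw [← SetLike.mem_coe, Subgroup.normal_mul] at this
    obtain ⟨a, ha, q, hq, rfl⟩ := this
    have hq' := (P : Subgroup G).mul_mem ((P : Subgroup G).mul_mem hq hy) ((P : Subgroup G).inv_mem hq)
    have e : a * q * y * (a * q)⁻¹ = a * (q * y * q⁻¹) * a⁻¹ := by group
    show a * q * y * (a * q)⁻¹ ∈ (P : Subgroup G)
    rw [e, ← h _ hq' a ha, mul_inv_cancel_right]
    exact hq'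
  obtain ⟨x, hxP, hxM⟩ : ∃ x, x ∈ (P : Subgroup G) ∧ x ∉ M := by
    by_contra h
    push_neg at h
    exact hMc.1 (top_le_iff.1 (htop ▸ sup_le hAM h))
  have hMcent : ∀ y ∈ (P : Subgroup G), y ∈ M → ∀ a ∈ A, y * a = a * y := fun y _ hy a ha =>
    congrArg Subtype.val (mul_comm' (⟨y, hy⟩ : M) ⟨a, hAM ha⟩)
  have hxgen : ∀ y ∈ (P : Subgroup G), ∃ i : ℤ, y * (x ^ i)⁻¹ ∈ M := by
    intro y _
    have hne : ((x : G) : G ⧸ M) ≠ 1 := fun h => hxM ((QuotientGroup.eq_one_iff x).1 h)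
    obtain ⟨i, hi⟩ := mem_zpowers_of_prime_card (p := p) (by rw [← Subgroup.index_eq_card]) hne
      (g' := (y : G ⧸ M))
    have hi : ((x : G) : G ⧸ M) ^ i = (y : G ⧸ M) := hi
    refine ⟨i, (QuotientGroup.eq_one_iff _).1 ?_⟩
    rw [QuotientGroup.mk_mul, QuotientGroup.mk_inv, QuotientGroup.mk_zpow, hi, mul_inv_cancel]
  have hxnc : ¬ ∀ a ∈ A, x * a = a * x := fun h => hnc fun y hy a ha => by
    obtain ⟨i, hi⟩ := hxgen y hy
    have h1 : Commute (y * (x ^ i)⁻¹) a :=
      hMcent _ ((P : Subgroup G).mul_mem hy ((P : Subgroup G).inv_mem ((P : Subgroup G).zpow_mem hxP i))) hi a ha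
    have h2 : Commute (x ^ i) a := (show Commute x a from h a ha).zpow_left i
    have := h1.mul_left h2
    rwa [inv_mul_cancel_right] at this
  -- `P` is cyclic
  have hPx : (P : Subgroup G) = Subgroup.zpowers x := by
    refine le_antisymm ?_ (Subgroup.zpowers_le.2 hxP)
    by_contra hne
    haveI : Group.IsNilpotent (P : Subgroup G) := P.2.isNilpotent
    have hne' : (Subgroup.zpowers x).subgroupOf P ≠ ⊤ := fun h =>
      hne (Subgroup.subgroupOf_eq_top.1 h)
    obtain ⟨C, hC, hxC⟩ := (eq_top_or_exists_le_coatom _).resolve_left hne'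
    haveI hCn : C.Normal := Subgroup.NormalizerCondition.normal_of_coatom C
      Group.normalizerCondition_of_isNilpotent hC
    set C' := C.map (P : Subgroup G).subtype with hC'
    have hC'P : C' ≤ P := Subgroup.map_subtype_le _
    have hxC' : x ∈ C' := ⟨⟨x, hxP⟩, hxC (Subgroup.mem_subgroupOf.2 (Subgroup.mem_zpowers x)), rfl⟩
    have hPC' : (P : Subgroup G) ≤ Subgroup.normalizer (C' : Set G) := fun y hy => by
      rw [Subgroup.mem_normalizer_iff]
      intro c
      constructor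
      · rintro ⟨c, hc, rfl⟩
        exact ⟨⟨y, hy⟩ * c * ⟨y, hy⟩⁻¹, hCn.conj_mem c hc _, rfl⟩
      · intro hc
        obtain ⟨d, hd, hd'⟩ := hc
        have hd' : (d : G) = y * c * y⁻¹ := hd'
        refine ⟨⟨y, hy⟩⁻¹ * d * ⟨y, hy⟩, by simpa using hCn.conj_mem d hd (⟨y, hy⟩⁻¹), ?_⟩
        simp [hd', mul_assoc]
    set N := A ⊔ C' with hN
    haveI hNn : N.Normal := by
      refine Subgroup.normalizer_eq_top_iff.1 (top_le_iff.1 ?_)
      rw [← htop]
      refine sup_le (le_trans le_sup_left Subgroup.le_normalizer) ?_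
      intro y hy
      exact Subgroup.normalizer_inf_normalizer_le_normalizer_sup A C'
        ⟨by rw [Subgroup.normalizer_eq_top]; exact Subgroup.mem_top y, hPC' hy⟩
    have hNne : N ≠ ⊤ := fun h => by
      obtain ⟨y, hy, hyC⟩ : ∃ y, y ∈ (P : Subgroup G) ∧ y ∉ C' := by
        by_contra hall
        push_neg at hall
        refine hC.1 (top_le_iff.1 fun y _ => ?_)
        obtain ⟨c, hc, e⟩ := hall y y.2
        rwa [Subtype.ext e] at hc
      have hy' : y ∈ N := h ▸ Subgroup.mem_top y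
      rw [hN, ← SetLike.mem_coe, Subgroup.normal_mul] at hy'
      obtain ⟨a, ha, c, hc, rfl⟩ := hy'
      have ha1 : a = 1 := hAP a ha (by
        have := (P : Subgroup G).mul_mem hy ((P : Subgroup G).inv_mem (hC'P hc))
        rwa [mul_inv_cancel_right] at this)
      exact hyC (by show a * c ∈ C'; rw [ha1, one_mul]; exact hc)
    haveI := hab N hNn hNne
    exact hxnc fun a ha => congrArg Subtype.val (mul_comm'
      (⟨x, Subgroup.mem_sup_right hxC'⟩ : N) ⟨a, Subgroup.mem_sup_left ha⟩)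
  have hdis : Disjoint (Subgroup.zpowers x) A := by
    rw [Subgroup.disjoint_def]
    exact fun {y} hy hyA => hAP y hyA (hPx ▸ hy)
  have htop' : Subgroup.zpowers x ⊔ A = ⊤ := by rw [← hPx, sup_comm, htop]
  obtain ⟨k, hk⟩ := IsPGroup.iff_orderOf.1 P.2 ⟨x, hxP⟩
  rw [Subgroup.orderOf_mk] at hk
  have hxp : x ^ p ∈ Subgroup.center G := by
    have hM' : x ^ p ∈ M := M.pow_index_mem x
    refine Subgroup.mem_center_iff.2 fun g => ?_
    have hg : g ∈ A ⊔ Subgroup.zpowers x := by rw [sup_comm, htop']; exact Subgroup.mem_top g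
    rw [← SetLike.mem_coe, Subgroup.normal_mul] at hg
    obtain ⟨a, ha, _, ⟨i, rfl⟩, rfl⟩ := hg
    have h1 : Commute a (x ^ p) := (hMcent _ ((P : Subgroup G).pow_mem hxP p) hM' a ha).symm
    exact (h1.mul_left ((Commute.refl x).zpow_left i |>.pow_right p)).eq
  refine ⟨x, A, p, hprime, hAn, hAab, ⟨k, hk⟩, hAp,
    Subgroup.isComplement'_of_disjoint_and_mul_eq_univ hdis (by
      rw [← Subgroup.mul_normal, htop', Subgroup.coe_top]), hxp, fun a ha hne hfix => ?_⟩
  -- fixed points are trivial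
  have hAc : ∀ {a b : G}, a ∈ A → b ∈ A → a * b = b * a := fun {a b} ha hb =>
    congrArg Subtype.val (mul_comm' (⟨a, ha⟩ : A) ⟨b, hb⟩)
  let δ : A →* A := MonoidHom.mk' (fun m => ⟨(m : G) * (x * (m : G)⁻¹ * x⁻¹),
      A.mul_mem m.2 (hAn.conj_mem _ (A.inv_mem m.2) x)⟩) fun m m' => Subtype.ext (by
    show (m : G) * (m' : G) * (x * ((m : G) * (m' : G))⁻¹ * x⁻¹) =
      (m : G) * (x * (m : G)⁻¹ * x⁻¹) * ((m' : G) * (x * (m' : G)⁻¹ * x⁻¹))
    have hcomm := hAc (A.mul_mem m'.2 (hAn.conj_mem _ (A.inv_mem m'.2) x))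
      (hAn.conj_mem _ (A.inv_mem m.2) x)
    calc (m : G) * (m' : G) * (x * ((m : G) * (m' : G))⁻¹ * x⁻¹)
        = (m : G) * ((m' : G) * (x * (m' : G)⁻¹ * x⁻¹) * (x * (m : G)⁻¹ * x⁻¹)) := by group
      _ = _ := by rw [hcomm]; group)
  -- `δ m` fixed by `x` forces `δ m = 1`
  have key : ∀ m : A, x * (δ m : G) * x⁻¹ = δ m → δ m = 1 := by
    intro m hm
    set c : G := ((δ m : A) : G) with hc
    have hxc : Commute x c := mul_inv_eq_iff_eq_mul.1 hm
    have hmc : x * (m : G) * x⁻¹ = c⁻¹ * m := by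
      show _ = ((m : G) * (x * (m : G)⁻¹ * x⁻¹))⁻¹ * m
      group
    have hiter : ∀ j : ℕ, x ^ j * (m : G) * (x ^ j)⁻¹ = (c⁻¹) ^ j * m := by
      intro j
      induction j with
      | zero => simp
      | succ j ih =>
        calc x ^ (j + 1) * (m : G) * (x ^ (j + 1))⁻¹ = x * (x ^ j * m * (x ^ j)⁻¹) * x⁻¹ := by
              rw [pow_succ']; group
          _ = (x * (c⁻¹) ^ j) * m * x⁻¹ := by rw [ih]; group
          _ = (c⁻¹) ^ j * (x * m * x⁻¹) := by rw [((hxc.inv_right).pow_right j).eq]; group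
          _ = _ := by rw [hmc, pow_succ, mul_assoc]
    have h1 := hiter (orderOf x)
    rw [pow_orderOf_eq_one, one_mul, inv_one, mul_one, right_eq_mul, inv_pow, inv_eq_one,
      ← orderOf_dvd_iff_pow_eq_one, hk] at h1
    refine Subtype.ext (orderOf_eq_one_iff.1 (Nat.eq_one_of_dvd_coprimes ?_ dvd_rfl h1))
    exact ((δ m).2).2.pow_right k
  set B := δ.range.map A.subtype with hBdef
  have hBA : B ≤ A := Subgroup.map_subtype_le _
  have hxB : Subgroup.zpowers x ≤ Subgroup.normalizer (B : Set G) := by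
    refine Subgroup.zpowers_le.2 (Subgroup.mem_normalizer_iff_map_conj_eq.2 ?_)
    refine Subgroup.eq_of_le_of_card_ge ?_ (Subgroup.card_map_of_injective (MulAut.conj x).injective).ge
    rintro _ ⟨_, ⟨_, ⟨m, rfl⟩, rfl⟩, rfl⟩
    refine ⟨δ ⟨x * (m : G) * x⁻¹, hAn.conj_mem _ m.2 x⟩, ⟨_, rfl⟩, ?_⟩
    show x * (m : G) * x⁻¹ * (x * (x * (m : G) * x⁻¹)⁻¹ * x⁻¹) = x * ((m : G) * (x * (m : G)⁻¹ * x⁻¹)) * x⁻¹
    group
  set H := Subgroup.zpowers x ⊔ B with hH
  have hHA : ∀ y ∈ H, y ∈ A → y ∈ B := by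
    intro y hy hyA
    rw [hH, ← SetLike.mem_coe, Subgroup.coe_mul_of_left_le_normalizer_right _ _ hxB] at hy
    obtain ⟨_, ⟨i, rfl⟩, b, hb, rfl⟩ := hy
    have h1 : x ^ i ∈ A := by
      have := A.mul_mem hyA (A.inv_mem (hBA hb))
      rwa [mul_inv_cancel_right] at this
    show x ^ i * b ∈ B
    rw [hAP _ h1 ((P : Subgroup G).zpow_mem hxP i), one_mul]
    exact hb
  have hHna : ¬ IsMulCommutative H := fun hHab => by
    haveI := hHab
    refine hxnc fun m hm => ?_
    have h1 : δ ⟨m, hm⟩ = 1 := key _ (by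
      have := congrArg Subtype.val (mul_comm' (⟨x, Subgroup.mem_sup_left (Subgroup.mem_zpowers x)⟩ : H)
        ⟨_, Subgroup.mem_sup_right (⟨δ ⟨m, hm⟩, ⟨_, rfl⟩, rfl⟩ : (δ ⟨m, hm⟩ : G) ∈ B)⟩)
      exact mul_inv_eq_iff_eq_mul.2 this)
    have h1 : m * (x * m⁻¹ * x⁻¹) = 1 := congrArg Subtype.val h1
    calc x * m = (x * m⁻¹ * x⁻¹)⁻¹ * x := by group
      _ = m * x := by rw [inv_eq_of_mul_eq_one_left h1]
  have hax : Commute x a := mul_inv_eq_iff_eq_mul.1 hfix
  have haN : a ∈ Subgroup.normalizer (H : Set G) := by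
    refine Subgroup.mem_normalizer_iff_map_conj_eq.2 ?_
    refine Subgroup.eq_of_le_of_card_ge ?_ (Subgroup.card_map_of_injective (MulAut.conj a).injective).ge
    rw [hH, Subgroup.map_sup]
    refine sup_le_sup ?_ ?_
    · rw [MonoidHom.map_zpowers]
      refine Subgroup.zpowers_le.2 ?_
      show a * x * a⁻¹ ∈ _
      rw [← hax.eq, mul_inv_cancel_right]
      exact Subgroup.mem_zpowers x
    · rintro _ ⟨b, hb, rfl⟩
      show a * b * a⁻¹ ∈ B
      rw [hAc ha (hBA hb), mul_inv_cancel_right]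
      exact hb
  rw [hS H hHna] at haN
  obtain ⟨_, ⟨m, rfl⟩, hm⟩ := hHA a haN ha
  have hm : (δ m : G) = a := hm
  exact hne (hm ▸ congrArg Subtype.val (key m (hm ▸ hfix)))

end Cfsg.Agent.H87
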