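import Mathlib
import Cfsg.Agent.H87.SymEightPerm

/-!
Facts on the alternating group of degree five used for the odd index endgame of the
three-local recognition of the symmetric group of degree eight.
-/

set_option autoImplicit false

namespace Cfsg.Agent.H87.SymEight

open Equiv

local notation "A5" => alternatingGroup (Fin 5)

/-- An element of order three normalising the four group containing `d5`. -/
def e5 : A5 := ⟨swap 0 1 * swap 1 3, Perm.mem_alternatingGroup.2 (by decide)⟩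

theorem e5_pow_three : e5 * e5 * e5 = 1 := by decide +kernel

theorem e5_ne_one : e5 ≠ 1 := by decide +kernel

theorem e5_sq_ne_one : e5 * e5 ≠ 1 := by decide +kernel

theorem comm_d5_comm : ∀ a b : A5, a * d5 = d5 * a → b * d5 = d5 * b → a * b = b * a := by
  decide +kernel

theorem comm_d5_sq : ∀ a : A5, a * d5 = d5 * a → a * a = 1 := by decide +kernel

theorem comm_d5_cases : ∀ a : A5, a * d5 = d5 * a →
    a = 1 ∨ a = d5 ∨ a = e5 * d5 * e5⁻¹ ∨ a = e5⁻¹ * d5 * e5 := by
  decide +kernel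

theorem e5_normal : ∀ a : A5, a * d5 = d5 * a →
    e5 * a * e5⁻¹ * d5 = d5 * (e5 * a * e5⁻¹) ∧ e5⁻¹ * a * e5 * d5 = d5 * (e5⁻¹ * a * e5) := by
  decide +kernel

theorem comm_e5_d5 : ∀ a : A5, a * e5 = e5 * a → a * d5 = d5 * a → a = 1 := by decide +kernel

theorem comm_e5_cases : ∀ a : A5, a * e5 = e5 * a → a = 1 ∨ a = e5 ∨ a = e5⁻¹ := by decide +kernel

theorem norm_V : ∀ a : A5, a * d5 * a⁻¹ * d5 = d5 * (a * d5 * a⁻¹) →
    a * d5 = d5 * a ∨ a * a * a = 1 := by
  decide +kernel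

theorem norm_V_e5 : ∀ a : A5, a * d5 * a⁻¹ * d5 = d5 * (a * d5 * a⁻¹) →
    a * e5 * a⁻¹ = e5 ∨ a * e5 * a⁻¹ = e5⁻¹ → a * e5 = e5 * a := by
  decide +kernel

theorem d5_comm_V : ∀ a : A5, a * d5 * a⁻¹ = 1 → False := by decide +kernel

end Cfsg.Agent.H87.SymEight
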