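import Mathlib

/-!
A vector space over `ZMod p` with a fixed-point-free operator `T` of prime order `q`: twisted
automorphisms are transitive iff `p` is a primitive root modulo `q`.
-/

set_option autoImplicit false
open Polynomial

namespace Cfsg.Agent.H87

variable {p q : ℕ} [hp : Fact p.Prime] [hq : Fact q.Prime] {V : Type*} [AddCommGroup V]
  [Module (ZMod p) V]

/-- A fixed-point-free operator of order `q` is killed by the `q`-th cyclotomic polynomial. -/
theorem aeval_cyclotomic_eq_zero {T : Module.End (ZMod p) V} (hT : T ^ q = 1)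
    (hfpf : ∀ v, T v = v → v = 0) : aeval T (cyclotomic q (ZMod p)) = 0 := by
  refine LinearMap.ext fun v => ?_
  apply hfpf
  have h : (X - 1) * cyclotomic q (ZMod p) = X ^ q - 1 := by
    rw [mul_comm, cyclotomic_prime_mul_X_sub_one]
  have h2 := LinearMap.congr_fun (congrArg (aeval T) h) v
  rw [map_mul, map_sub, map_sub, map_pow, map_one, aeval_X, hT, sub_self, LinearMap.zero_apply,
    Module.End.mul_apply, LinearMap.sub_apply, Module.End.one_apply] at h2
  exact sub_eq_zero.1 h2

/-- A non-injective polynomial in `T` has an irreducible factor with non-zero kernel. -/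
theorem exists_irreducible_ker (T : Module.End (ZMod p) V) (g : (ZMod p)[X]) :
    g ≠ 0 → (∃ v : V, v ≠ 0 ∧ aeval T g v = 0) →
      ∃ f, Irreducible f ∧ f ∣ g ∧ ∃ v : V, v ≠ 0 ∧ aeval T f v = 0 := by
  induction g using WfDvdMonoid.induction_on_irreducible with
  | zero => intro h; exact absurd rfl h
  | unit u hu =>
    rintro - ⟨v, hv, hv0⟩
    obtain ⟨w, hw⟩ := hu.exists_left_inv
    exfalso; apply hv
    have := congrArg (fun z => aeval T z v) hw
    simpa [map_mul, hv0] using this.symm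
  | mul a i ha hi ih =>
    rintro - ⟨v, hv, hv0⟩
    by_cases h : aeval T a v = 0
    · obtain ⟨f, hf, hfa, w⟩ := ih ha ⟨v, hv, h⟩
      exact ⟨f, hf, dvd_mul_of_dvd_right hfa i, w⟩
    · refine ⟨i, hi, dvd_mul_right i a, _, h, ?_⟩
      rwa [map_mul, Module.End.mul_apply] at hv0

/-- A twisted map intertwines `g(T)` with `g(T')`. -/
theorem twist_aeval {T T' : Module.End (ZMod p) V} (S : V →+ V)
    (hS : ∀ u, S (T u) = T' (S u)) (g : (ZMod p)[X]) (u : V) :
    S (aeval T g u) = aeval T' g (S u) := by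
  have hpow : ∀ (k : ℕ) (u : V), S ((T ^ k) u) = (T' ^ k) (S u) := by
    intro k
    induction k with
    | zero => intro u; simp
    | succ k ih => intro u; rw [pow_succ, pow_succ, Module.End.mul_apply, Module.End.mul_apply, ih, hS]
  induction g using Polynomial.induction_on' with
  | add a b ha hb => simp [map_add, ha, hb]
  | monomial k c =>
    simp only [aeval_monomial, Module.End.mul_apply, Module.algebraMap_end_apply]
    rw [ZMod.map_smul, hpow]

/-- If twisted automorphisms are transitive then `p` is a primitive root modulo `q`. -/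
theorem orderOf_eq_of_transitive [Nontrivial V] {T : Module.End (ZMod p) V} (hT : T ^ q = 1)
    (hfpf : ∀ v, T v = v → v = 0) (hpq : p ≠ q)
    (hall : ∀ i : ℕ, ¬ q ∣ i → ∃ S : V ≃+ V, ∀ u, S (T u) = (T ^ i) (S u))
    (htrans : ∀ v w : V, v ≠ 0 → w ≠ 0 → ∃ (i : ℕ) (S : V ≃+ V),
      ¬ q ∣ i ∧ (∀ u, S (T u) = (T ^ i) (S u)) ∧ S v = w) :
    orderOf (p : ZMod q) = q - 1 := by
  classical
  have hqp : ¬ p ∣ q := fun h => hpq ((Nat.prime_dvd_prime_iff_eq hp.out hq.out).1 h)
  have hΦ := aeval_cyclotomic_eq_zero hT hfpf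
  obtain ⟨v₁, hv₁⟩ := exists_ne (0 : V)
  obtain ⟨f, hf, hfΦ, v₀, hv₀, hfv₀⟩ := exists_irreducible_ker T _ (cyclotomic_ne_zero q (ZMod p))
    ⟨v₁, hv₁, by rw [hΦ]; rfl⟩
  haveI := Fact.mk hf
  set ζ : AdjoinRoot f := AdjoinRoot.root f
  haveI : NeZero (q : AdjoinRoot f) := ⟨fun h0 => hqp (by
    rw [← map_natCast (algebraMap (ZMod p) (AdjoinRoot f)), map_eq_zero] at h0
    exact (ZMod.natCast_eq_zero_iff q p).1 h0)⟩
  have hζ : IsPrimitiveRoot ζ q := by
    rw [← isRoot_cyclotomic_iff]
    apply (AdjoinRoot.isRoot_root f).dvd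
    have := Polynomial.map_dvd (algebraMap (ZMod p) (AdjoinRoot f)) hfΦ
    rwa [map_cyclotomic, AdjoinRoot.algebraMap_eq] at this
  have comb : ∀ g₁ g₂ : (ZMod p)[X], IsCoprime g₁ g₂ → ∀ u : V, aeval T g₁ u = 0 →
      aeval T g₂ u = 0 → u = 0 := by
    rintro g₁ g₂ ⟨a, b, hab⟩ u h1 h2
    have := congrArg (fun z => aeval T z u) hab
    simpa [map_add, map_mul, h1, h2] using this.symm
  -- every non-zero vector is killed by an irreducible polynomial in `T`
  have hkill : ∀ w : V, w ≠ 0 → ∃ h : (ZMod p)[X], Irreducible h ∧ aeval T h w = 0 := by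
    intro w hw
    obtain ⟨i, S, hi, hS, hSw⟩ := htrans v₀ w hv₀ hw
    obtain ⟨j, hj⟩ : ∃ j : ℕ, i * j % q = 1 := by
      obtain ⟨j, hj⟩ := Nat.exists_mul_mod_eq_one_of_coprime
        ((hq.out.coprime_iff_not_dvd.2 hi).symm) hq.out.one_lt
      exact ⟨j, hj.2⟩
    have hint : IsIntegral (ZMod p) (ζ ^ j) := by
      haveI : Module.Finite (ZMod p) (AdjoinRoot f) :=
        (AdjoinRoot.powerBasis hf.ne_zero).finite
      exact IsIntegral.of_finite (ZMod p) _
    set h := minpoly (ZMod p) (ζ ^ j)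
    refine ⟨h, minpoly.irreducible hint, ?_⟩
    have hdvd : f ∣ h.comp (X ^ j) := by
      rw [← AdjoinRoot.mk_eq_zero, ← AdjoinRoot.aeval_eq, aeval_comp, map_pow, aeval_X]
      exact minpoly.aeval _ _
    obtain ⟨c, hc⟩ := hdvd
    have h0 : aeval (T ^ j) h v₀ = 0 := by
      have : aeval T (h.comp (X ^ j)) v₀ = 0 := by
        rw [hc, mul_comm, map_mul, Module.End.mul_apply, hfv₀, map_zero]
      rwa [aeval_comp, map_pow, aeval_X] at this
    have hS' : ∀ u, S.toAddMonoidHom ((T ^ j) u) = T (S.toAddMonoidHom u) := by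
      intro u
      have key : ∀ (k : ℕ) (u : V), S ((T ^ k) u) = (T ^ (i * k)) (S u) := by
        intro k
        induction k with
        | zero => intro u; simp
        | succ k ih =>
          intro u
          rw [pow_succ, Module.End.mul_apply, ih, hS, Nat.mul_succ, pow_add, Module.End.mul_apply]
      show S ((T ^ j) u) = T (S u)
      have hd : i * j = q * (i * j / q) + 1 := by
        conv_lhs => rw [← Nat.div_add_mod (i * j) q, hj]
      rw [key, hd, pow_add, pow_mul, hT, one_pow, one_mul, pow_one]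
    have := twist_aeval S.toAddMonoidHom hS' h v₀
    rw [h0, map_zero, AddEquiv.coe_toAddMonoidHom, hSw] at this
    exact this.symm
  have hfT : aeval T f = 0 := by
    refine LinearMap.ext fun w => ?_
    by_contra hw'
    have hw : w ≠ 0 := by rintro rfl; simp at hw'
    obtain ⟨h, hh, hhw⟩ := hkill w hw
    have hcop : IsCoprime f h := by
      refine hf.coprime_iff_not_dvd.2 fun hd => hw' ?_
      obtain ⟨c, hc⟩ := hf.associated_of_dvd hh hd
      have : aeval T h w = aeval T (↑c : (ZMod p)[X]) (aeval T f w) := by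
        rw [← hc, mul_comm, map_mul, Module.End.mul_apply]
      rw [hhw] at this
      have h2 := congrArg (aeval T (↑c⁻¹ : (ZMod p)[X])) this
      rw [map_zero, ← Module.End.mul_apply, ← map_mul, Units.inv_mul, map_one] at h2
      simpa using h2.symm
    by_cases hu : v₀ + w = 0
    · apply hv₀
      refine comb f h hcop v₀ hfv₀ ?_
      have : v₀ = -w := eq_neg_of_add_eq_zero_left hu
      rw [this, map_neg, hhw, neg_zero]
    obtain ⟨g, hg, hgu⟩ := hkill _ hu
    by_cases hgf : g ∣ f
    · obtain ⟨c, hc⟩ := hgf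
      have : aeval T f (v₀ + w) = 0 := by rw [hc, mul_comm, map_mul, Module.End.mul_apply, hgu, map_zero]
      rw [map_add, hfv₀, zero_add] at this
      exact hw' this
    by_cases hgh : g ∣ h
    · obtain ⟨c, hc⟩ := hgh
      have : aeval T h (v₀ + w) = 0 := by rw [hc, mul_comm, map_mul, Module.End.mul_apply, hgu, map_zero]
      rw [map_add, hhw, add_zero] at this
      exact hv₀ (comb f h hcop v₀ hfv₀ this)
    apply hu
    refine comb g (f * h) ((hg.coprime_iff_not_dvd.2 hgf).mul_right (hg.coprime_iff_not_dvd.2 hgh)) _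
      hgu ?_
    rw [map_add]
    conv_lhs => arg 1; rw [mul_comm f h, map_mul, Module.End.mul_apply, hfv₀, map_zero]
    rw [map_mul, Module.End.mul_apply, hhw, map_zero, add_zero]
  -- hence all `ζ ^ i` are roots of `f`
  have hroot : ∀ i : ℕ, ¬ q ∣ i → aeval (ζ ^ i) f = 0 := by
    intro i hi
    obtain ⟨S, hS⟩ := hall i hi
    have h1 : ∀ u : V, aeval (T ^ i) f (S u) = 0 := by
      intro u
      have := twist_aeval S.toAddMonoidHom hS f u
      rw [hfT] at this
      simpa using this.symm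
    have h2 : ∀ u : V, aeval T (f.comp (X ^ i)) u = 0 := by
      intro u
      rw [aeval_comp, map_pow, aeval_X]
      simpa using h1 (S.symm u)
    have hd : f ∣ f.comp (X ^ i) := by
      by_contra hd
      exact hv₀ (comb _ _ (hf.coprime_iff_not_dvd.2 hd) v₀ hfv₀ (h2 v₀))
    rw [← AdjoinRoot.mk_eq_zero, ← AdjoinRoot.aeval_eq, aeval_comp, map_pow, aeval_X] at hd
    exact hd
  have hdeg : q - 1 ≤ f.natDegree := by
    rw [← natDegree_map (algebraMap (ZMod p) (AdjoinRoot f))]
    refine le_trans ?_ (card_roots' _)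
    refine le_trans ?_ (Multiset.toFinset_card_le _)
    have : ((Finset.range (q - 1)).image fun i => ζ ^ (i + 1)).card = q - 1 := by
      rw [Finset.card_image_of_injOn, Finset.card_range]
      intro a ha b hb hab
      simp only [Finset.coe_range, Set.mem_Iio] at ha hb
      have := hζ.pow_inj (by omega) (by omega) hab
      omega
    conv_lhs => rw [← this]
    apply Finset.card_le_card
    intro z hz
    simp only [Finset.mem_image, Finset.mem_range] at hz
    obtain ⟨i, hi, rfl⟩ := hz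
    rw [Multiset.mem_toFinset, mem_roots (map_ne_zero hf.ne_zero), IsRoot, eval_map]
    exact hroot (i + 1) (fun hd => by have := Nat.le_of_dvd (by omega) hd; omega)
  have hcop : p.Coprime q := hp.out.coprime_iff_not_dvd.2 hqp
  have hdf := natDegree_of_dvd_cyclotomic_of_irreducible (K := ZMod p) (f := 1) (p := p)
    (by simp) hcop hfΦ hf
  have hord : f.natDegree = orderOf (p : ZMod q) := by
    rw [hdf, ← orderOf_units, ZMod.coe_unitOfCoprime, pow_one]
  rw [← hord]
  refine le_antisymm ?_ hdeg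
  calc f.natDegree ≤ (cyclotomic q (ZMod p)).natDegree :=
        natDegree_le_of_dvd hfΦ (cyclotomic_ne_zero _ _)
    _ = q - 1 := by rw [natDegree_cyclotomic, Nat.totient_prime hq.out]

/-- If `p` is a primitive root modulo `q` then twisted automorphisms are transitive. -/
theorem exists_twisted_equiv [Finite V] {T : Module.End (ZMod p) V} (hT : T ^ q = 1)
    (hfpf : ∀ v, T v = v → v = 0) (hpq : p ≠ q) (hord : orderOf (p : ZMod q) = q - 1)
    {i : ℕ} (hi : ¬ q ∣ i) {v w : V} (hv : v ≠ 0) (hw : w ≠ 0) :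
    ∃ S : V ≃+ V, (∀ u, S (T u) = (T ^ i) (S u)) ∧ S v = w := by
  classical
  have hqp : ¬ p ∣ q := fun h => hpq ((Nat.prime_dvd_prime_iff_eq hp.out hq.out).1 h)
  set Φ := cyclotomic q (ZMod p)
  have hirr : Irreducible Φ := by
    refine ZMod.irreducible_of_dvd_cyclotomic_of_natDegree hqp dvd_rfl ?_
    rw [natDegree_cyclotomic, Nat.totient_prime hq.out, ← orderOf_units, ZMod.coe_unitOfCoprime, hord]
  haveI := Fact.mk hirr
  have hker : ∀ g ∈ Ideal.span {Φ}, (aeval T).toRingHom g = 0 := by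
    intro g hg
    obtain ⟨c, rfl⟩ := Ideal.mem_span_singleton.1 hg
    show aeval T (Φ * c) = 0
    rw [map_mul, aeval_cyclotomic_eq_zero hT hfpf, zero_mul]
  let φ : AdjoinRoot Φ →+* Module.End (ZMod p) V :=
    Ideal.Quotient.lift (Ideal.span {Φ}) (aeval T).toRingHom hker
  letI : Module (AdjoinRoot Φ) V := Module.compHom V φ
  set ζ : AdjoinRoot Φ := AdjoinRoot.root Φ
  have hsmul : ∀ (k : ℕ) (u : V), ζ ^ k • u = (T ^ k) u := by
    intro k u
    show φ (ζ ^ k) u = _
    have : φ ζ = T := by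
      show Ideal.Quotient.lift (Ideal.span {Φ}) (aeval T).toRingHom hker (Ideal.Quotient.mk _ X) = T
      rw [Ideal.Quotient.lift_mk]
      exact aeval_X T
    rw [map_pow, this]
  haveI : NeZero (q : AdjoinRoot Φ) := ⟨fun h0 => hqp (by
    rw [← map_natCast (algebraMap (ZMod p) (AdjoinRoot Φ)), map_eq_zero] at h0
    exact (ZMod.natCast_eq_zero_iff q p).1 h0)⟩
  have hζ : IsPrimitiveRoot ζ q := by
    rw [← isRoot_cyclotomic_iff, ← map_cyclotomic q (algebraMap (ZMod p) (AdjoinRoot Φ)),
      AdjoinRoot.algebraMap_eq]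
    exact AdjoinRoot.isRoot_root Φ
  have hroot : eval₂ (AdjoinRoot.of Φ) (ζ ^ i) Φ = 0 := by
    have h := (hζ.pow_of_coprime i ((hq.out.coprime_iff_not_dvd.2 hi).symm)).isRoot_cyclotomic
      hq.out.pos
    rw [← map_cyclotomic q (algebraMap (ZMod p) (AdjoinRoot Φ)), AdjoinRoot.algebraMap_eq, IsRoot,
      eval_map] at h
    exact h
  let σ : AdjoinRoot Φ →+* AdjoinRoot Φ := AdjoinRoot.lift (AdjoinRoot.of Φ) (ζ ^ i) hroot
  haveI : Finite (AdjoinRoot Φ) := by
    haveI : Module.Finite (ZMod p) (AdjoinRoot Φ) := (AdjoinRoot.powerBasis hirr.ne_zero).finite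
    exact Module.finite_of_finite (ZMod p)
  let σe : AdjoinRoot Φ ≃+* AdjoinRoot Φ :=
    RingEquiv.ofBijective σ ((Finite.injective_iff_bijective).1 σ.injective)
  -- bases through `v` and `w`
  have hli : ∀ x : V, x ≠ 0 → LinearIndepOn (AdjoinRoot Φ) id ({x} : Set V) := fun x hx =>
    (linearIndepOn_singleton_iff _).2 hx
  let b := Module.Basis.extend (hli v hv)
  let b' := Module.Basis.extend (hli w hw)
  have hvb : v ∈ (hli v hv).extend (Set.subset_univ _) :=
    (hli v hv).subset_extend _ (Set.mem_singleton v)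
  have hwb : w ∈ (hli w hw).extend (Set.subset_univ _) :=
    (hli w hw).subset_extend _ (Set.mem_singleton w)
  obtain ⟨e₀⟩ : Nonempty (_ ≃ _) := ⟨b.indexEquiv b'⟩
  let e := e₀.trans (Equiv.swap (e₀ ⟨v, hvb⟩) ⟨w, hwb⟩)
  let S : V ≃+ V := (b.repr.toAddEquiv.trans (Finsupp.mapRange.addEquiv σe.toAddEquiv)).trans
    ((Finsupp.domCongr e).trans b'.repr.toAddEquiv.symm)
  have hS : ∀ (c : AdjoinRoot Φ) (u : V), S (c • u) = σ c • S u := by
    intro c u
    show b'.repr.symm (Finsupp.domCongr e (Finsupp.mapRange σe.toAddEquiv (map_zero _) (b.repr (c • u)))) =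
      σ c • b'.repr.symm (Finsupp.domCongr e (Finsupp.mapRange σe.toAddEquiv (map_zero _) (b.repr u)))
    rw [← map_smul b'.repr.symm]
    congr 1
    ext x
    simp [σe]
  refine ⟨S, fun u => ?_, ?_⟩
  · rw [← hsmul, ← pow_one T, ← hsmul, hS, pow_one]
    congr 1
    exact AdjoinRoot.lift_root hroot
  · show b'.repr.symm (Finsupp.domCongr e (Finsupp.mapRange σe.toAddEquiv (map_zero _) (b.repr v))) = w
    have hbv : v = b ⟨v, hvb⟩ := (Module.Basis.extend_apply_self (hli v hv) ⟨v, hvb⟩).symm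
    rw [show b.repr v = Finsupp.single ⟨v, hvb⟩ 1 from (congrArg b.repr hbv).trans (b.repr_self _)]
    rw [Finsupp.mapRange_single, Finsupp.domCongr_apply, Finsupp.equivMapDomain_single]
    have he : e ⟨v, hvb⟩ = ⟨w, hwb⟩ := by simp [e]
    rw [he]
    simp [b']

end Cfsg.Agent.H87
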