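import Mathlib
import Cfsg.Prelude.Def_Transfer
import Cfsg.Agent.H25.Burnside
import Cfsg.Agent.H21.Complement
import Cfsg.Agent.H87.TwistedModule

/-!
Finite groups of mixed order with exactly three automorphism orbits.
-/

set_option autoImplicit false
open scoped Pointwise

namespace Cfsg.Agent.H87

variable {G : Type*} [Group G] [Finite G]

/-- The automorphism orbit relation is `α g = h`. -/
theorem orbit_mk_eq_iff (g h : G) :
    (Quotient.mk'' g : MulAction.orbitRel.Quotient (MulAut G) G) = Quotient.mk'' h ↔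
      ∃ α : MulAut G, α h = g := by
  rw [Quotient.eq'', MulAction.orbitRel_apply]
  exact Iff.rfl

/-- If the orbits are separated by element orders, their number is the number of orders. -/
theorem card_orbits_eq_card_orders
    (h : ∀ g g' : G, orderOf g = orderOf g' → ∃ α : MulAut G, α g' = g) :
    Nat.card (MulAction.orbitRel.Quotient (MulAut G) G) = (Set.range (orderOf : G → ℕ)).ncard := by
  rw [← Nat.card_coe_set_eq]
  refine Nat.card_eq_of_bijective (Quotient.lift (fun g => (⟨orderOf g, g, rfl⟩ : Set.range (orderOf : G → ℕ))) ?_) ⟨?_, ?_⟩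
  · rintro a b ⟨α, hα⟩
    apply Subtype.ext
    show orderOf a = orderOf b
    rw [← hα]
    exact MulEquiv.orderOf_eq α b
  · rintro ⟨a⟩ ⟨b⟩ hab
    exact (orbit_mk_eq_iff a b).2 (h a b (congrArg Subtype.val hab))
  · rintro ⟨n, g, rfl⟩
    exact ⟨Quotient.mk'' g, rfl⟩

/-- With three orbits and two primes, the orders are exactly `1`, `p`, `q`. -/
theorem orders_of_three_orbits (hnpp : ¬ IsPrimePow (Nat.card G)) (hnt : Nat.card G ≠ 1)
    (h : Nat.card (MulAction.orbitRel.Quotient (MulAut G) G) = 3) :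
    ∃ p q : ℕ, p.Prime ∧ q.Prime ∧ p ≠ q ∧ (∃ x : G, orderOf x = p) ∧ (∃ x : G, orderOf x = q) ∧
      ∀ g : G, g = 1 ∨ (orderOf g = p ∧ ∀ g', orderOf g' = p → ∃ α : MulAut G, α g = g') ∨
        (orderOf g = q ∧ ∀ g', orderOf g' = q → ∃ α : MulAut G, α g = g') := by
  classical
  obtain ⟨p, hp, hpn⟩ := Nat.exists_prime_and_dvd hnt
  obtain ⟨q, hq, hqn, hqp⟩ : ∃ q, q.Prime ∧ q ∣ Nat.card G ∧ q ≠ p := by
    by_contra hcon
    push Not at hcon
    have hall : ∀ r, r.Prime → r ∣ Nat.card G → r = p := fun r hr hd => hcon r hr hd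
    have h0 : Nat.card G ≠ 0 := Nat.card_pos.ne'
    have := Nat.eq_prime_pow_of_unique_prime_dvd h0 (fun {r} hr hd => hall r hr hd)
    refine hnpp ⟨p, _, hp.prime, ?_, this.symm⟩
    rw [Nat.pos_iff_ne_zero]
    intro hz
    rw [hz, pow_zero] at this
    exact hnt this
  haveI := Fact.mk hp
  haveI := Fact.mk hq
  obtain ⟨x, hx⟩ := exists_prime_orderOf_dvd_card' (G := G) p hpn
  obtain ⟨y, hy⟩ := exists_prime_orderOf_dvd_card' (G := G) q hqn
  let f : MulAction.orbitRel.Quotient (MulAut G) G → ℕ := Quotient.lift (fun g => orderOf g) (by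
    rintro a b ⟨α, hα⟩
    show orderOf a = orderOf b
    rw [← hα]; exact MulEquiv.orderOf_eq α b)
  let s : Fin 3 → MulAction.orbitRel.Quotient (MulAut G) G :=
    ![Quotient.mk'' 1, Quotient.mk'' x, Quotient.mk'' y]
  have hfs : ∀ i, f (s i) = ![1, p, q] i := by
    intro i; fin_cases i
    · exact orderOf_one
    · exact hx
    · exact hy
  have hinj : Function.Injective s := by
    intro i j hij
    have := congrArg f hij
    rw [hfs, hfs] at this
    have := hp.ne_one; have := hq.ne_one; have := hp.one_lt; have := hq.one_lt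
    fin_cases i <;> fin_cases j <;> simp_all
  have hbij : Function.Bijective s :=
    (Nat.bijective_iff_injective_and_card s).2 ⟨hinj, by simp [h]⟩
  refine ⟨p, q, hp, hq, hqp.symm, ⟨x, hx⟩, ⟨y, hy⟩, fun g => ?_⟩
  obtain ⟨i, hi⟩ := hbij.2 (Quotient.mk'' g)
  have hord : orderOf g = ![1, p, q] i := by rw [← hfs, hi]; rfl
  have htr : ∀ (r : ℕ) (z g' : G), orderOf z = r → (Quotient.mk'' g :
      MulAction.orbitRel.Quotient (MulAut G) G) = Quotient.mk'' z → orderOf g' = r →
      orderOf g = r → (∀ w : G, orderOf w = r → (Quotient.mk'' w :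
        MulAction.orbitRel.Quotient (MulAut G) G) = Quotient.mk'' z) → ∃ α : MulAut G, α g = g' := by
    intro r z g' _ hg hg' _ hall
    exact (orbit_mk_eq_iff g' g).1 ((hall g' hg').trans hg.symm)
  have hall : ∀ w : G, ∀ i, orderOf w = ![1, p, q] i →
      (Quotient.mk'' w : MulAction.orbitRel.Quotient (MulAut G) G) = s i := by
    intro w i hw
    obtain ⟨j, hj⟩ := hbij.2 (Quotient.mk'' w)
    have hj' : orderOf w = ![1, p, q] j := by rw [← hfs, hj]; rfl
    rw [← hj]
    congr 1
    have := hp.one_lt; have := hq.one_lt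
    fin_cases i <;> fin_cases j <;> simp_all
  fin_cases i
  · exact Or.inl (orderOf_eq_one_iff.1 hord)
  · refine Or.inr (Or.inl ⟨hord, fun g' hg' => htr p x g' hx hi.symm hg' hord ?_⟩)
    exact fun w hw => hall w 1 hw
  · refine Or.inr (Or.inr ⟨hord, fun g' hg' => htr q y g' hy hi.symm hg' hord ?_⟩)
    exact fun w hw => hall w 2 hw

/-- The `(⇒)` direction with the minimal normal subgroup being the set of `p`-elements. -/
theorem structure_of_three_orbits {p q : ℕ} [hp : Fact p.Prime] [hq : Fact q.Prime] (hpq : p ≠ q)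
    (hxq : ∃ x : G, orderOf x = q)
    (hall : ∀ g : G, g = 1 ∨ (orderOf g = p ∧ ∀ g', orderOf g' = p → ∃ α : MulAut G, α g = g') ∨
      (orderOf g = q ∧ ∀ g', orderOf g' = q → ∃ α : MulAut G, α g = g'))
    (A : Subgroup G) [A.Characteristic] (hA : ∀ a ∈ A, ∀ b ∈ A, a * b = b * a)
    (a₀ : G) (ha₀ : a₀ ∈ A) (ha₀p : orderOf a₀ = p) :
    ∃ n : ℕ, 1 ≤ n ∧ Nat.card G = p ^ n * q ∧
      (∀ P : Sylow p G, (P : Subgroup G).Normal ∧ Cfsg.IsElementaryAbelian p (P : Subgroup G)) ∧
      orderOf (p : ZMod q) = q - 1 ∧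
      ∀ x y : G, orderOf x = q → orderOf y = p → x * y * x⁻¹ ≠ y := by
  classical
  -- no elements of order `p q`
  have hfpf : ∀ x y : G, orderOf x = q → orderOf y = p → x * y * x⁻¹ ≠ y := by
    intro x y hx hy hc
    have hcomm : Commute x y := mul_inv_eq_iff_eq_mul.1 hc
    have hco : (orderOf x).Coprime (orderOf y) := by
      rw [hx, hy]; exact (Nat.coprime_primes hq.out hp.out).2 hpq.symm
    have h := hcomm.orderOf_mul_eq_mul_orderOf_of_coprime hco
    rw [hx, hy] at h
    have := hp.out.one_lt; have := hq.out.one_lt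
    rcases hall (x * y) with h1 | ⟨h1, -⟩ | ⟨h1, -⟩
    · rw [h1, orderOf_one] at h; nlinarith
    · nlinarith
    · nlinarith
  have hmemA : ∀ g : G, orderOf g = p → g ∈ A := by
    intro g hg
    rcases hall a₀ with h1 | ⟨-, h1⟩ | ⟨h1, -⟩
    · rw [h1, orderOf_one] at ha₀p; exact absurd ha₀p.symm hp.out.ne_one
    · obtain ⟨α, rfl⟩ := h1 g hg
      exact (Subgroup.characteristic_iff_comap_eq.1 inferInstance α).ge ha₀
    · exact absurd (ha₀p.symm.trans h1) hpq
  have hAp : ∀ a ∈ A, a ^ p = 1 := by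
    intro a ha
    rcases hall a with rfl | ⟨h1, -⟩ | ⟨h1, -⟩
    · exact one_pow p
    · exact orderOf_dvd_iff_pow_eq_one.1 (dvd_of_eq h1)
    · exact absurd (mul_inv_eq_iff_eq_mul.2 (hA a ha a₀ ha₀)) (hfpf a a₀ h1 ha₀p)
  have hApg : IsPGroup p A := fun a => ⟨1, Subtype.ext (by simpa using hAp a a.2)⟩
  haveI : A.Normal := inferInstance
  have hPA : ∀ P : Sylow p G, (P : Subgroup G) = A := by
    intro P
    refine le_antisymm (fun g hg => ?_) ?_
    · rcases hall g with rfl | ⟨h1, -⟩ | ⟨h1, -⟩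
      · exact one_mem A
      · exact hmemA g h1
      · obtain ⟨k, hk⟩ := IsPGroup.iff_orderOf.1 P.isPGroup' ⟨g, hg⟩
        rw [Subgroup.orderOf_mk, h1] at hk
        have := (Nat.prime_dvd_prime_iff_eq hq.out hp.out).1
          (hq.out.dvd_of_dvd_pow (dvd_of_eq hk))
        exact absurd this.symm hpq
    · have hsup : IsPGroup p ↥((P : Subgroup G) ⊔ A) :=
        P.isPGroup'.to_sup_of_normal_right hApg
      exact (le_sup_right (a := (P : Subgroup G))).trans (P.is_maximal' hsup le_sup_left).le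
  obtain ⟨n, hn⟩ := IsPGroup.iff_card.1 hApg
  have hn1 : 1 ≤ n := by
    rcases Nat.eq_zero_or_pos n with rfl | h
    · exfalso
      rw [pow_zero] at hn
      have := A.eq_bot_of_card_eq hn
      rw [this, Subgroup.mem_bot] at ha₀
      rw [ha₀, orderOf_one] at ha₀p
      exact hp.out.ne_one ha₀p.symm
    · exact h
  letI : CommGroup A := { (inferInstance : Group A) with
    mul_comm := fun a b => Subtype.ext (hA a a.2 b b.2) }
  haveI : Nontrivial A := ⟨⟨⟨a₀, ha₀⟩, 1, fun e => hp.out.ne_one (by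
    rw [← ha₀p]; exact (congrArg orderOf (congrArg Subtype.val e : a₀ = 1)).trans orderOf_one)⟩⟩
  let ψ : G →* MulAut A := MulAut.conjNormal
  have hψ : ∀ (g : G) (a : A), (ψ g a : G) = g * a * g⁻¹ := fun g a => MulAut.conjNormal_apply g a
  -- a Sylow `q`-subgroup has order `q`
  obtain ⟨Q⟩ : Nonempty (Sylow q G) := inferInstance
  have hQ : Nat.card (Q : Subgroup G) = q := by
    obtain ⟨x, hx⟩ := hxq
    have hqdvd : q ∣ Nat.card G := hx ▸ orderOf_dvd_natCard x
    have hQne : Nontrivial (Q : Subgroup G) := by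
      rw [Subgroup.nontrivial_iff_ne_bot]
      exact Q.ne_bot_of_dvd_card hqdvd
    haveI := Q.isPGroup'.center_nontrivial
    have hQord : ∀ u : (Q : Subgroup G), u ≠ 1 → orderOf u = q := by
      intro u hu
      obtain ⟨k, hk⟩ := IsPGroup.iff_orderOf.1 Q.isPGroup' u
      rw [← Subgroup.orderOf_coe] at hk ⊢
      rcases hall (u : G) with h1 | ⟨h1, -⟩ | ⟨h1, -⟩
      · exact absurd (Subtype.ext h1) hu
      · rw [h1] at hk
        exact absurd ((Nat.prime_dvd_prime_iff_eq hp.out hq.out).1
          (hp.out.dvd_of_dvd_pow (dvd_of_eq hk))) hpq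
      · exact h1
    obtain ⟨⟨z, hz⟩, hz1⟩ := exists_ne (1 : Subgroup.center (Q : Subgroup G))
    have hz1' : z ≠ 1 := fun e => hz1 (Subtype.ext e)
    have key : ∀ u : (Q : Subgroup G), u ∈ Subgroup.zpowers z := by
      intro u
      by_cases hu : u = 1
      · rw [hu]; exact one_mem _
      · refine Cfsg.Agent.H21.mem_zpowers_of_commute (ψ.comp (Q : Subgroup G).subtype) ?_
          (hQord u hu) (hQord z hz1') ((Subgroup.mem_center_iff.1 hz u))
        intro e he v hv
        by_contra hv1
        have h1 : orderOf (v : G) = p := by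
          rw [orderOf_eq_prime_iff]
          exact ⟨hAp v v.2, fun h => hv1 (Subtype.ext h)⟩
        refine hfpf e v (by rw [Subgroup.orderOf_coe, hQord e he]) h1 ?_
        rw [← hψ]
        exact congrArg Subtype.val hv
    rw [← Subgroup.card_top, ← (Subgroup.eq_top_iff' (Subgroup.zpowers z)).2 key, Nat.card_zpowers,
      hQord z hz1']
  have hcard : Nat.card G = p ^ n * q := by
    have h0 : Nat.card G ≠ 0 := Nat.card_pos.ne'
    refine Nat.eq_of_factorization_eq h0 (mul_ne_zero (pow_ne_zero _ hp.out.ne_zero) hq.out.ne_zero)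
      fun r => ?_
    rw [Nat.factorization_mul (pow_ne_zero _ hp.out.ne_zero) hq.out.ne_zero, hp.out.factorization_pow,
      hq.out.factorization]
    simp only [Finsupp.coe_add, Pi.add_apply]
    by_cases hrp : r = p
    · subst hrp
      obtain ⟨P⟩ : Nonempty (Sylow r G) := inferInstance
      have := P.card_eq_multiplicity
      rw [hPA P, hn] at this
      rw [← Nat.pow_right_injective hp.out.two_le this]
      simp [Finsupp.single_eq_of_ne hpq]
    by_cases hrq : r = q
    · subst hrq
      have := Q.card_eq_multiplicity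
      rw [hQ] at this
      have e : r ^ 1 = r ^ (Nat.card G).factorization r := by rw [pow_one]; exact this
      rw [← Nat.pow_right_injective hq.out.two_le e]
      simp [Finsupp.single_eq_of_ne hpq.symm]
    rw [Finsupp.single_eq_of_ne hrp, Finsupp.single_eq_of_ne hrq, add_zero]
    apply Nat.factorization_eq_zero_iff _ _ |>.2
    by_cases hr : r.Prime
    · refine Or.inr (Or.inl fun hd => ?_)
      haveI := Fact.mk hr
      obtain ⟨x, hx⟩ := exists_prime_orderOf_dvd_card' (G := G) r hd
      rcases hall x with h1 | ⟨h1, -⟩ | ⟨h1, -⟩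
      · rw [h1, orderOf_one] at hx; exact hr.ne_one hx.symm
      · exact hrp (hx.symm.trans h1)
      · exact hrq (hx.symm.trans h1)
    · exact Or.inl hr
  refine ⟨n, hn1, hcard, fun P => ⟨by rw [hPA P]; infer_instance, ?_⟩, ?_, hfpf⟩
  · rw [hPA P]
    exact ⟨⟨⟨fun a b => mul_comm a b⟩⟩, hAp⟩
  -- the primitive root condition
  obtain ⟨x, hx⟩ := hxq
  haveI : Module (ZMod p) (Additive A) := AddCommGroup.zmodModule fun a => by
    apply Additive.toMul.injective
    rw [toMul_nsmul, toMul_zero]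
    exact Subtype.ext (by simpa using hAp _ (Additive.toMul a).2)
  let C : G → (Additive A →+ Additive A) := fun g => MonoidHom.toAdditive (ψ g).toMonoidHom
  have hC : ∀ g v, ((Additive.toMul (C g v) : A) : G) = g * (Additive.toMul v : A) * g⁻¹ :=
    fun g v => hψ g _
  let T : Module.End (ZMod p) (Additive A) := (C x).toZModLinearMap p
  have hTpow : ∀ (k : ℕ) (v : Additive A), (T ^ k) v = C (x ^ k) v := by
    intro k
    induction k with
    | zero =>
      intro v
      apply Additive.toMul.injective; apply Subtype.ext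
      rw [hC]; simp
    | succ k ih =>
      intro v
      rw [pow_succ T, Module.End.mul_apply, ih]
      show C (x ^ k) (C x v) = _
      apply Additive.toMul.injective; apply Subtype.ext
      rw [hC, hC, hC, pow_succ]
      group
  have hT : T ^ q = 1 := by
    refine LinearMap.ext fun v => ?_
    rw [hTpow, ← hx, pow_orderOf_eq_one]
    apply Additive.toMul.injective; apply Subtype.ext
    rw [hC]; simp
  have hTfix : ∀ v, T v = v → v = 0 := by
    intro v hv
    by_contra hv0
    have h1 : orderOf ((Additive.toMul v : A) : G) = p := by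
      rw [orderOf_eq_prime_iff]
      exact ⟨hAp _ (Additive.toMul v).2, fun h => hv0 (Additive.toMul.injective (Subtype.ext h))⟩
    refine hfpf x _ hx h1 ?_
    rw [← hC]
    exact congrArg (fun w : Additive A => ((Additive.toMul w : A) : G)) hv
  -- restriction of automorphisms
  let R : MulAut G → (Additive A ≃+ Additive A) := fun α => MulEquiv.toAdditive
    { toFun := fun a => ⟨α a, by
        have := (Subgroup.characteristic_iff_comap_eq.1 (inferInstance : A.Characteristic) α).ge a.2
        exact this⟩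
      invFun := fun a => ⟨α.symm a, by
        have := (Subgroup.characteristic_iff_comap_eq.1 (inferInstance : A.Characteristic) α.symm).ge a.2
        exact this⟩
      left_inv := fun a => Subtype.ext (α.symm_apply_apply a)
      right_inv := fun a => Subtype.ext (α.apply_symm_apply a)
      map_mul' := fun a b => Subtype.ext (map_mul α (a : G) b) }
  have hR : ∀ α v, ((Additive.toMul (R α v) : A) : G) = α (Additive.toMul v : A) := fun α v => rfl
  -- every element outside `A` is `u * x ^ k`
  have hdec : ∀ y : G, ∃ u ∈ A, ∃ k : ℕ, y = u * x ^ k := by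
    intro y
    have hidx : A.index = q := by
      have := A.card_mul_index
      rw [hcard, hn] at this
      exact Nat.eq_of_mul_eq_mul_left (pow_pos hp.out.pos n) this
    have hxA : x ∉ A := fun h => hpq (by
      have h1 := orderOf_dvd_iff_pow_eq_one.2 (hAp x h)
      rw [hx] at h1
      exact ((Nat.prime_dvd_prime_iff_eq hq.out hp.out).1 h1).symm)
    have hg : (QuotientGroup.mk y : G ⧸ A) ∈ Subgroup.zpowers (QuotientGroup.mk x : G ⧸ A) := by
      have : Subgroup.zpowers (QuotientGroup.mk x : G ⧸ A) = ⊤ := by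
        refine zpowers_eq_top_of_prime_card (p := q) ?_ ?_
        · rw [← hidx]; rfl
        · exact fun h => hxA ((QuotientGroup.eq_one_iff x).1 h)
      rw [this]; trivial
    obtain ⟨k, hk⟩ := (isOfFinOrder_of_finite _).mem_zpowers_iff_mem_range_orderOf.1 hg |>
      Finset.mem_image.1 |> fun ⟨k, _, hk⟩ => (⟨k, hk⟩ : ∃ k : ℕ, (QuotientGroup.mk x : G ⧸ A) ^ k = _)
    refine ⟨y * (x ^ k)⁻¹, ?_, k, by group⟩
    rw [← QuotientGroup.eq_one_iff, QuotientGroup.mk_mul, QuotientGroup.mk_inv, QuotientGroup.mk_pow,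
      hk, mul_inv_cancel]
  have hstep : ∀ (α : MulAut G), ∃ k : ℕ, ¬ q ∣ k ∧ ∀ v, R α (T v) = (T ^ k) (R α v) := by
    intro α
    obtain ⟨u, hu, k, hk⟩ := hdec (α x)
    refine ⟨k, fun hd => ?_, fun v => ?_⟩
    · obtain ⟨c, rfl⟩ := hd
      rw [pow_mul, ← hx, pow_orderOf_eq_one, one_pow, mul_one] at hk
      have h1 : orderOf (α x) = q := (MulEquiv.orderOf_eq α x).trans hx
      have h2 := orderOf_dvd_iff_pow_eq_one.2 (hAp u hu)
      rw [← hk, h1] at h2
      exact hpq ((Nat.prime_dvd_prime_iff_eq hq.out hp.out).1 h2).symm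
    · apply Additive.toMul.injective; apply Subtype.ext
      rw [hTpow, hC, hR, hR, show T v = C x v from rfl, hC, map_mul, map_mul, map_inv, hk]
      set a := α ((Additive.toMul v : A) : G) with ha
      have haA : a ∈ A := (Additive.toMul (R α v)).2
      have hcx : x ^ k * a * (x ^ k)⁻¹ ∈ A := Subgroup.Normal.conj_mem inferInstance a haA _
      calc u * x ^ k * a * (u * x ^ k)⁻¹ = u * (x ^ k * a * (x ^ k)⁻¹) * u⁻¹ := by group
        _ = x ^ k * a * (x ^ k)⁻¹ := by rw [hA u hu _ hcx, mul_inv_cancel_right]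
  refine orderOf_eq_of_transitive hT hTfix hpq (fun i hi => ?_) (fun v w hv hw => ?_)
  · have hxi : orderOf (x ^ i) = q := by
      rw [orderOf_pow' x (by rintro rfl; exact hi (dvd_zero q) : i ≠ 0), hx,
        Nat.Coprime.gcd_eq_one ((hq.out.coprime_iff_not_dvd).2 hi), Nat.div_one]
    rcases hall x with h1 | ⟨h1, -⟩ | ⟨-, h1⟩
    · rw [h1, orderOf_one] at hx; exact absurd hx.symm hq.out.ne_one
    · exact absurd (h1.symm.trans hx) hpq
    · obtain ⟨α, hα⟩ := h1 _ hxi
      refine ⟨R α, fun v => ?_⟩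
      apply Additive.toMul.injective; apply Subtype.ext
      rw [hTpow, hC, hR, hR, show T v = C x v from rfl, hC, map_mul, map_mul, map_inv, hα]
  · have ho : ∀ v : Additive A, v ≠ 0 → orderOf ((Additive.toMul v : A) : G) = p := fun v hv => by
      rw [orderOf_eq_prime_iff]
      exact ⟨hAp _ (Additive.toMul v).2, fun h => hv (Additive.toMul.injective (Subtype.ext h))⟩
    rcases hall ((Additive.toMul v : A) : G) with h1 | ⟨-, h1⟩ | ⟨h1, -⟩
    · exact absurd (Additive.toMul.injective (Subtype.ext h1)) hv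
    · obtain ⟨α, hα⟩ := h1 _ (ho w hw)
      obtain ⟨k, hk, hk'⟩ := hstep α
      exact ⟨k, R α, hk, hk', Additive.toMul.injective (Subtype.ext hα)⟩
    · exact absurd ((ho v hv).symm.trans h1) hpq

/-- The `(⇐)` direction. -/
theorem three_orbits_of_structure {p q n : ℕ} [hp : Fact p.Prime] [hq : Fact q.Prime] (hpq : p ≠ q)
    (hn : 1 ≤ n) (hcard : Nat.card G = p ^ n * q)
    (hP : ∀ P : Sylow p G, (P : Subgroup G).Normal ∧ Cfsg.IsElementaryAbelian p (P : Subgroup G))
    (hord : orderOf (p : ZMod q) = q - 1)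
    (hfpf : ∀ x y : G, orderOf x = q → orderOf y = p → x * y * x⁻¹ ≠ y) :
    Nat.card (MulAction.orbitRel.Quotient (MulAut G) G) = 3 := by
  classical
  obtain ⟨P⟩ : Nonempty (Sylow p G) := inferInstance
  obtain ⟨hPn, hPc, hPp⟩ := hP P
  set A : Subgroup G := (P : Subgroup G) with hAdef
  haveI : A.Normal := hPn
  letI : CommGroup A := { (inferInstance : Group A) with mul_comm := hPc.is_comm.comm }
  have hqp : ¬ q ∣ p ^ n := fun h =>
    hpq ((Nat.prime_dvd_prime_iff_eq hq.out hp.out).1 (hq.out.dvd_of_dvd_pow h)).symm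
  have hAcard : Nat.card A = p ^ n := by
    rw [hAdef, P.card_eq_multiplicity, hcard,
      Nat.factorization_mul (pow_ne_zero _ hp.out.ne_zero) hq.out.ne_zero, hp.out.factorization_pow,
      hq.out.factorization]
    simp [Finsupp.single_eq_of_ne hpq]
  have hidx : A.index = q := by
    have := A.card_mul_index
    rw [hcard, hAcard] at this
    exact Nat.eq_of_mul_eq_mul_left (pow_pos hp.out.pos n) this
  obtain ⟨x, hx⟩ := exists_prime_orderOf_dvd_card' (G := G) q (hcard ▸ dvd_mul_left q _)
  have hAord : ∀ a ∈ A, a ≠ 1 → orderOf a = p := fun a ha h1 =>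
    orderOf_eq_prime (hPp a ha) h1
  have hxA : x ∉ A := fun h => by
    have h1 : x ≠ 1 := by intro e; rw [e, orderOf_one] at hx; exact hq.out.ne_one hx.symm
    exact hpq ((hAord x h h1).symm.trans hx)
  have hcompl : A.IsComplement' (Subgroup.zpowers x) := by
    apply Subgroup.isComplement'_of_coprime
    · rw [Nat.card_zpowers, hx, hAcard, hcard]
    · rw [Nat.card_zpowers, hx, hAcard]
      exact Nat.Coprime.pow_left _ ((Nat.coprime_primes hp.out hq.out).2 hpq)
  -- elements outside `A` are conjugate to powers of `x`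
  have houter : ∀ g : G, g ∉ A → ∃ (i : ℕ) (u : G), ¬ q ∣ i ∧ u ∈ A ∧ g = u * x ^ i * u⁻¹ := by
    intro g hg
    obtain ⟨⟨⟨a, ha⟩, ⟨xk, hxk⟩⟩, hak, -⟩ := hcompl.existsUnique g
    obtain ⟨i, hi⟩ := (isOfFinOrder_of_finite x).mem_powers_iff_mem_zpowers.2 hxk
    have hi : x ^ i = xk := hi
    have hg' : a * xk = g := hak
    subst hi
    have hqi : ¬ q ∣ i := by
      rintro ⟨c, rfl⟩
      apply hg
      rw [← hg', pow_mul, ← hx, pow_orderOf_eq_one, one_pow, mul_one]
      exact ha
    have hxi : orderOf (x ^ i) = q := by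
      rw [orderOf_pow' x (by rintro rfl; exact hqi (dvd_zero q) : i ≠ 0), hx,
        Nat.Coprime.gcd_eq_one ((hq.out.coprime_iff_not_dvd).2 hqi), Nat.div_one]
    let f : A → A := fun u => ⟨u * (x ^ i * (u : G)⁻¹ * (x ^ i)⁻¹),
      A.mul_mem u.2 (Subgroup.Normal.conj_mem inferInstance _ (A.inv_mem u.2) _)⟩
    have hf : Function.Injective f := by
      intro u w huw
      have e : (u : G) * (x ^ i * (u : G)⁻¹ * (x ^ i)⁻¹) = w * (x ^ i * (w : G)⁻¹ * (x ^ i)⁻¹) :=
        congrArg Subtype.val huw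
      by_contra hne
      refine hfpf (x ^ i) ((w : G)⁻¹ * u) hxi (hAord _ (A.mul_mem (A.inv_mem w.2) u.2)
        (fun h => hne (Subtype.ext (inv_mul_eq_one.1 h).symm))) ?_
      have e' : (u : G) * x ^ i * (u : G)⁻¹ = w * x ^ i * (w : G)⁻¹ := by
        have := congrArg (· * x ^ i) e
        simpa [mul_assoc] using this
      calc x ^ i * ((w : G)⁻¹ * u) * (x ^ i)⁻¹
          = (w : G)⁻¹ * (w * x ^ i * (w : G)⁻¹) * u * (x ^ i)⁻¹ := by group
        _ = (w : G)⁻¹ * u := by rw [← e']; group
    obtain ⟨⟨u, hu⟩, hfu⟩ := (Finite.injective_iff_surjective.1 hf) ⟨a, ha⟩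
    have hfu : u * (x ^ i * u⁻¹ * (x ^ i)⁻¹) = a := congrArg Subtype.val hfu
    exact ⟨i, u, hqi, hu, by rw [← hg', ← hfu]; group⟩
  haveI : Module (ZMod p) (Additive A) := AddCommGroup.zmodModule fun a => by
    apply Additive.toMul.injective
    rw [toMul_nsmul, toMul_zero]
    exact Subtype.ext (by simpa using hPp _ (Additive.toMul a).2)
  let T : Module.End (ZMod p) (Additive A) :=
    (MonoidHom.toAdditive (MulAut.conjNormal (H := A) x).toMonoidHom).toZModLinearMap p
  have hTpow : ∀ (k : ℕ) (v : Additive A),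
      (T ^ k) v = Additive.ofMul (MulAut.conjNormal (x ^ k) (Additive.toMul v)) := by
    intro k
    induction k with
    | zero => intro v; simp
    | succ k ih =>
      intro v
      rw [pow_succ T, Module.End.mul_apply, ih, pow_succ, map_mul, MulAut.mul_apply]
      rfl
  have hT : T ^ q = 1 := by
    refine LinearMap.ext fun v => ?_
    rw [hTpow, ← hx, pow_orderOf_eq_one, map_one]
    rfl
  have hTfix : ∀ v, T v = v → v = 0 := by
    intro v hv
    by_contra hv0
    refine hfpf x _ hx (hAord _ (Additive.toMul v).2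
      (fun h => hv0 (Additive.toMul.injective (Subtype.ext h)))) ?_
    exact congrArg (fun w : Additive A => ((Additive.toMul w : A) : G)) hv
  have hAnt : ∃ v : Additive A, v ≠ 0 := by
    haveI : Nontrivial A := Finite.one_lt_card_iff_nontrivial.1 (hAcard ▸
      Nat.one_lt_pow (by omega) hp.out.one_lt)
    exact exists_ne 0
  -- automorphisms with prescribed action
  have haut : ∀ (i : ℕ), ¬ q ∣ i → ∀ v w : Additive A, v ≠ 0 → w ≠ 0 →
      ∃ α : MulAut G, α x = x ^ i ∧ α (Additive.toMul v : A) = ((Additive.toMul w : A) : G) := by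
    intro i hi v w hv hw
    obtain ⟨S, hS, hSv⟩ := exists_twisted_equiv hT hTfix hpq hord hi hv hw
    set X := Subgroup.zpowers x
    have mul_comm' : ∀ a b : X, Commute a b := by
      rintro ⟨_, i₁, rfl⟩ ⟨_, i₂, rfl⟩
      exact Subtype.ext ((Commute.refl x).zpow_zpow i₁ i₂).eq
    let fn : A ≃* A :=
      { toFun := fun a => Additive.toMul (S (Additive.ofMul a))
        invFun := fun a => Additive.toMul (S.symm (Additive.ofMul a))
        left_inv := fun a => by simp
        right_inv := fun a => by simp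
        map_mul' := fun a b => by simp }
    have hco : (Nat.card X).Coprime i := by
      rw [Nat.card_zpowers, hx]; exact hq.out.coprime_iff_not_dvd.2 hi
    let fg : X ≃* X := MulEquiv.mk' (powCoprime hco) fun a b =>
      Commute.mul_pow (mul_comm' a b) i
    let φ : X →* MulAut A := (A.normalizerMonoidHom).comp (Subgroup.inclusion
      (A.normalizer_eq_top ▸ le_top))
    have hφ : ∀ (g : X) (a : A), (φ g a : G) = g * a * (g : G)⁻¹ := fun g a => rfl
    have hcompat : ∀ g : X, (φ g).trans fn = fn.trans (φ (fg g)) := by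
      rintro ⟨g, hg⟩
      obtain ⟨k, rfl⟩ := (isOfFinOrder_of_finite x).mem_powers_iff_mem_zpowers.2 hg
      refine MulEquiv.ext fun a => Subtype.ext ?_
      simp only [MulEquiv.trans_apply]
      rw [hφ]
      have h1 : φ ⟨x ^ k, hg⟩ a = Additive.toMul ((T ^ k) (Additive.ofMul a)) := by
        apply Subtype.ext; rw [hφ, hTpow]; rfl
      have hSk : ∀ (k : ℕ) (u : Additive A), S ((T ^ k) u) = (T ^ (i * k)) (S u) := by
        intro k
        induction k with
        | zero => intro u; simp
        | succ k ih =>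
          intro u
          rw [pow_succ T k, Module.End.mul_apply, ih, hS, Nat.mul_succ, pow_add,
            Module.End.mul_apply]
      show ((Additive.toMul (S (Additive.ofMul (φ ⟨x ^ k, hg⟩ a))) : A) : G) = _
      rw [h1, ofMul_toMul, hSk, hTpow]
      show (x ^ (i * k)) * ((Additive.toMul (S (Additive.ofMul a)) : A) : G) * (x ^ (i * k))⁻¹ = _
      rw [show ((fg ⟨x ^ k, hg⟩ : X) : G) = x ^ (i * k) from by
        show (x ^ k) ^ i = _; rw [← pow_mul, mul_comm]]
      rfl
    let e := SemidirectProduct.mulEquivSubgroup hcompl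
    let α : MulAut G := (e.symm.trans (SemidirectProduct.congr fn fg hcompat)).trans e
    have he : ∀ (a : A) (g : X), e ⟨a, g⟩ = a * g := fun a g => rfl
    refine ⟨α, ?_, ?_⟩
    · show e (SemidirectProduct.congr fn fg hcompat (e.symm x)) = x ^ i
      have : e.symm x = ⟨1, ⟨x, Subgroup.mem_zpowers x⟩⟩ := by
        rw [MulEquiv.symm_apply_eq, he]; simp
      rw [this]
      show e ⟨fn 1, fg ⟨x, _⟩⟩ = _
      rw [he, map_one]
      show (1 : G) * x ^ i = _
      rw [one_mul]
    · show e (SemidirectProduct.congr fn fg hcompat (e.symm _)) = _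
      have : e.symm ((Additive.toMul v : A) : G) = ⟨Additive.toMul v, 1⟩ := by
        rw [MulEquiv.symm_apply_eq, he]; simp
      rw [this]
      show e ⟨fn (Additive.toMul v), fg 1⟩ = _
      rw [he, map_one]
      show ((Additive.toMul (S v) : A) : G) * 1 = _
      rw [hSv, mul_one]
  obtain ⟨v₀, hv₀⟩ := hAnt
  have hq1 : ¬ q ∣ 1 := fun h => hq.out.ne_one (Nat.dvd_one.1 h)
  have horders : ∀ g : G, (g = 1 ∧ orderOf g = 1) ∨ (g ∈ A ∧ g ≠ 1 ∧ orderOf g = p) ∨
      (g ∉ A ∧ orderOf g = q) := by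
    intro g
    by_cases hg : g ∈ A
    · by_cases h1 : g = 1
      · exact Or.inl ⟨h1, h1 ▸ orderOf_one⟩
      · exact Or.inr (Or.inl ⟨hg, h1, hAord g hg h1⟩)
    · obtain ⟨i, u, hi, hu, rfl⟩ := houter g hg
      refine Or.inr (Or.inr ⟨hg, ?_⟩)
      rw [← MulAut.conj_apply, MulEquiv.orderOf_eq, orderOf_pow' x (by rintro rfl; exact hi (dvd_zero q) : i ≠ 0), hx,
        Nat.Coprime.gcd_eq_one ((hq.out.coprime_iff_not_dvd).2 hi), Nat.div_one]
  have := hp.out.one_lt; have := hq.out.one_lt
  rw [card_orbits_eq_card_orders]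
  · have : Set.range (orderOf : G → ℕ) = {1, p, q} := by
      ext m
      constructor
      · rintro ⟨g, rfl⟩
        rcases horders g with ⟨-, h⟩ | ⟨-, -, h⟩ | ⟨-, h⟩ <;> simp [h]
      · rintro (rfl | rfl | rfl)
        · exact ⟨1, orderOf_one⟩
        · exact ⟨_, hAord _ (Additive.toMul v₀).2 fun h =>
            hv₀ (Additive.toMul.injective (Subtype.ext h))⟩
        · exact ⟨x, hx⟩
    rw [this, Set.ncard_eq_three]
    exact ⟨1, p, q, by omega, by omega, hpq, rfl⟩
  intro g g' hgg'
  rcases horders g with ⟨h1, o1⟩ | ⟨hgA, hg1, o1⟩ | ⟨hgA, o1⟩ <;>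
    rcases horders g' with ⟨h2, o2⟩ | ⟨hgA', hg1', o2⟩ | ⟨hgA', o2⟩
  case inl.inl => exact ⟨1, by rw [h1, h2]; rfl⟩
  case inr.inl.inr.inl =>
    have hne : ∀ {z : G} (hz : z ∈ A), z ≠ 1 → Additive.ofMul (⟨z, hz⟩ : A) ≠ 0 := fun hz h e =>
      h (congrArg Subtype.val (congrArg Additive.toMul e))
    obtain ⟨α, -, hα⟩ := haut 1 hq1 _ _ (hne hgA' hg1') (hne hgA hg1)
    exact ⟨α, hα⟩
  case inr.inr.inr.inr =>
    obtain ⟨i, u, hi, hu, rfl⟩ := houter g hgA
    obtain ⟨j, w, hj, hw, rfl⟩ := houter g' hgA'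
    obtain ⟨α, hα, -⟩ := haut i hi v₀ v₀ hv₀ hv₀
    obtain ⟨β, hβ, -⟩ := haut j hj v₀ v₀ hv₀ hv₀
    refine ⟨MulAut.conj u * α * β⁻¹ * (MulAut.conj w)⁻¹, ?_⟩
    simp only [MulAut.mul_apply]
    have : (MulAut.conj w)⁻¹ (w * x ^ j * w⁻¹) = x ^ j := by
      rw [MulAut.conj_inv_apply]; group
    rw [this, ← hβ, MulAut.inv_apply_self, hα, MulAut.conj_apply]
  all_goals exfalso; omega

/-- Groups of mixed order with exactly three automorphism orbits. -/
theorem three_orbits_iff (hnpp : ¬ IsPrimePow (Nat.card G)) (hnt : Nat.card G ≠ 1) :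
    Nat.card (MulAction.orbitRel.Quotient (MulAut G) G) = 3 ↔
    ∃ (p q n : ℕ) (_ : Fact p.Prime) (_ : Fact q.Prime), p ≠ q ∧ 1 ≤ n ∧ Nat.card G = p ^ n * q ∧
      (∀ P : Sylow p G, (P : Subgroup G).Normal ∧ Cfsg.IsElementaryAbelian p (P : Subgroup G)) ∧
      orderOf (p : ZMod q) = q - 1 ∧
      ∀ x y : G, orderOf x = q → orderOf y = p → x * y * x⁻¹ ≠ y := by
  constructor
  · intro h
    obtain ⟨p, q, hp, hq, hpq, hxp, hxq, hall⟩ := orders_of_three_orbits hnpp hnt h
    haveI := Fact.mk hp
    haveI := Fact.mk hq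
    have hsolv : Group.IsSolvable G := by
      have hfac : Nat.card G = p ^ (Nat.card G).factorization p * q ^ (Nat.card G).factorization q := by
        have h0 : Nat.card G ≠ 0 := Nat.card_pos.ne'
        refine Nat.eq_of_factorization_eq h0 (mul_ne_zero (pow_ne_zero _ hp.ne_zero)
          (pow_ne_zero _ hq.ne_zero)) fun r => ?_
        rw [Nat.factorization_mul (pow_ne_zero _ hp.ne_zero) (pow_ne_zero _ hq.ne_zero),
          hp.factorization_pow, hq.factorization_pow]
        simp only [Finsupp.coe_add, Pi.add_apply]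
        by_cases hrp : r = p
        · subst hrp; simp [Finsupp.single_eq_of_ne hpq]
        by_cases hrq : r = q
        · subst hrq; simp [Finsupp.single_eq_of_ne hpq.symm]
        rw [Finsupp.single_eq_of_ne hrp, Finsupp.single_eq_of_ne hrq, add_zero]
        apply (Nat.factorization_eq_zero_iff _ _).2
        by_cases hr : r.Prime
        · refine Or.inr (Or.inl fun hd => ?_)
          haveI := Fact.mk hr
          obtain ⟨x, hx⟩ := exists_prime_orderOf_dvd_card' (G := G) r hd
          rcases hall x with h1 | ⟨h1, -⟩ | ⟨h1, -⟩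
          · rw [h1, orderOf_one] at hx; exact hr.ne_one hx.symm
          · exact hrp (hx.symm.trans h1)
          · exact hrq (hx.symm.trans h1)
        · exact Or.inl hr
      exact Cfsg.Agent.H25.isSolvable_of_card_eq_mul_pow hp hq hfac
    haveI := hsolv
    classical
    have hex := (Group.isSolvable_def G).1 hsolv
    set k := Nat.find hex with hk
    have hk0 : k ≠ 0 := by
      intro h0
      have := Nat.find_spec hex
      rw [← hk, h0, derivedSeries_zero] at this
      exact hnt (by rw [← Subgroup.card_top, this, Subgroup.card_bot])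
    obtain ⟨j, hj⟩ := Nat.exists_eq_succ_of_ne_zero hk0
    have hAc : ∀ a ∈ derivedSeries G j, ∀ b ∈ derivedSeries G j, a * b = b * a := by
      intro a ha b hb
      have hlast : derivedSeries G (j + 1) = ⊥ := by
        have := Nat.find_spec hex; rwa [← hk, hj] at this
      have := Subgroup.commutator_mem_commutator ha hb
      rw [← derivedSeries_succ, hlast, Subgroup.mem_bot] at this
      exact commutatorElement_eq_one_iff_mul_comm.1 this
    obtain ⟨a₀, ha₀, ha₀1⟩ :=
      (Subgroup.bot_or_exists_ne_one _).resolve_left (Nat.find_min hex (by omega : j < k))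
    rcases hall a₀ with h1 | ⟨h1, -⟩ | ⟨h1, -⟩
    · exact absurd h1 ha₀1
    · obtain ⟨n, r⟩ := structure_of_three_orbits hpq hxq hall (derivedSeries G j) hAc a₀ ha₀ h1
      exact ⟨p, q, n, inferInstance, inferInstance, hpq, r⟩
    · have hall' : ∀ g : G, g = 1 ∨ (orderOf g = q ∧ ∀ g', orderOf g' = q → ∃ α : MulAut G, α g = g') ∨
          (orderOf g = p ∧ ∀ g', orderOf g' = p → ∃ α : MulAut G, α g = g') := by
        intro g; rcases hall g with h | h | h
        exacts [Or.inl h, Or.inr (Or.inr h), Or.inr (Or.inl h)]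
      obtain ⟨n, r⟩ := structure_of_three_orbits hpq.symm hxp hall' (derivedSeries G j) hAc a₀ ha₀ h1
      exact ⟨q, p, n, inferInstance, inferInstance, hpq.symm, r⟩
  · rintro ⟨p, q, n, _, _, hpq, hn, hcard, hP, hord, hfpf⟩
    exact three_orbits_of_structure hpq hn hcard hP hord hfpf

end Cfsg.Agent.H87
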