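import Mathlib

/-! A triangle-free graph on `n` vertices has at most `n² / 4` edges, in the form used for forward
edges of an order. -/

set_option autoImplicit false

namespace Cfsg.Agent.H87

/-- Mantel's bound for a set of forward edges without a forward triangle. -/
theorem four_mul_card_le_of_triangle_free {n : ℕ} (S : Finset (Fin n × Fin n))
    (hlt : ∀ e ∈ S, e.1 < e.2)
    (htri : ∀ i j l, (i, j) ∈ S → (j, l) ∈ S → (i, l) ∉ S) : 4 * S.card ≤ n * n := by
  classical
  rcases n.eq_zero_or_pos with hn | hn
  · subst hn
    simp [Finset.eq_empty_of_isEmpty S]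
  let N : Fin n → Finset (Fin n) := fun v => {u | (v, u) ∈ S ∨ (u, v) ∈ S}
  have hne : (Finset.univ : Finset (Fin n)).Nonempty := ⟨⟨0, hn⟩, Finset.mem_univ _⟩
  obtain ⟨v, -, hv⟩ := Finset.exists_max_image Finset.univ (fun v => (N v).card) hne
  have hind : ∀ a b, a ∈ N v → b ∈ N v → (a, b) ∉ S := by
    intro a b ha hb hab
    simp only [N, Finset.mem_filter, Finset.mem_univ, true_and] at ha hb
    rcases ha with ha | ha <;> rcases hb with hb | hb
    · exact htri v a b ha hab hb
    · exact absurd (hlt _ hab) (not_lt.mpr ((hlt _ hb).trans (hlt _ ha)).le)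
    · exact htri a v b ha hb hab
    · exact htri a b v hab hb ha
  -- every edge meets the complement of `N v`
  let C : Finset (Fin n) := Finset.univ \ N v
  have hsub : S ⊆ C.biUnion fun c => S.filter fun e => e.1 = c ∨ e.2 = c := by
    rintro ⟨a, b⟩ he
    simp only [Finset.mem_biUnion, Finset.mem_filter, C, Finset.mem_sdiff, Finset.mem_univ, true_and]
    by_cases ha : a ∈ N v
    · exact ⟨b, fun hb => hind a b ha hb he, he, Or.inr rfl⟩
    · exact ⟨a, ha, he, Or.inl rfl⟩
  have hdeg : ∀ c ∈ C, (S.filter fun e => e.1 = c ∨ e.2 = c).card ≤ (N v).card := by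
    intro c _
    refine le_trans ?_ (hv c (Finset.mem_univ c))
    refine Finset.card_le_card_of_injOn (fun e => if e.1 = c then e.2 else e.1) ?_ ?_
    · rintro ⟨a, b⟩ he
      simp only [Finset.coe_filter, Set.mem_ofPred_eq] at he
      simp only [N, Finset.coe_filter, Finset.mem_univ, true_and, Set.mem_ofPred_eq]
      split_ifs with h
      · exact Or.inl (h ▸ he.1)
      · exact Or.inr (he.2.resolve_left h ▸ he.1)
    · rintro ⟨a, b⟩ he ⟨a', b'⟩ he' h
      simp only [Finset.coe_filter, Set.mem_ofPred_eq] at he he'
      have l1 : a < b := hlt _ he.1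
      have l2 : a' < b' := hlt _ he'.1
      simp only at h
      split_ifs at h with h1 h2 h2
      · exact Prod.ext (h1.trans h2.symm) h
      · have := he'.2.resolve_left h2
        omega
      · have := he.2.resolve_left h1
        omega
      · exact Prod.ext h ((he.2.resolve_left h1).trans (he'.2.resolve_left h2).symm)
  have hC : C.card + (N v).card = n := by
    have := Finset.card_sdiff_add_card_eq_card (Finset.subset_univ (N v))
    simpa [C] using this
  have := (Finset.card_le_card hsub).trans (Finset.card_biUnion_le_card_mul _ _ _ hdeg)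
  generalize (N v).card = d at hC this
  generalize C.card = c at hC this
  subst hC
  nlinarith [sq_nonneg ((c : ℤ) - d), this]

end Cfsg.Agent.H87
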