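import Mathlib
import Cfsg.Agent.H87.TriangleFree

/-! A group of upper unitriangular `n × n` matrices over the prime field can be generated by
`n² / 4` elements (Patterson): lifts of the indecomposable leading positions generate. -/

set_option autoImplicit false

namespace Cfsg.Agent.H87

open scoped commutatorElement

variable {n : ℕ} {R : Type*} [CommRing R]

/-- Positions are ordered by height above the diagonal, then by row. -/
def lexBefore (a b : Fin n × Fin n) : Prop :=
  (a.2 : ℕ) + b.1 < b.2 + a.1 ∨ ((a.2 : ℕ) + b.1 = b.2 + a.1 ∧ (a.1 : ℕ) < b.1)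

/-- The rank of a position in that order. -/
def posKey (a : Fin n × Fin n) : ℕ := ((a.2 : ℕ) + n - a.1) * n + a.1

theorem lexBefore_iff_posKey {a b : Fin n × Fin n} : lexBefore a b ↔ posKey a < posKey b := by
  obtain ⟨⟨a1, ha1⟩, ⟨a2, ha2⟩⟩ := a
  obtain ⟨⟨b1, hb1⟩, ⟨b2, hb2⟩⟩ := b
  simp only [lexBefore, posKey]
  constructor
  · rintro (h | ⟨h, h'⟩)
    · have : (a2 + n - a1) + 1 ≤ b2 + n - b1 := by omega
      have := Nat.mul_le_mul_right n this
      rw [Nat.add_mul, one_mul] at this
      omega
    · rw [show a2 + n - a1 = b2 + n - b1 by omega]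
      omega
  · intro h
    by_contra hc
    push Not at hc
    rcases Nat.lt_or_ge (b2 + n - b1) (a2 + n - a1) with h1 | h1
    · have h2 : (b2 + n - b1) + 1 ≤ a2 + n - a1 := h1
      have := Nat.mul_le_mul_right n h2
      rw [Nat.add_mul, one_mul] at this
      omega
    · have heq : a2 + n - a1 = b2 + n - b1 := by omega
      rw [heq] at h
      omega

theorem posKey_injective : Function.Injective (posKey : Fin n × Fin n → ℕ) := by
  intro a b h
  have h1 : ¬ lexBefore a b := fun hh => (lexBefore_iff_posKey.1 hh).ne h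
  have h2 : ¬ lexBefore b a := fun hh => (lexBefore_iff_posKey.1 hh).ne h.symm
  simp only [lexBefore] at h1 h2
  exact Prod.ext (Fin.ext (by omega)) (Fin.ext (by omega))

/-- `A` vanishes at every position before `e`. -/
def VanishBelow (A : Matrix (Fin n) (Fin n) R) (e : Fin n × Fin n) : Prop :=
  ∀ r c, lexBefore (r, c) e → A r c = 0

/-- `A` is strictly upper triangular. -/
def IsStrictUpper (A : Matrix (Fin n) (Fin n) R) : Prop := ∀ r c, c ≤ r → A r c = 0

theorem mul_leading {A B : Matrix (Fin n) (Fin n) R} {i j l : Fin n}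
    (hA : VanishBelow A (i, j)) (hB : VanishBelow B (j, l)) :
    VanishBelow (A * B) (i, l) ∧ (A * B) i l = A i j * B j l := by
  constructor
  · intro r c h
    rw [Matrix.mul_apply]
    refine Finset.sum_eq_zero fun m _ => ?_
    by_cases h1 : lexBefore (r, m) (i, j)
    · rw [hA r m h1, zero_mul]
    · by_cases h2 : lexBefore (m, c) (j, l)
      · rw [hB m c h2, mul_zero]
      · exfalso
        simp only [lexBefore] at h h1 h2
        omega
  · rw [Matrix.mul_apply, Finset.sum_eq_single_of_mem j (Finset.mem_univ j)]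
    intro m _ hm
    by_cases h1 : lexBefore (i, m) (i, j)
    · rw [hA i m h1, zero_mul]
    · by_cases h2 : lexBefore (m, l) (j, l)
      · rw [hB m l h2, mul_zero]
      · exfalso
        have := Fin.val_ne_of_ne hm
        simp only [lexBefore] at h1 h2
        omega

theorem mul_reverse_leading {A B : Matrix (Fin n) (Fin n) R} {i j l : Fin n} (hij : i < j)
    (hA : VanishBelow A (i, j)) (hB : VanishBelow B (j, l)) :
    VanishBelow (B * A) (i, l) ∧ (B * A) i l = 0 := by
  have hz : ∀ r c, (lexBefore (r, c) (i, l) ∨ (r, c) = (i, l)) → (B * A) r c = 0 := by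
    intro r c h
    rw [Matrix.mul_apply]
    refine Finset.sum_eq_zero fun m _ => ?_
    by_cases h1 : lexBefore (r, m) (j, l)
    · rw [hB r m h1, zero_mul]
    · by_cases h2 : lexBefore (m, c) (i, j)
      · rw [hA m c h2, mul_zero]
      · exfalso
        simp only [lexBefore, Prod.mk.injEq, Fin.ext_iff] at h h1 h2
        omega
  exact ⟨fun r c h => hz r c (Or.inl h), hz i l (Or.inr rfl)⟩

theorem mul_unitriangular_leading {C U : Matrix (Fin n) (Fin n) R} {e : Fin n × Fin n}
    (hC : VanishBelow C e) (hU : ∀ r c, c ≤ r → U r c = if r = c then 1 else 0) :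
    VanishBelow (C * U) e ∧ (C * U) e.1 e.2 = C e.1 e.2 := by
  obtain ⟨i, l⟩ := e
  constructor
  · intro r c h
    rw [Matrix.mul_apply]
    refine Finset.sum_eq_zero fun m _ => ?_
    by_cases h1 : lexBefore (r, m) (i, l)
    · rw [hC r m h1, zero_mul]
    · have hcm : c < m := by
        simp only [lexBefore] at h h1
        omega
      rw [hU m c hcm.le, if_neg hcm.ne', mul_zero]
  · rw [Matrix.mul_apply, Finset.sum_eq_single_of_mem l (Finset.mem_univ l), hU l l le_rfl,
      if_pos rfl, mul_one]
    intro m _ hm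
    rcases lt_or_gt_of_ne hm with hlt | hgt
    · rw [hC i m (Or.inl (by simp only; omega)), zero_mul]
    · rw [hU m l hgt.le, if_neg hm, mul_zero]

theorem mul_deep {A B : Matrix (Fin n) (Fin n) R} {e : Fin n × Fin n} (hA : IsStrictUpper A)
    (hB : VanishBelow B e) : VanishBelow (A * B) e ∧ (A * B) e.1 e.2 = 0 := by
  obtain ⟨i, l⟩ := e
  have hz : ∀ r c, (lexBefore (r, c) (i, l) ∨ (r, c) = (i, l)) → (A * B) r c = 0 := by
    intro r c h
    rw [Matrix.mul_apply]
    refine Finset.sum_eq_zero fun m _ => ?_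
    by_cases h1 : m ≤ r
    · rw [hA r m h1, zero_mul]
    · rw [hB m c ?_, mul_zero]
      simp only [lexBefore, Prod.mk.injEq, Fin.ext_iff] at h ⊢
      omega
  exact ⟨fun r c h => hz r c (Or.inl h), hz i l (Or.inr rfl)⟩

section Group

variable {G : Type*} [Group G] {p : ℕ} [Fact p.Prime]
  (ψ : G →* Matrix (Fin n) (Fin n) (ZMod p))

/-- The displacement of a group element. -/
def disp (g : G) : Matrix (Fin n) (Fin n) (ZMod p) := ψ g - 1

/-- The leading position of `g` is `e`. -/
def HasLead (g : G) (e : Fin n × Fin n) : Prop :=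
  VanishBelow (disp ψ g) e ∧ disp ψ g e.1 e.2 ≠ 0

variable (tri : ∀ g r c, c ≤ r → ψ g r c = if r = c then 1 else 0)
include tri

theorem disp_strictUpper (g : G) : IsStrictUpper (disp ψ g) := by
  intro r c h
  rw [disp, Matrix.sub_apply, tri g r c h, Matrix.one_apply, sub_self]

theorem hasLead_lt {g : G} {e : Fin n × Fin n} (h : HasLead ψ g e) : e.1 < e.2 :=
  lt_of_not_ge fun hle => h.2 (disp_strictUpper ψ tri g e.1 e.2 hle)

theorem disp_mul_leading {g h : G} {e : Fin n × Fin n} (hg : VanishBelow (disp ψ g) e)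
    (hh : VanishBelow (disp ψ h) e) :
    VanishBelow (disp ψ (g * h)) e ∧
      disp ψ (g * h) e.1 e.2 = disp ψ g e.1 e.2 + disp ψ h e.1 e.2 := by
  have heq : disp ψ (g * h) = disp ψ g * disp ψ h + disp ψ g + disp ψ h := by
    simp only [disp, map_mul]; noncomm_ring
  obtain ⟨h1, h2⟩ := mul_deep (disp_strictUpper ψ tri g) hh
  refine ⟨fun r c hrc => ?_, ?_⟩
  · rw [heq, Matrix.add_apply, Matrix.add_apply, h1 r c hrc, hg r c hrc, hh r c hrc, add_zero,
      add_zero]
  · rw [heq, Matrix.add_apply, Matrix.add_apply, h2, zero_add]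

theorem disp_pow_leading {g : G} {e : Fin n × Fin n} (hg : VanishBelow (disp ψ g) e) (k : ℕ) :
    VanishBelow (disp ψ (g ^ k)) e ∧ disp ψ (g ^ k) e.1 e.2 = k * disp ψ g e.1 e.2 := by
  induction k with
  | zero => simp [disp, VanishBelow]
  | succ k ih =>
    rw [pow_succ]
    obtain ⟨h1, h2⟩ := disp_mul_leading ψ tri ih.1 hg
    exact ⟨h1, by rw [h2, ih.2, Nat.cast_succ, add_mul, one_mul]⟩

theorem commutator_hasLead {x y : G} {i j l : Fin n} (hx : HasLead ψ x (i, j))
    (hy : HasLead ψ y (j, l)) : HasLead ψ ⁅x, y⁆ (i, l) := by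
  have hij : i < j := hasLead_lt ψ tri hx
  obtain ⟨h1, h2⟩ := mul_leading hx.1 hy.1
  obtain ⟨h3, h4⟩ := mul_reverse_leading hij hx.1 hy.1
  have hC : VanishBelow (disp ψ x * disp ψ y - disp ψ y * disp ψ x) (i, l) := fun r c h => by
    rw [Matrix.sub_apply, h1 r c h, h3 r c h, sub_zero]
  have heq : disp ψ ⁅x, y⁆ =
      (disp ψ x * disp ψ y - disp ψ y * disp ψ x) * ψ (x⁻¹ * y⁻¹) := by
    have e1 : disp ψ x * disp ψ y - disp ψ y * disp ψ x = ψ (x * y) - ψ (y * x) := by
      simp only [disp, map_mul]; noncomm_ring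
    rw [e1, sub_mul, ← map_mul, ← map_mul, disp, commutatorElement_def,
      show x * y * (x⁻¹ * y⁻¹) = x * y * x⁻¹ * y⁻¹ by group,
      show y * x * (x⁻¹ * y⁻¹) = 1 by group, map_one]
  obtain ⟨h5, h6⟩ := mul_unitriangular_leading hC (tri (x⁻¹ * y⁻¹))
  refine ⟨heq ▸ h5, ?_⟩
  rw [heq, h6, Matrix.sub_apply, h2, h4, sub_zero]
  exact mul_ne_zero hx.2 hy.2

/-- A unitriangular image over the prime field is generated by `n² / 4` elements. -/
theorem exists_generators_of_unitriangular :
    ∃ S : Finset G, 4 * S.card ≤ n * n ∧ ∀ g, ∃ k ∈ Subgroup.closure (S : Set G), ψ k = ψ g := by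
  classical
  let L : Finset (Fin n × Fin n) := {e | ∃ g, HasLead ψ g e}
  let S₀ : Finset (Fin n × Fin n) := {e ∈ L | ¬ ∃ j, (e.1, j) ∈ L ∧ (j, e.2) ∈ L}
  have hlift : ∀ e ∈ L, ∃ g, HasLead ψ g e := fun e he => (Finset.mem_filter.1 he).2
  choose! w hw using hlift
  let S : Finset G := S₀.image w
  refine ⟨S, ?_, ?_⟩
  · refine le_trans (Nat.mul_le_mul_left 4 Finset.card_image_le) ?_
    refine four_mul_card_le_of_triangle_free S₀ (fun e he => ?_) fun i j l hij hjl hil => ?_
    · exact hasLead_lt ψ tri (hw e (Finset.mem_filter.1 he).1)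
    · exact (Finset.mem_filter.1 hil).2 ⟨j, (Finset.mem_filter.1 hij).1, (Finset.mem_filter.1 hjl).1⟩
  set K := Subgroup.closure (S : Set G)
  have hK : ∀ d, ∀ e ∈ L, (e.2 : ℕ) - e.1 ≤ d → ∃ k ∈ K, HasLead ψ k e := by
    intro d
    induction d with
    | zero =>
      intro e he hd
      have := hasLead_lt ψ tri (hw e he)
      omega
    | succ d ih =>
      intro e he hd
      by_cases hdec : ∃ j, (e.1, j) ∈ L ∧ (j, e.2) ∈ L
      · obtain ⟨j, h1, h2⟩ := hdec
        have l1 := hasLead_lt ψ tri (hw _ h1)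
        have l2 := hasLead_lt ψ tri (hw _ h2)
        simp only at l1 l2
        obtain ⟨a, ha, hla⟩ := ih _ h1 (by simp only; omega)
        obtain ⟨b, hb, hlb⟩ := ih _ h2 (by simp only; omega)
        exact ⟨⁅a, b⁆, by rw [commutatorElement_def]; exact mul_mem (mul_mem (mul_mem ha hb) (inv_mem ha)) (inv_mem hb),
          commutator_hasLead ψ tri hla hlb⟩
      · refine ⟨w e, Subgroup.subset_closure ?_, hw e he⟩
        exact Finset.mem_coe.2 (Finset.mem_image_of_mem w (Finset.mem_filter.2 ⟨he, hdec⟩))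
  -- descending induction on the first position where an element may be non-trivial
  have main : ∀ m g, (∀ r c, posKey (r, c) + m < 2 * n * n + n → disp ψ g r c = 0) →
      ∃ k ∈ K, ψ k = ψ g := by
    intro m
    induction m with
    | zero =>
      intro g hg
      refine ⟨1, one_mem K, ?_⟩
      have h0 : disp ψ g = 0 := by
        ext r c
        refine hg r c ?_
        have h1 : ((c : ℕ) + n - r) ≤ 2 * n := by omega
        have := Nat.mul_le_mul_right n h1
        have := r.isLt
        simp only [posKey]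
        omega
      rw [map_one]
      exact (sub_eq_zero.1 h0).symm
    | succ m ih =>
      intro g hg
      by_cases hex : ∃ e : Fin n × Fin n,
          posKey e + (m + 1) = 2 * n * n + n ∧ disp ψ g e.1 e.2 ≠ 0
      · obtain ⟨e, hem, hne⟩ := hex
        have hvan : ∀ r c, lexBefore (r, c) e → disp ψ g r c = 0 := fun r c h => by
          refine hg r c ?_
          have := lexBefore_iff_posKey.1 h
          omega
        have hL : e ∈ L := Finset.mem_filter.2 ⟨Finset.mem_univ _, g, hvan, hne⟩
        obtain ⟨k, hk, hkl⟩ := hK _ e hL le_rfl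
        set a := disp ψ g e.1 e.2
        set b := disp ψ k e.1 e.2
        obtain ⟨hp1, hp2⟩ := disp_pow_leading ψ tri hkl.1 (-a / b).val
        obtain ⟨hm1, hm2⟩ := disp_mul_leading ψ tri hp1 hvan
        have hzero : disp ψ (k ^ (-a / b).val * g) e.1 e.2 = 0 := by
          rw [hm2, hp2, ZMod.natCast_val, ZMod.cast_id, div_mul_cancel₀ _ hkl.2, neg_add_cancel]
        obtain ⟨k', hk', hkeq⟩ := ih (k ^ (-a / b).val * g) fun r c hrc => by
          rcases lt_trichotomy (posKey (r, c)) (posKey e) with h | h | h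
          · exact hm1 r c (lexBefore_iff_posKey.2 h)
          · obtain rfl := posKey_injective h
            exact hzero
          · omega
        refine ⟨(k ^ (-a / b).val)⁻¹ * k', mul_mem (inv_mem (pow_mem hk _)) hk', ?_⟩
        rw [map_mul, hkeq, ← map_mul, inv_mul_cancel_left]
      · push Not at hex
        refine ih g fun r c hrc => ?_
        rcases Nat.lt_or_ge (posKey (r, c) + (m + 1)) (2 * n * n + n) with h | h
        · exact hg r c h
        · exact hex (r, c) (by omega)
  intro g
  refine main (2 * n * n + n) g fun r c h => ?_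
  omega

end Group

end Cfsg.Agent.H87
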