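import Mathlib
import Cfsg.Agent.H86.LinearDerived

/-! A `p`-group acting linearly in characteristic `p` is upper unitriangular in a suitable basis. -/

set_option autoImplicit false

namespace Cfsg.Agent.H87

open Module Submodule

/-- Existence of a unitriangular basis. -/
theorem exists_unitriangular_basis {P : Type*} [Group P] [Finite P] {p : ℕ} [Fact p.Prime]
    {K : Type*} [Field K] [CharP K p] (hP : IsPGroup p P) :
    ∀ (n : ℕ) (V : Type*) [AddCommGroup V] [Module K V] [FiniteDimensional K V]
      (ρ : P →* End K V), finrank K V = n →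
      ∃ b : Basis (Fin n) K V, ∀ g j, ρ g (b j) - b j ∈ span K (b '' {i | i < j}) := by
  intro n
  induction n with
  | zero =>
    intro V _ _ _ ρ h
    exact ⟨finBasisOfFinrankEq K V h, fun g j => j.elim0⟩
  | succ n ih =>
    intro V _ _ _ ρ h
    have : Nontrivial V := Module.nontrivial_of_finrank_eq_succ h
    obtain ⟨x, hx, hfix⟩ := H86.exists_fixed_vector hP ρ
    set W : Submodule K V := K ∙ x
    have hW : ∀ g, ∀ w ∈ W, ρ g w ∈ W := by
      intro g w hw
      obtain ⟨c, rfl⟩ := mem_span_singleton.1 hw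
      rw [map_smul, hfix]
      exact W.smul_mem c (mem_span_singleton_self x)
    have hq : finrank K (V ⧸ W) = n := by
      have h1 := W.finrank_quotient_add_finrank
      rw [show finrank K W = 1 from finrank_span_singleton hx, h] at h1
      omega
    obtain ⟨c, hc⟩ := ih (V ⧸ W) (H86.quotientRep ρ W hW) hq
    choose v hv using fun j => W.mkQ_surjective (c j)
    set f : Fin (n + 1) → V := Fin.cons x v with hf
    have hspan : ⊤ ≤ span K (Set.range f) := by
      intro y _
      have h1 : W.mkQ y ∈ (span K (Set.range v)).map W.mkQ := by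
        rw [map_span, ← Set.range_comp, show (W.mkQ ∘ v) = c from funext hv, c.span_eq]
        exact mem_top
      obtain ⟨w, hw, hwy⟩ := h1
      have h2 : y - w ∈ W := by
        rw [← Submodule.Quotient.eq]; exact hwy.symm
      have h3 : W ≤ span K (Set.range f) :=
        (span_singleton_le_iff_mem _ _).2 (subset_span ⟨0, rfl⟩)
      have h4 : span K (Set.range v) ≤ span K (Set.range f) :=
        span_mono fun z ⟨j, hj⟩ => ⟨j.succ, by rw [hf, Fin.cons_succ, hj]⟩
      simpa using add_mem (h3 h2) (h4 hw)
    let b : Basis (Fin (n + 1)) K V :=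
      basisOfTopLeSpanOfCardEqFinrank f hspan (by rw [Fintype.card_fin, h])
    have hb : (b : Fin (n + 1) → V) = f := coe_basisOfTopLeSpanOfCardEqFinrank _ _ _
    refine ⟨b, fun g j => ?_⟩
    rw [hb]
    induction j using Fin.cases with
    | zero => simp [hf, hfix]
    | succ j =>
      have h1 : W.mkQ (ρ g (v j) - v j) ∈ (span K (v '' {i | i < j})).map W.mkQ := by
        rw [map_span, ← Set.image_comp, show (W.mkQ ∘ v) = c from funext hv, map_sub, hv]
        have := hc g j
        rwa [← hv j, show H86.quotientRep ρ W hW g (W.mkQ (v j)) = W.mkQ (ρ g (v j)) from rfl,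
          hv j] at this
      obtain ⟨w, hw, hwy⟩ := h1
      have h2 : ρ g (v j) - v j - w ∈ W := by
        rw [← Submodule.Quotient.eq]; exact hwy.symm
      have h3 : W ≤ span K (f '' {i | i < j.succ}) :=
        (span_singleton_le_iff_mem _ _).2 (subset_span ⟨0, Fin.succ_pos j, rfl⟩)
      have h4 : span K (v '' {i | i < j}) ≤ span K (f '' {i | i < j.succ}) :=
        span_mono fun z ⟨i, hi, hiz⟩ => ⟨i.succ, Fin.succ_lt_succ_iff.2 hi, by rw [hf, Fin.cons_succ, hiz]⟩
      simpa [hf] using add_mem (h3 h2) (h4 hw)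

/-- The matrix form. -/
theorem exists_unitriangular_matrix_rep {P : Type*} [Group P] [Finite P] {p : ℕ} [Fact p.Prime]
    {K : Type*} [Field K] [CharP K p] (hP : IsPGroup p P) {V : Type*} [AddCommGroup V] [Module K V]
    [FiniteDimensional K V] (ρ : P →* End K V) :
    ∃ ψ : P →* Matrix (Fin (finrank K V)) (Fin (finrank K V)) K,
      (∀ g r c, c ≤ r → ψ g r c = if r = c then 1 else 0) ∧ ∀ g, ψ g = 1 ↔ ρ g = 1 := by
  obtain ⟨b, hb⟩ := exists_unitriangular_basis (K := K) hP _ V ρ rfl
  refine ⟨(LinearMap.toMatrixAlgEquiv b).toMonoidHom.comp ρ, fun g r c hrc => ?_, fun g => ?_⟩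
  · show LinearMap.toMatrixAlgEquiv b (ρ g) r c = _
    rw [LinearMap.toMatrixAlgEquiv_apply]
    have h0 : b.repr (ρ g (b c) - b c) r = 0 := by
      have hsub : ↑(b.repr (ρ g (b c) - b c)).support ⊆ {i | i < c} :=
        b.repr_support_subset_of_mem_span _ (hb g c)
      by_contra hne
      exact absurd (hsub (Finsupp.mem_support_iff.2 hne)) (not_lt.2 hrc)
    rw [map_sub, Finsupp.sub_apply, sub_eq_zero] at h0
    rw [h0, b.repr_self, Finsupp.single_apply]
    rcases eq_or_ne r c with rfl | hne
    · simp
    · rw [if_neg hne, if_neg hne.symm]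
  · exact map_eq_one_iff _ (LinearMap.toMatrixAlgEquiv b).injective

end Cfsg.Agent.H87
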